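import Mathlib
import Cfsg.Agent.Lib.Helper22.KPi
import Cfsg.Agent.Lib.Helper21.Basic

/-!
Helper lemmas (helper22): `p`-regular elements whose centralizers have `p`-power index.
-/

namespace Cfsg.Agent.Lib.Helper22

/-- The closure of a set closed under conjugation is normal. -/
theorem closure_normal_of_conj_mem {G : Type*} [Group G] (S : Set G)
    (hS : ∀ g : G, ∀ s ∈ S, g * s * g⁻¹ ∈ S) : (Subgroup.closure S).Normal := by
  have h : Subgroup.closure S = Subgroup.normalClosure S := by
    apply le_antisymm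
    · exact Subgroup.closure_mono Group.subset_conjugatesOfSet
    · refine (Subgroup.closure_le _).mpr ?_
      intro a ha
      obtain ⟨b, hb, hba⟩ := Group.mem_conjugatesOfSet_iff.mp ha
      obtain ⟨c, rfl⟩ := isConj_iff.mp hba
      exact Subgroup.subset_closure (hS c b hb)
  rw [h]
  exact Subgroup.normalClosure_normal

/-- Elements of the closure of a pairwise commuting set commute. -/
theorem commute_of_mem_closure {G : Type*} [Group G] (S : Set G)
    (hS : ∀ a ∈ S, ∀ b ∈ S, a * b = b * a) :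
    ∀ a ∈ Subgroup.closure S, ∀ b ∈ Subgroup.closure S, a * b = b * a := by
  have h1 : Subgroup.closure S ≤ Subgroup.centralizer S := by
    rw [Subgroup.closure_le]
    intro a ha
    rw [SetLike.mem_coe, Subgroup.mem_centralizer_iff]
    intro b hb
    exact hS b hb a ha
  have h2 : Subgroup.closure S ≤ Subgroup.centralizer (Subgroup.closure S : Set G) := by
    rw [Subgroup.closure_le]
    intro a ha
    rw [SetLike.mem_coe, Subgroup.mem_centralizer_iff]
    intro b hb
    have h3 := h1 hb
    rw [Subgroup.mem_centralizer_iff] at h3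
    exact (h3 a ha).symm
  intro a ha b hb
  have h3 := h2 ha
  rw [Subgroup.mem_centralizer_iff] at h3
  exact (h3 b hb).symm

/-- In the closure of a pairwise commuting set of elements of order prime to `p`, all orders are
prime to `p`. -/
theorem coprime_orderOf_of_mem_closure {G : Type*} [Group G] [Finite G] (p : ℕ) (S : Set G)
    (hS : ∀ a ∈ S, ∀ b ∈ S, a * b = b * a) (hSp : ∀ a ∈ S, (orderOf a).Coprime p) :
    ∀ a ∈ Subgroup.closure S, (orderOf a).Coprime p := by
  have hcomm := commute_of_mem_closure S hS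
  intro a ha
  induction ha using Subgroup.closure_induction with
  | mem x hx => exact hSp x hx
  | one =>
    rw [orderOf_one]
    exact Nat.coprime_one_left p
  | mul x y hx hy ihx ihy =>
    have hc : Commute x y := hcomm x hx y hy
    exact Nat.Coprime.coprime_dvd_left hc.orderOf_mul_dvd_mul_orderOf
      (Nat.Coprime.mul_left ihx ihy)
  | inv x hx ihx =>
    rw [orderOf_inv]
    exact ihx

/-- The closure of a pairwise commuting set of elements of order prime to `p` has order prime
to `p`. -/
theorem not_dvd_card_closure {G : Type*} [Group G] [Finite G] {p : ℕ} (hp : p.Prime) (S : Set G)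
    (hS : ∀ a ∈ S, ∀ b ∈ S, a * b = b * a) (hSp : ∀ a ∈ S, (orderOf a).Coprime p) :
    ¬ p ∣ Nat.card (Subgroup.closure S) := by
  intro hdvd
  haveI : Fact p.Prime := ⟨hp⟩
  obtain ⟨x, hx⟩ := exists_prime_orderOf_dvd_card' p hdvd
  have h1 := coprime_orderOf_of_mem_closure p S hS hSp x x.2
  rw [Subgroup.orderOf_coe, hx, Nat.coprime_self] at h1
  exact hp.one_lt.ne' h1

/-- For a normal subgroup `M`, the relative index of any subgroup `C` in `M` divides the index
of `C`. -/
theorem relIndex_dvd_index_of_normal_right {G : Type*} [Group G] [Finite G] (C M : Subgroup G)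
    [M.Normal] : C.relIndex M ∣ C.index := by
  rw [← Subgroup.inf_relIndex_right, Lib.Helper21.relIndex_inf_eq_relIndex_sup]
  exact Subgroup.relIndex_dvd_index_of_le le_sup_left

/-- A normal subgroup of order prime to `p` lies in every subgroup of `p`-power index. -/
theorem le_of_index_pow_of_not_dvd {G : Type*} [Group G] [Finite G] {p : ℕ} (hp : p.Prime)
    (K C : Subgroup G) [K.Normal] (hK : ¬ p ∣ Nat.card K) (k : ℕ) (hC : C.index = p ^ k) :
    K ≤ C := by
  rw [← Subgroup.relIndex_eq_one]
  have h1 : C.relIndex K ∣ p ^ k := hC ▸ relIndex_dvd_index_of_normal_right C K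
  have h2 : C.relIndex K ∣ Nat.card K := Subgroup.relIndex_dvd_card C K
  obtain ⟨j, -, hj⟩ := (Nat.dvd_prime_pow hp).mp h1
  rcases Nat.eq_zero_or_pos j with h0 | hpos
  · rw [hj, h0, pow_zero]
  · exfalso
    apply hK
    rw [hj] at h2
    exact (dvd_pow_self p hpos.ne').trans h2

/-- Elements of order prime to `p` of a quotient lift to elements of order prime to `p`. -/
theorem exists_lift_coprime {G : Type*} [Group G] [Finite G] {p : ℕ} (hp : p.Prime)
    (N : Subgroup G) [N.Normal] (z : G ⧸ N) (hz : (orderOf z).Coprime p) :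
    ∃ x : G, (x : G ⧸ N) = z ∧ (orderOf x).Coprime p := by
  obtain ⟨g, rfl⟩ := QuotientGroup.mk_surjective z
  obtain ⟨a, b, hab, hcm, ⟨k, hk⟩, -, hbp⟩ := exists_split g p hp
  have h1 : ((g : G) : G ⧸ N) ^ (p ^ k) = ((b : G) : G ⧸ N) ^ (p ^ k) := by
    have hcm' : Commute ((a : G) : G ⧸ N) ((b : G) : G ⧸ N) := hcm.map (QuotientGroup.mk' N)
    have ha : ((a : G) : G ⧸ N) ^ (p ^ k) = 1 := by
      rw [← QuotientGroup.mk_pow, ← hk, pow_orderOf_eq_one, QuotientGroup.mk_one]
    rw [← hab, QuotientGroup.mk_mul, hcm'.mul_pow, ha, one_mul]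
  obtain ⟨u, hu⟩ := exists_pow_eq_self_of_coprime (x := ((g : G) : G ⧸ N)) (n := p ^ k)
    (Nat.Coprime.pow_left k hz.symm)
  refine ⟨(b ^ (p ^ k)) ^ u, ?_, ?_⟩
  · rw [QuotientGroup.mk_pow, QuotientGroup.mk_pow, ← h1]
    exact hu
  · have h2 : orderOf ((b ^ (p ^ k)) ^ u) ∣ orderOf b :=
      (orderOf_pow_dvd u).trans (orderOf_pow_dvd (p ^ k))
    exact Nat.Coprime.coprime_dvd_left h2 ((Nat.Prime.coprime_iff_not_dvd hp).mpr hbp).symm

/-- The hypothesis "centralizers of `p`-regular elements have `p`-power index" passes to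
quotients. -/
theorem pow_index_centralizer_quotient {G : Type*} [Group G] [Finite G] {p : ℕ} (hp : p.Prime)
    (hyp : ∀ x : G, (orderOf x).Coprime p →
      ∃ k : ℕ, (Subgroup.centralizer ({x} : Set G)).index = p ^ k)
    (N : Subgroup G) [N.Normal] :
    ∀ z : G ⧸ N, (orderOf z).Coprime p →
      ∃ k : ℕ, (Subgroup.centralizer ({z} : Set (G ⧸ N))).index = p ^ k := by
  intro z hz
  obtain ⟨x, rfl, hx⟩ := exists_lift_coprime hp N z hz
  obtain ⟨k, hk⟩ := hyp x hx
  have h1 : Subgroup.centralizer ({x} : Set G)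
      ≤ (Subgroup.centralizer ({(x : G ⧸ N)} : Set (G ⧸ N))).comap (QuotientGroup.mk' N) := by
    intro g hg
    rw [Subgroup.mem_comap, Subgroup.mem_centralizer_iff]
    intro h hh
    rw [Set.mem_singleton_iff] at hh
    rw [hh]
    rw [Subgroup.mem_centralizer_iff] at hg
    have h2 := hg x (Set.mem_singleton x)
    show (x : G ⧸ N) * (g : G ⧸ N) = (g : G ⧸ N) * (x : G ⧸ N)
    rw [← QuotientGroup.mk_mul, ← QuotientGroup.mk_mul, h2]
  have h2 := Subgroup.index_dvd_of_le h1
  rw [Subgroup.index_comap_of_surjective _ (QuotientGroup.mk'_surjective N), hk] at h2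
  obtain ⟨j, -, hj⟩ := (Nat.dvd_prime_pow hp).mp h2
  exact ⟨j, hj⟩

/-- The hypothesis "centralizers of `p`-regular elements have `p`-power index" passes to
normal subgroups. -/
theorem pow_index_centralizer_normal {G : Type*} [Group G] [Finite G] {p : ℕ} (hp : p.Prime)
    (hyp : ∀ x : G, (orderOf x).Coprime p →
      ∃ k : ℕ, (Subgroup.centralizer ({x} : Set G)).index = p ^ k)
    (M : Subgroup G) [M.Normal] :
    ∀ y : ↥M, (orderOf y).Coprime p →
      ∃ k : ℕ, (Subgroup.centralizer ({y} : Set ↥M)).index = p ^ k := by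
  intro y hy
  have hy' : (orderOf (y : G)).Coprime p := by
    rw [Subgroup.orderOf_coe]
    exact hy
  obtain ⟨k, hk⟩ := hyp y hy'
  have h1 : Subgroup.centralizer ({y} : Set ↥M)
      = (Subgroup.centralizer ({(y : G)} : Set G)).subgroupOf M := by
    ext g
    rw [Subgroup.mem_subgroupOf, Subgroup.mem_centralizer_iff, Subgroup.mem_centralizer_iff]
    constructor
    · intro h a ha
      rw [Set.mem_singleton_iff] at ha
      rw [ha]
      have h2 := h y rfl
      exact congrArg Subtype.val h2
    · intro h a ha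
      rw [Set.mem_singleton_iff] at ha
      rw [ha]
      apply Subtype.ext
      exact h _ rfl
  have h2 : (Subgroup.centralizer ({y} : Set ↥M)).index ∣ p ^ k := by
    rw [h1, ← hk]
    exact relIndex_dvd_index_of_normal_right _ M
  obtain ⟨j, -, hj⟩ := (Nat.dvd_prime_pow hp).mp h2
  exact ⟨j, hj⟩

/-- A non-trivial finite group has a proper normal subgroup with simple quotient. -/
theorem exists_normal_simple_quotient {G : Type*} [Group G] [Finite G] [Nontrivial G] :
    ∃ M : Subgroup G, ∃ _ : M.Normal, M ≠ ⊤ ∧ IsSimpleGroup (G ⧸ M) := by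
  have hfin : {M : Subgroup G | M.Normal ∧ M ≠ ⊤}.Finite := Set.toFinite _
  have hbot : (⊥ : Subgroup G) ∈ {M : Subgroup G | M.Normal ∧ M ≠ ⊤} :=
    ⟨inferInstance, bot_ne_top⟩
  obtain ⟨M, -, hM⟩ := hfin.exists_le_maximal hbot
  obtain ⟨⟨hMn, hMtop⟩, hMmax⟩ := hM
  haveI := hMn
  refine ⟨M, hMn, hMtop, ?_⟩
  haveI : Nontrivial (G ⧸ M) := by
    rw [QuotientGroup.nontrivial_iff]
    exact hMtop
  refine ⟨fun Nb hNb => ?_⟩
  haveI := hNb
  have hsurj : Function.Surjective (QuotientGroup.mk' M) := QuotientGroup.mk'_surjective M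
  have hle : M ≤ Nb.comap (QuotientGroup.mk' M) := by
    intro m hm
    rw [Subgroup.mem_comap]
    have : (QuotientGroup.mk' M) m = 1 := (QuotientGroup.eq_one_iff m).mpr hm
    rw [this]
    exact Nb.one_mem
  by_cases htop : Nb.comap (QuotientGroup.mk' M) = ⊤
  · right
    rw [← Subgroup.map_comap_eq_self_of_surjective hsurj Nb, htop, Subgroup.map_top_of_surjective _ hsurj]
  · left
    have h1 : Nb.comap (QuotientGroup.mk' M) ≤ M :=
      hMmax ⟨inferInstance, htop⟩ hle
    have h2 : Nb.comap (QuotientGroup.mk' M) = M := le_antisymm h1 hle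
    rw [← Subgroup.map_comap_eq_self_of_surjective hsurj Nb, h2, QuotientGroup.map_mk'_self]

end Cfsg.Agent.Lib.Helper22
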