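import Mathlib
import Cfsg.Agent.Lib.Helper22.PRegular

/-!
Helper lemmas (helper22): abelian `p`-complements.  Every `p`-regular element is conjugate into
an abelian subgroup of order prime to `p` and `p`-power index.
-/

namespace Cfsg.Agent.Lib.Helper22

/-- If `H` is an abelian subgroup of order prime to `p` and of `p`-power index, then every
element of order prime to `p` is conjugate to an element of `H`. -/
theorem exists_conj_mem_of_abelian_hall.{u} (p : ℕ) (hp : p.Prime) :
    ∀ (n : ℕ) (G : Type u) [Group G] [Finite G], Nat.card G = n →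
      ∀ (H : Subgroup G), (∀ a ∈ H, ∀ b ∈ H, a * b = b * a) → ¬ p ∣ Nat.card H →
      (∃ k : ℕ, H.index = p ^ k) →
      ∀ x : G, (orderOf x).Coprime p → ∃ g : G, g * x * g⁻¹ ∈ H := by
  intro n
  induction n using Nat.strong_induction_on with
  | _ n ih =>
    intro G _ _ hn H hab hpH hidx x hx
    obtain ⟨k, hk⟩ := hidx
    by_cases hx1 : x = 1
    · refine ⟨1, ?_⟩
      rw [hx1, one_mul, inv_one, one_mul]
      exact H.one_mem
    have hne : orderOf x ≠ 1 := fun h => hx1 (orderOf_eq_one_iff.mp h)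
    obtain ⟨q, hq, hqd⟩ := Nat.exists_prime_and_dvd hne
    haveI : Fact q.Prime := ⟨hq⟩
    have hqp : q ≠ p := by
      rintro rfl
      exact hq.one_lt.ne' (Nat.Coprime.eq_one_of_dvd hx.symm hqd)
    have hyo : orderOf (x ^ (orderOf x / q)) = q :=
      orderOf_pow_orderOf_div (orderOf_pos x).ne' hqd
    -- a conjugate of `x ^ (orderOf x / q)` lies in `H`
    have hQ : IsPGroup q (Subgroup.zpowers (x ^ (orderOf x / q))) :=
      IsPGroup.of_card (n := 1) (by rw [Nat.card_zpowers, hyo, pow_one])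
    have hnd : ¬ q ∣ Nat.card (G ⧸ H) := by
      intro hdvd
      have h1 : q ∣ p ^ k := hk ▸ hdvd
      exact hqp ((Nat.prime_dvd_prime_iff_eq hq hp).mp (hq.dvd_of_dvd_pow h1))
    obtain ⟨c, hc⟩ := hQ.nonempty_fixed_point_of_prime_not_dvd_card (G ⧸ H) hnd
    obtain ⟨b, hb⟩ : ∃ b : G, b * x ^ (orderOf x / q) * b⁻¹ ∈ H := by
      induction c using QuotientGroup.induction_on with
      | H a =>
        have h1 := hc ⟨x ^ (orderOf x / q), Subgroup.mem_zpowers _⟩
        have h2 : ((x ^ (orderOf x / q) * a : G) : G ⧸ H) = (a : G ⧸ H) := h1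
        rw [QuotientGroup.eq] at h2
        refine ⟨a⁻¹, ?_⟩
        have h3 := H.inv_mem h2
        have e : ((x ^ (orderOf x / q) * a)⁻¹ * a)⁻¹ = a⁻¹ * x ^ (orderOf x / q) * a⁻¹⁻¹ := by
          group
        rw [e] at h3
        exact h3
    have hy' : (b * x * b⁻¹) ^ (orderOf x / q) ∈ H := by
      rw [conj_pow]
      exact hb
    have hxo : orderOf (b * x * b⁻¹) = orderOf x := (MulAut.conj b).orderOf_eq x
    have hyo' : orderOf ((b * x * b⁻¹) ^ (orderOf x / q)) = q := by
      rw [conj_pow]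
      have h1 : orderOf (b * x ^ (orderOf x / q) * b⁻¹) = orderOf (x ^ (orderOf x / q)) :=
        (MulAut.conj b).orderOf_eq _
      rw [h1, hyo]
    -- the centralizer of the conjugate
    have hHC : H ≤ Subgroup.centralizer ({(b * x * b⁻¹) ^ (orderOf x / q)} : Set G) := by
      intro h hh
      rw [Subgroup.mem_centralizer_iff]
      intro t ht
      rw [Set.mem_singleton_iff] at ht
      rw [ht]
      exact hab _ hy' _ hh
    have hxC : b * x * b⁻¹ ∈ Subgroup.centralizer ({(b * x * b⁻¹) ^ (orderOf x / q)} : Set G) := by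
      rw [Subgroup.mem_centralizer_iff]
      intro t ht
      rw [Set.mem_singleton_iff] at ht
      rw [ht]
      exact ((Commute.refl (b * x * b⁻¹)).pow_left _).eq
    by_cases hCtop : Subgroup.centralizer ({(b * x * b⁻¹) ^ (orderOf x / q)} : Set G) = ⊤
    · -- the conjugate is central: pass to the quotient
      have hcen : ∀ g : G, Commute ((b * x * b⁻¹) ^ (orderOf x / q)) g := by
        intro g
        have h1 : g ∈ Subgroup.centralizer ({(b * x * b⁻¹) ^ (orderOf x / q)} : Set G) := by
          rw [hCtop]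
          exact Subgroup.mem_top g
        rw [Subgroup.mem_centralizer_iff] at h1
        exact h1 _ rfl
      haveI hZn : (Subgroup.zpowers ((b * x * b⁻¹) ^ (orderOf x / q))).Normal := by
        refine ⟨fun t ht g => ?_⟩
        obtain ⟨i, rfl⟩ := Subgroup.mem_zpowers_iff.mp ht
        have h1 : Commute (((b * x * b⁻¹) ^ (orderOf x / q)) ^ i) g := (hcen g).zpow_left i
        have e : g * ((b * x * b⁻¹) ^ (orderOf x / q)) ^ i * g⁻¹
            = ((b * x * b⁻¹) ^ (orderOf x / q)) ^ i := by
          rw [← h1.eq, mul_inv_cancel_right]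
        rw [e]
        exact Subgroup.zpow_mem _ (Subgroup.mem_zpowers _) i
      have hZH : Subgroup.zpowers ((b * x * b⁻¹) ^ (orderOf x / q)) ≤ H :=
        (Subgroup.zpowers_le).mpr hy'
      have hlt : Nat.card (G ⧸ Subgroup.zpowers ((b * x * b⁻¹) ^ (orderOf x / q))) < n := by
        have h1 := Subgroup.card_eq_card_quotient_mul_card_subgroup
          (Subgroup.zpowers ((b * x * b⁻¹) ^ (orderOf x / q)))
        rw [hn, Nat.card_zpowers, hyo'] at h1
        have h2 : 2 ≤ q := hq.two_le
        have h3 : 0 < Nat.card (G ⧸ Subgroup.zpowers ((b * x * b⁻¹) ^ (orderOf x / q))) :=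
          Nat.card_pos
        nlinarith
      have hsurj : Function.Surjective
          (QuotientGroup.mk' (Subgroup.zpowers ((b * x * b⁻¹) ^ (orderOf x / q)))) :=
        QuotientGroup.mk'_surjective _
      have hab' : ∀ a ∈ H.map (QuotientGroup.mk'
          (Subgroup.zpowers ((b * x * b⁻¹) ^ (orderOf x / q)))),
          ∀ c ∈ H.map (QuotientGroup.mk' (Subgroup.zpowers ((b * x * b⁻¹) ^ (orderOf x / q)))),
          a * c = c * a := by
        rintro _ ⟨a₀, ha₀, rfl⟩ _ ⟨c₀, hc₀, rfl⟩
        rw [← map_mul, ← map_mul, hab a₀ ha₀ c₀ hc₀]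
      have hpH' : ¬ p ∣ Nat.card (H.map (QuotientGroup.mk'
          (Subgroup.zpowers ((b * x * b⁻¹) ^ (orderOf x / q))))) :=
        fun h => hpH (h.trans (Subgroup.card_map_dvd _ _))
      have hidx' : (H.map (QuotientGroup.mk'
          (Subgroup.zpowers ((b * x * b⁻¹) ^ (orderOf x / q))))).index = p ^ k := by
        rw [Subgroup.index_map_eq H hsurj (by rw [QuotientGroup.ker_mk']; exact hZH), hk]
      have hx'' : (orderOf ((QuotientGroup.mk'
          (Subgroup.zpowers ((b * x * b⁻¹) ^ (orderOf x / q)))) (b * x * b⁻¹))).Coprime p :=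
        Nat.Coprime.coprime_dvd_left (orderOf_map_dvd _ _) (hxo ▸ hx)
      obtain ⟨gb, hgb⟩ := ih _ hlt _ rfl _ hab' hpH' ⟨k, hidx'⟩ _ hx''
      obtain ⟨g, rfl⟩ := QuotientGroup.mk_surjective gb
      obtain ⟨h, hh, hEq⟩ := hgb
      have h1 : ((h : G) : G ⧸ Subgroup.zpowers ((b * x * b⁻¹) ^ (orderOf x / q)))
          = ((g * (b * x * b⁻¹) * g⁻¹ : G) :
            G ⧸ Subgroup.zpowers ((b * x * b⁻¹) ^ (orderOf x / q))) := by
        rw [QuotientGroup.mk_mul, QuotientGroup.mk_mul, QuotientGroup.mk_inv]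
        exact hEq
      rw [QuotientGroup.eq] at h1
      have h3 : g * (b * x * b⁻¹) * g⁻¹ ∈ H := by
        have h4 := H.mul_mem hh (hZH h1)
        rw [mul_inv_cancel_left] at h4
        exact h4
      refine ⟨g * b, ?_⟩
      have e : g * b * x * (g * b)⁻¹ = g * (b * x * b⁻¹) * g⁻¹ := by group
      rw [e]
      exact h3
    · -- proper centralizer: induction
      have hlt : Nat.card ↥(Subgroup.centralizer
          ({(b * x * b⁻¹) ^ (orderOf x / q)} : Set G)) < n := by
        have h1 := Subgroup.card_le_card_group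
          (Subgroup.centralizer ({(b * x * b⁻¹) ^ (orderOf x / q)} : Set G))
        have h2 : Nat.card ↥(Subgroup.centralizer
            ({(b * x * b⁻¹) ^ (orderOf x / q)} : Set G)) ≠ Nat.card G :=
          fun h => hCtop ((Subgroup.card_eq_iff_eq_top _).mp h)
        omega
      have hab₁ : ∀ a ∈ H.subgroupOf (Subgroup.centralizer
          ({(b * x * b⁻¹) ^ (orderOf x / q)} : Set G)),
          ∀ c ∈ H.subgroupOf (Subgroup.centralizer
            ({(b * x * b⁻¹) ^ (orderOf x / q)} : Set G)), a * c = c * a := by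
        intro a ha c hc
        apply Subtype.ext
        exact hab _ (Subgroup.mem_subgroupOf.mp ha) _ (Subgroup.mem_subgroupOf.mp hc)
      have hp₁ : ¬ p ∣ Nat.card (H.subgroupOf (Subgroup.centralizer
          ({(b * x * b⁻¹) ^ (orderOf x / q)} : Set G))) := by
        rw [Nat.card_congr (Subgroup.subgroupOfEquivOfLe hHC).toEquiv]
        exact hpH
      have hidx₁ : ∃ j : ℕ, (H.subgroupOf (Subgroup.centralizer
          ({(b * x * b⁻¹) ^ (orderOf x / q)} : Set G))).index = p ^ j := by
        have h1 := Subgroup.relIndex_mul_index hHC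
        rw [hk] at h1
        have h2 : H.relIndex (Subgroup.centralizer
            ({(b * x * b⁻¹) ^ (orderOf x / q)} : Set G)) ∣ p ^ k := Dvd.intro _ h1
        obtain ⟨j, -, hj⟩ := (Nat.dvd_prime_pow hp).mp h2
        exact ⟨j, hj⟩
      have hx₁ : (orderOf (⟨b * x * b⁻¹, hxC⟩ : ↥(Subgroup.centralizer
          ({(b * x * b⁻¹) ^ (orderOf x / q)} : Set G)))).Coprime p := by
        rw [Subgroup.orderOf_mk, hxo]
        exact hx
      obtain ⟨c, hc⟩ := ih _ hlt _ rfl _ hab₁ hp₁ hidx₁ _ hx₁
      rw [Subgroup.mem_subgroupOf] at hc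
      refine ⟨(c : G) * b, ?_⟩
      have e : (c : G) * b * x * ((c : G) * b)⁻¹ = (c : G) * (b * x * b⁻¹) * (c : G)⁻¹ := by group
      rw [e]
      exact hc

end Cfsg.Agent.Lib.Helper22
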