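import Mathlib

set_option autoImplicit false

namespace Cfsg.Agent.Lib.Helper22.CM

open Subgroup

variable {G : Type*} [Group G]

/-- centralizer of an element -/
abbrev cz (x : G) : Subgroup G := Subgroup.centralizer ({x} : Set G)

/-- double centralizer of an element -/
abbrev dc (x : G) : Subgroup G := Subgroup.centralizer ((cz x : Subgroup G) : Set G)

theorem mem_cz {x g : G} : g ∈ cz x ↔ g * x = x * g := by
  rw [Subgroup.mem_centralizer_iff]
  constructor
  · intro h
    exact (h x rfl).symm
  · intro h y hy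
    rw [Set.mem_singleton_iff] at hy
    subst hy
    exact h.symm

theorem mem_dc {x g : G} : g ∈ dc x ↔ ∀ h, h * x = x * h → h * g = g * h := by
  rw [Subgroup.mem_centralizer_iff]
  constructor
  · intro H h hh
    exact H h (mem_cz.mpr hh)
  · intro H h hh
    exact H h (mem_cz.mp hh)

theorem self_mem_dc (x : G) : x ∈ dc x := mem_dc.mpr (fun _ hh => hh)

theorem self_mem_cz (x : G) : x ∈ cz x := mem_cz.mpr rfl

theorem dc_le_cz (x : G) : dc x ≤ cz x := fun g hg =>
  mem_cz.mpr ((mem_dc.mp hg x rfl).symm)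

theorem center_le_dc (x : G) : Subgroup.center G ≤ dc x := fun g hg =>
  mem_dc.mpr (fun h _ => (Subgroup.mem_center_iff.mp hg) h)

theorem center_le_cz (x : G) : Subgroup.center G ≤ cz x :=
  (center_le_dc x).trans (dc_le_cz x)

theorem cz_ne_top {x : G} (hx : x ∉ Subgroup.center G) : cz x ≠ ⊤ := by
  intro h
  apply hx
  rw [Subgroup.mem_center_iff]
  intro g
  have : g ∈ cz x := by
    rw [h]
    exact Subgroup.mem_top g
  exact mem_cz.mp this

/-- commuting with `x` and with `x * y` gives commuting with `y` -/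
theorem comm_of_comm_mul {g x y : G} (h1 : g * x = x * g) (h2 : g * (x * y) = x * y * g) :
    g * y = y * g := by
  have : x * (g * y) = x * (y * g) := by
    calc x * (g * y) = (x * g) * y := by rw [mul_assoc]
      _ = (g * x) * y := by rw [h1]
      _ = g * (x * y) := by rw [mul_assoc]
      _ = x * y * g := h2
      _ = x * (y * g) := by rw [mul_assoc]
  exact mul_left_cancel this

theorem comm_of_comm_mul' {g x y : G} (h1 : g * y = y * g) (h2 : g * (x * y) = x * y * g) :
    g * x = x * g := by
  have : (g * x) * y = (x * g) * y := by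
    calc (g * x) * y = g * (x * y) := by rw [mul_assoc]
      _ = x * y * g := h2
      _ = x * (y * g) := by rw [mul_assoc]
      _ = x * (g * y) := by rw [h1]
      _ = (x * g) * y := by rw [mul_assoc]
  exact mul_right_cancel this

theorem comm_mul_of_comm {g x y : G} (h1 : g * x = x * g) (h2 : g * y = y * g) :
    g * (x * y) = x * y * g := by
  calc g * (x * y) = (g * x) * y := by rw [mul_assoc]
    _ = (x * g) * y := by rw [h1]
    _ = x * (g * y) := by rw [mul_assoc]
    _ = x * (y * g) := by rw [h2]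
    _ = x * y * g := by rw [mul_assoc]

theorem cz_eq_of_mem_dc (hmax : ∀ x : G, x ∉ Subgroup.center G → IsCoatom (cz x))
    {x y : G} (hx : x ∉ center G) (hy : y ∈ dc x) (hyZ : y ∉ center G) : cz y = cz x := by
  have hle : cz x ≤ cz y := fun g hg => mem_cz.mpr (mem_dc.mp hy g (mem_cz.mp hg))
  exact ((hmax x hx).le_iff.mp hle).resolve_left (cz_ne_top hyZ)

theorem pow_mem_center_of_comm (hmax : ∀ x : G, x ∉ Subgroup.center G → IsCoatom (cz x))
    {x y : G} (hx : x ∉ center G) (hy : y ∉ center G) (hxy : x * y = y * x)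
    (hne : cz x ≠ cz y) (k : ℕ) (hk : x ^ k ∈ center G) : y ^ k ∈ center G := by
  by_contra hyk
  have h1 : cz (y ^ k) = cz y :=
    cz_eq_of_mem_dc hmax hy (pow_mem (self_mem_dc y) k) hyk
  have hxyZ : x * y ∉ center G := by
    intro h
    apply hne
    ext g
    rw [mem_cz, mem_cz]
    have hc := Subgroup.mem_center_iff.mp h g
    exact ⟨fun hg => comm_of_comm_mul hg hc, fun hg => comm_of_comm_mul' hg hc⟩
  have hpow : (x * y) ^ k = x ^ k * y ^ k := Commute.mul_pow hxy k
  have hxykZ : (x * y) ^ k ∉ center G := by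
    rw [hpow]
    intro h
    apply hyk
    have := Subgroup.mul_mem _ (Subgroup.inv_mem _ hk) h
    rwa [inv_mul_cancel_left] at this
  have h2 : cz ((x * y) ^ k) = cz (x * y) :=
    cz_eq_of_mem_dc hmax hxyZ (pow_mem (self_mem_dc _) k) hxykZ
  have h3 : cz ((x * y) ^ k) = cz (y ^ k) := by
    ext g
    rw [mem_cz, mem_cz, hpow]
    have hc := (Subgroup.mem_center_iff.mp hk g)
    exact ⟨fun hg => comm_of_comm_mul hc hg, fun hg => comm_mul_of_comm hc hg⟩
  have h4 : cz (x * y) = cz y := by rw [← h2, h3, h1]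
  have h5 : cz y ≤ cz x := by
    intro g hg
    have hg' : g ∈ cz (x * y) := by
      rw [h4]
      exact hg
    rw [mem_cz] at hg hg' ⊢
    exact comm_of_comm_mul' hg hg'
  exact hne (((hmax y hy).le_iff.mp h5).resolve_left (cz_ne_top hx))

theorem mk_ne_one_iff {x : G} : (QuotientGroup.mk x : G ⧸ center G) ≠ 1 ↔ x ∉ center G := by
  rw [Ne, QuotientGroup.eq_one_iff]

theorem order_eq_of_comm [Finite G] (hmax : ∀ x : G, x ∉ Subgroup.center G → IsCoatom (cz x))
    {x y : G} (hx : x ∉ center G) (hy : y ∉ center G) (hxy : x * y = y * x)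
    (hne : cz x ≠ cz y) :
    orderOf (QuotientGroup.mk x : G ⧸ center G) = orderOf (QuotientGroup.mk y : G ⧸ center G) := by
  rw [orderOf_eq_orderOf_iff]
  intro n
  rw [← QuotientGroup.mk_pow, ← QuotientGroup.mk_pow, QuotientGroup.eq_one_iff,
    QuotientGroup.eq_one_iff]
  exact ⟨pow_mem_center_of_comm hmax hx hy hxy hne n,
    pow_mem_center_of_comm hmax hy hx hxy.symm (Ne.symm hne) n⟩

theorem order_prime_of_comm [Finite G] (hmax : ∀ x : G, x ∉ Subgroup.center G → IsCoatom (cz x))
    {x y : G} (hx : x ∉ center G) (hy : y ∉ center G) (hxy : x * y = y * x)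
    (hne : cz x ≠ cz y) :
    (orderOf (QuotientGroup.mk x : G ⧸ center G)).Prime := by
  set m := orderOf (QuotientGroup.mk x : G ⧸ center G) with hm
  have hm1 : m ≠ 1 := by
    rw [hm, Ne, orderOf_eq_one_iff, QuotientGroup.eq_one_iff]
    exact hx
  have hmpos : 0 < m := orderOf_pos _
  have hp : m.minFac.Prime := Nat.minFac_prime hm1
  have hpd : m.minFac ∣ m := Nat.minFac_dvd m
  have hxp : x ^ m.minFac ∈ center G := by
    by_contra h
    have hcz : cz (x ^ m.minFac) = cz x :=
      cz_eq_of_mem_dc hmax hx (pow_mem (self_mem_dc x) _) h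
    have hcomm : x ^ m.minFac * y = y * x ^ m.minFac := ((Commute.pow_left hxy _ : Commute _ _)).eq
    have e1 := order_eq_of_comm hmax h hy hcomm (by rw [hcz]; exact hne)
    have e2 := order_eq_of_comm hmax hx hy hxy hne
    have e3 : orderOf ((QuotientGroup.mk x : G ⧸ center G) ^ m.minFac) = m := by
      rw [← QuotientGroup.mk_pow]
      exact e1.trans e2.symm
    rw [orderOf_pow_of_dvd hp.ne_zero hpd] at e3
    have : m / m.minFac < m := Nat.div_lt_self hmpos hp.one_lt
    have e4 : m / m.minFac = m := e3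
    omega
  have hdvd : m ∣ m.minFac := by
    rw [hm]
    apply orderOf_dvd_of_pow_eq_one
    rw [← QuotientGroup.mk_pow, QuotientGroup.eq_one_iff]
    exact hxp
  rcases (Nat.dvd_prime hp).mp hdvd with h | h
  · exact absurd h hm1
  · rw [h]
    exact hp

/-- a non-abelian maximal centralizer has prime exponent modulo the centre -/
theorem exponent_prime [Finite G] (hmax : ∀ x : G, x ∉ Subgroup.center G → IsCoatom (cz x))
    {a y : G} (ha : a ∉ center G) (hy : y ∈ cz a) (hy' : y ∉ dc a) :
    ∃ p : ℕ, p.Prime ∧ ∀ x ∈ cz a, x ∉ center G →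
      orderOf (QuotientGroup.mk x : G ⧸ center G) = p := by
  have hyZ : y ∉ center G := fun h => hy' (center_le_dc a h)
  have hne : ∀ x ∈ cz a, x ∉ dc a → cz a ≠ cz x := by
    intro x _ hx' h
    apply hx'
    rw [mem_dc]
    intro g hg
    have : g ∈ cz x := by
      rw [← h]
      exact mem_cz.mpr hg
    exact mem_cz.mp this
  have hay : a * y = y * a := (mem_cz.mp hy).symm
  have e1 := order_eq_of_comm hmax ha hyZ hay (hne y hy hy')
  have pr := order_prime_of_comm hmax ha hyZ hay (hne y hy hy')
  refine ⟨_, pr, ?_⟩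
  intro x hx hxZ
  by_cases hxd : x ∈ dc a
  · have hcz : cz x = cz a := cz_eq_of_mem_dc hmax ha hxd hxZ
    have hxy : x * y = y * x := by
      have : y ∈ cz x := by
        rw [hcz]
        exact hy
      exact (mem_cz.mp this).symm
    have e2 := order_eq_of_comm hmax hxZ hyZ hxy (by rw [hcz]; exact hne y hy hy')
    rw [e2, e1]
  · have hax : a * x = x * a := (mem_cz.mp hx).symm
    exact (order_eq_of_comm hmax ha hxZ hax (hne x hx hxd)).symm

/-- a normal maximal subgroup has prime index and abelian quotient -/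
theorem normal_coatom_prime [Finite G] (N : Subgroup G) [N.Normal] (hN : IsCoatom N) :
    ∃ r : ℕ, r.Prime ∧ (∀ g : G, g ^ r ∈ N) ∧ (∀ g h : G, g * h * g⁻¹ * h⁻¹ ∈ N) := by
  have hsub : ∀ H : Subgroup (G ⧸ N), H = ⊥ ∨ H = ⊤ := by
    intro H
    have hle : N ≤ H.comap (QuotientGroup.mk' N) := by
      intro g hg
      rw [Subgroup.mem_comap, QuotientGroup.mk'_apply, (QuotientGroup.eq_one_iff g).mpr hg]
      exact H.one_mem
    have hmc : (H.comap (QuotientGroup.mk' N)).map (QuotientGroup.mk' N) = H :=
      Subgroup.map_comap_eq_self_of_surjective (QuotientGroup.mk'_surjective N) H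
    rcases hN.le_iff.mp hle with h | h
    · right
      rw [← hmc, h, ← MonoidHom.range_eq_map, MonoidHom.range_eq_top]
      exact QuotientGroup.mk'_surjective N
    · left
      rw [← hmc, h, QuotientGroup.map_mk'_self]
  obtain ⟨g, hg⟩ : ∃ g : G, g ∉ N := by
    by_contra hcon
    apply hN.1
    rw [eq_top_iff]
    intro g _
    by_contra hg
    exact hcon ⟨g, hg⟩
  set t : G ⧸ N := QuotientGroup.mk g with ht
  have ht1 : t ≠ 1 := by
    rw [ht, Ne, QuotientGroup.eq_one_iff]
    exact hg
  have hzt : Subgroup.zpowers t = ⊤ := by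
    rcases hsub (Subgroup.zpowers t) with h | h
    · exfalso
      apply ht1
      have : t ∈ Subgroup.zpowers t := Subgroup.mem_zpowers t
      rw [h, Subgroup.mem_bot] at this
      exact this
    · exact h
  have hall : ∀ u : G ⧸ N, ∃ k : ℤ, t ^ k = u := by
    intro u
    have : u ∈ Subgroup.zpowers t := by
      rw [hzt]
      exact Subgroup.mem_top u
    exact Subgroup.mem_zpowers_iff.mp this
  have hm1 : orderOf t ≠ 1 := by
    rw [Ne, orderOf_eq_one_iff]
    exact ht1
  have hp : (orderOf t).minFac.Prime := Nat.minFac_prime hm1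
  have hpd : (orderOf t).minFac ∣ orderOf t := Nat.minFac_dvd _
  have htr : t ^ (orderOf t).minFac = 1 := by
    rcases hsub (Subgroup.zpowers (t ^ (orderOf t).minFac)) with h | h
    · have : t ^ (orderOf t).minFac ∈ Subgroup.zpowers (t ^ (orderOf t).minFac) :=
        Subgroup.mem_zpowers _
      rw [h, Subgroup.mem_bot] at this
      exact this
    · exfalso
      have c1 : Nat.card (Subgroup.zpowers (t ^ (orderOf t).minFac)) =
          orderOf t / (orderOf t).minFac := by
        rw [Nat.card_zpowers, orderOf_pow_of_dvd hp.ne_zero hpd]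
      have c2 : Nat.card (Subgroup.zpowers t) = orderOf t := Nat.card_zpowers t
      rw [h, ← hzt, c2] at c1
      have : orderOf t / (orderOf t).minFac < orderOf t :=
        Nat.div_lt_self (orderOf_pos t) hp.one_lt
      omega
  refine ⟨_, hp, ?_, ?_⟩
  · intro g'
    rw [← QuotientGroup.eq_one_iff, QuotientGroup.mk_pow]
    obtain ⟨k, hk⟩ := hall (QuotientGroup.mk g')
    rw [← hk, ← zpow_natCast, ← zpow_mul, mul_comm, zpow_mul, zpow_natCast, htr, one_zpow]
  · intro g' h'
    rw [← QuotientGroup.eq_one_iff]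
    obtain ⟨k, hk⟩ := hall (QuotientGroup.mk g')
    obtain ⟨l, hl⟩ := hall (QuotientGroup.mk h')
    rw [QuotientGroup.mk_mul, QuotientGroup.mk_mul, QuotientGroup.mk_mul, QuotientGroup.mk_inv,
      QuotientGroup.mk_inv, ← hk, ← hl, ← zpow_add, ← zpow_neg, ← zpow_add, ← zpow_neg,
      ← zpow_add]
    have : k + l + -k + -l = 0 := by ring
    rw [this, zpow_zero]

/-- images of maximal subgroups containing the kernel are maximal -/
theorem coatom_map (Z M : Subgroup G) [Z.Normal] (hZM : Z ≤ M) (hM : IsCoatom M) :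
    IsCoatom (M.map (QuotientGroup.mk' Z)) := by
  have hcm : (M.map (QuotientGroup.mk' Z)).comap (QuotientGroup.mk' Z) = M := by
    apply Subgroup.comap_map_eq_self
    rw [QuotientGroup.ker_mk']
    exact hZM
  constructor
  · intro h
    apply hM.1
    rw [← hcm, h, Subgroup.comap_top]
  · intro H hH
    have h1 : M ≤ H.comap (QuotientGroup.mk' Z) := by
      rw [← hcm]
      exact Subgroup.comap_mono hH.le
    have hmc : (H.comap (QuotientGroup.mk' Z)).map (QuotientGroup.mk' Z) = H :=
      Subgroup.map_comap_eq_self_of_surjective (QuotientGroup.mk'_surjective Z) H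
    rcases hM.le_iff.mp h1 with h | h
    · rw [← hmc, h, ← MonoidHom.range_eq_map, MonoidHom.range_eq_top]
      exact QuotientGroup.mk'_surjective Z
    · exfalso
      apply hH.ne
      rw [← hmc, h]

theorem mem_map_mk_iff (Z M : Subgroup G) [Z.Normal] (hZM : Z ≤ M) (g : G) :
    (QuotientGroup.mk g : G ⧸ Z) ∈ M.map (QuotientGroup.mk' Z) ↔ g ∈ M := by
  have hcm : (M.map (QuotientGroup.mk' Z)).comap (QuotientGroup.mk' Z) = M := by
    apply Subgroup.comap_map_eq_self
    rw [QuotientGroup.ker_mk']
    exact hZM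
  constructor
  · intro h
    rw [← hcm]
    exact h
  · intro h
    exact Subgroup.mem_map_of_mem _ h

end Cfsg.Agent.Lib.Helper22.CM
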