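import Mathlib
import Cfsg.Agent.Lib.Helper22.CM1

set_option autoImplicit false

namespace Cfsg.Agent.Lib.Helper22.CM

open Subgroup

variable {G : Type*} [Group G]

/-- In a class-2 situation the commutator is multiplicative in the first variable. -/
theorem comm_mul_left (hc : ∀ g h : G, g * h * g⁻¹ * h⁻¹ ∈ center G) (g h x : G) :
    (g * h) * x * (g * h)⁻¹ * x⁻¹ = (g * x * g⁻¹ * x⁻¹) * (h * x * h⁻¹ * x⁻¹) := by
  have hz := Subgroup.mem_center_iff.mp (hc h x)
  calc (g * h) * x * (g * h)⁻¹ * x⁻¹ = g * (h * x * h⁻¹ * x⁻¹) * (x * g⁻¹ * x⁻¹) := by group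
    _ = (h * x * h⁻¹ * x⁻¹) * g * (x * g⁻¹ * x⁻¹) := by rw [hz g]
    _ = (h * x * h⁻¹ * x⁻¹) * (g * x * g⁻¹ * x⁻¹) := by group
    _ = (g * x * g⁻¹ * x⁻¹) * (h * x * h⁻¹ * x⁻¹) := (hz _).symm

theorem comm_mul_right (hc : ∀ g h : G, g * h * g⁻¹ * h⁻¹ ∈ center G) (g x y : G) :
    g * (x * y) * g⁻¹ * (x * y)⁻¹ = (g * x * g⁻¹ * x⁻¹) * (g * y * g⁻¹ * y⁻¹) := by
  have hz := Subgroup.mem_center_iff.mp (hc g y)
  calc g * (x * y) * g⁻¹ * (x * y)⁻¹ = g * x * g⁻¹ * ((g * y * g⁻¹ * y⁻¹) * x⁻¹) := by group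
    _ = g * x * g⁻¹ * (x⁻¹ * (g * y * g⁻¹ * y⁻¹)) := by rw [← hz x⁻¹]
    _ = (g * x * g⁻¹ * x⁻¹) * (g * y * g⁻¹ * y⁻¹) := by group

theorem comm_pow_left (hc : ∀ g h : G, g * h * g⁻¹ * h⁻¹ ∈ center G) (g x : G) (n : ℕ) :
    (g ^ n) * x * (g ^ n)⁻¹ * x⁻¹ = (g * x * g⁻¹ * x⁻¹) ^ n := by
  induction n with
  | zero => simp
  | succ n ih => rw [pow_succ, comm_mul_left hc, ih, pow_succ]

theorem comm_pow_right (hc : ∀ g h : G, g * h * g⁻¹ * h⁻¹ ∈ center G) (g x : G) (n : ℕ) :
    g * (x ^ n) * g⁻¹ * (x ^ n)⁻¹ = (g * x * g⁻¹ * x⁻¹) ^ n := by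
  induction n with
  | zero => simp
  | succ n ih => rw [pow_succ, comm_mul_right hc, ih, pow_succ]

theorem caseA [Finite G] (hna : ¬ ∀ a b : G, a * b = b * a)
    (hmax : ∀ x : G, x ∉ center G → IsCoatom (cz x))
    (hnorm : ∀ x : G, x ∉ center G → (cz x).Normal) :
    ∃ p : ℕ, p.Prime ∧ (∀ a b : G ⧸ center G, a * b = b * a) ∧
      ∀ a : G ⧸ center G, a ^ p = 1 := by
  have hc : ∀ g h : G, g * h * g⁻¹ * h⁻¹ ∈ center G := by
    intro g h
    rw [Subgroup.mem_center_iff]
    intro x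
    by_cases hx : x ∈ center G
    · exact (Subgroup.mem_center_iff.mp hx _).symm
    · haveI := hnorm x hx
      obtain ⟨r, _, _, h2⟩ := normal_coatom_prime (cz x) (hmax x hx)
      exact (mem_cz.mp (h2 g h)).symm
  have hpr : ∀ x : G, x ∉ center G → ∃ r : ℕ, r.Prime ∧ x ^ r ∈ center G := by
    intro x hx
    haveI := hnorm x hx
    obtain ⟨r, hr, h1, _⟩ := normal_coatom_prime (cz x) (hmax x hx)
    refine ⟨r, hr, ?_⟩
    rw [Subgroup.mem_center_iff]
    intro g
    have e1 : g * (x ^ r) * g⁻¹ * (x ^ r)⁻¹ = 1 := by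
      rw [comm_pow_right hc, ← comm_pow_left hc]
      have := mem_cz.mp (h1 g)
      rw [this]
      group
    have e2 : g * x ^ r = (g * (x ^ r) * g⁻¹ * (x ^ r)⁻¹) * (x ^ r * g) := by group
    rw [e2, e1, one_mul]
  have hab : ∀ a b : G ⧸ center G, a * b = b * a := by
    intro a b
    induction a using QuotientGroup.induction_on with
    | H g =>
      induction b using QuotientGroup.induction_on with
      | H h =>
        rw [← QuotientGroup.mk_mul, ← QuotientGroup.mk_mul, QuotientGroup.eq]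
        have := hc h⁻¹ g⁻¹
        have e : (g * h)⁻¹ * (h * g) = h⁻¹ * g⁻¹ * h⁻¹⁻¹ * g⁻¹⁻¹ := by group
        rw [e]
        exact this
  obtain ⟨x₁, hx₁⟩ : ∃ x₁ : G, x₁ ∉ center G := by
    by_contra hcon
    apply hna
    intro a b
    have : b ∈ center G := by
      by_contra hb
      exact hcon ⟨b, hb⟩
    exact (Subgroup.mem_center_iff.mp this a)
  have hord : ∀ x : G, x ∉ center G → (orderOf (QuotientGroup.mk x : G ⧸ center G)).Prime := by
    intro x hx
    obtain ⟨r, hr, hxr⟩ := hpr x hx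
    have hd : orderOf (QuotientGroup.mk x : G ⧸ center G) ∣ r := by
      apply orderOf_dvd_of_pow_eq_one
      rw [← QuotientGroup.mk_pow, QuotientGroup.eq_one_iff]
      exact hxr
    rcases (Nat.dvd_prime hr).mp hd with h | h
    · exfalso
      rw [orderOf_eq_one_iff, QuotientGroup.eq_one_iff] at h
      exact hx h
    · rw [h]
      exact hr
  refine ⟨_, hord x₁ hx₁, hab, ?_⟩
  intro a
  induction a using QuotientGroup.induction_on with
  | H y =>
    by_cases hy : y ∈ center G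
    · rw [(QuotientGroup.eq_one_iff y).mpr hy, one_pow]
    · by_cases hpq : orderOf (QuotientGroup.mk y : G ⧸ center G) =
          orderOf (QuotientGroup.mk x₁ : G ⧸ center G)
      · rw [← hpq]
        exact pow_orderOf_eq_one _
      · exfalso
        have hcop : (orderOf (QuotientGroup.mk x₁ : G ⧸ center G)).Coprime
            (orderOf (QuotientGroup.mk y : G ⧸ center G)) :=
          (Nat.coprime_primes (hord x₁ hx₁) (hord y hy)).mpr (Ne.symm hpq)
        have hmul := (show Commute (QuotientGroup.mk x₁ : G ⧸ center G) (QuotientGroup.mk y) from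
          hab _ _).orderOf_mul_eq_mul_orderOf_of_coprime hcop
        rw [← QuotientGroup.mk_mul] at hmul
        have hxy : x₁ * y ∉ center G := by
          intro h
          rw [(QuotientGroup.eq_one_iff _).mpr h, orderOf_one] at hmul
          have h1 := (hord x₁ hx₁).one_lt
          have h2 := (hord y hy).one_lt
          have : 1 < orderOf (QuotientGroup.mk x₁ : G ⧸ center G) *
              orderOf (QuotientGroup.mk y : G ⧸ center G) := by nlinarith
          omega
        have hprm := hord (x₁ * y) hxy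
        rw [hmul] at hprm
        exact Nat.not_prime_mul (hord x₁ hx₁).ne_one (hord y hy).ne_one hprm

end Cfsg.Agent.Lib.Helper22.CM
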