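import Mathlib
import Cfsg.Agent.Lib.Helper22.CM3
import Cfsg.Agent.Lib.Helper22.SameOrder1

set_option autoImplicit false

namespace Cfsg.Agent.Lib.Helper22.CM

open Subgroup

theorem card_mul_of_compl {Q : Type*} [Group Q] [Finite Q] (N L : Subgroup Q) [N.Normal]
    (h1 : N ⊓ L = ⊥) (h2 : N ⊔ L = ⊤) : Nat.card N * Nat.card L = Nat.card Q := by
  have := SO.card_sup_mul_card_inf L N
  rw [sup_comm, h2, inf_comm, h1, Subgroup.card_top, Subgroup.card_bot, mul_one] at this
  exact this.symm

set_option maxHeartbeats 1600000 in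
theorem caseB1 {G : Type*} [Group G] [Finite G]
    (hmax : ∀ x : G, x ∉ center G → IsCoatom (cz x))
    (x₀ : G) (hx₀ : x₀ ∉ center G) (hnn : ¬ (cz x₀).Normal) (hab0 : ∀ y ∈ cz x₀, y ∈ dc x₀) :
    (¬ ∀ a b : G ⧸ center G, a * b = b * a) ∧
    (∀ H : Subgroup (G ⧸ center G), H ≠ ⊤ → ∀ a ∈ H, ∀ b ∈ H, a * b = b * a) ∧
    ∃ p q a : ℕ, p.Prime ∧ q.Prime ∧ p ≠ q ∧ Nat.card (G ⧸ center G) = p ^ a * q ∧
      ∀ P : Subgroup (G ⧸ center G), Nat.card ↥P = p ^ a → P.Normal := by
  classical
  have hZM : center G ≤ cz x₀ := center_le_cz x₀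
  have hMco := hmax x₀ hx₀
  obtain ⟨H, hHdef⟩ : ∃ H : Subgroup (G ⧸ center G),
      H = (cz x₀).map (QuotientGroup.mk' (center G)) := ⟨_, rfl⟩
  have hHco : IsCoatom H := by
    rw [hHdef]
    exact coatom_map (center G) (cz x₀) hZM hMco
  have hmem : ∀ g : G, (QuotientGroup.mk g : G ⧸ center G) ∈ H ↔ g ∈ cz x₀ := by
    rw [hHdef]
    exact mem_map_mk_iff (center G) (cz x₀) hZM
  have hMab : ∀ y ∈ cz x₀, ∀ y' ∈ cz x₀, y * y' = y' * y := by
    intro y hy y' hy'
    exact mem_dc.mp (hab0 y' hy') y (mem_cz.mp hy)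
  have hHab : ∀ a ∈ H, ∀ b ∈ H, a * b = b * a := by
    intro a ha b hb
    induction a using QuotientGroup.induction_on with
    | H g =>
      induction b using QuotientGroup.induction_on with
      | H g' =>
        rw [← QuotientGroup.mk_mul, ← QuotientGroup.mk_mul,
          hMab g ((hmem g).mp ha) g' ((hmem g').mp hb)]
  have hcz : ∀ y ∈ cz x₀, y ∉ center G → cz y = cz x₀ := fun y hy hyZ =>
    cz_eq_of_mem_dc hmax hx₀ (hab0 y hy) hyZ
  have hnorm : ∀ g : G, (∀ m, m ∈ cz x₀ ↔ g * m * g⁻¹ ∈ cz x₀) → g ∈ cz x₀ := by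
    intro g hg
    have h1 : g ∈ Subgroup.normalizer ((cz x₀ : Subgroup G) : Set G) :=
      Subgroup.mem_normalizer_iff.mpr hg
    rcases hMco.le_iff.mp (Subgroup.le_normalizer (H := cz x₀)) with h | h
    · exact absurd (Subgroup.normalizer_eq_top_iff.mp h) hnn
    · rw [h] at h1
      exact h1
  have hZconj : ∀ g x : G, g * x * g⁻¹ ∈ center G → x ∈ center G := by
    intro g x h
    have h2 := (inferInstance : (center G).Normal).conj_mem _ h g⁻¹
    have e : g⁻¹ * (g * x * g⁻¹) * g⁻¹⁻¹ = x := by group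
    rwa [e] at h2
  have hTI : ∀ t : G ⧸ center G, t ∉ H → ∀ u ∈ H, t * u * t⁻¹ ∈ H → u = 1 := by
    intro t ht u hu htu
    induction t using QuotientGroup.induction_on with
    | H g =>
      induction u using QuotientGroup.induction_on with
      | H x =>
        rw [QuotientGroup.eq_one_iff]
        by_contra hxZ
        have hxM : x ∈ cz x₀ := (hmem x).mp hu
        have hgx : g * x * g⁻¹ ∈ cz x₀ := by
          rw [← hmem]
          simpa using htu
        have hgxZ : g * x * g⁻¹ ∉ center G := fun h => hxZ (hZconj g x h)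
        have c1 := hcz x hxM hxZ
        have c2 := hcz _ hgx hgxZ
        apply ht
        rw [hmem]
        apply hnorm
        intro m
        have key : m ∈ cz x ↔ g * m * g⁻¹ ∈ cz (g * x * g⁻¹) := by
          rw [mem_cz, mem_cz]
          constructor
          · intro h
            calc g * m * g⁻¹ * (g * x * g⁻¹) = g * (m * x) * g⁻¹ := by group
              _ = g * (x * m) * g⁻¹ := by rw [h]
              _ = g * x * g⁻¹ * (g * m * g⁻¹) := by group
          · intro h
            have : g * (m * x) * g⁻¹ = g * (x * m) * g⁻¹ := by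
              calc g * (m * x) * g⁻¹ = g * m * g⁻¹ * (g * x * g⁻¹) := by group
                _ = g * x * g⁻¹ * (g * m * g⁻¹) := h
                _ = g * (x * m) * g⁻¹ := by group
            exact mul_left_cancel (mul_right_cancel this)
        rw [c1, c2] at key
        exact key
  obtain ⟨K, hKn, hKH, hK1, hcop, hconj⟩ := frob_abelian H hHab hTI hHco.1
  haveI := hKn
  have hx₀H : (QuotientGroup.mk x₀ : G ⧸ center G) ∈ H := (hmem x₀).mpr (self_mem_cz x₀)
  have hx₀1 : (QuotientGroup.mk x₀ : G ⧸ center G) ≠ 1 := mk_ne_one_iff.mpr hx₀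
  have hKtop : K ≠ ⊤ := by
    intro h
    rw [h, top_inf_eq] at hKH
    rw [hKH, Subgroup.mem_bot] at hx₀H
    exact hx₀1 hx₀H
  have hkey : ∀ k : G, (QuotientGroup.mk k : G ⧸ center G) ∈ K → k ∉ center G →
      ∀ t ∈ cz k, (QuotientGroup.mk t : G ⧸ center G) ∈ K := by
    intro k hkK hkZ t ht
    by_contra htK
    obtain ⟨c', hc'⟩ := hconj _ htK
    induction c' using QuotientGroup.induction_on with
    | H c =>
      have htM : c⁻¹ * t * c ∈ cz x₀ := by
        rw [← hmem]
        simpa using hc'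
      have htZ : c⁻¹ * t * c ∉ center G := by
        intro h
        apply htK
        have h2 : t ∈ center G := by
          apply hZconj c⁻¹ t
          rw [inv_inv]
          exact h
        rw [(QuotientGroup.eq_one_iff t).mpr h2]
        exact K.one_mem
      have c1 := hcz _ htM htZ
      have hkM : c⁻¹ * k * c ∈ cz x₀ := by
        rw [← c1, mem_cz]
        have h0 := mem_cz.mp ht
        calc c⁻¹ * k * c * (c⁻¹ * t * c) = c⁻¹ * (k * t) * c := by group
          _ = c⁻¹ * (t * k) * c := by rw [h0]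
          _ = c⁻¹ * t * c * (c⁻¹ * k * c) := by group
      have hkH : (QuotientGroup.mk (c⁻¹ * k * c) : G ⧸ center G) ∈ H := (hmem _).mpr hkM
      have hkK' : (QuotientGroup.mk (c⁻¹ * k * c) : G ⧸ center G) ∈ K := by
        have h2 := hKn.conj_mem _ hkK (QuotientGroup.mk c⁻¹ : G ⧸ center G)
        simpa using h2
      have h3 : (QuotientGroup.mk (c⁻¹ * k * c) : G ⧸ center G) ∈ K ⊓ H := ⟨hkK', hkH⟩
      rw [hKH, Subgroup.mem_bot, QuotientGroup.eq_one_iff] at h3
      apply hkZ
      apply hZconj c⁻¹ k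
      rw [inv_inv]
      exact h3
  obtain ⟨k₁, hk₁K, hk₁Z⟩ : ∃ k₁ : G, (QuotientGroup.mk k₁ : G ⧸ center G) ∈ K ∧
      k₁ ∉ center G := by
    by_contra hcon
    apply hK1
    rw [eq_bot_iff]
    intro t ht
    induction t using QuotientGroup.induction_on with
    | H k =>
      rw [Subgroup.mem_bot, QuotientGroup.eq_one_iff]
      by_contra hk
      exact hcon ⟨k, ht, hk⟩
  obtain ⟨Kc, hKc⟩ : ∃ Kc : Subgroup G, Kc = K.comap (QuotientGroup.mk' (center G)) := ⟨_, rfl⟩
  have hKc_mem : ∀ g : G, g ∈ Kc ↔ (QuotientGroup.mk g : G ⧸ center G) ∈ K := by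
    intro g
    rw [hKc]
    exact Iff.rfl
  have hKc_top : Kc ≠ ⊤ := by
    intro h
    apply hKtop
    rw [eq_top_iff]
    intro t _
    induction t using QuotientGroup.induction_on with
    | H g =>
      rw [← hKc_mem, h]
      exact Subgroup.mem_top g
  have hczK : ∀ k : G, k ∈ Kc → k ∉ center G → cz k = Kc := by
    intro k hk hkZ
    have hle : cz k ≤ Kc := fun t ht => (hKc_mem t).mpr (hkey k ((hKc_mem k).mp hk) hkZ t ht)
    exact (((hmax k hkZ).le_iff.mp hle).resolve_left hKc_top).symm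
  have hKcco : IsCoatom Kc := by
    rw [← hczK k₁ ((hKc_mem k₁).mpr hk₁K) hk₁Z]
    exact hmax k₁ hk₁Z
  have hZKc : center G ≤ Kc := by
    intro z hz
    rw [hKc_mem, (QuotientGroup.eq_one_iff z).mpr hz]
    exact K.one_mem
  have hKmap : Kc.map (QuotientGroup.mk' (center G)) = K := by
    rw [hKc]
    exact Subgroup.map_comap_eq_self_of_surjective (QuotientGroup.mk'_surjective _) K
  have hKco : IsCoatom K := by
    rw [← hKmap]
    exact coatom_map (center G) Kc hZKc hKcco
  have hKab : ∀ a ∈ K, ∀ b ∈ K, a * b = b * a := by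
    intro a ha b hb
    induction a using QuotientGroup.induction_on with
    | H k =>
      induction b using QuotientGroup.induction_on with
      | H k' =>
        by_cases hkZ : k ∈ center G
        · rw [(QuotientGroup.eq_one_iff k).mpr hkZ, one_mul, mul_one]
        · have h1 : k' ∈ cz k := by
            rw [hczK k ((hKc_mem k).mpr ha) hkZ]
            exact (hKc_mem k').mpr hb
          rw [← QuotientGroup.mk_mul, ← QuotientGroup.mk_mul, mem_cz.mp h1]
  have hKsupH : K ⊔ H = ⊤ := by
    have hlt : H < K ⊔ H := by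
      apply lt_of_le_of_ne le_sup_right
      intro h
      apply hK1
      have hle : K ≤ H := by
        rw [h]
        exact le_sup_left
      rw [← hKH]
      exact (inf_eq_left.mpr hle).symm
    exact hHco.2 _ hlt
  have hcard : Nat.card K * Nat.card H = Nat.card (G ⧸ center G) :=
    card_mul_of_compl K H hKH hKsupH
  have hH1 : Nat.card H ≠ 1 := by
    intro h
    have h2 := Subgroup.eq_bot_of_card_eq H h
    rw [h2, Subgroup.mem_bot] at hx₀H
    exact hx₀1 hx₀H
  obtain ⟨q, hq, hqH⟩ := Nat.exists_prime_and_dvd hH1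
  haveI := Fact.mk hq
  obtain ⟨x, hx⟩ := exists_prime_orderOf_dvd_card' q hqH
  have hxQ : orderOf (x : G ⧸ center G) = q := by
    rw [Subgroup.orderOf_coe]
    exact hx
  obtain ⟨H₁, hH₁⟩ : ∃ H₁ : Subgroup (G ⧸ center G),
      H₁ = Subgroup.zpowers (x : G ⧸ center G) := ⟨_, rfl⟩
  have hH₁H : H₁ ≤ H := by
    rw [hH₁, Subgroup.zpowers_le]
    exact x.2
  have hH₁card : Nat.card H₁ = q := by
    rw [hH₁, Nat.card_zpowers, hxQ]
  have hKH₁ : K ⊓ H₁ = ⊥ := by
    rw [eq_bot_iff, ← hKH]
    exact inf_le_inf_left K hH₁H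
  have hKsupH₁ : K ⊔ H₁ = ⊤ := by
    have hlt : K < K ⊔ H₁ := by
      apply lt_of_le_of_ne le_sup_left
      intro h
      have hle : H₁ ≤ K := by
        rw [h]
        exact le_sup_right
      have h2 : H₁ = ⊥ := by
        rw [← hKH₁]
        exact (inf_eq_right.mpr hle).symm
      rw [h2, Subgroup.card_bot] at hH₁card
      exact hq.one_lt.ne hH₁card
    exact hKco.2 _ hlt
  have hcard₁ := card_mul_of_compl K H₁ hKH₁ hKsupH₁
  have hKpos : 0 < Nat.card K := Nat.card_pos
  have hHpos : 0 < Nat.card H := Nat.card_pos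
  have hHq : Nat.card H = q := by
    rw [hH₁card, ← hcard] at hcard₁
    exact (Nat.eq_of_mul_eq_mul_left hKpos hcard₁).symm
  have hK1' : Nat.card K ≠ 1 := fun h => hK1 (Subgroup.eq_bot_of_card_eq K h)
  obtain ⟨p, hp, hpK⟩ := Nat.exists_prime_and_dvd hK1'
  haveI := Fact.mk hp
  obtain ⟨E, hE_mem⟩ : ∃ E : Subgroup (G ⧸ center G), ∀ t, t ∈ E ↔ t ∈ K ∧ t ^ p = 1 := by
    refine ⟨{ carrier := {t | t ∈ K ∧ t ^ p = 1}
              mul_mem' := ?_
              one_mem' := ⟨K.one_mem, one_pow p⟩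
              inv_mem' := ?_ }, fun t => Iff.rfl⟩
    · rintro a b ⟨ha, ha'⟩ ⟨hb, hb'⟩
      refine ⟨K.mul_mem ha hb, ?_⟩
      rw [(show Commute a b from hKab a ha b hb).mul_pow, ha', hb', one_mul]
    · rintro a ⟨ha, ha'⟩
      exact ⟨K.inv_mem ha, by rw [inv_pow, ha', inv_one]⟩
  haveI hEn : E.Normal := by
    constructor
    intro n hn g
    rw [hE_mem] at hn ⊢
    exact ⟨hKn.conj_mem n hn.1 g, by rw [conj_pow, hn.2, mul_one, mul_inv_cancel]⟩
  have hEK : E ≤ K := fun t ht => ((hE_mem t).mp ht).1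
  have hEH : E ⊓ H = ⊥ := by
    rw [eq_bot_iff, ← hKH]
    exact inf_le_inf_right H hEK
  obtain ⟨y, hy⟩ := exists_prime_orderOf_dvd_card' p hpK
  have hyQ : orderOf (y : G ⧸ center G) = p := by
    rw [Subgroup.orderOf_coe]
    exact hy
  have hyE : (y : G ⧸ center G) ∈ E := by
    rw [hE_mem]
    refine ⟨y.2, ?_⟩
    rw [← hyQ]
    exact pow_orderOf_eq_one _
  have hy1 : (y : G ⧸ center G) ≠ 1 := by
    intro h
    rw [h, orderOf_one] at hyQ
    exact hp.one_lt.ne hyQ
  have hEsupH : E ⊔ H = ⊤ := by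
    have hlt : H < E ⊔ H := by
      apply lt_of_le_of_ne le_sup_right
      intro h
      have hle : E ≤ H := by
        rw [h]
        exact le_sup_left
      have h2 : (y : G ⧸ center G) ∈ E ⊓ H := ⟨hyE, hle hyE⟩
      rw [hEH, Subgroup.mem_bot] at h2
      exact hy1 h2
    exact hHco.2 _ hlt
  have hcardE := card_mul_of_compl E H hEH hEsupH
  have hEK' : E = K := by
    apply Subgroup.eq_of_le_of_card_ge hEK
    rw [← hcard] at hcardE
    exact (Nat.eq_of_mul_eq_mul_right hHpos hcardE).ge
  have hKexp : ∀ t ∈ K, t ^ p = 1 := by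
    intro t ht
    rw [← hEK'] at ht
    exact ((hE_mem t).mp ht).2
  have hKp : IsPGroup p K := fun t => ⟨1, by
    rw [pow_one]
    apply Subtype.ext
    rw [Subgroup.coe_pow]
    exact hKexp t.1 t.2⟩
  obtain ⟨a, ha⟩ := IsPGroup.iff_card.mp hKp
  have hidx : H.index = Nat.card K := by
    have h1 := Subgroup.card_mul_index H
    rw [← hcard, mul_comm] at h1
    exact Nat.eq_of_mul_eq_mul_right hHpos h1
  have hpq : p ≠ q := by
    intro h
    rw [hidx, hHq] at hcop
    have h2 : p ∣ Nat.gcd q (Nat.card K) := Nat.dvd_gcd (by rw [h]) hpK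
    rw [hcop.gcd_eq_one] at h2
    exact hp.one_lt.ne' (Nat.dvd_one.mp h2)
  refine ⟨?_, ?_, p, q, a, hp, hq, hpq, ?_, ?_⟩
  · intro hcomm
    apply hnn
    constructor
    intro n hn g
    rw [← hmem]
    have e : (QuotientGroup.mk (g * n * g⁻¹) : G ⧸ center G) = QuotientGroup.mk n := by
      rw [QuotientGroup.mk_mul, QuotientGroup.mk_mul,
        hcomm (QuotientGroup.mk g) (QuotientGroup.mk n), QuotientGroup.mk_inv,
        mul_inv_cancel_right]
    rw [e, hmem]
    exact hn
  · intro H' hH' a' ha' b' hb'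
    by_cases hle : H' ≤ K
    · exact hKab a' (hle ha') b' (hle hb')
    · have hsup : K ⊔ H' = ⊤ := by
        have hlt : K < K ⊔ H' := by
          apply lt_of_le_of_ne le_sup_left
          intro h
          apply hle
          rw [h]
          exact le_sup_right
        exact hKco.2 _ hlt
      have hDn : (K ⊓ H').Normal := by
        constructor
        intro d hd g
        have hg : g ∈ ((K ⊔ H' : Subgroup (G ⧸ center G)) : Set (G ⧸ center G)) := by
          rw [hsup]
          trivial
        rw [Subgroup.normal_mul] at hg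
        obtain ⟨k, hk, h', hh', rfl⟩ := Set.mem_mul.mp hg
        have hd' : h' * d * h'⁻¹ ∈ K ⊓ H' :=
          ⟨hKn.conj_mem d hd.1 h', H'.mul_mem (H'.mul_mem hh' hd.2) (H'.inv_mem hh')⟩
        have e : k * h' * d * (k * h')⁻¹ = h' * d * h'⁻¹ := by
          have hc := hKab k hk (h' * d * h'⁻¹) hd'.1
          calc k * h' * d * (k * h')⁻¹ = k * (h' * d * h'⁻¹) * k⁻¹ := by group
            _ = (h' * d * h'⁻¹) * k * k⁻¹ := by rw [hc]
            _ = h' * d * h'⁻¹ := by rw [mul_inv_cancel_right]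
        rw [e]
        exact hd'
      have hD : K ⊓ H' = ⊥ := by
        by_contra hDne
        by_cases hDH : K ⊓ H' ≤ H
        · apply hDne
          rw [eq_bot_iff, ← hKH]
          exact le_inf inf_le_left hDH
        · have hDsup : (K ⊓ H') ⊔ H = ⊤ := by
            have hlt : H < (K ⊓ H') ⊔ H := by
              apply lt_of_le_of_ne le_sup_right
              intro h
              apply hDH
              rw [h]
              exact le_sup_left
            exact hHco.2 _ hlt
          have hDinf : (K ⊓ H') ⊓ H = ⊥ := by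
            rw [eq_bot_iff, ← hKH]
            exact inf_le_inf_right H inf_le_left
          haveI := hDn
          have hcardD := card_mul_of_compl (K ⊓ H') H hDinf hDsup
          have hDK : K ⊓ H' = K := by
            apply Subgroup.eq_of_le_of_card_ge inf_le_left
            rw [← hcard] at hcardD
            exact (Nat.eq_of_mul_eq_mul_right hHpos hcardD).ge
          apply hH'
          rw [← hsup]
          exact (sup_eq_right.mpr (inf_eq_left.mp hDK)).symm
      have hcardH' := card_mul_of_compl K H' hD hsup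
      have hH'q : Nat.card H' = q := by
        rw [← hcard, hHq] at hcardH'
        exact Nat.eq_of_mul_eq_mul_left hKpos hcardH'
      haveI := isCyclic_of_prime_card (α := ↥H') hH'q
      have h2 := (IsCyclic.isMulCommutative (α := ↥H')).is_comm.comm ⟨a', ha'⟩ ⟨b', hb'⟩
      exact congrArg Subtype.val h2
  · rw [← hcard, ha, hHq]
  · intro P hP
    have hPK : P ≤ K := by
      intro x' hx'
      by_contra hxK
      obtain ⟨c, hc⟩ := hconj x' hxK
      have h1 : (c⁻¹ * x' * c) ^ (p ^ a) = 1 := by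
        have hx1 : x' ^ (p ^ a) = 1 := by
          have h0 := pow_card_eq_one' (G := ↥P) (x := ⟨x', hx'⟩)
          rw [hP] at h0
          exact congrArg Subtype.val h0
        have e : c⁻¹ * x' * c = c⁻¹ * x' * c⁻¹⁻¹ := by rw [inv_inv]
        rw [e, conj_pow, hx1, mul_one, mul_inv_cancel]
      have h2 : (c⁻¹ * x' * c) ^ q = 1 := by
        have h0 := pow_card_eq_one' (G := ↥H) (x := ⟨_, hc⟩)
        rw [hHq] at h0
        exact congrArg Subtype.val h0
      have h3 : orderOf (c⁻¹ * x' * c) ∣ Nat.gcd (p ^ a) q :=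
        Nat.dvd_gcd (orderOf_dvd_of_pow_eq_one h1) (orderOf_dvd_of_pow_eq_one h2)
      have hcop' : Nat.Coprime (p ^ a) q :=
        Nat.Coprime.pow_left a ((Nat.coprime_primes hp hq).mpr hpq)
      rw [hcop'.gcd_eq_one, Nat.dvd_one, orderOf_eq_one_iff] at h3
      apply hxK
      have h4 : x' = 1 := by
        have e : x' = c * (c⁻¹ * x' * c) * c⁻¹ := by group
        rw [e, h3]
        group
      rw [h4]
      exact K.one_mem
    have h5 : P = K := Subgroup.eq_of_le_of_card_ge hPK (by rw [hP, ha])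
    rw [h5]
    exact hKn

end Cfsg.Agent.Lib.Helper22.CM
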