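import Mathlib
import Cfsg.Agent.Lib.Helper22.CM4

set_option autoImplicit false

namespace Cfsg.Agent.Lib.Helper22.CM

open Subgroup

theorem normal_of_pgroup_quot {G : Type*} [Group G] [Finite G] (p : ℕ) [Fact p.Prime]
    (hp : IsPGroup p (G ⧸ center G)) (M : Subgroup G) (hZM : center G ≤ M) (hM : IsCoatom M) :
    M.Normal := by
  haveI := hp.isNilpotent
  have h1 : (M.map (QuotientGroup.mk' (center G))).Normal :=
    Subgroup.NormalizerCondition.normal_of_coatom _ Group.normalizerCondition_of_isNilpotent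
      (coatom_map _ M hZM hM)
  have hcm : (M.map (QuotientGroup.mk' (center G))).comap (QuotientGroup.mk' (center G)) = M := by
    apply Subgroup.comap_map_eq_self
    rw [QuotientGroup.ker_mk']
    exact hZM
  rw [← hcm]
  exact h1.comap _

theorem pow_mem_center_of_order {G : Type*} [Group G] {m : G} {p : ℕ}
    (h : orderOf (QuotientGroup.mk m : G ⧸ center G) = p) : m ^ p ∈ center G := by
  have h0 := pow_orderOf_eq_one (QuotientGroup.mk m : G ⧸ center G)
  rw [h, ← QuotientGroup.mk_pow, QuotientGroup.eq_one_iff] at h0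
  exact h0

theorem no_normal {G : Type*} [Group G] [Finite G]
    (hmax : ∀ x : G, x ∉ center G → IsCoatom (cz x))
    (hB2 : ∀ x : G, x ∉ center G → ¬ (cz x).Normal → ∃ y ∈ cz x, y ∉ dc x)
    (x₀ : G) (hx₀ : x₀ ∉ center G) (hnn : ¬ (cz x₀).Normal) :
    ∀ x₁ : G, x₁ ∉ center G → ¬ (cz x₁).Normal := by
  intro x₁ hx₁ hN
  haveI := hN
  obtain ⟨y₀, hy₀, hy₀'⟩ := hB2 x₀ hx₀ hnn
  obtain ⟨p, hp, hexp⟩ := exponent_prime hmax hx₀ hy₀ hy₀'
  obtain ⟨r, hr, hpow, _⟩ := normal_coatom_prime (cz x₁) (hmax x₁ hx₁)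
  have hne : cz x₀ ≠ cz x₁ := by
    intro h
    apply hnn
    rw [h]
    exact hN
  obtain ⟨w, hwM, hwN, hwZ⟩ : ∃ w, w ∈ cz x₀ ∧ w ∈ cz x₁ ∧ w ∉ center G := by
    by_cases ha : x₀ ∈ cz x₁
    · exact ⟨x₀, self_mem_cz x₀, ha, hx₀⟩
    · have hsup : cz x₁ ⊔ Subgroup.zpowers x₀ = ⊤ := by
        apply (hmax x₁ hx₁).2
        apply lt_of_le_of_ne le_sup_left
        intro h
        apply ha
        have : x₀ ∈ cz x₁ ⊔ Subgroup.zpowers x₀ := le_sup_right (a := cz x₁) (Subgroup.mem_zpowers x₀)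
        rw [← h] at this
        exact this
      have hy : y₀ ∈ ((cz x₁ ⊔ Subgroup.zpowers x₀ : Subgroup G) : Set G) := by
        rw [hsup]
        trivial
      rw [Subgroup.normal_mul] at hy
      obtain ⟨n, hn, z, hz, hnz⟩ := Set.mem_mul.mp hy
      have hzM : z ∈ dc x₀ := (Subgroup.zpowers_le.mpr (self_mem_dc x₀)) hz
      refine ⟨n, ?_, hn, ?_⟩
      · have e : n = y₀ * z⁻¹ := by rw [← hnz, mul_inv_cancel_right]
        rw [e]
        exact (cz x₀).mul_mem hy₀ ((cz x₀).inv_mem (dc_le_cz x₀ hzM))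
      · intro hnZ
        apply hy₀'
        rw [← hnz]
        exact (dc x₀).mul_mem (center_le_dc x₀ hnZ) hzM
  have hNnab : ∃ v ∈ cz x₁, v ∉ dc x₁ := by
    by_contra hcon
    have hab : ∀ v ∈ cz x₁, v ∈ dc x₁ := fun v hv => by
      by_contra h
      exact hcon ⟨v, hv, h⟩
    have c1 : cz w = cz x₁ := cz_eq_of_mem_dc hmax hx₁ (hab w hwN) hwZ
    have ha : x₀ ∈ cz x₁ := by
      rw [← c1, mem_cz]
      exact (mem_cz.mp hwM).symm
    have c2 : cz x₀ = cz x₁ := cz_eq_of_mem_dc hmax hx₁ (hab x₀ ha) hx₀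
    exact hne c2
  obtain ⟨v, hv, hv'⟩ := hNnab
  obtain ⟨p', hp', hexp'⟩ := exponent_prime hmax hx₁ hv hv'
  have hpp : p' = p := by rw [← hexp' w hwN hwZ, hexp w hwM hwZ]
  rw [hpp] at hexp'
  by_cases hrp : r = p
  · haveI := Fact.mk hp
    have hpg : IsPGroup p (G ⧸ center G) := by
      intro t
      induction t using QuotientGroup.induction_on with
      | H g =>
        refine ⟨2, ?_⟩
        rw [← QuotientGroup.mk_pow, QuotientGroup.eq_one_iff, pow_two, pow_mul]
        have hgN : g ^ p ∈ cz x₁ := by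
          rw [← hrp]
          exact hpow g
        by_cases hgZ : g ^ p ∈ center G
        · exact (center G).pow_mem hgZ p
        · exact pow_mem_center_of_order (hexp' (g ^ p) hgN hgZ)
    exact hnn (normal_of_pgroup_quot p hpg (cz x₀) (center_le_cz x₀) (hmax x₀ hx₀))
  · have hle : cz x₀ ≤ cz x₁ := by
      intro m hm
      by_cases hmZ : m ∈ center G
      · exact center_le_cz x₁ hmZ
      · have h1 : m ^ p ∈ cz x₁ := center_le_cz x₁ (pow_mem_center_of_order (hexp m hm hmZ))
        have h2 : m ^ r ∈ cz x₁ := hpow m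
        have hcop : Nat.Coprime r p := (Nat.coprime_primes hr hp).mpr hrp
        have h3 : m ^ (1 : ℤ) ∈ cz x₁ := by
          have hb := Nat.gcd_eq_gcd_ab r p
          rw [hcop.gcd_eq_one] at hb
          have hb' : (1 : ℤ) = r * r.gcdA p + p * r.gcdB p := by exact_mod_cast hb
          rw [hb', zpow_add, zpow_mul, zpow_mul, zpow_natCast, zpow_natCast]
          exact (cz x₁).mul_mem ((cz x₁).zpow_mem h2 _) ((cz x₁).zpow_mem h1 _)
        simpa using h3
    exact hne (((hmax x₀ hx₀).le_iff.mp hle).resolve_left (cz_ne_top hx₁)).symm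

theorem sylow_of {G : Type*} [Group G] [Finite G]
    (hmax : ∀ x : G, x ∉ center G → IsCoatom (cz x))
    (hall : ∀ x : G, x ∉ center G → ∃ y ∈ cz x, y ∉ dc x)
    (hnn : ∀ x : G, x ∉ center G → ¬ (cz x).Normal)
    (x : G) (hx : x ∉ center G) (q : ℕ) (hq : orderOf (QuotientGroup.mk x : G ⧸ center G) = q) :
    q.Prime ∧ ∃ _ : Fact q.Prime, ∃ S : Sylow q (G ⧸ center G),
      (S : Subgroup (G ⧸ center G)) = (cz x).map (QuotientGroup.mk' (center G)) ∧
      Nat.card ((dc x).map (QuotientGroup.mk' (center G))) * q ^ 2 ≤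
        Nat.card (S : Subgroup (G ⧸ center G)) := by
  obtain ⟨y, hy, hy'⟩ := hall x hx
  obtain ⟨p, hp, hexp⟩ := exponent_prime hmax hx hy hy'
  have hqp : q = p := by rw [← hq, hexp x (self_mem_cz x) hx]
  subst hqp
  haveI hF := Fact.mk hp
  refine ⟨hp, hF, ?_⟩
  have hZM : center G ≤ cz x := center_le_cz x
  have hpg : IsPGroup q ((cz x).map (QuotientGroup.mk' (center G))) := by
    rintro ⟨t, ht⟩
    obtain ⟨m, hm, rfl⟩ := Subgroup.mem_map.mp ht
    by_cases hmZ : m ∈ center G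
    · refine ⟨0, ?_⟩
      apply Subtype.ext
      rw [pow_zero, pow_one]
      exact (QuotientGroup.eq_one_iff m).mpr hmZ
    · refine ⟨1, ?_⟩
      apply Subtype.ext
      rw [pow_one, Subgroup.coe_pow]
      have h0 := pow_orderOf_eq_one (QuotientGroup.mk m : G ⧸ center G)
      rw [hexp m hm hmZ] at h0
      exact h0
  obtain ⟨S, hS⟩ := hpg.exists_le_sylow
  have hco := coatom_map (center G) (cz x) hZM (hmax x hx)
  have hSeq : (S : Subgroup (G ⧸ center G)) = (cz x).map (QuotientGroup.mk' (center G)) := by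
    rcases hco.le_iff.mp hS with h | h
    · exfalso
      have hpgG : IsPGroup q (G ⧸ center G) := by
        intro t
        obtain ⟨k, hk⟩ := S.isPGroup' ⟨t, by rw [h]; trivial⟩
        exact ⟨k, congrArg Subtype.val hk⟩
      exact hnn x hx (normal_of_pgroup_quot q hpgG (cz x) hZM (hmax x hx))
    · exact h
  refine ⟨S, hSeq, ?_⟩
  -- the chain dc x < cz x ⊓ cz y < cz x
  have hZd : center G ≤ dc x := center_le_dc x
  have hdC : dc x ≤ cz x ⊓ cz y := by
    intro g hg
    exact Subgroup.mem_inf.mpr ⟨dc_le_cz x hg, mem_cz.mpr (mem_dc.mp hg y (mem_cz.mp hy)).symm⟩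
  have hZC : center G ≤ cz x ⊓ cz y := hZd.trans hdC
  obtain ⟨m, hm, hm'⟩ : ∃ m ∈ cz x, m ∉ cz y := by
    by_contra hcon
    apply hy'
    rw [mem_dc]
    intro h hh
    by_contra hne
    exact hcon ⟨h, mem_cz.mpr hh, fun h2 => hne (mem_cz.mp h2)⟩
  have hA_le : (dc x).map (QuotientGroup.mk' (center G)) ≤
      (cz x ⊓ cz y).map (QuotientGroup.mk' (center G)) := Subgroup.map_mono hdC
  have hC_le : (cz x ⊓ cz y).map (QuotientGroup.mk' (center G)) ≤
      (cz x).map (QuotientGroup.mk' (center G)) := Subgroup.map_mono inf_le_left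
  have hpgC : IsPGroup q ((cz x ⊓ cz y).map (QuotientGroup.mk' (center G))) := hpg.to_le hC_le
  have hpgA : IsPGroup q ((dc x).map (QuotientGroup.mk' (center G))) := hpgC.to_le hA_le
  obtain ⟨k, hk⟩ := IsPGroup.iff_card.mp hpg
  obtain ⟨j, hj⟩ := IsPGroup.iff_card.mp hpgC
  obtain ⟨i, hi⟩ := IsPGroup.iff_card.mp hpgA
  have hij : i < j := by
    have h1 : i ≤ j := by
      have := Subgroup.card_dvd_of_le hA_le
      rw [hi, hj] at this
      exact (Nat.pow_dvd_pow_iff_le_right hp.one_lt).mp this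
    rcases Nat.lt_or_ge i j with h | h
    · exact h
    · exfalso
      have hij' : i = j := le_antisymm h1 h
      have heq := Subgroup.eq_of_le_of_card_ge hA_le (by rw [hi, hj, hij'])
      have hyC : (QuotientGroup.mk y : G ⧸ center G) ∈
          (cz x ⊓ cz y).map (QuotientGroup.mk' (center G)) :=
        (mem_map_mk_iff (center G) _ hZC y).mpr ⟨hy, self_mem_cz y⟩
      rw [← heq, mem_map_mk_iff (center G) _ hZd y] at hyC
      exact hy' hyC
  have hjk : j < k := by
    have h1 : j ≤ k := by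
      have := Subgroup.card_dvd_of_le hC_le
      rw [hj, hk] at this
      exact (Nat.pow_dvd_pow_iff_le_right hp.one_lt).mp this
    rcases Nat.lt_or_ge j k with h | h
    · exact h
    · exfalso
      have hjk' : j = k := le_antisymm h1 h
      have heq := Subgroup.eq_of_le_of_card_ge hC_le (by rw [hj, hk, hjk'])
      have hmM : (QuotientGroup.mk m : G ⧸ center G) ∈
          (cz x).map (QuotientGroup.mk' (center G)) :=
        (mem_map_mk_iff (center G) _ hZM m).mpr hm
      rw [← heq, mem_map_mk_iff (center G) _ hZC m] at hmM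
      exact hm' hmM.2
  rw [hSeq, hi, hk, ← pow_add]
  exact Nat.pow_le_pow_right hp.pos (by omega)

end Cfsg.Agent.Lib.Helper22.CM
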