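import Mathlib
import Cfsg.Agent.Lib.Helper22.CM5

set_option autoImplicit false

namespace Cfsg.Agent.Lib.Helper22.CM

open Subgroup

theorem sum_inv_sq_lt (n : ℕ) (hn : 2 ≤ n) :
    ∑ m ∈ Finset.Icc 2 n, (1 : ℚ) / (m : ℚ) ^ 2 < 1 - 1 / (n : ℚ) := by
  induction n, hn using Nat.le_induction with
  | base => norm_num [Finset.Icc_self]
  | succ n hn ih =>
    rw [Finset.sum_Icc_succ_top (by omega)]
    have hn0 : (0 : ℚ) < n := by exact_mod_cast (by omega : 0 < n)
    have key : (1 : ℚ) / ((n + 1 : ℕ) : ℚ) ^ 2 ≤ 1 / (n : ℚ) - 1 / ((n + 1 : ℕ) : ℚ) := by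
      push_cast
      rw [div_sub_div _ _ hn0.ne' (by positivity), div_le_div_iff₀ (by positivity) (by positivity)]
      nlinarith
    linarith

theorem count_order {G : Type*} [Group G] [Finite G] [Fintype (G ⧸ center G)]
    (hmax : ∀ x : G, x ∉ center G → IsCoatom (cz x))
    (hall : ∀ x : G, x ∉ center G → ∃ y ∈ cz x, y ∉ dc x)
    (hnn : ∀ x : G, x ∉ center G → ¬ (cz x).Normal)
    (q : ℕ) (hq : q.Prime) :
    (Finset.univ.filter (fun t : G ⧸ center G => orderOf t = q)).card * q ^ 2 ≤
      Nat.card (G ⧸ center G) := by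
  classical
  haveI := Fact.mk hq
  obtain ⟨X, hX⟩ : ∃ X : Finset (G ⧸ center G),
      X = Finset.univ.filter (fun t : G ⧸ center G => orderOf t = q) := ⟨_, rfl⟩
  rw [← hX]
  obtain ⟨F, hF⟩ : ∃ F : G ⧸ center G → Subgroup (G ⧸ center G),
      ∀ t, F t = (cz t.out).map (QuotientGroup.mk' (center G)) := ⟨_, fun _ => rfl⟩
  obtain ⟨s, hs⟩ : ∃ s : ℕ, s = q ^ (Nat.card (G ⧸ center G)).factorization q := ⟨_, rfl⟩
  have hfact : ∀ t ∈ X, t.out ∉ center G ∧ ∃ S : Sylow q (G ⧸ center G),
      (S : Subgroup (G ⧸ center G)) = F t ∧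
      Nat.card ((dc t.out).map (QuotientGroup.mk' (center G))) * q ^ 2 ≤ s := by
    intro t ht
    rw [hX] at ht
    have hto : orderOf t = q := (Finset.mem_filter.mp ht).2
    have hout : (QuotientGroup.mk t.out : G ⧸ center G) = t := QuotientGroup.out_eq' t
    have hZ : t.out ∉ center G := by
      intro h
      rw [← hout, (QuotientGroup.eq_one_iff _).mpr h, orderOf_one] at hto
      exact hq.one_lt.ne hto
    refine ⟨hZ, ?_⟩
    obtain ⟨_, _, S, hS, hc⟩ := sylow_of hmax hall hnn t.out hZ q (by rw [hout]; exact hto)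
    refine ⟨S, by rw [hF]; exact hS, ?_⟩
    rw [S.card_eq_multiplicity, ← hs] at hc
    exact hc
  have hqpos : 0 < q ^ 2 := pow_pos hq.pos 2
  have hfiber : ∀ T ∈ X.image F, (X.filter (fun t => F t = T)).card ≤ s / q ^ 2 := by
    intro T hT
    obtain ⟨t₀, ht₀, rfl⟩ := Finset.mem_image.mp hT
    obtain ⟨hZ₀, S₀, hS₀, hc₀⟩ := hfact t₀ ht₀
    rw [Nat.le_div_iff_mul_le hqpos]
    refine le_trans (Nat.mul_le_mul_right _ ?_) hc₀
    have hsub : ((X.filter (fun t => F t = F t₀) : Finset (G ⧸ center G)) : Set (G ⧸ center G)) ⊆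
        (((dc t₀.out).map (QuotientGroup.mk' (center G)) : Subgroup (G ⧸ center G)) :
          Set (G ⧸ center G)) := by
      intro t ht
      have ht' := Finset.mem_filter.mp (Finset.mem_coe.mp ht)
      have hFeq : F t = F t₀ := ht'.2
      have hcz : cz t.out = cz t₀.out := by
        have h1 : (F t).comap (QuotientGroup.mk' (center G)) = cz t.out := by
          rw [hF]
          apply Subgroup.comap_map_eq_self
          rw [QuotientGroup.ker_mk']
          exact center_le_cz _
        have h2 : (F t₀).comap (QuotientGroup.mk' (center G)) = cz t₀.out := by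
          rw [hF]
          apply Subgroup.comap_map_eq_self
          rw [QuotientGroup.ker_mk']
          exact center_le_cz _
        rw [← h1, ← h2, hFeq]
      have hmem : t.out ∈ dc t₀.out := by
        rw [mem_dc]
        intro h hh
        have h3 : h ∈ cz t.out := by
          rw [hcz]
          exact mem_cz.mpr hh
        exact mem_cz.mp h3
      have h4 : (QuotientGroup.mk t.out : G ⧸ center G) ∈
          (dc t₀.out).map (QuotientGroup.mk' (center G)) := Subgroup.mem_map_of_mem _ hmem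
      rw [QuotientGroup.out_eq'] at h4
      exact h4
    calc (X.filter (fun t => F t = F t₀)).card
        = ((X.filter (fun t => F t = F t₀) : Finset (G ⧸ center G)) :
            Set (G ⧸ center G)).ncard := (Set.ncard_coe_finset _).symm
      _ ≤ (((dc t₀.out).map (QuotientGroup.mk' (center G)) : Subgroup (G ⧸ center G)) :
            Set (G ⧸ center G)).ncard := Set.ncard_le_ncard hsub (Set.toFinite _)
      _ = Nat.card ((dc t₀.out).map (QuotientGroup.mk' (center G))) :=
          (Nat.card_coe_set_eq _).symm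
  have himg : (X.image F).card ≤ Nat.card (Sylow q (G ⧸ center G)) := by
    haveI : Fintype (Sylow q (G ⧸ center G)) := Fintype.ofFinite _
    have hsub : X.image F ⊆ (Finset.univ : Finset (Sylow q (G ⧸ center G))).image
        (fun S : Sylow q (G ⧸ center G) => S.toSubgroup) := by
      intro T hT
      obtain ⟨t, ht, rfl⟩ := Finset.mem_image.mp hT
      obtain ⟨_, S, hS, _⟩ := hfact t ht
      exact Finset.mem_image.mpr ⟨S, Finset.mem_univ _, hS⟩
    calc (X.image F).card ≤ _ := Finset.card_le_card hsub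
      _ ≤ (Finset.univ : Finset (Sylow q (G ⧸ center G))).card := Finset.card_image_le
      _ = Nat.card (Sylow q (G ⧸ center G)) := by
          rw [Finset.card_univ, Nat.card_eq_fintype_card]
  have hsyl : Nat.card (Sylow q (G ⧸ center G)) * s ≤ Nat.card (G ⧸ center G) := by
    obtain ⟨S₀⟩ : Nonempty (Sylow q (G ⧸ center G)) := inferInstance
    rw [Sylow.card_eq_index_normalizer S₀, hs, ← S₀.card_eq_multiplicity]
    have h1 := Subgroup.card_mul_index
      (Subgroup.normalizer ((S₀ : Subgroup (G ⧸ center G)) : Set (G ⧸ center G)))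
    have h2 : Nat.card (S₀ : Subgroup (G ⧸ center G)) ≤
        Nat.card (Subgroup.normalizer ((S₀ : Subgroup (G ⧸ center G)) : Set (G ⧸ center G))) :=
      Subgroup.card_le_of_le Subgroup.le_normalizer
    calc _ ≤ (Subgroup.normalizer ((S₀ : Subgroup (G ⧸ center G)) : Set (G ⧸ center G))).index *
          Nat.card (Subgroup.normalizer ((S₀ : Subgroup (G ⧸ center G)) : Set (G ⧸ center G))) :=
          Nat.mul_le_mul_left _ h2
      _ = _ := by
          rw [mul_comm]
          exact h1
  have h1 := Finset.card_le_mul_card_image X (s / q ^ 2) hfiber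
  calc X.card * q ^ 2 ≤ (s / q ^ 2) * (X.image F).card * q ^ 2 := Nat.mul_le_mul_right _ h1
    _ = (X.image F).card * ((s / q ^ 2) * q ^ 2) := by ring
    _ ≤ (X.image F).card * s := Nat.mul_le_mul_left _ (Nat.div_mul_le_self s (q ^ 2))
    _ ≤ Nat.card (Sylow q (G ⧸ center G)) * s := Nat.mul_le_mul_right _ himg
    _ ≤ _ := hsyl

theorem caseB2 {G : Type*} [Group G] [Finite G]
    (hmax : ∀ x : G, x ∉ center G → IsCoatom (cz x))
    (hB2 : ∀ x : G, x ∉ center G → ¬ (cz x).Normal → ∃ y ∈ cz x, y ∉ dc x)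
    (x₀ : G) (hx₀ : x₀ ∉ center G) (hnn0 : ¬ (cz x₀).Normal) : False := by
  classical
  have hnn := no_normal hmax hB2 x₀ hx₀ hnn0
  have hall : ∀ x : G, x ∉ center G → ∃ y ∈ cz x, y ∉ dc x := fun x hx => hB2 x hx (hnn x hx)
  letI : Fintype (G ⧸ center G) := Fintype.ofFinite _
  obtain ⟨n, hn⟩ : ∃ n, n = Nat.card (G ⧸ center G) := ⟨_, rfl⟩
  have hn2 : 2 ≤ n := by
    rw [hn]
    haveI : Nontrivial (G ⧸ center G) := ⟨⟨QuotientGroup.mk x₀, 1, mk_ne_one_iff.mpr hx₀⟩⟩
    exact Finite.one_lt_card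
  have hprime : ∀ t : G ⧸ center G, t ≠ 1 → (orderOf t).Prime := by
    intro t ht
    induction t using QuotientGroup.induction_on with
    | H g =>
      have hg : g ∉ center G := mk_ne_one_iff.mp ht
      exact (sylow_of hmax hall hnn g hg _ rfl).1
  have hmaps : ∀ t ∈ (Finset.univ.erase (1 : G ⧸ center G)), orderOf t ∈ Finset.Icc 2 n := by
    intro t ht
    have ht1 : t ≠ 1 := Finset.ne_of_mem_erase ht
    rw [Finset.mem_Icc]
    exact ⟨(hprime t ht1).two_le, by rw [hn]; exact orderOf_le_card⟩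
  have hsum := Finset.card_eq_sum_card_fiberwise hmaps
  have hcard1 : (Finset.univ.erase (1 : G ⧸ center G)).card = n - 1 := by
    rw [Finset.card_erase_of_mem (Finset.mem_univ _), Finset.card_univ, hn,
      Nat.card_eq_fintype_card]
  have hbound : ∀ m ∈ Finset.Icc 2 n,
      ((((Finset.univ.erase (1 : G ⧸ center G)).filter (fun t => orderOf t = m)).card : ℕ) : ℚ) ≤
        (n : ℚ) * (1 / (m : ℚ) ^ 2) := by
    intro m hm
    have hm2 : 2 ≤ m := (Finset.mem_Icc.mp hm).1
    have hmpos : (0 : ℚ) < (m : ℚ) ^ 2 := by positivity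
    rw [mul_one_div, le_div_iff₀ hmpos]
    by_cases hmp : m.Prime
    · have h1 := count_order hmax hall hnn m hmp
      have h2 : ((Finset.univ.erase (1 : G ⧸ center G)).filter (fun t => orderOf t = m)).card ≤
          (Finset.univ.filter (fun t : G ⧸ center G => orderOf t = m)).card :=
        Finset.card_le_card (Finset.filter_subset_filter _ (Finset.erase_subset _ _))
      have h3 : ((Finset.univ.erase (1 : G ⧸ center G)).filter (fun t => orderOf t = m)).card *
          m ^ 2 ≤ n := by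
        rw [hn]
        exact le_trans (Nat.mul_le_mul_right _ h2) h1
      exact_mod_cast h3
    · have h0 : (Finset.univ.erase (1 : G ⧸ center G)).filter (fun t => orderOf t = m) = ∅ := by
        rw [Finset.filter_eq_empty_iff]
        intro t ht hto
        exact hmp (hto ▸ hprime t (Finset.ne_of_mem_erase ht))
      rw [h0, Finset.card_empty]
      simp
  have hlt := sum_inv_sq_lt n hn2
  have hQ : ((n - 1 : ℕ) : ℚ) ≤ (n : ℚ) * ∑ m ∈ Finset.Icc 2 n, (1 : ℚ) / (m : ℚ) ^ 2 := by
    rw [← hcard1, hsum, Finset.mul_sum]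
    push_cast
    exact Finset.sum_le_sum hbound
  have hn0 : (0 : ℚ) < n := by exact_mod_cast (by omega : 0 < n)
  have h4 : (n : ℚ) * ∑ m ∈ Finset.Icc 2 n, (1 : ℚ) / (m : ℚ) ^ 2 <
      (n : ℚ) * (1 - 1 / (n : ℚ)) := mul_lt_mul_of_pos_left hlt hn0
  have h5 : (n : ℚ) * (1 - 1 / (n : ℚ)) = (n : ℚ) - 1 := by field_simp
  have h6 : ((n - 1 : ℕ) : ℚ) = (n : ℚ) - 1 := by
    rw [Nat.cast_sub (by omega)]
    simp
  linarith

end Cfsg.Agent.Lib.Helper22.CM
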