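import Mathlib
import Cfsg.Agent.Lib.Helper22.CM6

set_option autoImplicit false

namespace Cfsg.Agent.Lib.Helper22.CN

open Subgroup Cfsg.Agent.Lib.Helper22.CM

variable {G : Type*} [Group G]

/-- invariance of a subgroup of `N` under conjugation by a subgroup of `G` -/
def MInv (N : Subgroup G) [N.Normal] (M : Subgroup G) (L : Subgroup ↥N) : Prop :=
  ∀ m ∈ M, ∀ l ∈ L, MulAut.conjNormal m l ∈ L

/-- invariance of a subgroup of `N` under conjugation by `G` -/
def GInv (N : Subgroup G) [N.Normal] (L : Subgroup ↥N) : Prop :=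
  ∀ g : G, ∀ l ∈ L, MulAut.conjNormal g l ∈ L

theorem GInv.minv {N : Subgroup G} [N.Normal] {L : Subgroup ↥N} (h : GInv N L) (M : Subgroup G) :
    MInv N M L := fun m _ l hl => h m l hl

theorem mem_czN {N : Subgroup G} {x y : ↥N} : y ∈ cz x ↔ (y : G) ∈ cz (x : G) := by
  rw [mem_cz, mem_cz]
  constructor
  · intro h
    exact congrArg Subtype.val h
  · intro h
    exact Subtype.ext h

theorem ginv_sup {N : Subgroup G} [N.Normal] {L₁ L₂ : Subgroup ↥N} (h₁ : GInv N L₁)
    (h₂ : GInv N L₂) : GInv N (L₁ ⊔ L₂) := by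
  intro g l hl
  have hle : L₁ ⊔ L₂ ≤ (L₁ ⊔ L₂).comap (MulAut.conjNormal g : ↥N ≃* ↥N).toMonoidHom := by
    apply sup_le
    · intro a ha
      exact Subgroup.mem_comap.mpr (le_sup_left (a := L₁) (h₁ g a ha))
    · intro a ha
      exact Subgroup.mem_comap.mpr (le_sup_right (a := L₁) (h₂ g a ha))
  exact hle hl

theorem minv_sup {N : Subgroup G} [N.Normal] {M : Subgroup G} {L₁ L₂ : Subgroup ↥N}
    (h₁ : MInv N M L₁) (h₂ : MInv N M L₂) : MInv N M (L₁ ⊔ L₂) := by
  intro g hg l hl
  have hle : L₁ ⊔ L₂ ≤ (L₁ ⊔ L₂).comap (MulAut.conjNormal g : ↥N ≃* ↥N).toMonoidHom := by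
    apply sup_le
    · intro a ha
      exact Subgroup.mem_comap.mpr (le_sup_left (a := L₁) (h₁ g hg a ha))
    · intro a ha
      exact Subgroup.mem_comap.mpr (le_sup_right (a := L₁) (h₂ g hg a ha))
  exact hle hl

theorem minv_cz {N : Subgroup G} [N.Normal] (x : ↥N) : MInv N (cz (x : G)) (cz x) := by
  intro m hm l hl
  rw [mem_czN, mem_cz, MulAut.conjNormal_apply]
  have h1 : m * (x : G) = x * m := mem_cz.mp hm
  have h2 : (l : G) * x = x * l := mem_cz.mp (mem_czN.mp hl)
  calc m * (l : G) * m⁻¹ * x = m * l * (m⁻¹ * x * m) * m⁻¹ := by group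
    _ = m * l * x * m⁻¹ := by rw [show m⁻¹ * (x : G) * m = x by rw [mul_assoc, ← h1, inv_mul_cancel_left]]
    _ = m * (l * x) * m⁻¹ := by group
    _ = m * (x * l) * m⁻¹ := by rw [h2]
    _ = (m * x) * l * m⁻¹ := by group
    _ = (x * m) * l * m⁻¹ := by rw [h1]
    _ = x * (m * l * m⁻¹) := by group

theorem ginv_normal {N : Subgroup G} [N.Normal] {L : Subgroup ↥N} (h : GInv N L) : L.Normal := by
  constructor
  intro l hl n
  have := h (n : G) l hl
  have e : MulAut.conjNormal (n : G) l = n * l * n⁻¹ := by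
    apply Subtype.ext
    rw [MulAut.conjNormal_apply]
    rfl
  rw [e] at this
  exact this

theorem not_center_iff {N : Subgroup G} {x : ↥N} :
    x ∉ center ↥N ↔ ∃ y : ↥N, y * x ≠ x * y := by
  rw [Subgroup.mem_center_iff]
  constructor
  · intro h
    by_contra hcon
    apply h
    intro g
    by_contra hg
    exact hcon ⟨g, hg⟩
  · rintro ⟨y, hy⟩ h
    exact hy (h y)

/-- `G = N * C_G(x)` -/
theorem prod_eq {N : Subgroup G} [N.Normal]
    (hmax : ∀ x : ↥N, x ∉ center ↥N → IsCoatom (cz (x : G)))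
    {x : ↥N} (hx : x ∉ center ↥N) (g : G) : ∃ n : ↥N, ∃ m ∈ cz (x : G), g = n * m := by
  obtain ⟨y, hy⟩ := not_center_iff.mp hx
  have hsup : N ⊔ cz (x : G) = ⊤ := by
    apply (hmax x hx).2
    apply lt_of_le_of_ne le_sup_right
    intro h
    apply hy
    have h1 : (y : G) ∈ N ⊔ cz (x : G) := le_sup_left (b := cz (x : G)) y.2
    rw [← h] at h1
    exact Subtype.ext (mem_cz.mp h1)
  have hg : g ∈ ((N ⊔ cz (x : G) : Subgroup G) : Set G) := by
    rw [hsup]
    trivial
  rw [Subgroup.normal_mul] at hg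
  obtain ⟨n, hn, m, hm, rfl⟩ := Set.mem_mul.mp hg
  exact ⟨⟨n, hn⟩, m, hm, rfl⟩

/-- `C_N(x)` is a maximal `C_G(x)`-invariant subgroup of `N` -/
theorem max_inv {N : Subgroup G} [N.Normal]
    (hmax : ∀ x : ↥N, x ∉ center ↥N → IsCoatom (cz (x : G)))
    {x : ↥N} (hx : x ∉ center ↥N) (L : Subgroup ↥N) (hle : cz x ≤ L)
    (hinv : MInv N (cz (x : G)) L) : L = cz x ∨ L = ⊤ := by
  obtain ⟨S, hS⟩ : ∃ S : Subgroup G, ∀ g : G, g ∈ S ↔
      ∃ l : ↥N, l ∈ L ∧ ∃ m ∈ cz (x : G), g = l * m := by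
    refine ⟨{ carrier := {g | ∃ l : ↥N, l ∈ L ∧ ∃ m ∈ cz (x : G), g = l * m}
              mul_mem' := ?_
              one_mem' := ⟨1, L.one_mem, 1, (cz (x : G)).one_mem, by simp⟩
              inv_mem' := ?_ }, fun g => Iff.rfl⟩
    · rintro a b ⟨l₁, hl₁, m₁, hm₁, rfl⟩ ⟨l₂, hl₂, m₂, hm₂, rfl⟩
      refine ⟨l₁ * MulAut.conjNormal m₁ l₂, L.mul_mem hl₁ (hinv m₁ hm₁ l₂ hl₂), m₁ * m₂,
        (cz (x : G)).mul_mem hm₁ hm₂, ?_⟩
      rw [Subgroup.coe_mul, MulAut.conjNormal_apply]
      group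
    · rintro a ⟨l, hl, m, hm, rfl⟩
      refine ⟨MulAut.conjNormal m⁻¹ l⁻¹, hinv m⁻¹ ((cz (x : G)).inv_mem hm) _ (L.inv_mem hl), m⁻¹,
        (cz (x : G)).inv_mem hm, ?_⟩
      rw [MulAut.conjNormal_apply, Subgroup.coe_inv]
      group
  have hMS : cz (x : G) ≤ S := by
    intro m hm
    rw [hS]
    exact ⟨1, L.one_mem, m, hm, by simp⟩
  rcases (hmax x hx).le_iff.mp hMS with h | h
  · right
    rw [eq_top_iff]
    intro n _
    have hn : (n : G) ∈ S := by
      rw [h]
      trivial
    obtain ⟨l, hl, m, hm, e⟩ := (hS _).mp hn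
    have hm' : l⁻¹ * n ∈ cz x := by
      rw [mem_czN]
      have e2 : ((l⁻¹ * n : ↥N) : G) = m := by
        rw [Subgroup.coe_mul, e, Subgroup.coe_inv, inv_mul_cancel_left]
      rw [e2]
      exact hm
    have := L.mul_mem hl (hle hm')
    rwa [mul_inv_cancel_left] at this
  · left
    apply le_antisymm _ hle
    intro l hl
    rw [mem_czN, ← h, hS]
    exact ⟨l, hl, 1, (cz (x : G)).one_mem, by simp⟩

/-- if some element of `Z(N)` is not central in `G`, all `C_N(x)` are `G`-invariant -/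
theorem ginv_of_not_central {N : Subgroup G} [N.Normal]
    (hmax : ∀ x : ↥N, x ∉ center ↥N → IsCoatom (cz (x : G)))
    (z : ↥N) (hz : z ∈ center ↥N) (hzG : (z : G) ∉ center G)
    (x : ↥N) (hx : x ∉ center ↥N) : GInv N (cz x) := by
  have hzc := Subgroup.mem_center_iff.mp hz
  have hxz : x * z ∉ center ↥N := by
    intro h
    apply hx
    have := (center ↥N).mul_mem h ((center ↥N).inv_mem hz)
    rwa [mul_inv_cancel_right] at this
  have hczeq : cz (x * z) = cz x := by
    ext n
    rw [mem_cz, mem_cz]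
    constructor
    · intro h
      have : n * x * z = x * n * z := by
        calc n * x * z = n * (x * z) := by rw [mul_assoc]
          _ = x * z * n := h
          _ = x * (z * n) := by rw [mul_assoc]
          _ = x * (n * z) := by rw [hzc n]
          _ = x * n * z := by rw [mul_assoc]
      exact mul_right_cancel this
    · intro h
      calc n * (x * z) = n * x * z := by rw [mul_assoc]
        _ = x * n * z := by rw [h]
        _ = x * (n * z) := by rw [mul_assoc]
        _ = x * (z * n) := by rw [hzc n]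
        _ = x * z * n := by rw [mul_assoc]
  -- an element of cz x not commuting with z
  obtain ⟨g, hg⟩ : ∃ g : G, g * (z : G) ≠ z * g := by
    by_contra hcon
    apply hzG
    rw [Subgroup.mem_center_iff]
    intro g
    by_contra hne
    exact hcon ⟨g, hne⟩
  obtain ⟨n, m, hm, rfl⟩ := prod_eq hmax hx g
  have hnz : (n : G) * z = z * n := congrArg Subtype.val (hzc n)
  have hmz : m * (z : G) ≠ z * m := by
    intro h
    apply hg
    calc (n : G) * m * z = n * (m * z) := by rw [mul_assoc]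
      _ = n * (z * m) := by rw [h]
      _ = (n * z) * m := by rw [mul_assoc]
      _ = (z * n) * m := by rw [hnz]
      _ = z * (n * m) := by rw [mul_assoc]
  have hmx : m * (x : G) = x * m := mem_cz.mp hm
  have hne : cz (x : G) ≠ cz ((x * z : ↥N) : G) := by
    intro h
    rw [h] at hm
    have h2 := mem_cz.mp hm
    rw [Subgroup.coe_mul] at h2
    apply hmz
    have : (x : G) * (m * z) = x * (z * m) := by
      calc (x : G) * (m * z) = (x * m) * z := by rw [mul_assoc]
        _ = (m * x) * z := by rw [hmx]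
        _ = m * (x * z) := by rw [mul_assoc]
        _ = x * z * m := h2
        _ = x * (z * m) := by rw [mul_assoc]
    exact mul_left_cancel this
  have hsup : cz (x : G) ⊔ cz ((x * z : ↥N) : G) = ⊤ := by
    apply (hmax x hx).2
    apply lt_of_le_of_ne le_sup_left
    intro h
    apply hne
    have hle : cz ((x * z : ↥N) : G) ≤ cz (x : G) := by
      rw [h]
      exact le_sup_right
    exact (((hmax (x * z) hxz).le_iff.mp hle).resolve_left (hmax x hx).1)
  -- the normalizer of the image of cz x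
  have hT1 : cz (x : G) ≤ Subgroup.normalizer (((cz x).map N.subtype : Subgroup G) : Set G) := by
    rw [Subgroup.le_normalizer_iff]
    rintro h hh k hk
    obtain ⟨l, hl, rfl⟩ := Subgroup.mem_map.mp hk
    refine Subgroup.mem_map.mpr ⟨MulAut.conjNormal h l, minv_cz x h hh l hl, ?_⟩
    rw [Subgroup.coe_subtype, MulAut.conjNormal_apply]
  have hT2 : cz ((x * z : ↥N) : G) ≤
      Subgroup.normalizer (((cz x).map N.subtype : Subgroup G) : Set G) := by
    rw [Subgroup.le_normalizer_iff]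
    rintro h hh k hk
    obtain ⟨l, hl, rfl⟩ := Subgroup.mem_map.mp hk
    refine Subgroup.mem_map.mpr ⟨MulAut.conjNormal h l, ?_, ?_⟩
    · rw [← hczeq]
      exact minv_cz (x * z) h hh l (by rw [hczeq]; exact hl)
    · rw [Subgroup.coe_subtype, MulAut.conjNormal_apply]
  have hT : Subgroup.normalizer (((cz x).map N.subtype : Subgroup G) : Set G) = ⊤ := by
    rw [eq_top_iff, ← hsup]
    exact sup_le hT1 hT2
  intro g l hl
  have hg : g ∈ Subgroup.normalizer (((cz x).map N.subtype : Subgroup G) : Set G) := by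
    rw [hT]
    trivial
  have h1 := (Subgroup.mem_normalizer_iff.mp hg (l : G)).mp
    (Subgroup.mem_map.mpr ⟨l, hl, rfl⟩)
  obtain ⟨l', hl', e⟩ := Subgroup.mem_map.mp h1
  have e2 : MulAut.conjNormal g l = l' := by
    apply Subtype.ext
    rw [MulAut.conjNormal_apply]
    exact e.symm
  rw [e2]
  exact hl'

end Cfsg.Agent.Lib.Helper22.CN
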