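import Mathlib
import Cfsg.Agent.Lib.Helper22.CN1

set_option autoImplicit false

namespace Cfsg.Agent.Lib.Helper22.CN

open Subgroup Cfsg.Agent.Lib.Helper22.CM

theorem elemAb_of_class2 {H : Type*} [Group H] [Finite H]
    (hc : ∀ g h : H, g * h * g⁻¹ * h⁻¹ ∈ center H)
    (hpr : ∀ x : H, x ∉ center H → ∃ r : ℕ, r.Prime ∧ x ^ r ∈ center H) :
    ∃ p : ℕ, p.Prime ∧ (∀ a b : H ⧸ center H, a * b = b * a) ∧
      ∀ a : H ⧸ center H, a ^ p = 1 := by
  have hab : ∀ a b : H ⧸ center H, a * b = b * a := by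
    intro a b
    obtain ⟨g, rfl⟩ := QuotientGroup.mk_surjective a
    obtain ⟨h, rfl⟩ := QuotientGroup.mk_surjective b
    rw [← QuotientGroup.mk_mul, ← QuotientGroup.mk_mul, QuotientGroup.eq]
    have := hc h⁻¹ g⁻¹
    have e : (g * h)⁻¹ * (h * g) = h⁻¹ * g⁻¹ * h⁻¹⁻¹ * g⁻¹⁻¹ := by group
    rw [e]
    exact this
  by_cases hex : ∃ x₁ : H, x₁ ∉ center H
  · obtain ⟨x₁, hx₁⟩ := hex
    have hord : ∀ x : H, x ∉ center H →
        (orderOf (QuotientGroup.mk x : H ⧸ center H)).Prime := by
      intro x hx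
      obtain ⟨r, hr, hxr⟩ := hpr x hx
      have hd : orderOf (QuotientGroup.mk x : H ⧸ center H) ∣ r := by
        apply orderOf_dvd_of_pow_eq_one
        rw [← QuotientGroup.mk_pow, QuotientGroup.eq_one_iff]
        exact hxr
      rcases (Nat.dvd_prime hr).mp hd with h | h
      · exfalso
        rw [orderOf_eq_one_iff, QuotientGroup.eq_one_iff] at h
        exact hx h
      · rw [h]
        exact hr
    refine ⟨_, hord x₁ hx₁, hab, ?_⟩
    intro a
    obtain ⟨y, rfl⟩ := QuotientGroup.mk_surjective a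
    by_cases hy : y ∈ center H
    · rw [(QuotientGroup.eq_one_iff y).mpr hy, one_pow]
    · by_cases hpq : orderOf (QuotientGroup.mk y : H ⧸ center H) =
          orderOf (QuotientGroup.mk x₁ : H ⧸ center H)
      · rw [← hpq]
        exact pow_orderOf_eq_one _
      · exfalso
        have hcop : (orderOf (QuotientGroup.mk x₁ : H ⧸ center H)).Coprime
            (orderOf (QuotientGroup.mk y : H ⧸ center H)) :=
          (Nat.coprime_primes (hord x₁ hx₁) (hord y hy)).mpr (Ne.symm hpq)
        have hmul := (show Commute (QuotientGroup.mk x₁ : H ⧸ center H) (QuotientGroup.mk y) from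
          hab _ _).orderOf_mul_eq_mul_orderOf_of_coprime hcop
        rw [← QuotientGroup.mk_mul] at hmul
        have hxy : x₁ * y ∉ center H := by
          intro h
          rw [(QuotientGroup.eq_one_iff _).mpr h, orderOf_one] at hmul
          have h1 := (hord x₁ hx₁).one_lt
          have h2 := (hord y hy).one_lt
          have : 1 < orderOf (QuotientGroup.mk x₁ : H ⧸ center H) *
              orderOf (QuotientGroup.mk y : H ⧸ center H) := by nlinarith
          omega
        have hprm := hord (x₁ * y) hxy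
        rw [hmul] at hprm
        exact Nat.not_prime_mul (hord x₁ hx₁).ne_one (hord y hy).ne_one hprm
  · refine ⟨2, Nat.prime_two, hab, ?_⟩
    intro a
    obtain ⟨y, rfl⟩ := QuotientGroup.mk_surjective a
    have hy : y ∈ center H := by
      by_contra h
      exact hex ⟨y, h⟩
    rw [(QuotientGroup.eq_one_iff y).mpr hy, one_pow]

theorem caseAlpha {G : Type*} [Group G] [Finite G] {N : Subgroup G} [N.Normal]
    (hmax : ∀ x : ↥N, x ∉ center ↥N → IsCoatom (cz (x : G)))
    (hα : ∀ x : ↥N, x ∉ center ↥N → GInv N (cz x)) :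
    ∃ p : ℕ, p.Prime ∧ (∀ a b : ↥N ⧸ center ↥N, a * b = b * a) ∧
      ∀ a : ↥N ⧸ center ↥N, a ^ p = 1 := by
  have hcomm : ∀ x : ↥N, x ∉ center ↥N → ∀ n n' : ↥N, n * n' * n⁻¹ * n'⁻¹ ∈ cz x := by
    intro x hx n n'
    obtain ⟨y, hy⟩ := not_center_iff.mp hx
    have hyZ : y ∉ center ↥N := fun h => hy ((Subgroup.mem_center_iff.mp h x).symm)
    have hxyZ : x * y ∉ center ↥N := by
      intro h
      apply hy
      have h1 := Subgroup.mem_center_iff.mp h x
      have h2 : x * (x * y) = x * (y * x) := by rw [h1, mul_assoc]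
      exact (mul_left_cancel h2).symm
    haveI hnx : (cz x).Normal := ginv_normal (hα x hx)
    haveI hny : (cz y).Normal := ginv_normal (hα y hyZ)
    haveI hnxy : (cz (x * y)).Normal := ginv_normal (hα (x * y) hxyZ)
    have sup1 : cz x ⊔ cz y = ⊤ := by
      rcases max_inv hmax hx (cz x ⊔ cz y) le_sup_left
        ((ginv_sup (hα x hx) (hα y hyZ)).minv _) with h | h
      · exfalso
        apply hy
        have h1 : y ∈ cz x := by
          rw [← h]
          exact le_sup_right (a := cz x) (self_mem_cz y)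
        exact mem_cz.mp h1
      · exact h
    have sup2 : cz x ⊔ cz (x * y) = ⊤ := by
      rcases max_inv hmax hx (cz x ⊔ cz (x * y)) le_sup_left
        ((ginv_sup (hα x hx) (hα (x * y) hxyZ)).minv _) with h | h
      · exfalso
        apply hy
        have h1 : x * y ∈ cz x := by
          rw [← h]
          exact le_sup_right (a := cz x) (self_mem_cz (x * y))
        have h2 := mem_cz.mp h1
        have h3 : x * (y * x) = x * (x * y) := by
          rw [← mul_assoc]
          exact h2
        exact mul_left_cancel h3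
      · exact h
    have dec1 : ∀ n : ↥N, ∃ a ∈ cz x, ∃ b ∈ cz y, n = a * b := by
      intro n
      have hn : n ∈ ((cz x ⊔ cz y : Subgroup ↥N) : Set ↥N) := by
        rw [sup1]
        trivial
      rw [Subgroup.normal_mul] at hn
      obtain ⟨a, ha, b, hb, rfl⟩ := Set.mem_mul.mp hn
      exact ⟨a, ha, b, hb, rfl⟩
    have dec2 : ∀ n : ↥N, ∃ a ∈ cz x, ∃ d ∈ cz (x * y), n = a * d := by
      intro n
      have hn : n ∈ ((cz x ⊔ cz (x * y) : Subgroup ↥N) : Set ↥N) := by
        rw [sup2]
        trivial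
      rw [Subgroup.normal_mul] at hn
      obtain ⟨a, ha, b, hb, rfl⟩ := Set.mem_mul.mp hn
      exact ⟨a, ha, b, hb, rfl⟩
    have hq1 : ∀ a ∈ cz x, (QuotientGroup.mk a : ↥N ⧸ cz x) = 1 := fun a ha =>
      (QuotientGroup.eq_one_iff a).mpr ha
    have key : ∀ b : ↥N, ∀ b' ∈ cz y, (QuotientGroup.mk b : ↥N ⧸ cz x) * QuotientGroup.mk b' =
        QuotientGroup.mk b' * QuotientGroup.mk b := by
      intro b b' hb'
      obtain ⟨a, ha, d, hd, rfl⟩ := dec2 b
      rw [QuotientGroup.mk_mul, hq1 a ha, one_mul]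
      have hcx : d * b' * d⁻¹ * b'⁻¹ ∈ cz x := by
        have h1 : d * b' * d⁻¹ * b'⁻¹ ∈ cz (x * y) := by
          have h0 := hnxy.conj_mem d⁻¹ ((cz (x * y)).inv_mem hd) b'
          have h2 := (cz (x * y)).mul_mem hd h0
          have e : d * (b' * d⁻¹ * b'⁻¹) = d * b' * d⁻¹ * b'⁻¹ := by group
          rwa [e] at h2
        have h2 : d * b' * d⁻¹ * b'⁻¹ ∈ cz y := by
          have h0 := hny.conj_mem b' hb' d
          exact (cz y).mul_mem h0 ((cz y).inv_mem hb')
        rw [mem_cz] at h1 h2 ⊢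
        exact comm_of_comm_mul' h2 h1
      have h3 := (QuotientGroup.eq_one_iff _).mpr hcx
      simp only [QuotientGroup.mk_mul, QuotientGroup.mk_inv] at h3
      rw [mul_inv_eq_one, mul_inv_eq_iff_eq_mul] at h3
      exact h3
    obtain ⟨a, ha, b, hb, rfl⟩ := dec1 n
    obtain ⟨a', ha', b', hb', rfl⟩ := dec1 n'
    rw [← QuotientGroup.eq_one_iff]
    simp only [QuotientGroup.mk_mul, QuotientGroup.mk_inv]
    rw [hq1 a ha, hq1 a' ha', one_mul, one_mul, key b b' hb']
    group
  have hc : ∀ g h : ↥N, g * h * g⁻¹ * h⁻¹ ∈ center ↥N := by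
    intro g h
    rw [Subgroup.mem_center_iff]
    intro x
    by_cases hx : x ∈ center ↥N
    · exact (Subgroup.mem_center_iff.mp hx _).symm
    · exact (mem_cz.mp (hcomm x hx g h)).symm
  have hpr : ∀ x : ↥N, x ∉ center ↥N → ∃ r : ℕ, r.Prime ∧ x ^ r ∈ center ↥N := by
    intro x hx
    haveI hnx : (cz x).Normal := ginv_normal (hα x hx)
    have hQab : ∀ a b : ↥N ⧸ cz x, a * b = b * a := by
      intro a b
      obtain ⟨n, rfl⟩ := QuotientGroup.mk_surjective a
      obtain ⟨n', rfl⟩ := QuotientGroup.mk_surjective b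
      have h3 := (QuotientGroup.eq_one_iff _).mpr (hcomm x hx n n')
      simp only [QuotientGroup.mk_mul, QuotientGroup.mk_inv] at h3
      rw [mul_inv_eq_one, mul_inv_eq_iff_eq_mul] at h3
      exact h3
    obtain ⟨y, hy⟩ := not_center_iff.mp hx
    have hQ1 : Nat.card (↥N ⧸ cz x) ≠ 1 := by
      intro h
      apply hy
      have h1 : (QuotientGroup.mk y : ↥N ⧸ cz x) = 1 := by
        haveI := (Nat.card_eq_one_iff_unique.mp h).1
        exact Subsingleton.elim _ _
      exact mem_cz.mp ((QuotientGroup.eq_one_iff y).mp h1)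
    obtain ⟨r, hr, hrd⟩ := Nat.exists_prime_and_dvd hQ1
    haveI := Fact.mk hr
    obtain ⟨t, ht⟩ := exists_prime_orderOf_dvd_card' r hrd
    obtain ⟨L, hL⟩ : ∃ L : Subgroup ↥N, ∀ n, n ∈ L ↔ n ^ r ∈ cz x := by
      refine ⟨{ carrier := {n | n ^ r ∈ cz x}
                mul_mem' := ?_
                one_mem' := ?_
                inv_mem' := ?_ }, fun n => Iff.rfl⟩
      · intro a b ha hb
        show (a * b) ^ r ∈ cz x
        rw [← QuotientGroup.eq_one_iff, QuotientGroup.mk_pow, QuotientGroup.mk_mul,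
          (show Commute (QuotientGroup.mk a : ↥N ⧸ cz x) (QuotientGroup.mk b) from
            hQab _ _).mul_pow, ← QuotientGroup.mk_pow, ← QuotientGroup.mk_pow,
          (QuotientGroup.eq_one_iff _).mpr ha, (QuotientGroup.eq_one_iff _).mpr hb, one_mul]
      · show (1 : ↥N) ^ r ∈ cz x
        rw [one_pow]
        exact (cz x).one_mem
      · intro a ha
        show a⁻¹ ^ r ∈ cz x
        rw [inv_pow]
        exact (cz x).inv_mem ha
    have hLinv : GInv N L := by
      intro g l hl
      rw [hL] at hl ⊢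
      rw [← map_pow]
      exact hα x hx g _ hl
    have hle : cz x ≤ L := fun n hn => (hL n).mpr ((cz x).pow_mem hn r)
    have hLtop : L = ⊤ := by
      rcases max_inv hmax hx L hle (hLinv.minv _) with h | h
      · exfalso
        obtain ⟨n, rfl⟩ := QuotientGroup.mk_surjective t
        have hn : n ∈ L := by
          rw [hL, ← QuotientGroup.eq_one_iff, QuotientGroup.mk_pow]
          have h0 := pow_orderOf_eq_one (QuotientGroup.mk n : ↥N ⧸ cz x)
          rw [ht] at h0
          exact h0
        rw [h] at hn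
        have h1 : (QuotientGroup.mk n : ↥N ⧸ cz x) = 1 := (QuotientGroup.eq_one_iff n).mpr hn
        rw [h1, orderOf_one] at ht
        exact hr.one_lt.ne ht
      · exact h
    refine ⟨r, hr, ?_⟩
    rw [Subgroup.mem_center_iff]
    intro n
    have hnr : n ^ r ∈ cz x := (hL n).mp (by rw [hLtop]; trivial)
    have e1 : n * (x ^ r) * n⁻¹ * (x ^ r)⁻¹ = 1 := by
      rw [comm_pow_right hc, ← comm_pow_left hc]
      have h0 := mem_cz.mp hnr
      rw [h0]
      group
    have e2 : n * x ^ r = (n * (x ^ r) * n⁻¹ * (x ^ r)⁻¹) * (x ^ r * n) := by group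
    rw [e2, e1, one_mul]
  exact elemAb_of_class2 hc hpr

end Cfsg.Agent.Lib.Helper22.CN
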