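import Mathlib
import Cfsg.Agent.Lib.Helper22.CN2

set_option autoImplicit false

namespace Cfsg.Agent.Lib.Helper22.CN

open Subgroup Cfsg.Agent.Lib.Helper22.CM

variable {G : Type*} [Group G] {N : Subgroup G}

theorem czN_eq_of_mem_dc (hmax : ∀ x : ↥N, x ∉ center ↥N → IsCoatom (cz (x : G)))
    {x y : ↥N} (hx : x ∉ center ↥N) (hy : (y : G) ∈ dc (x : G)) (hyZ : y ∉ center ↥N) :
    cz (y : G) = cz (x : G) := by
  have hle : cz (x : G) ≤ cz (y : G) := fun g hg => mem_cz.mpr (mem_dc.mp hy g (mem_cz.mp hg))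
  exact ((hmax x hx).le_iff.mp hle).resolve_left (hmax y hyZ).1

theorem pow_mem_centerN (hmax : ∀ x : ↥N, x ∉ center ↥N → IsCoatom (cz (x : G)))
    (hZG : ∀ z : ↥N, z ∈ center ↥N → (z : G) ∈ center G)
    {x y : ↥N} (hx : x ∉ center ↥N) (hy : y ∉ center ↥N) (hxy : x * y = y * x)
    (hne : cz (x : G) ≠ cz (y : G)) (k : ℕ) (hk : x ^ k ∈ center ↥N) : y ^ k ∈ center ↥N := by
  by_contra hyk
  have h1 : cz ((y ^ k : ↥N) : G) = cz (y : G) :=
    czN_eq_of_mem_dc hmax hy (by rw [Subgroup.coe_pow]; exact pow_mem (self_mem_dc (y : G)) k) hyk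
  have hxyZ : x * y ∉ center ↥N := by
    intro h
    apply hne
    have hc' := Subgroup.mem_center_iff.mp (hZG _ h)
    ext g
    rw [mem_cz, mem_cz]
    have hc := hc' g
    rw [Subgroup.coe_mul] at hc
    exact ⟨fun hg => comm_of_comm_mul hg hc, fun hg => comm_of_comm_mul' hg hc⟩
  have hpow : (x * y) ^ k = x ^ k * y ^ k := Commute.mul_pow hxy k
  have hxykZ : (x * y) ^ k ∉ center ↥N := by
    rw [hpow]
    intro h
    apply hyk
    have := Subgroup.mul_mem _ (Subgroup.inv_mem _ hk) h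
    rwa [inv_mul_cancel_left] at this
  have h2 : cz (((x * y) ^ k : ↥N) : G) = cz ((x * y : ↥N) : G) :=
    czN_eq_of_mem_dc hmax hxyZ
      (by rw [Subgroup.coe_pow]; exact pow_mem (self_mem_dc _) k) hxykZ
  have h3 : cz (((x * y) ^ k : ↥N) : G) = cz ((y ^ k : ↥N) : G) := by
    ext g
    rw [mem_cz, mem_cz, hpow, Subgroup.coe_mul]
    have hc := (Subgroup.mem_center_iff.mp (hZG _ hk) g)
    exact ⟨fun hg => comm_of_comm_mul hc hg, fun hg => comm_mul_of_comm hc hg⟩
  have h4 : cz ((x * y : ↥N) : G) = cz (y : G) := by rw [← h2, h3, h1]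
  have h5 : cz (y : G) ≤ cz (x : G) := by
    intro g hg
    have hg' : g ∈ cz ((x * y : ↥N) : G) := by
      rw [h4]
      exact hg
    rw [mem_cz] at hg hg' ⊢
    rw [Subgroup.coe_mul] at hg'
    exact comm_of_comm_mul' hg hg'
  exact hne (((hmax y hy).le_iff.mp h5).resolve_left (hmax x hx).1)

theorem order_eqN [Finite G] (hmax : ∀ x : ↥N, x ∉ center ↥N → IsCoatom (cz (x : G)))
    (hZG : ∀ z : ↥N, z ∈ center ↥N → (z : G) ∈ center G)
    {x y : ↥N} (hx : x ∉ center ↥N) (hy : y ∉ center ↥N) (hxy : x * y = y * x)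
    (hne : cz (x : G) ≠ cz (y : G)) :
    orderOf (QuotientGroup.mk x : ↥N ⧸ center ↥N) =
      orderOf (QuotientGroup.mk y : ↥N ⧸ center ↥N) := by
  rw [orderOf_eq_orderOf_iff]
  intro n
  rw [← QuotientGroup.mk_pow, ← QuotientGroup.mk_pow, QuotientGroup.eq_one_iff,
    QuotientGroup.eq_one_iff]
  exact ⟨pow_mem_centerN hmax hZG hx hy hxy hne n,
    pow_mem_centerN hmax hZG hy hx hxy.symm (Ne.symm hne) n⟩

theorem order_primeN [Finite G] (hmax : ∀ x : ↥N, x ∉ center ↥N → IsCoatom (cz (x : G)))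
    (hZG : ∀ z : ↥N, z ∈ center ↥N → (z : G) ∈ center G)
    {x y : ↥N} (hx : x ∉ center ↥N) (hy : y ∉ center ↥N) (hxy : x * y = y * x)
    (hne : cz (x : G) ≠ cz (y : G)) :
    (orderOf (QuotientGroup.mk x : ↥N ⧸ center ↥N)).Prime := by
  obtain ⟨m, hm⟩ : ∃ m, m = orderOf (QuotientGroup.mk x : ↥N ⧸ center ↥N) := ⟨_, rfl⟩
  rw [← hm]
  have hm1 : m ≠ 1 := by
    rw [hm, Ne, orderOf_eq_one_iff, QuotientGroup.eq_one_iff]
    exact hx
  have hmpos : 0 < m := by
    rw [hm]
    exact orderOf_pos _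
  have hp : m.minFac.Prime := Nat.minFac_prime hm1
  have hpd : m.minFac ∣ m := Nat.minFac_dvd m
  have hxp : x ^ m.minFac ∈ center ↥N := by
    by_contra h
    have hcz : cz ((x ^ m.minFac : ↥N) : G) = cz (x : G) :=
      czN_eq_of_mem_dc hmax hx
        (by rw [Subgroup.coe_pow]; exact pow_mem (self_mem_dc (x : G)) _) h
    have hcomm : x ^ m.minFac * y = y * x ^ m.minFac :=
      ((Commute.pow_left hxy _ : Commute _ _)).eq
    have e1 := order_eqN hmax hZG h hy hcomm (by rw [hcz]; exact hne)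
    have e2 := order_eqN hmax hZG hx hy hxy hne
    have e3 : orderOf ((QuotientGroup.mk x : ↥N ⧸ center ↥N) ^ m.minFac) =
        orderOf (QuotientGroup.mk x : ↥N ⧸ center ↥N) := by
      rw [← QuotientGroup.mk_pow]
      exact e1.trans e2.symm
    rw [orderOf_pow_of_dvd hp.ne_zero (by rw [← hm]; exact hpd), ← hm] at e3
    have : m / m.minFac < m := Nat.div_lt_self hmpos hp.one_lt
    omega
  have hdvd : m ∣ m.minFac := by
    rw [hm]
    apply orderOf_dvd_of_pow_eq_one
    rw [← QuotientGroup.mk_pow, QuotientGroup.eq_one_iff, ← hm]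
    exact hxp
  rcases (Nat.dvd_prime hp).mp hdvd with h | h
  · exact absurd h hm1
  · rw [h]
    exact hp

/-- a maximal centralizer of non-abelian type has prime exponent modulo the centre of `N` -/
theorem exponent_primeN [Finite G] (hmax : ∀ x : ↥N, x ∉ center ↥N → IsCoatom (cz (x : G)))
    (hZG : ∀ z : ↥N, z ∈ center ↥N → (z : G) ∈ center G)
    {a y : ↥N} (ha : a ∉ center ↥N) (hy : y ∈ cz a) (hy' : (y : G) ∉ dc (a : G)) :
    ∃ p : ℕ, p.Prime ∧ ∀ x ∈ cz a, x ∉ center ↥N →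
      orderOf (QuotientGroup.mk x : ↥N ⧸ center ↥N) = p := by
  have hyZ : y ∉ center ↥N := fun h => hy' (center_le_dc (a : G) (hZG y h))
  have hne : ∀ x ∈ cz a, (x : G) ∉ dc (a : G) → cz (a : G) ≠ cz (x : G) := by
    intro x _ hx' h
    apply hx'
    rw [mem_dc]
    intro g hg
    have : g ∈ cz (x : G) := by
      rw [← h]
      exact mem_cz.mpr hg
    exact mem_cz.mp this
  have hay : a * y = y * a := (mem_cz.mp hy).symm
  have e1 := order_eqN hmax hZG ha hyZ hay (hne y hy hy')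
  have pr := order_primeN hmax hZG ha hyZ hay (hne y hy hy')
  refine ⟨_, pr, ?_⟩
  intro x hx hxZ
  by_cases hxd : (x : G) ∈ dc (a : G)
  · have hcz : cz (x : G) = cz (a : G) := czN_eq_of_mem_dc hmax ha hxd hxZ
    have hxy : x * y = y * x := by
      have h1 : (y : G) ∈ cz (x : G) := by
        rw [hcz]
        exact mem_czN.mp hy
      exact (Subtype.ext (mem_cz.mp h1)).symm
    have e2 := order_eqN hmax hZG hxZ hyZ hxy (by rw [hcz]; exact hne y hy hy')
    rw [e2, e1]
  · have hax : a * x = x * a := (mem_cz.mp hx).symm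
    exact (order_eqN hmax hZG ha hxZ hax (hne x hx hxd)).symm

/-- An abelian self-normalizing TI subgroup has a normal complement (transfer), second form. -/
theorem frob_abelian2 {Q : Type*} [Group Q] [Finite Q] (H : Subgroup Q)
    (hab : ∀ x ∈ H, ∀ y ∈ H, x * y = y * x)
    (hTI : ∀ g : Q, g ∉ H → ∀ x ∈ H, g * x * g⁻¹ ∈ H → x = 1)
    (hH : H ≠ ⊤) :
    ∃ K : Subgroup Q, K.Normal ∧ K ⊓ H = ⊥ ∧ K ≠ ⊥ ∧ (Nat.card H).Coprime H.index ∧
      (∀ g : Q, g ∉ K → ∃ c : Q, c⁻¹ * g * c ∈ H) ∧ K ⊔ H = ⊤ ∧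
      ∀ a b : Q, a * b * a⁻¹ * b⁻¹ ∈ K := by
  classical
  letI : CommGroup H := { (inferInstance : Group H) with
    mul_comm := fun a b => Subtype.ext (hab a.1 a.2 b.1 b.2) }
  have hcop : (Nat.card H).Coprime H.index := by
    apply Nat.coprime_of_dvd
    intro r hr hrH hrn
    haveI := Fact.mk hr
    obtain ⟨x, hx⟩ := exists_prime_orderOf_dvd_card' r hrH
    have hxQ : orderOf (x : Q) = r := by
      rw [Subgroup.orderOf_coe]
      exact hx
    have hpg : IsPGroup r (Subgroup.zpowers (x : Q)) :=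
      IsPGroup.of_card (n := 1) (by rw [Nat.card_zpowers, hxQ, pow_one])
    obtain ⟨S, hS⟩ := hpg.exists_le_sylow
    have hxS : (x : Q) ∈ (S : Subgroup Q) := hS (Subgroup.mem_zpowers _)
    have hx1 : (x : Q) ≠ 1 := by
      intro h
      rw [h, orderOf_one] at hxQ
      exact hr.one_lt.ne hxQ
    haveI : Nontrivial (S : Subgroup Q) :=
      ⟨⟨⟨x, hxS⟩, 1, fun h => hx1 (congrArg Subtype.val h)⟩⟩
    haveI := S.isPGroup'.center_nontrivial
    obtain ⟨z, hz⟩ := exists_ne (1 : Subgroup.center (S : Subgroup Q))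
    have hz1 : (z.1.1 : Q) ≠ 1 := by
      intro h
      apply hz
      apply Subtype.ext
      apply Subtype.ext
      exact h
    have hzc : ∀ s : (S : Subgroup Q), (s : Q) * z.1.1 = z.1.1 * s := by
      intro s
      have := Subgroup.mem_center_iff.mp z.2 s
      exact congrArg Subtype.val this
    have hzH : (z.1.1 : Q) ∈ H := by
      by_contra hcon
      apply hx1
      apply hTI _ hcon (x : Q) x.2
      have := hzc ⟨x, hxS⟩
      have e : (z.1.1 : Q) * x * (z.1.1 : Q)⁻¹ = x := by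
        rw [← this, mul_inv_cancel_right]
      rw [e]
      exact x.2
    have hSH : (S : Subgroup Q) ≤ H := by
      intro y hy
      by_contra hcon
      apply hz1
      apply hTI _ hcon _ hzH
      have := hzc ⟨y, hy⟩
      have e : y * (z.1.1 : Q) * y⁻¹ = z.1.1 := by
        rw [this, mul_inv_cancel_right]
      rw [e]
      exact hzH
    have h1 := S.not_dvd_index
    exact h1 (hrn.trans (Subgroup.index_dvd_of_le hSH))
  have hVH : ∀ h : H, MonoidHom.transfer (MonoidHom.id H) (h : Q) = h ^ H.index := by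
    intro h
    have key : ∀ (k : ℕ) (g₀ : Q), g₀⁻¹ * (h : Q) ^ k * g₀ ∈ H →
        g₀⁻¹ * (h : Q) ^ k * g₀ = (h : Q) ^ k := by
      intro k g₀ hk
      by_cases hg : g₀ ∈ H
      · have := hab g₀ hg ((h : Q) ^ k) (H.pow_mem h.2 k)
        rw [mul_assoc, ← this, inv_mul_cancel_left]
      · have hg' : g₀⁻¹ ∉ H := fun h' => hg (by simpa using H.inv_mem h')
        have h1 := hTI g₀⁻¹ hg' ((h : Q) ^ k) (H.pow_mem h.2 k) (by rwa [inv_inv])
        rw [h1]
        group
    have := MonoidHom.transfer_eq_pow (MonoidHom.id H) (h : Q) key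
    rw [this]
    apply Subtype.ext
    simp
  refine ⟨(MonoidHom.transfer (MonoidHom.id H)).ker, MonoidHom.normal_ker _, ?_, ?_, hcop, ?_,
    ?_, ?_⟩
  · rw [eq_bot_iff]
    rintro x ⟨hxK, hxH⟩
    rw [Subgroup.mem_bot]
    have h1 : MonoidHom.transfer (MonoidHom.id H) x = 1 := MonoidHom.mem_ker.mp hxK
    have h2 : (⟨x, hxH⟩ : H) ^ H.index = 1 := by
      rw [← hVH ⟨x, hxH⟩]
      exact h1
    have h3 : (⟨x, hxH⟩ : H) ^ Nat.card H = 1 := pow_card_eq_one'
    have h4 : orderOf (⟨x, hxH⟩ : H) ∣ Nat.gcd (Nat.card H) H.index :=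
      Nat.dvd_gcd (orderOf_dvd_of_pow_eq_one h3) (orderOf_dvd_of_pow_eq_one h2)
    rw [hcop.gcd_eq_one, Nat.dvd_one, orderOf_eq_one_iff] at h4
    exact congrArg Subtype.val h4
  · intro hK
    apply hH
    have hinj : Function.Injective (MonoidHom.transfer (MonoidHom.id H)) :=
      (MonoidHom.ker_eq_bot_iff _).mp hK
    exact Subgroup.eq_top_of_le_card H (Nat.card_le_card_of_injective _ hinj)
  · intro g hg
    have hVg : MonoidHom.transfer (MonoidHom.id H) g ≠ 1 := fun h => hg (MonoidHom.mem_ker.mpr h)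
    haveI : Fintype (Quotient (MulAction.orbitRel (Subgroup.zpowers g) (Q ⧸ H))) :=
      Fintype.ofFinite _
    rw [MonoidHom.transfer_eq_prod_quotient_orbitRel_zpowers_quot (MonoidHom.id H) g] at hVg
    obtain ⟨q, _, hq⟩ := Finset.exists_ne_one_of_prod_ne_one hVg
    have hw : q.out.out⁻¹ * g ^ Function.minimalPeriod (g • ·) q.out * q.out.out ∈ H :=
      QuotientGroup.out_conj_pow_minimalPeriod_mem H g q.out
    have hw1 : q.out.out⁻¹ * g ^ Function.minimalPeriod (g • ·) q.out * q.out.out ≠ 1 := by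
      intro h
      apply hq
      rw [MonoidHom.id_apply]
      exact Subtype.ext h
    refine ⟨q.out.out, ?_⟩
    by_contra hcon
    have e : (q.out.out⁻¹ * g * q.out.out) *
        (q.out.out⁻¹ * g ^ Function.minimalPeriod (g • ·) q.out * q.out.out) *
        (q.out.out⁻¹ * g * q.out.out)⁻¹ =
        q.out.out⁻¹ * g ^ Function.minimalPeriod (g • ·) q.out * q.out.out := by
      have h1 : g * g ^ Function.minimalPeriod (g • ·) q.out * g⁻¹ =
          g ^ Function.minimalPeriod (g • ·) q.out := by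
        rw [← pow_succ', pow_succ, mul_inv_cancel_right]
      calc _ = q.out.out⁻¹ * (g * g ^ Function.minimalPeriod (g • ·) q.out * g⁻¹) * q.out.out := by
            group
        _ = _ := by rw [h1]
    exact hw1 (hTI _ hcon _ hw (by rw [e]; exact hw))
  · rw [eq_top_iff]
    intro g _
    obtain ⟨h, hh⟩ : ∃ h : H, h ^ H.index = MonoidHom.transfer (MonoidHom.id H) g :=
      ⟨(powCoprime hcop).symm (MonoidHom.transfer (MonoidHom.id H) g),
        (powCoprime hcop).apply_symm_apply _⟩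
    have hk : g * (h : Q)⁻¹ ∈ (MonoidHom.transfer (MonoidHom.id H)).ker := by
      rw [MonoidHom.mem_ker, map_mul, map_inv, hVH h, hh, mul_inv_cancel]
    have e : g = g * (h : Q)⁻¹ * h := by group
    rw [e]
    exact Subgroup.mul_mem _ (le_sup_left (b := H) hk) (le_sup_right (a := (MonoidHom.transfer (MonoidHom.id H)).ker) h.2)
  · intro a b
    rw [MonoidHom.mem_ker, map_mul, map_mul, map_mul, map_inv, map_inv,
      mul_comm (MonoidHom.transfer (MonoidHom.id H) a), mul_inv_cancel_right, mul_inv_cancel]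

end Cfsg.Agent.Lib.Helper22.CN
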