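import Mathlib
import Cfsg.Agent.Lib.Helper22.CN3

set_option autoImplicit false

namespace Cfsg.Agent.Lib.Helper22.CN

open Subgroup Cfsg.Agent.Lib.Helper22.CM
open scoped Pointwise

set_option maxHeartbeats 3200000 in
theorem caseBeta1 {G : Type*} [Group G] [Finite G] {N : Subgroup G} [N.Normal]
    (hmax : ∀ x : ↥N, x ∉ center ↥N → IsCoatom (cz (x : G)))
    (hZG : ∀ z : ↥N, z ∈ center ↥N → (z : G) ∈ center G)
    (x : ↥N) (hx : x ∉ center ↥N) (hnn : ¬ GInv N (cz x))
    (hab0 : ∀ y ∈ cz x, (y : G) ∈ dc (x : G)) :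
    ∃ (Qc K : Subgroup (↥N ⧸ center ↥N)) (p : ℕ), p.Prime ∧
      (Qc ≠ ⊥ ∧ Qc ≠ ⊤ ∧ ∀ g : ↥N ⧸ center ↥N, g ∉ Qc → Qc ⊓ (MulAut.conj g • Qc) = ⊥) ∧
      (Nat.card Qc).Prime ∧ K.Normal ∧
      (K : Set (↥N ⧸ center ↥N)) =
        {t | t = 1 ∨ ∀ g : ↥N ⧸ center ↥N, t ∉ MulAut.conj g • Qc} ∧
      (∀ a ∈ K, ∀ b ∈ K, a * b = b * a) ∧ ∀ a ∈ K, a ^ p = 1 := by
  classical
  have hZD : center ↥N ≤ cz x := center_le_cz x
  obtain ⟨H, hHdef⟩ : ∃ H : Subgroup (↥N ⧸ center ↥N),
      H = (cz x).map (QuotientGroup.mk' (center ↥N)) := ⟨_, rfl⟩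
  have hmem : ∀ n : ↥N, (QuotientGroup.mk n : ↥N ⧸ center ↥N) ∈ H ↔ n ∈ cz x := by
    rw [hHdef]
    exact mem_map_mk_iff (center ↥N) (cz x) hZD
  have hDab : ∀ y ∈ cz x, ∀ y' ∈ cz x, y * y' = y' * y := by
    intro y hy y' hy'
    have h0 := mem_dc.mp (hab0 y' hy') (y : G) (mem_cz.mp (mem_czN.mp hy))
    exact Subtype.ext h0
  have hHab : ∀ a ∈ H, ∀ b ∈ H, a * b = b * a := by
    intro a ha b hb
    obtain ⟨g, rfl⟩ := QuotientGroup.mk_surjective a
    obtain ⟨g', rfl⟩ := QuotientGroup.mk_surjective b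
    rw [← QuotientGroup.mk_mul, ← QuotientGroup.mk_mul,
      hDab g ((hmem g).mp ha) g' ((hmem g').mp hb)]
  have hczM : ∀ y ∈ cz x, y ∉ center ↥N → cz (y : G) = cz (x : G) := fun y hy hyZ =>
    czN_eq_of_mem_dc hmax hx (hab0 y hy) hyZ
  have hMnn : ¬ (cz (x : G)).Normal := by
    intro hN
    apply hnn
    intro g l hl
    rw [mem_czN, MulAut.conjNormal_apply]
    exact hN.conj_mem _ (mem_czN.mp hl) g
  have hMco := hmax x hx
  have hnorm : ∀ g : G, (∀ m, m ∈ cz (x : G) ↔ g * m * g⁻¹ ∈ cz (x : G)) → g ∈ cz (x : G) := by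
    intro g hg
    have h1 : g ∈ Subgroup.normalizer ((cz (x : G) : Subgroup G) : Set G) :=
      Subgroup.mem_normalizer_iff.mpr hg
    rcases hMco.le_iff.mp (Subgroup.le_normalizer (H := cz (x : G))) with h | h
    · exact absurd (Subgroup.normalizer_eq_top_iff.mp h) hMnn
    · rw [h] at h1
      exact h1
  have hZconj : ∀ (g : G) (w : ↥N), MulAut.conjNormal g w ∈ center ↥N → w ∈ center ↥N := by
    intro g w h
    have h1 := hZG _ h
    rw [MulAut.conjNormal_apply] at h1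
    have h2 := Subgroup.mem_center_iff.mp h1 g
    have e : MulAut.conjNormal g w = w := by
      apply Subtype.ext
      rw [MulAut.conjNormal_apply]
      have h3 : g * (g * (w : G) * g⁻¹) = g * w := by
        rw [h2]
        group
      exact mul_left_cancel h3
    rw [← e]
    exact h
  have hZc : ∀ (c w : ↥N), c * w * c⁻¹ ∈ center ↥N → w ∈ center ↥N := by
    intro c w h
    have h0 := (inferInstance : (center ↥N).Normal).conj_mem _ h c⁻¹
    have e : c⁻¹ * (c * w * c⁻¹) * c⁻¹⁻¹ = w := by group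
    rwa [e] at h0
  have hTI : ∀ t : ↥N ⧸ center ↥N, t ∉ H → ∀ u ∈ H, t * u * t⁻¹ ∈ H → u = 1 := by
    intro t ht u hu htu
    obtain ⟨n, rfl⟩ := QuotientGroup.mk_surjective t
    obtain ⟨d, rfl⟩ := QuotientGroup.mk_surjective u
    rw [QuotientGroup.eq_one_iff]
    by_contra hdZ
    have hdD : d ∈ cz x := (hmem d).mp hu
    have hnd : n * d * n⁻¹ ∈ cz x := by
      rw [← hmem]
      simpa using htu
    have hndZ : n * d * n⁻¹ ∉ center ↥N := fun h => hdZ (hZc n d h)
    have c1 := hczM d hdD hdZ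
    have c2 := hczM _ hnd hndZ
    apply ht
    rw [hmem, mem_czN]
    apply hnorm
    intro m
    have key : m ∈ cz (d : G) ↔ (n : G) * m * (n : G)⁻¹ ∈ cz ((n * d * n⁻¹ : ↥N) : G) := by
      have e : ((n * d * n⁻¹ : ↥N) : G) = (n : G) * d * (n : G)⁻¹ := by simp
      rw [mem_cz, mem_cz, e]
      constructor
      · intro h
        calc (n : G) * m * (n : G)⁻¹ * ((n : G) * d * (n : G)⁻¹)
            = n * (m * d) * (n : G)⁻¹ := by group
          _ = n * (d * m) * (n : G)⁻¹ := by rw [h]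
          _ = (n : G) * d * (n : G)⁻¹ * (n * m * (n : G)⁻¹) := by group
      · intro h
        have h3 : (n : G) * (m * d) * (n : G)⁻¹ = n * (d * m) * (n : G)⁻¹ := by
          calc (n : G) * (m * d) * (n : G)⁻¹
              = n * m * (n : G)⁻¹ * (n * d * (n : G)⁻¹) := by group
            _ = (n : G) * d * (n : G)⁻¹ * (n * m * (n : G)⁻¹) := h
            _ = n * (d * m) * (n : G)⁻¹ := by group
        exact mul_left_cancel (mul_right_cancel h3)
    rw [c1, c2] at key
    exact key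
  have hHtop : H ≠ ⊤ := by
    intro h
    apply hx
    rw [Subgroup.mem_center_iff]
    intro n
    have h1 : (QuotientGroup.mk n : ↥N ⧸ center ↥N) ∈ H := by
      rw [h]
      trivial
    exact mem_cz.mp ((hmem n).mp h1)
  obtain ⟨K, hKn, hKH, hK1, hcop, hconj, hsup, hcommK⟩ := frob_abelian2 H hHab hTI hHtop
  haveI := hKn
  have hxH : (QuotientGroup.mk x : ↥N ⧸ center ↥N) ∈ H := (hmem x).mpr (self_mem_cz x)
  have hx1 : (QuotientGroup.mk x : ↥N ⧸ center ↥N) ≠ 1 := by
    rw [Ne, QuotientGroup.eq_one_iff]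
    exact hx
  have hKtop : K ≠ ⊤ := by
    intro h
    rw [h, top_inf_eq] at hKH
    rw [hKH, Subgroup.mem_bot] at hxH
    exact hx1 hxH
  have hKG : ∀ (g : G) (k : ↥N), (QuotientGroup.mk k : ↥N ⧸ center ↥N) ∈ K →
      (QuotientGroup.mk (MulAut.conjNormal g k) : ↥N ⧸ center ↥N) ∈ K := by
    intro g k hk
    by_contra hcon
    obtain ⟨c', hc'⟩ := hconj _ hcon
    obtain ⟨c, rfl⟩ := QuotientGroup.mk_surjective c'
    have hwD : c⁻¹ * MulAut.conjNormal g k * c ∈ cz x := by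
      rw [← hmem]
      simpa using hc'
    have hwZ : c⁻¹ * MulAut.conjNormal g k * c ∉ center ↥N := by
      intro h
      apply hcon
      have h2 : MulAut.conjNormal g k ∈ center ↥N := by
        apply hZc c⁻¹
        rw [inv_inv]
        exact h
      rw [(QuotientGroup.eq_one_iff _).mpr h2]
      exact K.one_mem
    obtain ⟨n, m, hm, e⟩ := prod_eq hmax hx ((c : G)⁻¹ * g)⁻¹
    have hw' : MulAut.conjNormal m (c⁻¹ * MulAut.conjNormal g k * c) ∈ cz x :=
      minv_cz x m hm _ hwD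
    have hw'Z : MulAut.conjNormal m (c⁻¹ * MulAut.conjNormal g k * c) ∉ center ↥N :=
      fun h => hwZ (hZconj m _ h)
    have e2 : n⁻¹ * k * n = MulAut.conjNormal m (c⁻¹ * MulAut.conjNormal g k * c) := by
      apply Subtype.ext
      rw [MulAut.conjNormal_apply]
      simp only [Subgroup.coe_mul, Subgroup.coe_inv, MulAut.conjNormal_apply]
      have hn : (n : G) = g⁻¹ * c * m⁻¹ := by
        have h0 : (n : G) = ((c : G)⁻¹ * g)⁻¹ * m⁻¹ := by
          rw [e]
          group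
        rw [h0]
        group
      rw [hn]
      group
    have h3 : (QuotientGroup.mk (n⁻¹ * k * n) : ↥N ⧸ center ↥N) ∈ K ⊓ H := by
      refine ⟨?_, ?_⟩
      · have h0 := hKn.conj_mem _ hk (QuotientGroup.mk n⁻¹ : ↥N ⧸ center ↥N)
        simpa using h0
      · rw [e2]
        exact (hmem _).mpr hw'
    rw [hKH, Subgroup.mem_bot, QuotientGroup.eq_one_iff, e2] at h3
    exact hw'Z h3
  have hkey : ∀ k : ↥N, (QuotientGroup.mk k : ↥N ⧸ center ↥N) ∈ K → k ∉ center ↥N →
      ∀ t ∈ cz k, (QuotientGroup.mk t : ↥N ⧸ center ↥N) ∈ K := by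
    intro k hkK hkZ t ht
    by_contra htK
    obtain ⟨c', hc'⟩ := hconj _ htK
    obtain ⟨c, rfl⟩ := QuotientGroup.mk_surjective c'
    have htM : c⁻¹ * t * c ∈ cz x := by
      rw [← hmem]
      simpa using hc'
    have htZ : c⁻¹ * t * c ∉ center ↥N := by
      intro h
      apply htK
      have h2 : t ∈ center ↥N := by
        apply hZc c⁻¹
        rw [inv_inv]
        exact h
      rw [(QuotientGroup.eq_one_iff t).mpr h2]
      exact K.one_mem
    have c1 := hczM _ htM htZ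
    have hkM : c⁻¹ * k * c ∈ cz x := by
      rw [mem_czN, ← c1, mem_cz]
      have h0 : t * k = k * t := mem_cz.mp ht
      have h4 : (c⁻¹ * k * c) * (c⁻¹ * t * c) = (c⁻¹ * t * c) * (c⁻¹ * k * c) := by
        calc c⁻¹ * k * c * (c⁻¹ * t * c) = c⁻¹ * (k * t) * c := by group
          _ = c⁻¹ * (t * k) * c := by rw [h0]
          _ = c⁻¹ * t * c * (c⁻¹ * k * c) := by group
      exact congrArg Subtype.val h4
    have hkH := (hmem _).mpr hkM
    have hkK' : (QuotientGroup.mk (c⁻¹ * k * c) : ↥N ⧸ center ↥N) ∈ K := by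
      have h2 := hKn.conj_mem _ hkK (QuotientGroup.mk c⁻¹ : ↥N ⧸ center ↥N)
      simpa using h2
    have h3 : (QuotientGroup.mk (c⁻¹ * k * c) : ↥N ⧸ center ↥N) ∈ K ⊓ H := ⟨hkK', hkH⟩
    rw [hKH, Subgroup.mem_bot, QuotientGroup.eq_one_iff] at h3
    apply hkZ
    apply hZc c⁻¹
    rw [inv_inv]
    exact h3
  obtain ⟨Kc, hKc⟩ : ∃ Kc : Subgroup ↥N, Kc = K.comap (QuotientGroup.mk' (center ↥N)) :=
    ⟨_, rfl⟩
  have hKc_mem : ∀ n : ↥N, n ∈ Kc ↔ (QuotientGroup.mk n : ↥N ⧸ center ↥N) ∈ K := by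
    intro n
    rw [hKc]
    exact Iff.rfl
  have hKcG : GInv N Kc := fun g k hk => (hKc_mem _).mpr (hKG g k ((hKc_mem k).mp hk))
  haveI hKcn : Kc.Normal := ginv_normal hKcG
  have hKc_top : Kc ≠ ⊤ := by
    intro h
    apply hKtop
    rw [eq_top_iff]
    intro t _
    obtain ⟨g, rfl⟩ := QuotientGroup.mk_surjective t
    rw [← hKc_mem, h]
    exact Subgroup.mem_top g
  have hczK : ∀ k : ↥N, k ∈ Kc → k ∉ center ↥N → cz k = Kc := by
    intro k hk hkZ
    have hle : cz k ≤ Kc := fun t ht => (hKc_mem t).mpr (hkey k ((hKc_mem k).mp hk) hkZ t ht)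
    rcases max_inv hmax hkZ Kc hle (hKcG.minv _) with h | h
    · exact h.symm
    · exact absurd h hKc_top
  obtain ⟨k₁, hk₁K, hk₁Z⟩ : ∃ k₁ : ↥N, (QuotientGroup.mk k₁ : ↥N ⧸ center ↥N) ∈ K ∧
      k₁ ∉ center ↥N := by
    by_contra hcon
    apply hK1
    rw [eq_bot_iff]
    intro t ht
    obtain ⟨k, rfl⟩ := QuotientGroup.mk_surjective t
    rw [Subgroup.mem_bot, QuotientGroup.eq_one_iff]
    by_contra hk
    exact hcon ⟨k, ht, hk⟩
  have hk₁c : k₁ ∈ Kc := (hKc_mem k₁).mpr hk₁K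
  have hKab : ∀ a ∈ K, ∀ b ∈ K, a * b = b * a := by
    intro a ha b hb
    obtain ⟨k, rfl⟩ := QuotientGroup.mk_surjective a
    obtain ⟨k', rfl⟩ := QuotientGroup.mk_surjective b
    by_cases hkZ : k ∈ center ↥N
    · rw [(QuotientGroup.eq_one_iff k).mpr hkZ, one_mul, mul_one]
    · have h1 : k' ∈ cz k := by
        rw [hczK k ((hKc_mem k).mpr ha) hkZ]
        exact (hKc_mem k').mpr hb
      rw [← QuotientGroup.mk_mul, ← QuotientGroup.mk_mul, mem_cz.mp h1]
  have hcyc : ∀ y ∈ cz x, y ∉ center ↥N → ∀ h ∈ H,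
      h ∈ Subgroup.zpowers (QuotientGroup.mk y : ↥N ⧸ center ↥N) := by
    intro y hy hyZ h hh
    have hLG : GInv N (Kc ⊔ Subgroup.zpowers y) := by
      intro g l hl
      obtain ⟨n, m, hm, rfl⟩ := prod_eq hmax hx g
      have hl' : l ∈ ((Kc ⊔ Subgroup.zpowers y : Subgroup ↥N) : Set ↥N) := hl
      rw [Subgroup.normal_mul] at hl'
      obtain ⟨k, hk, w, hw, rfl⟩ := Set.mem_mul.mp hl'
      have hmw : MulAut.conjNormal m w = w := by
        apply Subtype.ext
        rw [MulAut.conjNormal_apply]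
        have hmy : m ∈ cz (y : G) := by
          rw [hczM y hy hyZ]
          exact hm
        have hwdc : (w : G) ∈ dc (y : G) := by
          obtain ⟨i, rfl⟩ := Subgroup.mem_zpowers_iff.mp hw
          rw [Subgroup.coe_zpow]
          exact (dc (y : G)).zpow_mem (self_mem_dc _) i
        have h0 := mem_dc.mp hwdc m (mem_cz.mp hmy)
        rw [h0, mul_inv_cancel_right]
      have e : MulAut.conjNormal ((n : G) * m) (k * w) =
          MulAut.conjNormal (n : G) (MulAut.conjNormal m k * w) := by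
        have h1 : MulAut.conjNormal ((n : G) * m) =
            (MulAut.conjNormal (n : G) : MulAut ↥N) * MulAut.conjNormal m := map_mul _ _ _
        rw [h1, MulAut.mul_apply, map_mul, hmw]
      rw [e]
      have hl2 : MulAut.conjNormal m k * w ∈ Kc ⊔ Subgroup.zpowers y :=
        Subgroup.mul_mem _ (le_sup_left (b := Subgroup.zpowers y) (hKcG m k hk))
          (le_sup_right (a := Kc) hw)
      have e3 : MulAut.conjNormal (n : G) (MulAut.conjNormal m k * w) =
          (n * (MulAut.conjNormal m k * w) * n⁻¹ * (MulAut.conjNormal m k * w)⁻¹) *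
            (MulAut.conjNormal m k * w) := by
        apply Subtype.ext
        rw [MulAut.conjNormal_apply]
        simp only [Subgroup.coe_mul, Subgroup.coe_inv]
        group
      rw [e3]
      refine Subgroup.mul_mem _ (le_sup_left (b := Subgroup.zpowers y) ?_) hl2
      rw [hKc_mem]
      have h0 := hcommK (QuotientGroup.mk n) (QuotientGroup.mk (MulAut.conjNormal m k * w))
      simpa using h0
    have hLtop : Kc ⊔ Subgroup.zpowers y = ⊤ := by
      have hle : cz k₁ ≤ Kc ⊔ Subgroup.zpowers y := by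
        rw [hczK k₁ hk₁c hk₁Z]
        exact le_sup_left
      rcases max_inv hmax hk₁Z _ hle (hLG.minv _) with h' | h'
      · exfalso
        have hyL : y ∈ Kc ⊔ Subgroup.zpowers y :=
          le_sup_right (a := Kc) (Subgroup.mem_zpowers y)
        rw [h', hczK k₁ hk₁c hk₁Z, hKc_mem] at hyL
        have h3 : (QuotientGroup.mk y : ↥N ⧸ center ↥N) ∈ K ⊓ H := ⟨hyL, (hmem y).mpr hy⟩
        rw [hKH, Subgroup.mem_bot, QuotientGroup.eq_one_iff] at h3
        exact hyZ h3
      · exact h'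
    obtain ⟨d, rfl⟩ := QuotientGroup.mk_surjective h
    have hd : d ∈ ((Kc ⊔ Subgroup.zpowers y : Subgroup ↥N) : Set ↥N) := by
      rw [hLtop]
      trivial
    rw [Subgroup.normal_mul] at hd
    obtain ⟨k, hk, w, hw, rfl⟩ := Set.mem_mul.mp hd
    obtain ⟨i, rfl⟩ := Subgroup.mem_zpowers_iff.mp hw
    have hkK : (QuotientGroup.mk k : ↥N ⧸ center ↥N) ∈ K := (hKc_mem k).mp hk
    have hyiH : (QuotientGroup.mk (y ^ i) : ↥N ⧸ center ↥N) ∈ H :=
      (hmem _).mpr ((cz x).zpow_mem hy i)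
    have hkH : (QuotientGroup.mk k : ↥N ⧸ center ↥N) ∈ H := by
      have h0 := H.mul_mem hh (H.inv_mem hyiH)
      rw [QuotientGroup.mk_mul, mul_inv_cancel_right] at h0
      exact h0
    have h3 : (QuotientGroup.mk k : ↥N ⧸ center ↥N) ∈ K ⊓ H := ⟨hkK, hkH⟩
    rw [hKH, Subgroup.mem_bot] at h3
    rw [QuotientGroup.mk_mul, h3, one_mul, QuotientGroup.mk_zpow]
    exact Subgroup.zpow_mem_zpowers _ i
  have hH1 : Nat.card H ≠ 1 := by
    intro h
    have h2 := Subgroup.eq_bot_of_card_eq H h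
    rw [h2, Subgroup.mem_bot] at hxH
    exact hx1 hxH
  obtain ⟨q, hq, hqH⟩ := Nat.exists_prime_and_dvd hH1
  have hHeq : ∀ y ∈ cz x, y ∉ center ↥N →
      H = Subgroup.zpowers (QuotientGroup.mk y : ↥N ⧸ center ↥N) := by
    intro y hy hyZ
    apply le_antisymm (fun h hh => hcyc y hy hyZ h hh)
    rw [Subgroup.zpowers_le]
    exact (hmem y).mpr hy
  have hcardx : Nat.card H = orderOf (QuotientGroup.mk x : ↥N ⧸ center ↥N) := by
    have h0 := hHeq x (self_mem_cz x) hx
    rw [← Nat.card_zpowers, ← h0]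
  have hxq : x ^ q ∈ center ↥N := by
    by_contra h
    have h1 := hHeq (x ^ q) ((cz x).pow_mem (self_mem_cz x) q) h
    have h2 : Nat.card H = orderOf (QuotientGroup.mk (x ^ q) : ↥N ⧸ center ↥N) := by
      rw [← Nat.card_zpowers, ← h1]
    rw [QuotientGroup.mk_pow, orderOf_pow_of_dvd hq.ne_zero (by rw [← hcardx]; exact hqH),
      ← hcardx] at h2
    have hpos : 0 < Nat.card H := Nat.card_pos
    have h3 := Nat.div_lt_self hpos hq.one_lt
    omega
  have hHq : Nat.card H = q := by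
    rw [hcardx]
    have hd : orderOf (QuotientGroup.mk x : ↥N ⧸ center ↥N) ∣ q := by
      apply orderOf_dvd_of_pow_eq_one
      rw [← QuotientGroup.mk_pow, QuotientGroup.eq_one_iff]
      exact hxq
    rcases (Nat.dvd_prime hq).mp hd with h | h
    · exfalso
      rw [orderOf_eq_one_iff] at h
      exact hx1 h
    · exact h
  have hK1' : Nat.card K ≠ 1 := fun h => hK1 (Subgroup.eq_bot_of_card_eq K h)
  obtain ⟨p, hp, hpK⟩ := Nat.exists_prime_and_dvd hK1'
  haveI := Fact.mk hp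
  obtain ⟨y, hy⟩ := exists_prime_orderOf_dvd_card' p hpK
  have hyQ : orderOf (y : ↥N ⧸ center ↥N) = p := by
    rw [Subgroup.orderOf_coe]
    exact hy
  obtain ⟨E, hE⟩ : ∃ E : Subgroup ↥N, ∀ n, n ∈ E ↔ n ∈ Kc ∧ n ^ p ∈ center ↥N := by
    refine ⟨{ carrier := {n | n ∈ Kc ∧ n ^ p ∈ center ↥N}
              mul_mem' := ?_
              one_mem' := ?_
              inv_mem' := ?_ }, fun n => Iff.rfl⟩
    · rintro a b ⟨ha, ha'⟩ ⟨hb, hb'⟩
      refine ⟨Kc.mul_mem ha hb, ?_⟩
      show (a * b) ^ p ∈ center ↥N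
      rw [← QuotientGroup.eq_one_iff, QuotientGroup.mk_pow, QuotientGroup.mk_mul,
        (show Commute (QuotientGroup.mk a : ↥N ⧸ center ↥N) (QuotientGroup.mk b) from
          hKab _ ((hKc_mem a).mp ha) _ ((hKc_mem b).mp hb)).mul_pow,
        ← QuotientGroup.mk_pow, ← QuotientGroup.mk_pow, (QuotientGroup.eq_one_iff _).mpr ha',
        (QuotientGroup.eq_one_iff _).mpr hb', one_mul]
    · exact ⟨Kc.one_mem, by
        show (1 : ↥N) ^ p ∈ center ↥N
        rw [one_pow]
        exact (center ↥N).one_mem⟩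
    · rintro a ⟨ha, ha'⟩
      exact ⟨Kc.inv_mem ha, by
        show a⁻¹ ^ p ∈ center ↥N
        rw [inv_pow]
        exact (center ↥N).inv_mem ha'⟩
  have hEG : GInv N E := by
    intro g n hn
    rw [hE] at hn ⊢
    refine ⟨hKcG g n hn.1, ?_⟩
    rw [← map_pow]
    have h1 := Subgroup.mem_center_iff.mp (hZG _ hn.2) g
    have e : MulAut.conjNormal g (n ^ p) = n ^ p := by
      apply Subtype.ext
      rw [MulAut.conjNormal_apply, h1, mul_inv_cancel_right]
    rw [e]
    exact hn.2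
  haveI hEn : E.Normal := ginv_normal hEG
  have hEtop : E ⊔ cz x = ⊤ := by
    rcases max_inv hmax hx (E ⊔ cz x) le_sup_right
      (minv_sup (hEG.minv _) (minv_cz x)) with h | h
    · exfalso
      obtain ⟨n, hn⟩ := QuotientGroup.mk_surjective (y : ↥N ⧸ center ↥N)
      have hnE : n ∈ E := by
        rw [hE, hKc_mem, hn]
        refine ⟨y.2, ?_⟩
        rw [← QuotientGroup.eq_one_iff, QuotientGroup.mk_pow, hn]
        have h0 := pow_orderOf_eq_one (y : ↥N ⧸ center ↥N)
        rw [hyQ] at h0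
        exact h0
      have hnD : n ∈ cz x := by
        rw [← h]
        exact le_sup_left (b := cz x) hnE
      have h3 : (QuotientGroup.mk n : ↥N ⧸ center ↥N) ∈ K ⊓ H :=
        ⟨by rw [hn]; exact y.2, (hmem n).mpr hnD⟩
      rw [hKH, Subgroup.mem_bot, hn] at h3
      rw [h3, orderOf_one] at hyQ
      exact hp.one_lt.ne hyQ
    · exact h
  have hKexp : ∀ t ∈ K, t ^ p = 1 := by
    intro t ht
    obtain ⟨n, rfl⟩ := QuotientGroup.mk_surjective t
    have hn : n ∈ ((E ⊔ cz x : Subgroup ↥N) : Set ↥N) := by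
      rw [hEtop]
      trivial
    rw [Subgroup.normal_mul] at hn
    obtain ⟨e, he, d, hd, rfl⟩ := Set.mem_mul.mp hn
    have heK : (QuotientGroup.mk e : ↥N ⧸ center ↥N) ∈ K := (hKc_mem e).mp ((hE e).mp he).1
    have hdK : (QuotientGroup.mk d : ↥N ⧸ center ↥N) ∈ K := by
      have h0 := K.mul_mem (K.inv_mem heK) ht
      rw [QuotientGroup.mk_mul, inv_mul_cancel_left] at h0
      exact h0
    have h3 : (QuotientGroup.mk d : ↥N ⧸ center ↥N) ∈ K ⊓ H := ⟨hdK, (hmem d).mpr hd⟩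
    rw [hKH, Subgroup.mem_bot] at h3
    rw [QuotientGroup.mk_mul, h3, mul_one, ← QuotientGroup.mk_pow, QuotientGroup.eq_one_iff]
    exact ((hE e).mp he).2
  have hconjmem : ∀ (g u : ↥N ⧸ center ↥N), u ∈ MulAut.conj g • H ↔ g⁻¹ * u * g ∈ H := by
    intro g u
    rw [Subgroup.mem_pointwise_smul_iff_inv_smul_mem]
    simp [MulAut.smul_def, MulAut.conj_inv_apply]
  refine ⟨H, K, p, hp, ⟨?_, hHtop, ?_⟩, by rw [hHq]; exact hq, hKn, ?_, hKab, hKexp⟩
  · intro h
    rw [h, Subgroup.mem_bot] at hxH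
    exact hx1 hxH
  · intro g hg
    rw [eq_bot_iff]
    rintro u ⟨hu1, hu2⟩
    rw [Subgroup.mem_bot]
    have hu3 : g⁻¹ * u * g ∈ H := (hconjmem g u).mp hu2
    have h0 := hTI g hg (g⁻¹ * u * g) hu3 (by
      have e : g * (g⁻¹ * u * g) * g⁻¹ = u := by group
      rw [e]
      exact hu1)
    have e : u = g * (g⁻¹ * u * g) * g⁻¹ := by group
    rw [e, h0]
    group
  · ext t
    rw [SetLike.mem_coe, Set.mem_setOf_eq]
    constructor
    · intro ht
      by_cases ht1 : t = 1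
      · left
        exact ht1
      · right
        intro g hg
        have hg3 : g⁻¹ * t * g ∈ H := (hconjmem g t).mp hg
        have hgK : g⁻¹ * t * g ∈ K := by
          have h0 := hKn.conj_mem t ht g⁻¹
          rwa [inv_inv] at h0
        have h3 : g⁻¹ * t * g ∈ K ⊓ H := ⟨hgK, hg3⟩
        rw [hKH, Subgroup.mem_bot] at h3
        apply ht1
        have e : t = g * (g⁻¹ * t * g) * g⁻¹ := by group
        rw [e, h3]
        group
    · rintro (ht | ht)
      · rw [ht]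
        exact K.one_mem
      · by_contra htK
        obtain ⟨c, hc⟩ := hconj t htK
        exact ht c ((hconjmem c t).mpr hc)

end Cfsg.Agent.Lib.Helper22.CN
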