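import Mathlib
import Cfsg.Agent.Lib.Helper22.CN4

set_option autoImplicit false

namespace Cfsg.Agent.Lib.Helper22.CN

open Subgroup Cfsg.Agent.Lib.Helper22.CM

/-- abstract counting of elements of prime order `q` via Sylow subgroups -/
theorem count_abs {Q : Type*} [Group Q] [Finite Q] [Fintype Q]
    (F A : Q → Subgroup Q)
    (h : ∀ t : Q, t ≠ 1 → ∃ (q : ℕ) (_ : Fact q.Prime) (S : Sylow q Q), orderOf t = q ∧
      (S : Subgroup Q) = F t ∧ (∀ t' : Q, t' ≠ 1 → F t' = F t → t' ∈ A t) ∧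
      Nat.card (A t) * q ^ 2 ≤ Nat.card (S : Subgroup Q))
    (q : ℕ) (hq : q.Prime) :
    (Finset.univ.filter (fun t : Q => orderOf t = q)).card * q ^ 2 ≤ Nat.card Q := by
  classical
  haveI := Fact.mk hq
  obtain ⟨X, hX⟩ : ∃ X : Finset Q, X = Finset.univ.filter (fun t : Q => orderOf t = q) :=
    ⟨_, rfl⟩
  rw [← hX]
  obtain ⟨s, hs⟩ : ∃ s : ℕ, s = q ^ (Nat.card Q).factorization q := ⟨_, rfl⟩
  have hfact : ∀ t ∈ X, t ≠ 1 ∧ (∃ S : Sylow q Q, (S : Subgroup Q) = F t) ∧
      (∀ t' : Q, t' ≠ 1 → F t' = F t → t' ∈ A t) ∧ Nat.card (A t) * q ^ 2 ≤ s := by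
    intro t ht
    rw [hX] at ht
    have hto : orderOf t = q := (Finset.mem_filter.mp ht).2
    have ht1 : t ≠ 1 := by
      intro h1
      rw [h1, orderOf_one] at hto
      exact hq.one_lt.ne hto
    obtain ⟨q', hq', S, hq'o, hS, hfib, hc⟩ := h t ht1
    have e : q' = q := by rw [← hq'o, hto]
    rw [S.card_eq_multiplicity, e, ← hs] at hc
    refine ⟨ht1, ?_, hfib, hc⟩
    clear hc
    subst e
    exact ⟨S, hS⟩
  have hqpos : 0 < q ^ 2 := pow_pos hq.pos 2
  have hfiber : ∀ T ∈ X.image F, (X.filter (fun t => F t = T)).card ≤ s / q ^ 2 := by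
    intro T hT
    obtain ⟨t₀, ht₀, rfl⟩ := Finset.mem_image.mp hT
    obtain ⟨_, _, hfib₀, hc₀⟩ := hfact t₀ ht₀
    rw [Nat.le_div_iff_mul_le hqpos]
    refine le_trans (Nat.mul_le_mul_right _ ?_) hc₀
    have hsub : ((X.filter (fun t => F t = F t₀) : Finset Q) : Set Q) ⊆
        ((A t₀ : Subgroup Q) : Set Q) := by
      intro t ht
      have ht' := Finset.mem_filter.mp (Finset.mem_coe.mp ht)
      exact hfib₀ t (hfact t ht'.1).1 ht'.2
    calc (X.filter (fun t => F t = F t₀)).card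
        = ((X.filter (fun t => F t = F t₀) : Finset Q) : Set Q).ncard :=
          (Set.ncard_coe_finset _).symm
      _ ≤ ((A t₀ : Subgroup Q) : Set Q).ncard := Set.ncard_le_ncard hsub (Set.toFinite _)
      _ = Nat.card (A t₀) := (Nat.card_coe_set_eq _).symm
  have himg : (X.image F).card ≤ Nat.card (Sylow q Q) := by
    haveI : Fintype (Sylow q Q) := Fintype.ofFinite _
    have hsub : X.image F ⊆ (Finset.univ : Finset (Sylow q Q)).image
        (fun S : Sylow q Q => S.toSubgroup) := by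
      intro T hT
      obtain ⟨t, ht, rfl⟩ := Finset.mem_image.mp hT
      obtain ⟨_, ⟨S, hS⟩, _, _⟩ := hfact t ht
      exact Finset.mem_image.mpr ⟨S, Finset.mem_univ _, hS⟩
    calc (X.image F).card ≤ _ := Finset.card_le_card hsub
      _ ≤ (Finset.univ : Finset (Sylow q Q)).card := Finset.card_image_le
      _ = Nat.card (Sylow q Q) := by
          rw [Finset.card_univ, Nat.card_eq_fintype_card]
  have hsyl : Nat.card (Sylow q Q) * s ≤ Nat.card Q := by
    obtain ⟨S₀⟩ : Nonempty (Sylow q Q) := inferInstance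
    rw [Sylow.card_eq_index_normalizer S₀, hs, ← S₀.card_eq_multiplicity]
    have h1 := Subgroup.card_mul_index
      (Subgroup.normalizer ((S₀ : Subgroup Q) : Set Q))
    have h2 : Nat.card (S₀ : Subgroup Q) ≤
        Nat.card (Subgroup.normalizer ((S₀ : Subgroup Q) : Set Q)) :=
      Subgroup.card_le_of_le Subgroup.le_normalizer
    calc _ ≤ (Subgroup.normalizer ((S₀ : Subgroup Q) : Set Q)).index *
          Nat.card (Subgroup.normalizer ((S₀ : Subgroup Q) : Set Q)) :=
          Nat.mul_le_mul_left _ h2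
      _ = _ := by
          rw [mul_comm]
          exact h1
  have h1 := Finset.card_le_mul_card_image X (s / q ^ 2) hfiber
  calc X.card * q ^ 2 ≤ (s / q ^ 2) * (X.image F).card * q ^ 2 := Nat.mul_le_mul_right _ h1
    _ = (X.image F).card * ((s / q ^ 2) * q ^ 2) := by ring
    _ ≤ (X.image F).card * s := Nat.mul_le_mul_left _ (Nat.div_mul_le_self s (q ^ 2))
    _ ≤ Nat.card (Sylow q Q) * s := Nat.mul_le_mul_right _ himg
    _ ≤ _ := hsyl

/-- the counting contradiction -/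
theorem count_contra {Q : Type*} [Group Q] [Finite Q] [Nontrivial Q]
    (F A : Q → Subgroup Q)
    (h : ∀ t : Q, t ≠ 1 → ∃ (q : ℕ) (_ : Fact q.Prime) (S : Sylow q Q), orderOf t = q ∧
      (S : Subgroup Q) = F t ∧ (∀ t' : Q, t' ≠ 1 → F t' = F t → t' ∈ A t) ∧
      Nat.card (A t) * q ^ 2 ≤ Nat.card (S : Subgroup Q)) : False := by
  classical
  letI : Fintype Q := Fintype.ofFinite _
  obtain ⟨n, hn⟩ : ∃ n, n = Nat.card Q := ⟨_, rfl⟩
  have hn2 : 2 ≤ n := by
    rw [hn]
    exact Finite.one_lt_card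
  have hprime : ∀ t : Q, t ≠ 1 → (orderOf t).Prime := by
    intro t ht
    obtain ⟨q, hq, _, hqo, _⟩ := h t ht
    rw [hqo]
    exact hq.out
  have hmaps : ∀ t ∈ (Finset.univ.erase (1 : Q)), orderOf t ∈ Finset.Icc 2 n := by
    intro t ht
    have ht1 : t ≠ 1 := Finset.ne_of_mem_erase ht
    rw [Finset.mem_Icc]
    exact ⟨(hprime t ht1).two_le, by rw [hn]; exact orderOf_le_card⟩
  have hsum := Finset.card_eq_sum_card_fiberwise hmaps
  have hcard1 : (Finset.univ.erase (1 : Q)).card = n - 1 := by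
    rw [Finset.card_erase_of_mem (Finset.mem_univ _), Finset.card_univ, hn,
      Nat.card_eq_fintype_card]
  have hbound : ∀ m ∈ Finset.Icc 2 n,
      ((((Finset.univ.erase (1 : Q)).filter (fun t => orderOf t = m)).card : ℕ) : ℚ) ≤
        (n : ℚ) * (1 / (m : ℚ) ^ 2) := by
    intro m hm
    have hm2 : 2 ≤ m := (Finset.mem_Icc.mp hm).1
    have hmpos : (0 : ℚ) < (m : ℚ) ^ 2 := by positivity
    rw [mul_one_div, le_div_iff₀ hmpos]
    by_cases hmp : m.Prime
    · have h1 := count_abs F A h m hmp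
      have h2 : ((Finset.univ.erase (1 : Q)).filter (fun t => orderOf t = m)).card ≤
          (Finset.univ.filter (fun t : Q => orderOf t = m)).card :=
        Finset.card_le_card (Finset.filter_subset_filter _ (Finset.erase_subset _ _))
      have h3 : ((Finset.univ.erase (1 : Q)).filter (fun t => orderOf t = m)).card *
          m ^ 2 ≤ n := by
        rw [hn]
        exact le_trans (Nat.mul_le_mul_right _ h2) h1
      exact_mod_cast h3
    · have h0 : (Finset.univ.erase (1 : Q)).filter (fun t => orderOf t = m) = ∅ := by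
        rw [Finset.filter_eq_empty_iff]
        intro t ht hto
        exact hmp (hto ▸ hprime t (Finset.ne_of_mem_erase ht))
      rw [h0, Finset.card_empty]
      simp
  have hlt := sum_inv_sq_lt n hn2
  have hQ : ((n - 1 : ℕ) : ℚ) ≤ (n : ℚ) * ∑ m ∈ Finset.Icc 2 n, (1 : ℚ) / (m : ℚ) ^ 2 := by
    rw [← hcard1, hsum, Finset.mul_sum]
    push_cast
    exact Finset.sum_le_sum hbound
  have hn0 : (0 : ℚ) < n := by exact_mod_cast (by omega : 0 < n)
  have h4 : (n : ℚ) * ∑ m ∈ Finset.Icc 2 n, (1 : ℚ) / (m : ℚ) ^ 2 <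
      (n : ℚ) * (1 - 1 / (n : ℚ)) := mul_lt_mul_of_pos_left hlt hn0
  have h5 : (n : ℚ) * (1 - 1 / (n : ℚ)) = (n : ℚ) - 1 := by field_simp
  have h6 : ((n - 1 : ℕ) : ℚ) = (n : ℚ) - 1 := by
    rw [Nat.cast_sub (by omega)]
    simp
  linarith

variable {G : Type*} [Group G] {N : Subgroup G}

theorem cz_ne_of_not_dc {x y : ↥N} (hy' : (y : G) ∉ dc (x : G)) : cz (x : G) ≠ cz (y : G) := by
  intro h
  apply hy'
  rw [mem_dc]
  intro g hg
  have : g ∈ cz (y : G) := by
    rw [← h]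
    exact mem_cz.mpr hg
  exact mem_cz.mp this

theorem minv_cz_iff [N.Normal] (x : ↥N) {m : G} (hm : m ∈ cz (x : G)) (l : ↥N) :
    MulAut.conjNormal m l ∈ cz x ↔ l ∈ cz x := by
  constructor
  · intro h
    have h2 := minv_cz x m⁻¹ ((cz (x : G)).inv_mem hm) _ h
    have e : MulAut.conjNormal m⁻¹ (MulAut.conjNormal m l) = l := by
      apply Subtype.ext
      rw [MulAut.conjNormal_apply, MulAut.conjNormal_apply]
      group
    rw [e] at h2
    exact h2
  · exact minv_cz x m hm l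

/-- two distinct maximal centralizers with the same trace on `N` -/
theorem ginv_of_two [N.Normal] (hmax : ∀ x : ↥N, x ∉ center ↥N → IsCoatom (cz (x : G)))
    {x y : ↥N} (hx : x ∉ center ↥N) (hy : y ∉ center ↥N)
    (hne : cz (x : G) ≠ cz (y : G)) (heq : cz x = cz y) : GInv N (cz x) := by
  have hsup : cz (x : G) ⊔ cz (y : G) = ⊤ := by
    apply (hmax x hx).2
    apply lt_of_le_of_ne le_sup_left
    intro h
    apply hne
    have hle : cz (y : G) ≤ cz (x : G) := by
      rw [h]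
      exact le_sup_right
    exact (((hmax y hy).le_iff.mp hle).resolve_left (hmax x hx).1)
  have hT1 : cz (x : G) ≤ Subgroup.normalizer (((cz x).map N.subtype : Subgroup G) : Set G) := by
    rw [Subgroup.le_normalizer_iff]
    rintro h hh k hk
    obtain ⟨l, hl, rfl⟩ := Subgroup.mem_map.mp hk
    refine Subgroup.mem_map.mpr ⟨MulAut.conjNormal h l, minv_cz x h hh l hl, ?_⟩
    rw [Subgroup.coe_subtype, MulAut.conjNormal_apply]
  have hT2 : cz (y : G) ≤
      Subgroup.normalizer (((cz x).map N.subtype : Subgroup G) : Set G) := by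
    rw [Subgroup.le_normalizer_iff]
    rintro h hh k hk
    obtain ⟨l, hl, rfl⟩ := Subgroup.mem_map.mp hk
    refine Subgroup.mem_map.mpr ⟨MulAut.conjNormal h l, ?_, ?_⟩
    · rw [heq]
      exact minv_cz y h hh l (by rw [← heq]; exact hl)
    · rw [Subgroup.coe_subtype, MulAut.conjNormal_apply]
  have hT : Subgroup.normalizer (((cz x).map N.subtype : Subgroup G) : Set G) = ⊤ := by
    rw [eq_top_iff, ← hsup]
    exact sup_le hT1 hT2
  intro g l hl
  have hg : g ∈ Subgroup.normalizer (((cz x).map N.subtype : Subgroup G) : Set G) := by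
    rw [hT]
    trivial
  have h1 := (Subgroup.mem_normalizer_iff.mp hg (l : G)).mp
    (Subgroup.mem_map.mpr ⟨l, hl, rfl⟩)
  obtain ⟨l', hl', e⟩ := Subgroup.mem_map.mp h1
  have e2 : MulAut.conjNormal g l = l' := by
    apply Subtype.ext
    rw [MulAut.conjNormal_apply]
    exact e.symm
  rw [e2]
  exact hl'

/-- a non-invariant `C_N(x)` is self-normalizing in `N` -/
theorem selfnorm [N.Normal] (hmax : ∀ x : ↥N, x ∉ center ↥N → IsCoatom (cz (x : G)))
    {x : ↥N} (hx : x ∉ center ↥N) (hbad : ¬ GInv N (cz x))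
    (n : ↥N) (hn : ∀ l : ↥N, l ∈ cz x ↔ n * l * n⁻¹ ∈ cz x) : n ∈ cz x := by
  have hnL : n ∈ Subgroup.normalizer ((cz x : Subgroup ↥N) : Set ↥N) :=
    Subgroup.mem_normalizer_iff.mpr hn
  have hinv : MInv N (cz (x : G)) (Subgroup.normalizer ((cz x : Subgroup ↥N) : Set ↥N)) := by
    intro m hm l hl
    have hl' : ∀ h : ↥N, h ∈ cz x ↔ l * h * l⁻¹ ∈ cz x := Subgroup.mem_normalizer_iff.mp hl
    apply Subgroup.mem_normalizer_iff.mpr
    intro h
    have e : MulAut.conjNormal m l * h * (MulAut.conjNormal m l)⁻¹ =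
        MulAut.conjNormal m (l * MulAut.conjNormal m⁻¹ h * l⁻¹) := by
      apply Subtype.ext
      simp only [Subgroup.coe_mul, Subgroup.coe_inv, MulAut.conjNormal_apply]
      group
    show h ∈ cz x ↔ MulAut.conjNormal m l * h * (MulAut.conjNormal m l)⁻¹ ∈ cz x
    rw [e, minv_cz_iff x hm, ← hl', minv_cz_iff x ((cz (x : G)).inv_mem hm)]
  rcases max_inv hmax hx _ Subgroup.le_normalizer hinv with h | h
  · rw [h] at hnL
    exact hnL
  · exfalso
    apply hbad
    intro g l hl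
    obtain ⟨n', m, hm, rfl⟩ := prod_eq hmax hx g
    have hn' : n' ∈ Subgroup.normalizer ((cz x : Subgroup ↥N) : Set ↥N) := by
      rw [h]
      trivial
    have hn'' : ∀ h : ↥N, h ∈ cz x ↔ n' * h * n'⁻¹ ∈ cz x := Subgroup.mem_normalizer_iff.mp hn'
    have e : MulAut.conjNormal ((n' : G) * m) l = n' * MulAut.conjNormal m l * n'⁻¹ := by
      apply Subtype.ext
      simp only [Subgroup.coe_mul, Subgroup.coe_inv, MulAut.conjNormal_apply]
      group
    rw [e, ← hn'']
    exact minv_cz x m hm l hl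

/-- a non-invariant `C_N(x)` of prime exponent modulo the centre is a Sylow subgroup -/
theorem sylowN [Finite G] [N.Normal]
    (hmax : ∀ x : ↥N, x ∉ center ↥N → IsCoatom (cz (x : G)))
    {x : ↥N} (hx : x ∉ center ↥N) (hbad : ¬ GInv N (cz x)) (p : ℕ) (hp : p.Prime)
    (hexp : ∀ u ∈ cz x, u ∉ center ↥N →
      orderOf (QuotientGroup.mk u : ↥N ⧸ center ↥N) = p) :
    ∃ _ : Fact p.Prime, ∃ S : Sylow p (↥N ⧸ center ↥N),
      (S : Subgroup (↥N ⧸ center ↥N)) = (cz x).map (QuotientGroup.mk' (center ↥N)) := by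
  haveI hF := Fact.mk hp
  refine ⟨hF, ?_⟩
  have hZM : center ↥N ≤ cz x := center_le_cz x
  obtain ⟨D, hD⟩ : ∃ D : Subgroup (↥N ⧸ center ↥N),
      D = (cz x).map (QuotientGroup.mk' (center ↥N)) := ⟨_, rfl⟩
  have hpg : IsPGroup p D := by
    rw [hD]
    rintro ⟨t, ht⟩
    obtain ⟨m, hm, rfl⟩ := Subgroup.mem_map.mp ht
    by_cases hmZ : m ∈ center ↥N
    · refine ⟨0, ?_⟩
      apply Subtype.ext
      rw [pow_zero, pow_one]
      exact (QuotientGroup.eq_one_iff m).mpr hmZ
    · refine ⟨1, ?_⟩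
      apply Subtype.ext
      rw [pow_one, Subgroup.coe_pow]
      have h0 := pow_orderOf_eq_one (QuotientGroup.mk m : ↥N ⧸ center ↥N)
      rw [hexp m hm hmZ] at h0
      exact h0
  have hself : Subgroup.normalizer (D : Set (↥N ⧸ center ↥N)) ≤ D := by
    intro t ht
    induction t using QuotientGroup.induction_on with
    | H n =>
      rw [hD, mem_map_mk_iff (center ↥N) _ hZM]
      apply selfnorm hmax hx hbad n
      intro l
      have h1 : (QuotientGroup.mk l : ↥N ⧸ center ↥N) ∈ D ↔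
          (QuotientGroup.mk n : ↥N ⧸ center ↥N) * QuotientGroup.mk l *
            (QuotientGroup.mk n)⁻¹ ∈ D :=
        Subgroup.mem_normalizer_iff.mp ht (QuotientGroup.mk l)
      have e : (QuotientGroup.mk n : ↥N ⧸ center ↥N) * QuotientGroup.mk l *
          (QuotientGroup.mk n)⁻¹ = QuotientGroup.mk (n * l * n⁻¹) := rfl
      rw [e, hD, mem_map_mk_iff (center ↥N) _ hZM, mem_map_mk_iff (center ↥N) _ hZM] at h1
      exact h1
  obtain ⟨n, hn⟩ := IsPGroup.iff_card.mp hpg
  obtain ⟨S, hS⟩ := hpg.exists_le_sylow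
  have hk := S.card_eq_multiplicity
  have hnk : n = (Nat.card (↥N ⧸ center ↥N)).factorization p := by
    by_contra hne
    have hle : n ≤ (Nat.card (↥N ⧸ center ↥N)).factorization p := by
      have := Subgroup.card_dvd_of_le hS
      rw [hn, hk] at this
      exact (Nat.pow_dvd_pow_iff_le_right hp.one_lt).mp this
    have hlt : n + 1 ≤ (Nat.card (↥N ⧸ center ↥N)).factorization p := by omega
    have hdvd : p ^ (n + 1) ∣ Nat.card (↥N ⧸ center ↥N) := by
      refine dvd_trans (pow_dvd_pow p hlt) ?_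
      rw [← hk]
      exact Subgroup.card_subgroup_dvd_card _
    have h1 := Sylow.prime_dvd_card_quotient_normalizer hdvd hn
    have h2 : D.relIndex (Subgroup.normalizer (D : Set (↥N ⧸ center ↥N))) = 1 :=
      Subgroup.relIndex_eq_one.mpr hself
    have h3 : p ∣ D.relIndex (Subgroup.normalizer (D : Set (↥N ⧸ center ↥N))) := h1
    rw [h2] at h3
    exact hp.one_lt.ne' (Nat.dvd_one.mp h3)
  refine ⟨S, ?_⟩
  rw [← hD]
  exact (Subgroup.eq_of_le_of_card_ge hS (by rw [hn, hk, hnk])).symm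

/-- star property for a base element -/
theorem star_base [Finite G] [N.Normal]
    (hmax : ∀ x : ↥N, x ∉ center ↥N → IsCoatom (cz (x : G)))
    (hZG : ∀ z : ↥N, z ∈ center ↥N → (z : G) ∈ center G)
    {b : ↥N} (hb : b ∉ center ↥N) (p : ℕ)
    (hexp : ∀ u ∈ cz b, u ∉ center ↥N →
      orderOf (QuotientGroup.mk u : ↥N ⧸ center ↥N) = p)
    {w : ↥N} (hw : w ∈ cz b) (hwZ : w ∉ center ↥N) :
    ∀ u ∈ cz w, u ∉ center ↥N → orderOf (QuotientGroup.mk u : ↥N ⧸ center ↥N) = p := by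
  intro u hu huZ
  by_cases hwd : (w : G) ∈ dc (b : G)
  · have hcz : cz (w : G) = cz (b : G) := czN_eq_of_mem_dc hmax hb hwd hwZ
    apply hexp u _ huZ
    rw [mem_czN, ← hcz]
    exact mem_czN.mp hu
  · have hbw : b ∈ cz w := mem_cz.mpr (mem_cz.mp hw).symm
    have hbd : (b : G) ∉ dc (w : G) := by
      intro hbd
      have hcz : cz (b : G) = cz (w : G) := czN_eq_of_mem_dc hmax hwZ hbd hb
      apply hwd
      rw [mem_dc]
      intro h hh
      have : h ∈ cz (w : G) := by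
        rw [← hcz]
        exact mem_cz.mpr hh
      exact mem_cz.mp this
    obtain ⟨p', _, hexp'⟩ := exponent_primeN hmax hZG hwZ hbw hbd
    have e : p' = p := by rw [← hexp' b hbw hb, hexp b (self_mem_cz b) hb]
    rw [← e]
    exact hexp' u hu huZ

/-- star property for all elements of order `p` modulo the centre -/
theorem star2 [Finite G] [N.Normal]
    (hmax : ∀ x : ↥N, x ∉ center ↥N → IsCoatom (cz (x : G)))
    (hZG : ∀ z : ↥N, z ∈ center ↥N → (z : G) ∈ center G)
    {x₀ : ↥N} (hx₀ : x₀ ∉ center ↥N) (p : ℕ) [Fact p.Prime]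
    (hexp₀ : ∀ u ∈ cz x₀, u ∉ center ↥N →
      orderOf (QuotientGroup.mk u : ↥N ⧸ center ↥N) = p)
    (S₀ : Sylow p (↥N ⧸ center ↥N))
    (hS₀ : (S₀ : Subgroup (↥N ⧸ center ↥N)) = (cz x₀).map (QuotientGroup.mk' (center ↥N)))
    {w : ↥N} (hw : orderOf (QuotientGroup.mk w : ↥N ⧸ center ↥N) = p) :
    ∀ u ∈ cz w, u ∉ center ↥N → orderOf (QuotientGroup.mk u : ↥N ⧸ center ↥N) = p := by
  have hp : p.Prime := Fact.out
  have hwZ : w ∉ center ↥N := by
    intro h
    rw [(QuotientGroup.eq_one_iff w).mpr h, orderOf_one] at hw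
    exact hp.one_lt.ne hw
  have hpg : IsPGroup p (Subgroup.zpowers (QuotientGroup.mk w : ↥N ⧸ center ↥N)) :=
    IsPGroup.of_card (n := 1) (by rw [Nat.card_zpowers, hw, pow_one])
  obtain ⟨P, hP⟩ := hpg.exists_le_sylow
  obtain ⟨c', hc'⟩ := MulAction.exists_smul_eq (↥N ⧸ center ↥N) S₀ P
  obtain ⟨c, rfl⟩ := QuotientGroup.mk_surjective c'
  have hwP : (QuotientGroup.mk w : ↥N ⧸ center ↥N) ∈ (P : Subgroup (↥N ⧸ center ↥N)) :=
    hP (Subgroup.mem_zpowers _)
  rw [← hc', Sylow.coe_subgroup_smul, Subgroup.mem_pointwise_smul_iff_inv_smul_mem, hS₀] at hwP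
  have e1 : ∀ v : ↥N, (MulAut.conj (QuotientGroup.mk c : ↥N ⧸ center ↥N))⁻¹ •
      (QuotientGroup.mk v : ↥N ⧸ center ↥N) = QuotientGroup.mk (c⁻¹ * v * c) := by
    intro v
    rw [MulAut.smul_def, MulAut.conj_inv_apply]
    rfl
  rw [e1, mem_map_mk_iff (center ↥N) _ (center_le_cz x₀)] at hwP
  have hconjZ : ∀ v : ↥N, c⁻¹ * v * c ∈ center ↥N → v ∈ center ↥N := by
    intro v hv
    have h1 := (inferInstance : (center ↥N).Normal).conj_mem _ hv c
    have e : c * (c⁻¹ * v * c) * c⁻¹ = v := by group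
    rw [e] at h1
    exact h1
  have hw'Z : c⁻¹ * w * c ∉ center ↥N := fun h => hwZ (hconjZ w h)
  have hstar := star_base hmax hZG hx₀ p hexp₀ hwP hw'Z
  intro u hu huZ
  have hu' : c⁻¹ * u * c ∈ cz (c⁻¹ * w * c) := by
    rw [mem_cz] at hu ⊢
    calc c⁻¹ * u * c * (c⁻¹ * w * c) = c⁻¹ * (u * w) * c := by group
      _ = c⁻¹ * (w * u) * c := by rw [hu]
      _ = c⁻¹ * w * c * (c⁻¹ * u * c) := by group
  have h1 := hstar (c⁻¹ * u * c) hu' (fun h => huZ (hconjZ u h))
  rw [← h1]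
  have e2 : (QuotientGroup.mk (c⁻¹ * u * c) : ↥N ⧸ center ↥N) =
      MulAut.conj (QuotientGroup.mk c : ↥N ⧸ center ↥N)⁻¹ (QuotientGroup.mk u) := by
    rw [MulAut.conj_apply, inv_inv]
    rfl
  rw [e2, MulEquiv.orderOf_eq]

end Cfsg.Agent.Lib.Helper22.CN
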