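import Mathlib
import Cfsg.Agent.Lib.Helper22.CN5

set_option autoImplicit false

namespace Cfsg.Agent.Lib.Helper22.CN

open Subgroup Cfsg.Agent.Lib.Helper22.CM

theorem exists_pow_order {Q : Type*} [Group Q] {t : Q} {p : ℕ}
    (hpos : 0 < orderOf t) (hdvd : p ∣ orderOf t) : ∃ k : ℕ, orderOf (t ^ k) = p := by
  obtain ⟨k, hk⟩ := hdvd
  have hk0 : k ≠ 0 := by
    rintro rfl
    rw [mul_zero] at hk
    omega
  refine ⟨k, ?_⟩
  rw [orderOf_pow_of_dvd hk0 (Dvd.intro_left p hk.symm), hk]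
  exact Nat.mul_div_cancel _ (Nat.pos_of_ne_zero hk0)

variable {G : Type*} [Group G] {N : Subgroup G}

set_option maxHeartbeats 1600000 in
/-- in the non-abelian type situation no `C_N(x)` is invariant -/
theorem no_ginv [Finite G] [N.Normal]
    (hmax : ∀ x : ↥N, x ∉ center ↥N → IsCoatom (cz (x : G)))
    (hZG : ∀ z : ↥N, z ∈ center ↥N → (z : G) ∈ center G)
    {x₀ : ↥N} (hx₀ : x₀ ∉ center ↥N) (hbad₀ : ¬ GInv N (cz x₀))
    {y₀ : ↥N} (hy₀ : y₀ ∈ cz x₀) (hy₀' : (y₀ : G) ∉ dc (x₀ : G))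
    {x : ↥N} (hx : x ∉ center ↥N) (hG : GInv N (cz x)) : False := by
  obtain ⟨p, hp, hexp₀⟩ := exponent_primeN hmax hZG hx₀ hy₀ hy₀'
  obtain ⟨hF, S₀, hS₀⟩ := sylowN hmax hx₀ hbad₀ p hp hexp₀
  have star : ∀ w : ↥N, orderOf (QuotientGroup.mk w : ↥N ⧸ center ↥N) = p →
      ∀ u ∈ cz w, u ∉ center ↥N → orderOf (QuotientGroup.mk u : ↥N ⧸ center ↥N) = p :=
    fun w hw => star2 hmax hZG hx₀ p hexp₀ S₀ hS₀ hw
  haveI hxn : (cz x).Normal := ginv_normal hG
  have hsup : ∀ u : ↥N, u ∉ center ↥N → ¬ (cz x ≤ cz u) → cz u ⊔ cz x = ⊤ := by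
    intro u hu hnle
    rcases max_inv hmax hu (cz u ⊔ cz x) le_sup_left
      (minv_sup (minv_cz u) (hG.minv _)) with h | h
    · exfalso
      apply hnle
      rw [← h]
      exact le_sup_right
    · exact h
  have hcomm_symm : ∀ a b : ↥N, a ∈ cz b → b ∈ cz a :=
    fun a b h => mem_cz.mpr (mem_cz.mp h).symm
  by_cases hpx : p ∣ orderOf (QuotientGroup.mk x : ↥N ⧸ center ↥N)
  · -- first case: the order of `x` modulo the centre is divisible by `p`
    have hxo : orderOf (QuotientGroup.mk x : ↥N ⧸ center ↥N) = p := by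
      obtain ⟨k, hk⟩ := exists_pow_order (orderOf_pos _) hpx
      rw [← QuotientGroup.mk_pow] at hk
      have hxk : x ∈ cz (x ^ k) := by
        rw [mem_cz]
        exact ((Commute.pow_right (Commute.refl x) k)).eq
      exact star (x ^ k) hk x hxk hx
    have hDx := star x hxo
    obtain ⟨u₀, r, hr, hrp, hu₀⟩ : ∃ u₀ : ↥N, ∃ r : ℕ, r.Prime ∧ r ≠ p ∧
        orderOf (QuotientGroup.mk u₀ : ↥N ⧸ center ↥N) = r := by
      have hidx : (S₀ : Subgroup (↥N ⧸ center ↥N)).index ≠ 1 := by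
        intro h
        have htop := Subgroup.index_eq_one.mp h
        apply hx₀
        rw [Subgroup.mem_center_iff]
        intro g
        have hg : (QuotientGroup.mk g : ↥N ⧸ center ↥N) ∈
            (S₀ : Subgroup (↥N ⧸ center ↥N)) := by
          rw [htop]
          trivial
        rw [hS₀, mem_map_mk_iff (center ↥N) _ (center_le_cz x₀)] at hg
        exact mem_cz.mp hg
      obtain ⟨r, hr, hrd⟩ := Nat.exists_prime_and_dvd hidx
      have hrp : r ≠ p := by
        intro h
        rw [h] at hrd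
        exact S₀.not_dvd_index hrd
      haveI := Fact.mk hr
      obtain ⟨t, ht⟩ := exists_prime_orderOf_dvd_card' r
        (dvd_trans hrd (Subgroup.index_dvd_card _))
      obtain ⟨u₀, rfl⟩ := QuotientGroup.mk_surjective t
      exact ⟨u₀, r, hr, hrp, ht⟩
    have hu₀Z : u₀ ∉ center ↥N := by
      intro h
      rw [(QuotientGroup.eq_one_iff u₀).mpr h, orderOf_one] at hu₀
      exact hr.one_lt.ne hu₀
    have hint : ∀ v : ↥N, v ∈ cz u₀ → v ∈ cz x → v ∈ center ↥N := by
      intro v hv1 hv2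
      by_contra hvZ
      have h1 := hDx v hv2 hvZ
      have h2 := star v h1 u₀ (hcomm_symm v u₀ hv1) hu₀Z
      exact hrp (hu₀.symm.trans h2)
    have hsup₀ : cz u₀ ⊔ cz x = ⊤ :=
      hsup u₀ hu₀Z (fun hle => hx (hint x (hle (self_mem_cz x)) (self_mem_cz x)))
    obtain ⟨s, hs, hso⟩ : ∃ s : ↥N, s ∉ cz x ∧
        orderOf (QuotientGroup.mk s : ↥N ⧸ center ↥N) = p := by
      by_contra hcon
      have hle : cz x₀ ≤ cz x := by
        intro v hv
        by_cases hvZ : v ∈ center ↥N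
        · exact center_le_cz x hvZ
        · by_contra hvx
          exact hcon ⟨v, hvx, hexp₀ v hv hvZ⟩
      rcases max_inv hmax hx₀ (cz x) hle (hG.minv _) with h | h
      · apply hbad₀
        rw [← h]
        exact hG
      · exact cz_ne_top hx h
    have hs' : s ∈ ((cz u₀ ⊔ cz x : Subgroup ↥N) : Set ↥N) := by
      rw [hsup₀]
      trivial
    rw [Subgroup.mul_normal] at hs'
    obtain ⟨u, hu, d, hd, rfl⟩ := Set.mem_mul.mp hs'
    have hup : u ^ p ∈ cz x := by
      have h1 : (QuotientGroup.mk (u * d) : ↥N ⧸ cz x) = QuotientGroup.mk u := by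
        rw [QuotientGroup.mk_mul, (QuotientGroup.eq_one_iff d).mpr hd, mul_one]
      have h2 : (u * d) ^ p ∈ cz x := center_le_cz x (pow_mem_center_of_order hso)
      rw [← QuotientGroup.eq_one_iff, QuotientGroup.mk_pow, h1, ← QuotientGroup.mk_pow,
        QuotientGroup.eq_one_iff] at h2
      exact h2
    have hupZ : u ^ p ∈ center ↥N := hint _ (pow_mem hu p) hup
    have huZ : u ∉ center ↥N := fun h => hs (mul_mem (center_le_cz x h) hd)
    have huo : orderOf (QuotientGroup.mk u : ↥N ⧸ center ↥N) = p := by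
      have hd' : orderOf (QuotientGroup.mk u : ↥N ⧸ center ↥N) ∣ p := by
        apply orderOf_dvd_of_pow_eq_one
        rw [← QuotientGroup.mk_pow, QuotientGroup.eq_one_iff]
        exact hupZ
      rcases (Nat.dvd_prime hp).mp hd' with h | h
      · exfalso
        rw [orderOf_eq_one_iff, QuotientGroup.eq_one_iff] at h
        exact huZ h
      · exact h
    have h3 := star u huo u₀ (hcomm_symm u u₀ hu) hu₀Z
    exact hrp (hu₀.symm.trans h3)
  · -- second case: the order of `x` modulo the centre is prime to `p`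
    have hp' : ∀ r : ↥N, r ∈ cz x → r ∉ center ↥N →
        ¬ p ∣ orderOf (QuotientGroup.mk r : ↥N ⧸ center ↥N) := by
      intro r hr hrZ hdvd
      obtain ⟨k, hk⟩ := exists_pow_order (orderOf_pos _) hdvd
      rw [← QuotientGroup.mk_pow] at hk
      have hxr : x ∈ cz (r ^ k) := by
        rw [mem_cz]
        have h1 : r * x = x * r := mem_cz.mp hr
        exact ((Commute.pow_right (show Commute x r from h1.symm) k)).eq
      apply hpx
      rw [star (r ^ k) hk x hxr hx]
    have hint : ∀ w : ↥N, orderOf (QuotientGroup.mk w : ↥N ⧸ center ↥N) = p →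
        ∀ v : ↥N, v ∈ cz x → v ∈ cz w → v ∈ center ↥N := by
      intro w hw v hv1 hv2
      by_contra hvZ
      have h1 := star w hw v hv2 hvZ
      apply hp' v hv1 hvZ
      rw [h1]
    have hx₀o := hexp₀ x₀ (self_mem_cz x₀) hx₀
    have hy₀Z : y₀ ∉ center ↥N := fun h => hy₀' (center_le_dc (x₀ : G) (hZG y₀ h))
    have hy₀o := hexp₀ y₀ hy₀ hy₀Z
    have key : ∀ a b : ↥N, a ∈ cz b →
        orderOf (QuotientGroup.mk a : ↥N ⧸ center ↥N) = p →
        orderOf (QuotientGroup.mk b : ↥N ⧸ center ↥N) = p → cz a ≤ cz b := by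
      intro a b hab hao hbo
      have hbZ : b ∉ center ↥N := by
        intro h
        rw [(QuotientGroup.eq_one_iff b).mpr h, orderOf_one] at hbo
        exact hp.one_lt.ne hbo
      have hsupb : cz b ⊔ cz x = ⊤ :=
        hsup b hbZ (fun hle => hx (hint b hbo x (self_mem_cz x) (hle (self_mem_cz x))))
      intro t ht
      have ht' : t ∈ ((cz b ⊔ cz x : Subgroup ↥N) : Set ↥N) := by
        rw [hsupb]
        trivial
      rw [Subgroup.mul_normal] at ht'
      obtain ⟨s, hs, r, hr, rfl⟩ := Set.mem_mul.mp ht'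
      have hζx : a * r * a⁻¹ * r⁻¹ ∈ cz x :=
        (cz x).mul_mem (hxn.conj_mem r hr a) ((cz x).inv_mem hr)
      have hsa : s * r * a = a * (s * r) := mem_cz.mp ht
      have hζb : a * r * a⁻¹ * r⁻¹ ∈ cz b := by
        have e : a * r * a⁻¹ * r⁻¹ = a * s⁻¹ * a⁻¹ * s := by
          have h2 : r * a * r⁻¹ = s⁻¹ * a * s := by
            calc r * a * r⁻¹ = s⁻¹ * (s * r * a) * r⁻¹ := by group
              _ = s⁻¹ * (a * (s * r)) * r⁻¹ := by rw [hsa]
              _ = s⁻¹ * a * s := by group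
          have h1 : r * a⁻¹ * r⁻¹ = s⁻¹ * a⁻¹ * s := by
            calc r * a⁻¹ * r⁻¹ = (r * a * r⁻¹)⁻¹ := by group
              _ = (s⁻¹ * a * s)⁻¹ := by rw [h2]
              _ = s⁻¹ * a⁻¹ * s := by group
          calc a * r * a⁻¹ * r⁻¹ = a * (r * a⁻¹ * r⁻¹) := by group
            _ = a * (s⁻¹ * a⁻¹ * s) := by rw [h1]
            _ = a * s⁻¹ * a⁻¹ * s := by group
        rw [e]
        exact (cz b).mul_mem ((cz b).mul_mem ((cz b).mul_mem hab ((cz b).inv_mem hs))
          ((cz b).inv_mem hab)) hs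
      have hζZ : a * r * a⁻¹ * r⁻¹ ∈ center ↥N := hint b hbo _ hζx hζb
      obtain ⟨ζ, hζ⟩ : ∃ ζ : ↥N, ζ = a * r * a⁻¹ * r⁻¹ := ⟨_, rfl⟩
      rw [← hζ] at hζZ
      have hζc : ∀ g : ↥N, g * ζ = ζ * g := Subgroup.mem_center_iff.mp hζZ
      have har : a * r = ζ * r * a := by
        rw [hζ]
        group
      have hpow1 : ∀ j : ℕ, a ^ j * r = ζ ^ j * r * a ^ j := by
        intro j
        induction j with
        | zero => simp
        | succ j ih =>
          calc a ^ (j + 1) * r = a ^ j * (a * r) := by rw [pow_succ, mul_assoc]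
            _ = a ^ j * (ζ * r * a) := by rw [har]
            _ = (a ^ j * ζ) * r * a := by simp only [mul_assoc]
            _ = (ζ * a ^ j) * r * a := by rw [hζc (a ^ j)]
            _ = ζ * (a ^ j * r) * a := by simp only [mul_assoc]
            _ = ζ * (ζ ^ j * r * a ^ j) * a := by rw [ih]
            _ = ζ ^ (j + 1) * r * a ^ (j + 1) := by
                rw [pow_succ' ζ j, pow_succ a j]
                simp only [mul_assoc]
      have hpow2 : ∀ m : ℕ, a * r ^ m = ζ ^ m * r ^ m * a := by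
        intro m
        induction m with
        | zero => simp
        | succ m ih =>
          calc a * r ^ (m + 1) = (a * r ^ m) * r := by rw [pow_succ, mul_assoc]
            _ = ζ ^ m * r ^ m * a * r := by rw [ih]
            _ = ζ ^ m * r ^ m * (a * r) := by simp only [mul_assoc]
            _ = ζ ^ m * r ^ m * (ζ * r * a) := by rw [har]
            _ = ζ ^ m * (r ^ m * ζ) * r * a := by simp only [mul_assoc]
            _ = ζ ^ m * (ζ * r ^ m) * r * a := by rw [hζc (r ^ m)]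
            _ = ζ ^ (m + 1) * r ^ (m + 1) * a := by
                rw [pow_succ ζ m, pow_succ r m]
                simp only [mul_assoc]
      have hζp : ζ ^ p = 1 := by
        have h1 : r * a ^ p = a ^ p * r :=
          Subgroup.mem_center_iff.mp (pow_mem_center_of_order hao) r
        have h2 : ζ ^ p * (r * a ^ p) = 1 * (r * a ^ p) := by
          rw [one_mul, ← mul_assoc, ← hpow1 p, h1]
        exact mul_right_cancel h2
      by_cases hrZ : r ∈ center ↥N
      · exact (cz b).mul_mem hs (center_le_cz b hrZ)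
      · exfalso
        obtain ⟨m, hm_def⟩ : ∃ m, orderOf (QuotientGroup.mk r : ↥N ⧸ center ↥N) = m :=
          ⟨_, rfl⟩
        have hm : r ^ m ∈ center ↥N := pow_mem_center_of_order hm_def
        have hζm : ζ ^ m = 1 := by
          have h1 : a * r ^ m = r ^ m * a := Subgroup.mem_center_iff.mp hm a
          have h2 : ζ ^ m * (r ^ m * a) = 1 * (r ^ m * a) := by
            rw [one_mul, ← mul_assoc, ← hpow2 m, h1]
          exact mul_right_cancel h2
        have hndvd : ¬ p ∣ m := by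
          rw [← hm_def]
          exact hp' r hr hrZ
        have hcop : Nat.Coprime p m := (Nat.Prime.coprime_iff_not_dvd hp).mpr hndvd
        have hζ1 : ζ = 1 := by
          have h1 : orderOf ζ ∣ p := orderOf_dvd_of_pow_eq_one hζp
          have h2 : orderOf ζ ∣ m := orderOf_dvd_of_pow_eq_one hζm
          have h3 : orderOf ζ ∣ 1 := by
            have h4 := Nat.dvd_gcd h1 h2
            rwa [hcop.gcd_eq_one] at h4
          exact orderOf_eq_one_iff.mp (Nat.dvd_one.mp h3)
        have hra : r ∈ cz a := by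
          rw [mem_cz, har, hζ1, one_mul]
        exact hrZ (hint a hao r hr hra)
    have h1 : cz y₀ ≤ cz x₀ := key y₀ x₀ hy₀ hy₀o hx₀o
    have h2 : cz x₀ ≤ cz y₀ := key x₀ y₀ (hcomm_symm y₀ x₀ hy₀) hx₀o hy₀o
    exact hbad₀ (ginv_of_two hmax hx₀ hy₀Z (cz_ne_of_not_dc hy₀') (le_antisymm h2 h1))

theorem sylow_data [Finite G] [N.Normal]
    (hmax : ∀ x : ↥N, x ∉ center ↥N → IsCoatom (cz (x : G)))
    (hZG : ∀ z : ↥N, z ∈ center ↥N → (z : G) ∈ center G)
    (hB2 : ∀ x : ↥N, x ∉ center ↥N → ¬ GInv N (cz x) → ∃ y ∈ cz x, (y : G) ∉ dc (x : G))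
    {x : ↥N} (hx : x ∉ center ↥N) (hbad : ¬ GInv N (cz x)) :
    ∃ (p : ℕ) (_ : Fact p.Prime) (S : Sylow p (↥N ⧸ center ↥N)),
      (S : Subgroup (↥N ⧸ center ↥N)) = (cz x).map (QuotientGroup.mk' (center ↥N)) ∧
      ∀ u ∈ cz x, u ∉ center ↥N → orderOf (QuotientGroup.mk u : ↥N ⧸ center ↥N) = p := by
  obtain ⟨y, hy, hy'⟩ := hB2 x hx hbad
  obtain ⟨p, hp, hexp⟩ := exponent_primeN hmax hZG hx hy hy'
  obtain ⟨hF, S, hS⟩ := sylowN hmax hx hbad p hp hexp
  exact ⟨p, hF, S, hS, hexp⟩

theorem nonab [Finite G] [N.Normal]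
    (hmax : ∀ x : ↥N, x ∉ center ↥N → IsCoatom (cz (x : G)))
    (hZG : ∀ z : ↥N, z ∈ center ↥N → (z : G) ∈ center G)
    (hB2 : ∀ x : ↥N, x ∉ center ↥N → ¬ GInv N (cz x) → ∃ y ∈ cz x, (y : G) ∉ dc (x : G))
    (hall : ∀ x : ↥N, x ∉ center ↥N → ¬ GInv N (cz x))
    {x : ↥N} (hx : x ∉ center ↥N) : ∃ y ∈ cz x, ∃ m ∈ cz x, m * y ≠ y * m := by
  by_contra hcon
  have hab : ∀ y ∈ cz x, ∀ m ∈ cz x, m * y = y * m := by
    intro y hy m hm
    by_contra h
    exact hcon ⟨y, hy, m, hm, h⟩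
  obtain ⟨y, hy, hy'⟩ := hB2 x hx (hall x hx)
  have hyZ : y ∉ center ↥N := fun h => hy' (center_le_dc (x : G) (hZG y h))
  have hle : cz x ≤ cz y := fun m hm => mem_cz.mpr (hab y hy m hm)
  obtain ⟨p, hFp, S, hS, hexp⟩ := sylow_data hmax hZG hB2 hx (hall x hx)
  obtain ⟨q, hFq, T, hT, hexq⟩ := sylow_data hmax hZG hB2 hyZ (hall y hyZ)
  have hpq : p = q := by
    rw [← hexp x (self_mem_cz x) hx, hexq x (hle (self_mem_cz x)) hx]
  subst hpq
  have hST : (S : Subgroup (↥N ⧸ center ↥N)) = T := by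
    apply Subgroup.eq_of_le_of_card_ge
    · rw [hS, hT]
      exact Subgroup.map_mono hle
    · rw [S.card_eq_multiplicity, T.card_eq_multiplicity]
  have heq : cz x = cz y := by
    have h1 : ((cz x).map (QuotientGroup.mk' (center ↥N))).comap
        (QuotientGroup.mk' (center ↥N)) = cz x := by
      apply Subgroup.comap_map_eq_self
      rw [QuotientGroup.ker_mk']
      exact center_le_cz x
    have h2 : ((cz y).map (QuotientGroup.mk' (center ↥N))).comap
        (QuotientGroup.mk' (center ↥N)) = cz y := by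
      apply Subgroup.comap_map_eq_self
      rw [QuotientGroup.ker_mk']
      exact center_le_cz y
    rw [← h1, ← h2, ← hS, ← hT, hST]
  exact hall x hx (ginv_of_two hmax hx hyZ (cz_ne_of_not_dc hy') heq)

theorem chain_bound [Finite G] {x : ↥N} (q : ℕ) [Fact q.Prime]
    (S : Sylow q (↥N ⧸ center ↥N))
    (hS : (S : Subgroup (↥N ⧸ center ↥N)) = (cz x).map (QuotientGroup.mk' (center ↥N)))
    {y m : ↥N} (hy : y ∈ cz x) (hm : m ∈ cz x) (hmy : m * y ≠ y * m) :
    Nat.card ((Subgroup.centralizer ((cz x : Subgroup ↥N) : Set ↥N)).map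
      (QuotientGroup.mk' (center ↥N))) * q ^ 2 ≤
      Nat.card (S : Subgroup (↥N ⧸ center ↥N)) := by
  have hq : q.Prime := Fact.out
  obtain ⟨C, hC⟩ : ∃ C : Subgroup ↥N,
      C = Subgroup.centralizer ((cz x : Subgroup ↥N) : Set ↥N) := ⟨_, rfl⟩
  rw [← hC]
  have hCmem : ∀ g : ↥N, g ∈ C ↔ ∀ h ∈ cz x, h * g = g * h := by
    intro g
    rw [hC, Subgroup.mem_centralizer_iff]
    rfl
  have hZM : center ↥N ≤ cz x := center_le_cz x
  have hZd : center ↥N ≤ C := by
    intro g hg
    rw [hCmem]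
    intro h _
    exact Subgroup.mem_center_iff.mp hg h
  have hdC : C ≤ cz x ⊓ cz y := by
    intro g hg
    rw [hCmem] at hg
    exact Subgroup.mem_inf.mpr ⟨mem_cz.mpr (hg x (self_mem_cz x)).symm,
      mem_cz.mpr (hg y hy).symm⟩
  have hZC : center ↥N ≤ cz x ⊓ cz y := hZd.trans hdC
  have hpg : IsPGroup q ((cz x).map (QuotientGroup.mk' (center ↥N))) := by
    rw [← hS]
    exact S.isPGroup'
  have hA_le : C.map (QuotientGroup.mk' (center ↥N)) ≤
      (cz x ⊓ cz y).map (QuotientGroup.mk' (center ↥N)) := Subgroup.map_mono hdC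
  have hC_le : (cz x ⊓ cz y).map (QuotientGroup.mk' (center ↥N)) ≤
      (cz x).map (QuotientGroup.mk' (center ↥N)) := Subgroup.map_mono inf_le_left
  have hpgC : IsPGroup q ((cz x ⊓ cz y).map (QuotientGroup.mk' (center ↥N))) :=
    hpg.to_le hC_le
  have hpgA : IsPGroup q (C.map (QuotientGroup.mk' (center ↥N))) := hpgC.to_le hA_le
  obtain ⟨k, hk⟩ := IsPGroup.iff_card.mp hpg
  obtain ⟨j, hj⟩ := IsPGroup.iff_card.mp hpgC
  obtain ⟨i, hi⟩ := IsPGroup.iff_card.mp hpgA
  have hij : i < j := by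
    have h1 : i ≤ j := by
      have := Subgroup.card_dvd_of_le hA_le
      rw [hi, hj] at this
      exact (Nat.pow_dvd_pow_iff_le_right hq.one_lt).mp this
    rcases Nat.lt_or_ge i j with h | h
    · exact h
    · exfalso
      have hij' : i = j := le_antisymm h1 h
      have heq := Subgroup.eq_of_le_of_card_ge hA_le (by rw [hi, hj, hij'])
      have hyC : (QuotientGroup.mk y : ↥N ⧸ center ↥N) ∈
          (cz x ⊓ cz y).map (QuotientGroup.mk' (center ↥N)) :=
        (mem_map_mk_iff (center ↥N) _ hZC y).mpr ⟨hy, self_mem_cz y⟩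
      rw [← heq, mem_map_mk_iff (center ↥N) _ hZd y, hCmem] at hyC
      exact hmy (hyC m hm)
  have hjk : j < k := by
    have h1 : j ≤ k := by
      have := Subgroup.card_dvd_of_le hC_le
      rw [hj, hk] at this
      exact (Nat.pow_dvd_pow_iff_le_right hq.one_lt).mp this
    rcases Nat.lt_or_ge j k with h | h
    · exact h
    · exfalso
      have hjk' : j = k := le_antisymm h1 h
      have heq := Subgroup.eq_of_le_of_card_ge hC_le (by rw [hj, hk, hjk'])
      have hmM : (QuotientGroup.mk m : ↥N ⧸ center ↥N) ∈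
          (cz x).map (QuotientGroup.mk' (center ↥N)) :=
        (mem_map_mk_iff (center ↥N) _ hZM m).mpr hm
      rw [← heq, mem_map_mk_iff (center ↥N) _ hZC m] at hmM
      exact hmy (mem_cz.mp hmM.2)
  rw [hS, hi, hk, ← pow_add]
  exact Nat.pow_le_pow_right hq.pos (by omega)

/-- the non-abelian type situation is contradictory -/
theorem caseBeta2 [Finite G] [N.Normal]
    (hmax : ∀ x : ↥N, x ∉ center ↥N → IsCoatom (cz (x : G)))
    (hZG : ∀ z : ↥N, z ∈ center ↥N → (z : G) ∈ center G)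
    (hB2 : ∀ x : ↥N, x ∉ center ↥N → ¬ GInv N (cz x) → ∃ y ∈ cz x, (y : G) ∉ dc (x : G))
    (x₀ : ↥N) (hx₀ : x₀ ∉ center ↥N) (hnn0 : ¬ GInv N (cz x₀)) : False := by
  obtain ⟨y₀, hy₀, hy₀'⟩ := hB2 x₀ hx₀ hnn0
  have hall : ∀ x : ↥N, x ∉ center ↥N → ¬ GInv N (cz x) :=
    fun x hx hG => no_ginv hmax hZG hx₀ hnn0 hy₀ hy₀' hx hG
  haveI : Nontrivial (↥N ⧸ center ↥N) :=
    ⟨⟨QuotientGroup.mk x₀, 1, mk_ne_one_iff.mpr hx₀⟩⟩
  apply count_contra (Q := ↥N ⧸ center ↥N)
    (fun t => (cz t.out).map (QuotientGroup.mk' (center ↥N)))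
    (fun t => (Subgroup.centralizer ((cz t.out : Subgroup ↥N) : Set ↥N)).map
      (QuotientGroup.mk' (center ↥N)))
  intro t ht
  have hout : (QuotientGroup.mk t.out : ↥N ⧸ center ↥N) = t := QuotientGroup.out_eq' t
  have htZ : t.out ∉ center ↥N := by
    intro h
    apply ht
    rw [← hout]
    exact (QuotientGroup.eq_one_iff _).mpr h
  obtain ⟨q, hFq, S, hS, hexp⟩ := sylow_data hmax hZG hB2 htZ (hall _ htZ)
  refine ⟨q, hFq, S, ?_, hS, ?_, ?_⟩
  · have h1 := hexp t.out (self_mem_cz _) htZ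
    rw [hout] at h1
    exact h1
  · intro t' ht' hFeq
    have hFeq' : (cz t'.out).map (QuotientGroup.mk' (center ↥N)) =
        (cz t.out).map (QuotientGroup.mk' (center ↥N)) := hFeq
    have hcz : cz t'.out = cz t.out := by
      have h1 : ((cz t'.out).map (QuotientGroup.mk' (center ↥N))).comap
          (QuotientGroup.mk' (center ↥N)) = cz t'.out := by
        apply Subgroup.comap_map_eq_self
        rw [QuotientGroup.ker_mk']
        exact center_le_cz _
      have h2 : ((cz t.out).map (QuotientGroup.mk' (center ↥N))).comap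
          (QuotientGroup.mk' (center ↥N)) = cz t.out := by
        apply Subgroup.comap_map_eq_self
        rw [QuotientGroup.ker_mk']
        exact center_le_cz _
      rw [← h1, ← h2, hFeq']
    have hmem : t'.out ∈ Subgroup.centralizer ((cz t.out : Subgroup ↥N) : Set ↥N) := by
      rw [Subgroup.mem_centralizer_iff]
      intro h hh
      have h3 : h ∈ cz t'.out := by
        rw [hcz]
        exact hh
      exact mem_cz.mp h3
    have h4 : (QuotientGroup.mk t'.out : ↥N ⧸ center ↥N) ∈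
        (Subgroup.centralizer ((cz t.out : Subgroup ↥N) : Set ↥N)).map
          (QuotientGroup.mk' (center ↥N)) := Subgroup.mem_map_of_mem _ hmem
    rw [QuotientGroup.out_eq'] at h4
    exact h4
  · obtain ⟨y, hy, m, hm, hmy⟩ := nonab hmax hZG hB2 hall htZ
    exact chain_bound q S hS hy hm hmy

end Cfsg.Agent.Lib.Helper22.CN
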