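import Mathlib
import Cfsg.Prelude.Def_Local
import Cfsg.Agent.Lib.Helper21.Basic

/-!
Helper lemmas (helper22): the first two terms of the upper `p`-series of a normal
`p`-solvable subgroup, as normal subgroups of the ambient group.
-/

namespace Cfsg.Agent.Lib.Helper22

/-- In a finite group, a nonempty family of subgroups closed under joins has a largest member. -/
theorem exists_largest_of_sup_closed {G : Type*} [Group G] [Finite G] (S : Subgroup G → Prop)
    (h0 : ∃ N, S N) (hsup : ∀ A B, S A → S B → S (A ⊔ B)) :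
    ∃ K : Subgroup G, S K ∧ ∀ N, S N → N ≤ K := by
  obtain ⟨N0, hN0⟩ := h0
  haveI : Nonempty {N : Subgroup G // S N} := ⟨⟨N0, hN0⟩⟩
  obtain ⟨K, hK⟩ := Finite.exists_max (fun N : {N : Subgroup G // S N} => Nat.card (N : Subgroup G))
  refine ⟨K.1, K.2, fun N hN => ?_⟩
  have h1 : S (N ⊔ K.1) := hsup N K.1 hN K.2
  have h2 : Nat.card (N ⊔ K.1 : Subgroup G) ≤ Nat.card K.1 := hK ⟨N ⊔ K.1, h1⟩
  have h3 : K.1 = N ⊔ K.1 := Subgroup.eq_of_le_of_card_ge le_sup_right h2
  rw [h3]
  exact le_sup_left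

/-- The image in `G` of a subgroup of a normal subgroup `H` that is stable under all
automorphisms of `H` is normal in `G`. -/
theorem map_subtype_normal_of_char {G : Type*} [Group G] (H : Subgroup G) [hH : H.Normal]
    (K : Subgroup H) (hchar : ∀ e : H ≃* H, K.map e.toMonoidHom ≤ K) :
    (K.map H.subtype).Normal := by
  refine ⟨fun x hx g => ?_⟩
  obtain ⟨k, hk, rfl⟩ := hx
  have h1 : (MulAut.conjNormal g : H ≃* H) k ∈ K :=
    hchar (MulAut.conjNormal g) ⟨k, hk, rfl⟩
  refine ⟨(MulAut.conjNormal g : H ≃* H) k, h1, ?_⟩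
  simp [MulAut.conjNormal_apply]

/-- A finite `p`-solvable group of order divisible by `p` has characteristic subgroups
`K ≤ D` with `K` of order prime to `p`, `D / K` a `p`-group and `p ∣ |D|`. -/
theorem exists_char_pprime_p {H : Type*} [Group H] [Finite H] {p : ℕ} [hp : Fact p.Prime]
    (hsolv : Cfsg.IsPSolvable p H) (hdiv : p ∣ Nat.card H) :
    ∃ K D : Subgroup H, K ≤ D ∧ ¬ p ∣ Nat.card K ∧ (∃ m, Nat.card D = Nat.card K * p ^ m) ∧
      p ∣ Nat.card D ∧ (∀ e : H ≃* H, K.map e.toMonoidHom ≤ K) ∧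
      (∀ e : H ≃* H, D.map e.toMonoidHom ≤ D) := by
  have hpp : p.Prime := hp.out
  -- the largest normal `p'`-subgroup
  obtain ⟨K, ⟨hKn, hKp⟩, hKmax⟩ := exists_largest_of_sup_closed
    (fun N : Subgroup H => N.Normal ∧ ¬ p ∣ Nat.card N)
    ⟨⊥, inferInstance, by
      rw [Subgroup.card_bot]; exact hpp.one_lt.ne' ∘ Nat.dvd_one.mp⟩
    (by
      rintro A B ⟨hA, hA'⟩ ⟨hB, hB'⟩
      haveI := hA
      haveI := hB
      refine ⟨inferInstance, fun h => ?_⟩
      have h1 := Cfsg.Agent.Lib.Helper21.card_sup_mul_card_inf A B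
      have h2 : p ∣ Nat.card A * Nat.card B := by
        rw [← h1]; exact Dvd.dvd.mul_right h _
      rcases (Nat.Prime.dvd_mul hpp).mp h2 with h3 | h3
      · exact hA' h3
      · exact hB' h3)
  haveI := hKn
  have hKchar : ∀ e : H ≃* H, K.map e.toMonoidHom ≤ K := by
    intro e
    apply hKmax
    refine ⟨?_, ?_⟩
    · exact Subgroup.Normal.map hKn e.toMonoidHom e.surjective
    · rw [Subgroup.card_map_of_injective (f := e.toMonoidHom) e.injective]; exact hKp
  have hKchar' : ∀ e : H ≃* H, K.map e.toMonoidHom = K := by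
    intro e
    refine Subgroup.eq_of_le_of_card_ge (hKchar e) ?_
    rw [Subgroup.card_map_of_injective (f := e.toMonoidHom) e.injective]
  -- the largest normal subgroup above `K` with `p`-power index over `K`
  obtain ⟨D, ⟨hDn, hKD, m, hm⟩, hDmax⟩ := exists_largest_of_sup_closed
    (fun N : Subgroup H => N.Normal ∧ K ≤ N ∧ ∃ m, Nat.card N = Nat.card K * p ^ m)
    ⟨K, hKn, le_rfl, 0, by simp⟩
    (by
      rintro A B ⟨hA, hKA, a, ha⟩ ⟨hB, hKB, b, hb⟩
      haveI := hA
      haveI := hB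
      refine ⟨inferInstance, le_trans hKA le_sup_left, ?_⟩
      have h1 := Cfsg.Agent.Lib.Helper21.card_sup_mul_card_inf A B
      have h2 : Nat.card K ∣ Nat.card (A ⊓ B : Subgroup H) :=
        Subgroup.card_dvd_of_le (le_inf hKA hKB)
      have h3 : Nat.card (A ⊓ B : Subgroup H) ∣ Nat.card K * p ^ a := by
        rw [← ha]; exact Subgroup.card_dvd_of_le inf_le_left
      obtain ⟨y, hy⟩ := h2
      have hKpos : 0 < Nat.card K := Nat.card_pos
      have h4 : y ∣ p ^ a := by
        rw [hy] at h3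
        exact (Nat.mul_dvd_mul_iff_left hKpos).mp h3
      obtain ⟨j, hj, rfl⟩ := (Nat.dvd_prime_pow hpp).mp h4
      refine ⟨a + b - j, ?_⟩
      have h6 : p ^ (a + b - j) * p ^ j = p ^ a * p ^ b := by
        rw [← pow_add, ← pow_add]
        congr 1
        omega
      have h5 : Nat.card (A ⊔ B : Subgroup H) * (Nat.card K * p ^ j) =
          Nat.card K * p ^ (a + b - j) * (Nat.card K * p ^ j) := by
        have h7 : Nat.card (A ⊔ B : Subgroup H) * (Nat.card K * p ^ j) =
            Nat.card K * p ^ a * (Nat.card K * p ^ b) := by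
          rw [← ha, ← hb, ← h1, hy]
        rw [h7]
        calc Nat.card K * p ^ a * (Nat.card K * p ^ b)
            = Nat.card K * Nat.card K * (p ^ a * p ^ b) := by ring
          _ = Nat.card K * Nat.card K * (p ^ (a + b - j) * p ^ j) := by rw [h6]
          _ = Nat.card K * p ^ (a + b - j) * (Nat.card K * p ^ j) := by ring
      exact Nat.eq_of_mul_eq_mul_right (Nat.mul_pos hKpos (pow_pos hpp.pos j)) h5)
  haveI := hDn
  have hDchar : ∀ e : H ≃* H, D.map e.toMonoidHom ≤ D := by
    intro e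
    apply hDmax
    refine ⟨Subgroup.Normal.map hDn e.toMonoidHom e.surjective, ?_, m, ?_⟩
    · rw [← hKchar' e]; exact Subgroup.map_mono hKD
    · rw [Subgroup.card_map_of_injective (f := e.toMonoidHom) e.injective]; exact hm
  refine ⟨K, D, hKD, hKp, ⟨m, hm⟩, ?_, hKchar, hDchar⟩
  -- `p ∣ |D|` from the chain
  obtain ⟨n, Hc, h0, hlast, hmono, hnorm, hstep⟩ := hsolv
  have hex : ∃ i : Fin n, ¬ p ∣ Nat.card (Hc i.castSucc) ∧ p ∣ Nat.card (Hc i.succ) := by
    by_contra hcon
    push Not at hcon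
    have hall : ∀ j : Fin (n + 1), ¬ p ∣ Nat.card (Hc j) := by
      intro j
      induction j using Fin.induction with
      | zero =>
        rw [h0, Subgroup.card_bot]; exact hpp.one_lt.ne' ∘ Nat.dvd_one.mp
      | succ i ih => exact hcon i ih
    apply hall (Fin.last n)
    rw [hlast, Subgroup.card_top]
    exact hdiv
  obtain ⟨i, hi1, hi2⟩ := hex
  set A := Hc i.castSucc with hA
  set B := Hc i.succ with hB
  haveI hAn : A.Normal := hnorm _
  haveI hBn : B.Normal := hnorm _
  have hAB : A ≤ B := hmono (Fin.castSucc_lt_succ (i := i)).le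
  have hcard := Cfsg.Agent.Lib.Helper21.card_mul_relIndex hAB
  have hrel : ∃ m', A.relIndex B = p ^ m' := by
    rcases hstep i with h | h
    · exact h
    · exfalso
      have h1 : p ∣ Nat.card A * A.relIndex B := by rw [hcard]; exact hi2
      rcases (Nat.Prime.dvd_mul hpp).mp h1 with h2 | h2
      · exact hi1 h2
      · have h3 : p ∣ Nat.gcd (A.relIndex B) p := Nat.dvd_gcd h2 dvd_rfl
        rw [h] at h3
        exact hpp.one_lt.ne' (Nat.dvd_one.mp h3)
  obtain ⟨m', hm'⟩ := hrel
  have hAK : A ≤ K := hKmax A ⟨hAn, hi1⟩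
  -- `B ⊔ K` lies in the second family
  have hBK : B ⊔ K ≤ D := by
    apply hDmax
    refine ⟨inferInstance, le_sup_right, m', ?_⟩
    have h1 := Cfsg.Agent.Lib.Helper21.card_sup_mul_card_inf B K
    have h2 : Nat.card A ∣ Nat.card (B ⊓ K : Subgroup H) :=
      Subgroup.card_dvd_of_le (le_inf hAB hAK)
    have h3 : Nat.card (B ⊓ K : Subgroup H) ∣ Nat.card A * p ^ m' := by
      rw [← hm', hcard]; exact Subgroup.card_dvd_of_le inf_le_left
    have h4 : Nat.card (B ⊓ K : Subgroup H) ∣ Nat.card K := Subgroup.card_dvd_of_le inf_le_right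
    obtain ⟨y, hy⟩ := h2
    have hApos : 0 < Nat.card A := Nat.card_pos
    have h5 : y ∣ p ^ m' := by
      rw [hy] at h3
      exact (Nat.mul_dvd_mul_iff_left hApos).mp h3
    obtain ⟨j, hj, rfl⟩ := (Nat.dvd_prime_pow hpp).mp h5
    have hj0 : j = 0 := by
      by_contra hj0
      apply hKp
      refine dvd_trans ?_ h4
      rw [hy]
      exact Dvd.dvd.mul_left (dvd_pow_self p hj0) _
    subst hj0
    rw [pow_zero, mul_one] at hy
    rw [hy, ← hcard, hm'] at h1
    have h6 : Nat.card (B ⊔ K : Subgroup H) * Nat.card A = Nat.card K * p ^ m' * Nat.card A := by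
      rw [h1]; ring
    exact Nat.eq_of_mul_eq_mul_right hApos h6
  exact dvd_trans hi2 (Subgroup.card_dvd_of_le (le_trans le_sup_left hBK))

/-- The same, pushed forward to the ambient group. -/
theorem exists_pprime_p_series {G : Type*} [Group G] [Finite G] {p : ℕ} [hp : Fact p.Prime]
    (H : Subgroup G) [hH : H.Normal] (hsolv : Cfsg.IsPSolvable p H) (hdiv : p ∣ Nat.card H) :
    ∃ K D : Subgroup G, K.Normal ∧ D.Normal ∧ K ≤ D ∧ D ≤ H ∧ ¬ p ∣ Nat.card K ∧
      (∃ m, Nat.card D = Nat.card K * p ^ m) ∧ p ∣ Nat.card D := by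
  obtain ⟨K, D, hKD, hK, ⟨m, hm⟩, hD, hKc, hDc⟩ := exists_char_pprime_p hsolv hdiv
  have e1 : Nat.card (K.map H.subtype) = Nat.card K :=
    Subgroup.card_map_of_injective H.subtype_injective
  have e2 : Nat.card (D.map H.subtype) = Nat.card D :=
    Subgroup.card_map_of_injective H.subtype_injective
  refine ⟨K.map H.subtype, D.map H.subtype, map_subtype_normal_of_char H K hKc,
    map_subtype_normal_of_char H D hDc, Subgroup.map_mono hKD, Subgroup.map_subtype_le D, ?_,
    ⟨m, ?_⟩, ?_⟩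
  · rw [e1]; exact hK
  · rw [e1, e2]; exact hm
  · rw [e2]; exact hD

end Cfsg.Agent.Lib.Helper22
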