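import Mathlib
import Cfsg.Agent.S3703
import Cfsg.Agent.Lib.Helper24.Solvable
import Cfsg.Agent.Lib.Helper21.Basic
import Cfsg.Agent.Lib.Helper22.PSolvCore

/-!
Helper lemmas (helper22): groups in which every nontrivial element has prime power order
(CP-groups).  Main results: `IsCP.core` (a trace argument excluding a third prime above a
normal abelian `p`-subgroup and a normal `{p,q}`-subgroup) and `IsCP.solvable_three_primes`
(a solvable CP-group has at most two prime divisors).
-/

set_option autoImplicit false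

universe u

namespace Cfsg.Agent.Lib.Helper22

/-- Every nontrivial element has prime power order. -/
def IsCP (X : Type*) [Group X] : Prop := ∀ g : X, g ≠ 1 → IsPrimePow (orderOf g)

theorem IsCP.commute {X : Type*} [Group X] (h : IsCP X) {x y : X} (hxy : Commute x y)
    (hco : (orderOf x).Coprime (orderOf y)) : x = 1 ∨ y = 1 := by
  by_contra hne
  push_neg at hne
  obtain ⟨hx, hy⟩ := hne
  have h1 : orderOf (x * y) = orderOf x * orderOf y :=
    hxy.orderOf_mul_eq_mul_orderOf_of_coprime hco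
  have hox : 1 < orderOf x := (h x hx).one_lt
  have hoy : 1 < orderOf y := (h y hy).one_lt
  have hxy1 : x * y ≠ 1 := by
    intro h2
    rw [h2, orderOf_one] at h1
    nlinarith
  have h3 := h (x * y) hxy1
  rw [h1] at h3
  rcases (Nat.Coprime.isPrimePow_dvd_mul hco h3).mp dvd_rfl with h4 | h4
  · have := Nat.le_of_dvd (by omega) h4
    nlinarith
  · have := Nat.le_of_dvd (by omega) h4
    nlinarith

theorem IsCP.subgroup {X : Type*} [Group X] (h : IsCP X) (H : Subgroup X) : IsCP H := by
  intro g hg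
  have h1 : (g : X) ≠ 1 := fun h1 => hg (Subtype.ext h1)
  have h2 := h _ h1
  rwa [Subgroup.orderOf_coe] at h2

theorem IsCP.quotient {X : Type*} [Group X] (h : IsCP X) (N : Subgroup X) [N.Normal] :
    IsCP (X ⧸ N) := by
  intro g hg
  obtain ⟨x, rfl⟩ := QuotientGroup.mk_surjective g
  have hx : x ≠ 1 := by
    rintro rfl
    exact hg rfl
  obtain ⟨p, k, hp, hk, hpk⟩ := (isPrimePow_nat_iff _).mp (h x hx)
  have hdvd : orderOf (QuotientGroup.mk x : X ⧸ N) ∣ orderOf x := by
    apply orderOf_dvd_of_pow_eq_one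
    rw [← QuotientGroup.mk_pow, pow_orderOf_eq_one]
    rfl
  rw [← hpk] at hdvd
  obtain ⟨j, hj, hj2⟩ := (Nat.dvd_prime_pow hp).mp hdvd
  rw [isPrimePow_nat_iff]
  refine ⟨p, j, hp, ?_, hj2.symm⟩
  rcases Nat.eq_zero_or_pos j with h0 | h0
  · exfalso
    rw [h0, pow_zero] at hj2
    exact hg (orderOf_eq_one_iff.mp hj2)
  · exact h0

/-- A nontrivial abelian subgroup of a CP-group is a `p`-group. -/
theorem IsCP.abelian_pgroup {X : Type*} [Group X] (hcp : IsCP X) (A : Subgroup X)
    (hA : A ≠ ⊥) (hAab : ∀ a ∈ A, ∀ b ∈ A, a * b = b * a) :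
    ∃ p : ℕ, p.Prime ∧ IsPGroup p A := by
  obtain ⟨a, ha1⟩ := Subgroup.ne_bot_iff_exists_ne_one.mp hA
  have ha1' : (a : X) ≠ 1 := fun h => ha1 (Subtype.ext h)
  obtain ⟨p, k, hp, hk, hpk⟩ := (isPrimePow_nat_iff _).mp (hcp a ha1')
  refine ⟨p, hp, ?_⟩
  intro b
  by_cases hb : (b : X) = 1
  · exact ⟨0, by
      apply Subtype.ext
      simpa using hb⟩
  obtain ⟨r, j, hr, hj, hrj⟩ := (isPrimePow_nat_iff _).mp (hcp b hb)
  by_cases hrp : r = p
  · subst hrp
    refine ⟨j, ?_⟩
    apply Subtype.ext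
    rw [Subgroup.coe_pow, hrj, pow_orderOf_eq_one]
    rfl
  · exfalso
    have hco : (orderOf (a : X)).Coprime (orderOf (b : X)) := by
      rw [← hpk, ← hrj]
      exact Nat.Coprime.pow _ _ ((Nat.coprime_primes hp hr).mpr (Ne.symm hrp))
    rcases hcp.commute (hAab a a.2 b b.2) hco with h | h
    · exact ha1' h
    · exact hb h

/-- Core trace argument: in a finite CP-group with a nontrivial normal abelian `p`-subgroup `V`
and a normal subgroup `K` of order divisible by `q ≠ p` but not by `s`, the prime `s ≠ p, q`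
does not divide the group order. -/
theorem IsCP.core {X : Type*} [Group X] [Finite X] (hcp : IsCP X) {p q s : ℕ}
    (hp : p.Prime) (hq : q.Prime) (hs : s.Prime) (hpq : p ≠ q) (hps : p ≠ s) (hqs : q ≠ s)
    (V : Subgroup X) [V.Normal] (hVab : ∀ a ∈ V, ∀ b ∈ V, a * b = b * a) (hVp : IsPGroup p V)
    (hV : V ≠ ⊥) (K : Subgroup X) [K.Normal] (hqK : q ∣ Nat.card K) (hsK : ¬ s ∣ Nat.card K)
    (hsX : s ∣ Nat.card X) : False := by
  classical
  haveI : Fact p.Prime := ⟨hp⟩
  haveI : Fact q.Prime := ⟨hq⟩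
  haveI : Fact s.Prime := ⟨hs⟩
  obtain ⟨Q1⟩ : Nonempty (Sylow q K) := inferInstance
  set Q : Subgroup X := (Q1 : Subgroup K).map K.subtype with hQdef
  have hQq : IsPGroup q Q := Q1.2.map K.subtype
  have hQne : Q ≠ ⊥ := by
    rw [hQdef, Ne, Subgroup.map_eq_bot_iff_of_injective _ K.subtype_injective]
    exact Q1.ne_bot_of_dvd_card hqK
  have hfr : Subgroup.normalizer (Q : Set X) ⊔ K = ⊤ := Sylow.normalizer_sup_eq_top Q1
  have hsN : s ∣ Nat.card (Subgroup.normalizer (Q : Set X)) := by
    have h1 := Cfsg.Agent.Lib.Helper21.card_sup_mul_card_inf (Subgroup.normalizer (Q : Set X)) K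
    rw [hfr] at h1
    have h2 : s ∣ Nat.card (Subgroup.normalizer (Q : Set X)) * Nat.card K := by
      rw [← h1]
      exact Dvd.dvd.mul_right (by rwa [Subgroup.card_top]) _
    exact (hs.dvd_mul.mp h2).resolve_right hsK
  obtain ⟨y0, hy0⟩ := exists_prime_orderOf_dvd_card' s hsN
  obtain ⟨y, hyN, rfl⟩ : ∃ y : X, y ∈ Subgroup.normalizer (Q : Set X) ∧ y = (y0 : X) :=
    ⟨y0, y0.2, rfl⟩
  have hyord : orderOf (y0 : X) = s := by
    rw [Subgroup.orderOf_coe]
    exact hy0
  set y : X := (y0 : X) with hydef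
  have hys : y ^ s = 1 := by
    rw [← hyord]
    exact pow_orderOf_eq_one y
  have hyQ : ∀ u ∈ Q, y * u * y⁻¹ ∈ Q := fun u hu =>
    (Subgroup.mem_normalizer_iff.mp hyN u).mp hu
  have hyQn : ∀ n : ℕ, ∀ u ∈ Q, y ^ n * u * (y ^ n)⁻¹ ∈ Q := by
    intro n
    induction n with
    | zero => intro u hu; simpa using hu
    | succ n ih =>
      intro u hu
      have e : y ^ (n + 1) * u * (y ^ (n + 1))⁻¹ = y * (y ^ n * u * (y ^ n)⁻¹) * y⁻¹ := by
        rw [pow_succ', mul_inv_rev]
        simp only [mul_assoc]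
      rw [e]
      exact hyQ _ (ih u hu)
  have hpow : ∀ u ∈ Q, ∀ n : ℕ, (u * y) ^ n * (y ^ n)⁻¹ ∈ Q := by
    intro u hu n
    induction n with
    | zero => simp
    | succ n ih =>
      have e : (u * y) ^ (n + 1) * (y ^ (n + 1))⁻¹ =
          ((u * y) ^ n * (y ^ n)⁻¹) * (y ^ n * u * (y ^ n)⁻¹) := by
        rw [pow_succ, pow_succ]
        group
      rw [e]
      exact Q.mul_mem ih (hyQn n u hu)
  -- `y ∉ Q`
  have hqord : ∀ z ∈ Q, ∃ j, orderOf z = q ^ j := by
    intro z hz
    obtain ⟨j, hj⟩ := (IsPGroup.iff_orderOf.mp hQq) ⟨z, hz⟩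
    exact ⟨j, by rw [← hj, Subgroup.orderOf_mk]⟩
  have hynQ : y ∉ Q := by
    intro hy
    obtain ⟨j, hj⟩ := hqord y hy
    rw [hyord] at hj
    have h1 : q ∣ s := by
      rcases Nat.eq_zero_or_pos j with h0 | h0
      · rw [h0, pow_zero] at hj
        exact absurd hj hs.one_lt.ne'
      · rw [hj]
        exact dvd_pow_self q h0.ne'
    exact hqs ((Nat.prime_dvd_prime_iff_eq hq hs).mp h1)
  have hycop : ∀ m : ℕ, m.Coprime s → y ^ m ∈ Q → False := by
    intro m hm hym
    obtain ⟨a, -, ha⟩ := Nat.exists_mul_mod_eq_one_of_coprime hm hs.one_lt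
    have h1 : y ^ (m * a) = y := by
      rw [← pow_mod_orderOf, hyord, ha, pow_one]
    apply hynQ
    rw [← h1, pow_mul]
    exact Q.pow_mem hym a
  -- all elements of the coset `Q y` have order `s`
  have hord : ∀ u ∈ Q, orderOf (u * y) = s := by
    intro u hu
    have hne : u * y ≠ 1 := by
      intro h
      apply hynQ
      have : y = u⁻¹ := eq_inv_of_mul_eq_one_right h
      rw [this]
      exact Q.inv_mem hu
    obtain ⟨r, k, hr, hk, hrk⟩ := (isPrimePow_nat_iff _).mp (hcp _ hne)
    have hz : (u * y) ^ s ∈ Q := by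
      have := hpow u hu s
      rwa [hys, inv_one, mul_one] at this
    obtain ⟨j, hj⟩ := hqord _ hz
    have hz1 : (u * y) ^ s = 1 := by
      by_contra hz1
      have hj0 : j ≠ 0 := by
        rintro rfl
        rw [pow_zero] at hj
        exact hz1 (orderOf_eq_one_iff.mp hj)
      have h1 : orderOf ((u * y) ^ s) ∣ orderOf (u * y) := orderOf_pow_dvd s
      rw [hj, ← hrk] at h1
      have h2 : q ∣ r ^ k := dvd_trans (dvd_pow_self q hj0) h1
      have h3 : q = r := (Nat.prime_dvd_prime_iff_eq hq hr).mp (hq.dvd_of_dvd_pow h2)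
      subst h3
      have h4 : (q ^ k).Coprime s := Nat.Coprime.pow_left _ ((Nat.coprime_primes hq hs).mpr hqs)
      apply hycop (q ^ k) h4
      have h5 := hpow u hu (q ^ k)
      have h5' : (u * y) ^ (q ^ k) = 1 := by
        rw [hrk]
        exact pow_orderOf_eq_one _
      rw [h5', one_mul] at h5
      have := Q.inv_mem h5
      rwa [inv_inv] at this
    have h6 : orderOf (u * y) ∣ s := orderOf_dvd_of_pow_eq_one hz1
    rcases (Nat.dvd_prime hs).mp h6 with h7 | h7
    · exact absurd (orderOf_eq_one_iff.mp h7) hne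
    · exact h7
  letI : CommGroup V :=
    { (inferInstance : Group V) with
      mul_comm := fun a b => Subtype.ext (hVab a a.2 b b.2) }
  let ρ : X →* MulAut V := MulAut.conjNormal
  obtain ⟨n, hn⟩ : ∃ n, s = n + 1 := ⟨s - 1, by have := hs.pos; omega⟩
  have hpord : ∀ v : V, ∃ j, orderOf (v : X) = p ^ j := by
    intro v
    obtain ⟨j, hj⟩ := (IsPGroup.iff_orderOf.mp hVp) v
    exact ⟨j, by rw [← hj, Subgroup.orderOf_coe]⟩
  have key := Cfsg.Agent.S3703.frob_trace ρ Q y n hyQ (by
      intro u hu v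
      set c := u * y with hc
      have hcs : c ^ (n + 1) = 1 := by
        rw [← hn, ← hord u hu]
        exact pow_orderOf_eq_one _
      set w : V := ∏ i ∈ Finset.range (n + 1), ρ (c ^ i) v with hw
      have h1 : ρ c w = w := by
        rw [hw, map_prod]
        have h2 : ∀ i ∈ Finset.range (n + 1), ρ c (ρ (c ^ i) v) = ρ (c ^ (i + 1)) v := by
          intro i _
          rw [pow_succ' c i, map_mul ρ c (c ^ i)]
          rfl
        rw [Finset.prod_congr rfl h2]
        rw [Finset.prod_range_succ (fun i => ρ (c ^ (i + 1)) v) n, hcs,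
          Finset.prod_range_succ' (fun i => ρ (c ^ i) v) n, pow_zero]
      have h3 : Commute c (w : X) := by
        have h4 : ((ρ c w : V) : X) = c * w * c⁻¹ := MulAut.conjNormal_apply c w
        rw [h1] at h4
        have h5 : c * (w : X) = w * c := mul_inv_eq_iff_eq_mul.mp h4.symm
        exact h5
      obtain ⟨j, hj⟩ := hpord w
      have hco : (orderOf c).Coprime (orderOf (w : X)) := by
        rw [hord u hu, hj]
        exact Nat.Coprime.pow_right _ ((Nat.coprime_primes hs hp).mpr (Ne.symm hps))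
      rcases hcp.commute h3 hco with h | h
      · exfalso
        have := hord u hu
        rw [← hc, h, orderOf_one] at this
        exact hs.one_lt.ne this
      · exact Subtype.ext h)
    (by
      intro u hu u' hu' i hi0 hin hii
      have hi : i.Coprime s := by
        rw [Nat.coprime_comm, hs.coprime_iff_not_dvd]
        exact Nat.not_dvd_of_pos_of_lt hi0 (by omega)
      obtain ⟨a, -, ha⟩ := Nat.exists_mul_mod_eq_one_of_coprime hi hs.one_lt
      have h1 : ∀ w ∈ Q, (w * y) ^ (i * a) = w * y := by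
        intro w hw
        rw [← pow_mod_orderOf, hord w hw, ha, pow_one]
      have h2 : u * y = u' * y := by
        rw [← h1 u hu, ← h1 u' hu', pow_mul, pow_mul, hii]
      exact mul_right_cancel h2)
    (by
      obtain ⟨a, ha⟩ := IsPGroup.iff_card.mp hQq
      obtain ⟨b, hb⟩ := IsPGroup.iff_card.mp hVp
      rw [ha, hb]
      exact Nat.Coprime.pow _ _ ((Nat.coprime_primes hq hp).mpr (Ne.symm hpq)))
  obtain ⟨u, hu1⟩ := Subgroup.ne_bot_iff_exists_ne_one.mp hQne
  obtain ⟨v, hv1⟩ := Subgroup.ne_bot_iff_exists_ne_one.mp hV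
  have h1 := key u u.2 v
  have h2 : ((ρ u v : V) : X) = u * v * (u : X)⁻¹ := MulAut.conjNormal_apply (u : X) v
  rw [h1] at h2
  have h3 : Commute (u : X) (v : X) := by
    have h5 : (u : X) * (v : X) = v * u := mul_inv_eq_iff_eq_mul.mp h2.symm
    exact h5
  obtain ⟨j, hj⟩ := hqord u u.2
  obtain ⟨l, hl⟩ := hpord v
  have hco : (orderOf (u : X)).Coprime (orderOf (v : X)) := by
    rw [hj, hl]
    exact Nat.Coprime.pow _ _ ((Nat.coprime_primes hq hp).mpr (Ne.symm hpq))
  rcases hcp.commute h3 hco with h | h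
  · exact hu1 (Subtype.ext h)
  · exact hv1 (Subtype.ext h)

/-- A finite solvable CP-group has at most two prime divisors. -/
theorem IsCP.solvable_three_primes : ∀ (n : ℕ) (X : Type u) [Group X] [Finite X],
    Nat.card X = n → IsCP X → Group.IsSolvable X →
    ∀ p q s : ℕ, p.Prime → q.Prime → s.Prime → p ≠ q → p ≠ s → q ≠ s →
      p ∣ n → q ∣ n → s ∣ n → False := by
  intro n
  induction n using Nat.strong_induction_on with
  | _ n ih =>
    intro X _ _ hcard hcp hsol p q s hp hq hs hpq hps hqs hpn hqn hsn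
    haveI : Nontrivial X := by
      rw [← Finite.one_lt_card_iff_nontrivial, hcard]
      exact lt_of_lt_of_le hp.one_lt
        (Nat.le_of_dvd (by rw [← hcard]; exact Nat.card_pos) hpn)
    obtain ⟨V, hVn, hVne, hVab⟩ :=
      Cfsg.Agent.Lib.Helper24.exists_normal_abelian_of_solvable hsol
    obtain ⟨t, ht, hVt⟩ := hcp.abelian_pgroup V hVne hVab
    haveI := hVn
    haveI : Fact t.Prime := ⟨ht⟩
    obtain ⟨a, ha⟩ := IsPGroup.iff_card.mp hVt
    have hcardq : Nat.card X = Nat.card (X ⧸ V) * Nat.card V :=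
      Subgroup.card_eq_card_quotient_mul_card_subgroup V
    have hVcard1 : 1 < Nat.card V := (Subgroup.one_lt_card_iff_ne_bot V).mpr hVne
    have hlt : Nat.card (X ⧸ V) < n := by
      rw [← hcard, hcardq]
      have := Nat.card_pos (α := X ⧸ V)
      nlinarith
    have hcpq : IsCP (X ⧸ V) := hcp.quotient V
    have hsolq : Group.IsSolvable (X ⧸ V) := by
      haveI := hsol
      infer_instance
    have ihq := ih _ hlt (X ⧸ V) rfl hcpq hsolq
    have hdiv : ∀ r : ℕ, r.Prime → r ≠ t → r ∣ n → r ∣ Nat.card (X ⧸ V) := by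
      intro r hr hrt hrn
      rw [← hcard, hcardq, ha] at hrn
      rcases hr.dvd_mul.mp hrn with h | h
      · exact h
      · exact absurd ((Nat.prime_dvd_prime_iff_eq hr ht).mp (hr.dvd_of_dvd_pow h)) hrt
    have core3 : ∀ q s : ℕ, q.Prime → s.Prime → q ≠ t → s ≠ t → q ≠ s → q ∣ n → s ∣ n →
        ¬ t ∣ Nat.card (X ⧸ V) → False := by
      intro q s hq hs hqt hst hqs hqn hsn htq
      have hqq := hdiv q hq hqt hqn
      have hsq := hdiv s hs hst hsn
      haveI : Nontrivial (X ⧸ V) := by
        rw [← Finite.one_lt_card_iff_nontrivial]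
        exact lt_of_lt_of_le hq.one_lt (Nat.le_of_dvd Nat.card_pos hqq)
      obtain ⟨A, hAn, hAne, hAab⟩ :=
        Cfsg.Agent.Lib.Helper24.exists_normal_abelian_of_solvable hsolq
      obtain ⟨t', ht', hAt⟩ := hcpq.abelian_pgroup A hAne hAab
      haveI := hAn
      haveI : Fact t'.Prime := ⟨ht'⟩
      obtain ⟨b, hb⟩ := IsPGroup.iff_card.mp hAt
      have hb0 : b ≠ 0 := by
        rintro rfl
        rw [pow_zero] at hb
        exact hAne (Subgroup.eq_bot_of_card_eq A hb)
      have ht'dvd : t' ∣ Nat.card (X ⧸ V) := by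
        have h1 : Nat.card A ∣ Nat.card (X ⧸ V) := Subgroup.card_subgroup_dvd_card A
        exact dvd_trans (by rw [hb]; exact dvd_pow_self t' hb0) h1
      have ht't : t' ≠ t := by
        rintro rfl
        exact htq ht'dvd
      set K : Subgroup X := A.comap (QuotientGroup.mk' V) with hK
      haveI : K.Normal := hAn.comap _
      have hKcard : Nat.card K = Nat.card V * Nat.card A := by
        have h1 : K.index = A.index :=
          Subgroup.index_comap_of_surjective A (QuotientGroup.mk'_surjective V)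
        have h2 := Subgroup.card_mul_index K
        have h3 := Subgroup.card_mul_index A
        have h4 : A.index ≠ 0 := Subgroup.index_ne_zero_of_finite
        have h5 : Nat.card K * A.index = Nat.card V * Nat.card A * A.index := by
          calc Nat.card K * A.index = Nat.card K * K.index := by rw [h1]
            _ = Nat.card X := h2
            _ = Nat.card (X ⧸ V) * Nat.card V := hcardq
            _ = Nat.card A * A.index * Nat.card V := by rw [h3]
            _ = _ := by ring
        exact Nat.eq_of_mul_eq_mul_right (Nat.pos_of_ne_zero h4) h5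
      have core4 : ∀ q s : ℕ, q.Prime → s.Prime → q ≠ t → s ≠ t → q ≠ s → s ∣ n →
          t' = q → False := by
        intro q s hq hs hqt hst hqs hsn htq'
        subst htq'
        refine hcp.core ht ht' hs (Ne.symm hqt) (Ne.symm hst) hqs V hVab hVt hVne K ?_ ?_
          (hcard ▸ hsn)
        · rw [hKcard, hb]
          exact Dvd.dvd.mul_left (dvd_pow_self _ hb0) _
        · rw [hKcard, ha, hb]
          intro h
          rcases hs.dvd_mul.mp h with h | h
          · exact hst ((Nat.prime_dvd_prime_iff_eq hs ht).mp (hs.dvd_of_dvd_pow h))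
          · exact hqs ((Nat.prime_dvd_prime_iff_eq hs ht').mp (hs.dvd_of_dvd_pow h)).symm
      by_cases h1 : t' = q
      · exact core4 q s hq hs hqt hst hqs hsn h1
      by_cases h2 : t' = s
      · exact core4 s q hs hq hst hqt (Ne.symm hqs) hqn h2
      · exact ihq t' q s ht' hq hs h1 h2 hqs ht'dvd hqq hsq
    have hrt : ∀ r : ℕ, r.Prime → r ∣ n → ¬ r ∣ Nat.card (X ⧸ V) → r = t := by
      intro r hr hrn hrq
      by_contra hne
      exact hrq (hdiv r hr hne hrn)
    by_cases h1 : p ∣ Nat.card (X ⧸ V)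
    · by_cases h2 : q ∣ Nat.card (X ⧸ V)
      · by_cases h3 : s ∣ Nat.card (X ⧸ V)
        · exact ihq p q s hp hq hs hpq hps hqs h1 h2 h3
        · have hst := hrt s hs hsn h3
          subst hst
          exact core3 p q hp hq hps hqs hpq hpn hqn h3
      · have hqt := hrt q hq hqn h2
        subst hqt
        exact core3 p s hp hs hpq (Ne.symm hqs) hps hpn hsn h2
    · have hpt := hrt p hp hpn h1
      subst hpt
      exact core3 q s hq hs (Ne.symm hpq) (Ne.symm hps) hqs hqn hsn h1

/-- In a finite group, a nonempty family of subgroups closed under intersections has a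
smallest member. -/
theorem exists_least_of_inf_closed {G : Type*} [Group G] [Finite G] (S : Subgroup G → Prop)
    (h0 : ∃ N, S N) (hinf : ∀ A B, S A → S B → S (A ⊓ B)) :
    ∃ K : Subgroup G, S K ∧ ∀ N, S N → K ≤ N := by
  obtain ⟨N0, hN0⟩ := h0
  haveI : Nonempty {N : Subgroup G // S N} := ⟨⟨N0, hN0⟩⟩
  obtain ⟨K, hK⟩ :=
    Finite.exists_min (fun N : {N : Subgroup G // S N} => Nat.card (N : Subgroup G))
  refine ⟨K.1, K.2, fun N hN => ?_⟩
  have h1 : S (N ⊓ K.1) := hinf N K.1 hN K.2
  have h2 : Nat.card K.1 ≤ Nat.card (N ⊓ K.1 : Subgroup G) := hK ⟨N ⊓ K.1, h1⟩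
  have h3 : N ⊓ K.1 = K.1 := Subgroup.eq_of_le_of_card_ge inf_le_right h2
  rw [← h3]
  exact inf_le_left

open scoped commutatorElement in
/-- A nontrivial solvable group has a nontrivial characteristic abelian subgroup. -/
theorem exists_char_abelian_of_solvable {R : Type*} [Group R] [Nontrivial R]
    (hR : Group.IsSolvable R) :
    ∃ A : Subgroup R, A.Characteristic ∧ A ≠ ⊥ ∧ ∀ a ∈ A, ∀ b ∈ A, a * b = b * a := by
  classical
  have hsol := hR.solvable
  have hk0 := Nat.find_spec hsol
  cases hk0' : Nat.find hsol with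
  | zero =>
    rw [hk0'] at hk0
    have h1 : (⊤ : Subgroup R) = ⊥ := hk0
    exact absurd h1 top_ne_bot
  | succ j =>
    have hAne : derivedSeries R j ≠ ⊥ := Nat.find_min hsol (by omega : j < Nat.find hsol)
    refine ⟨derivedSeries R j, derivedSeries_characteristic R j, hAne, ?_⟩
    intro a ha b hb
    have h1 : ⁅a, b⁆ ∈ derivedSeries R (j + 1) := Subgroup.commutator_mem_commutator ha hb
    rw [← hk0', hk0, Subgroup.mem_bot, commutatorElement_eq_one_iff_mul_comm] at h1
    exact h1

end Cfsg.Agent.Lib.Helper22
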