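import Mathlib

set_option autoImplicit false

namespace Cfsg.Agent.Lib.Helper22.DL

universe u v w

theorem charP_of_cast {K : Type*} [Field K] (p : ℕ) [Fact p.Prime] (hpK : (p : K) = 0) :
    CharP K p := by
  obtain ⟨q, hq⟩ := CharP.exists K
  have hdvd : q ∣ p := (CharP.cast_eq_zero_iff K q p).mp hpK
  rcases (Nat.dvd_prime (Fact.out : p.Prime)).mp hdvd with h1 | h1
  · exfalso
    subst h1
    have h := CharP.cast_eq_zero K 1
    rw [Nat.cast_one] at h
    exact one_ne_zero h
  · subst h1; exact hq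

theorem nilp_of_order {K : Type*} [Field K] (p : ℕ) [Fact p.Prime] (hpK : (p : K) = 0)
    {X : Type*} [AddCommGroup X] [Module K X] (T : Module.End K X) (hT : T ^ p = 1) :
    (T - 1) ^ p = 0 := by
  haveI := charP_of_cast p hpK
  have h1 : ((Polynomial.X : Polynomial K) - 1) ^ p = Polynomial.X ^ p - 1 := by
    rw [sub_pow_char, one_pow]
  have h2 := congrArg (Polynomial.aeval T) h1
  simpa [hT] using h2

theorem app_mul {K : Type*} [Field K] {P : Type*} [Group P] {V : Type*} [AddCommGroup V]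
    [Module K V] (ρ : P →* Module.End K V) (g h : P) (v : V) : ρ (g * h) v = ρ g (ρ h v) := by
  rw [map_mul]; rfl

theorem app_one {K : Type*} [Field K] {P : Type*} [Group P] {V : Type*} [AddCommGroup V]
    [Module K V] (ρ : P →* Module.End K V) (v : V) : ρ 1 v = v := by
  rw [map_one]; rfl

/-- restriction of a representation to an invariant submodule -/
def resRep {K : Type*} [Field K] {P : Type*} [Group P] {V : Type*} [AddCommGroup V]
    [Module K V] (ρ : P →* Module.End K V) (E : Submodule K V)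
    (hE : ∀ g : P, ∀ v ∈ E, ρ g v ∈ E) : P →* Module.End K E where
  toFun g := (ρ g).restrict (hE g)
  map_one' := by
    apply LinearMap.ext; intro y; apply Subtype.ext
    rw [LinearMap.restrict_coe_apply, app_one]; rfl
  map_mul' := by
    intro g h
    apply LinearMap.ext; intro y; apply Subtype.ext
    rw [LinearMap.restrict_coe_apply, app_mul]; rfl

theorem resRep_apply {K : Type*} [Field K] {P : Type*} [Group P] {V : Type*} [AddCommGroup V]
    [Module K V] (ρ : P →* Module.End K V) (E : Submodule K V)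
    (hE : ∀ g : P, ∀ v ∈ E, ρ g v ∈ E) (g : P) (y : E) :
    ((resRep ρ E hE g) y : V) = ρ g (y : V) := rfl

theorem exists_fixed {K : Type w} [Field K] (p : ℕ) [Fact p.Prime] (hpK : (p : K) = 0) :
    ∀ (c : ℕ) (P : Type u) [Group P] [Finite P] (_ : IsPGroup p P) (_ : Nat.card P = c)
      (X : Type v) [AddCommGroup X] [Module K X] [Nontrivial X] (σ : P →* Module.End K X),
      ∃ x : X, x ≠ 0 ∧ ∀ g, σ g x = x := by
  intro c
  induction c using Nat.strong_induction_on with
  | _ c ih =>
    intro P _ _ hP hc X _ _ _ σ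
    by_cases htriv : Subsingleton P
    · obtain ⟨x, hx⟩ := exists_ne (0 : X)
      refine ⟨x, hx, fun g => ?_⟩
      rw [Subsingleton.elim g 1, app_one]
    · haveI : Nontrivial P := not_subsingleton_iff_nontrivial.mp htriv
      haveI := hP.center_nontrivial
      obtain ⟨z, hzc, hzo⟩ : ∃ z : P, z ∈ Subgroup.center P ∧ orderOf z = p := by
        have hcard : p ∣ Nat.card (Subgroup.center P) := by
          have hpc : IsPGroup p (Subgroup.center P) := hP.to_subgroup _
          obtain ⟨k, hk⟩ := IsPGroup.iff_card.mp hpc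
          have h1 : 1 < Nat.card (Subgroup.center P) := Finite.one_lt_card
          rw [hk] at h1 ⊢
          rcases k with _ | k
          · simp at h1
          · exact dvd_pow_self p (Nat.succ_ne_zero k)
        obtain ⟨z, hz⟩ := exists_prime_orderOf_dvd_card' p hcard
        exact ⟨z.1, z.2, by rw [← hz]; exact Subgroup.orderOf_coe z⟩
      have hNp : (σ z - 1) ^ p = 0 :=
        nilp_of_order p hpK (σ z) (by rw [← map_pow, ← hzo, pow_orderOf_eq_one, map_one])
      let Y : Submodule K X := LinearMap.ker (σ z - 1)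
      have hYmem : ∀ x, x ∈ Y ↔ σ z x = x := by
        intro x
        simp only [Y, LinearMap.mem_ker, LinearMap.sub_apply, Module.End.one_apply, sub_eq_zero]
      have hYne : ∃ y : X, y ∈ Y ∧ y ≠ 0 := by
        obtain ⟨x, hx⟩ := exists_ne (0 : X)
        have hex : ∃ k, ((σ z - 1) ^ k : Module.End K X) x = 0 := ⟨p, by rw [hNp]; rfl⟩
        classical
        have hk : ((σ z - 1) ^ (Nat.find hex) : Module.End K X) x = 0 := Nat.find_spec hex
        have hk0 : Nat.find hex ≠ 0 := by
          intro h0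
          rw [h0, pow_zero] at hk
          exact hx hk
        obtain ⟨j, hj⟩ := Nat.exists_eq_succ_of_ne_zero hk0
        refine ⟨((σ z - 1) ^ j : Module.End K X) x, ?_, ?_⟩
        · show (σ z - 1) (((σ z - 1) ^ j : Module.End K X) x) = 0
          rw [← Module.End.mul_apply, ← pow_succ', ← Nat.succ_eq_add_one, ← hj]; exact hk
        · intro h
          have : Nat.find hex ≤ j := Nat.find_min' hex h
          omega
      have hYinv : ∀ g : P, ∀ y ∈ Y, σ g y ∈ Y := by
        intro g y hy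
        rw [hYmem] at hy ⊢
        have hcomm : z * g = g * z := (Subgroup.mem_center_iff.mp hzc g).symm
        rw [← app_mul, hcomm, app_mul, hy]
      have hzker : Subgroup.zpowers z ≤ (resRep σ Y hYinv).ker := by
        rw [Subgroup.zpowers_le, MonoidHom.mem_ker]
        apply LinearMap.ext; intro y; apply Subtype.ext
        rw [resRep_apply]
        exact (hYmem _).mp y.2
      haveI hzn : (Subgroup.zpowers z).Normal := by
        constructor
        intro n hn g
        have hnc : n ∈ Subgroup.center P := (Subgroup.zpowers_le.mpr hzc) hn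
        have : g * n * g⁻¹ = n := by
          rw [Subgroup.mem_center_iff.mp hnc g]; group
        rw [this]; exact hn
      haveI : Nontrivial Y := by
        obtain ⟨y, hy, hy0⟩ := hYne
        exact ⟨⟨⟨y, hy⟩, 0, fun h => hy0 (congrArg Subtype.val h)⟩⟩
      have hQcard : Nat.card (P ⧸ Subgroup.zpowers z) < c := by
        have h1 := Subgroup.card_eq_card_quotient_mul_card_subgroup (Subgroup.zpowers z)
        rw [Nat.card_zpowers, hzo, hc] at h1
        have hp2 := (Fact.out : p.Prime).two_le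
        have hQpos : 0 < Nat.card (P ⧸ Subgroup.zpowers z) := Nat.card_pos
        nlinarith
      obtain ⟨y, hy0, hyfix⟩ := ih (Nat.card (P ⧸ Subgroup.zpowers z)) hQcard
        (P ⧸ Subgroup.zpowers z) (hP.to_quotient _) rfl Y
        (QuotientGroup.lift (Subgroup.zpowers z) (resRep σ Y hYinv) hzker)
      refine ⟨y.1, fun h => hy0 (Subtype.ext h), fun g => ?_⟩
      have := congrArg Subtype.val (hyfix (QuotientGroup.mk g))
      exact this

section chain

variable {K : Type w} [Field K] {P : Type u} [Group P] {V : Type v} [AddCommGroup V]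
  [Module K V]

def nxt (ρ : P →* Module.End K V) (U : Submodule K V) : Submodule K V :=
  ⨅ g : P, U.comap (ρ g - 1)

theorem mem_nxt (ρ : P →* Module.End K V) (U : Submodule K V) (v : V) :
    v ∈ nxt ρ U ↔ ∀ g, ρ g v - v ∈ U := by
  simp [nxt, Submodule.mem_iInf]

def ch (ρ : P →* Module.End K V) : ℕ → Submodule K V
  | 0 => ⊥
  | (k+1) => nxt ρ (ch ρ k)

theorem ch_succ (ρ : P →* Module.End K V) (k : ℕ) : ch ρ (k+1) = nxt ρ (ch ρ k) := rfl

theorem ch_inv (ρ : P →* Module.End K V) (k : ℕ) :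
    ∀ g : P, ∀ v ∈ ch ρ k, ρ g v ∈ ch ρ k := by
  induction k with
  | zero =>
    intro g v hv
    have : v = 0 := (Submodule.mem_bot K).mp hv
    rw [this, map_zero]; exact Submodule.zero_mem _
  | succ k ih =>
    intro h v hv
    rw [ch_succ, mem_nxt] at hv ⊢
    intro g
    have h1 : ρ h (ρ (h⁻¹ * g * h) v - v) = ρ g (ρ h v) - ρ h v := by
      rw [map_sub, ← app_mul, ← app_mul]
      congr 3; group
    rw [← h1]
    exact ih h _ (hv _)

theorem ch_le_succ (ρ : P →* Module.End K V) (k : ℕ) : ch ρ k ≤ ch ρ (k+1) := by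
  intro v hv
  rw [ch_succ, mem_nxt]
  intro g
  exact Submodule.sub_mem _ (ch_inv ρ k g v hv) hv

theorem ch_mono (ρ : P →* Module.End K V) : Monotone (ch ρ) :=
  monotone_nat_of_le_succ (ch_le_succ ρ)

theorem exists_nxt_not_mem [Finite P] (p : ℕ) [Fact p.Prime] (hpK : (p : K) = 0)
    (hP : IsPGroup p P) (ρ : P →* Module.End K V) (U : Submodule K V)
    (hU : ∀ g : P, ∀ v ∈ U, ρ g v ∈ U) (hne : U ≠ ⊤) : ∃ v, v ∈ nxt ρ U ∧ v ∉ U := by
  have hle : ∀ g, U ≤ U.comap (ρ g) := fun g v hv => hU g v hv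
  let σ : P →* Module.End K (V ⧸ U) :=
    { toFun := fun g => U.mapQ U (ρ g) (hle g)
      map_one' := by
        apply LinearMap.ext; intro x
        obtain ⟨v, rfl⟩ := Submodule.Quotient.mk_surjective U x
        rw [Submodule.mapQ_apply, app_one]; rfl
      map_mul' := by
        intro g h
        apply LinearMap.ext; intro x
        obtain ⟨v, rfl⟩ := Submodule.Quotient.mk_surjective U x
        rw [Submodule.mapQ_apply, app_mul]; rfl }
  haveI : Nontrivial (V ⧸ U) := Submodule.Quotient.nontrivial_iff.mpr hne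
  obtain ⟨x, hx0, hxfix⟩ := exists_fixed p hpK (Nat.card P) P hP rfl (V ⧸ U) σ
  obtain ⟨v, rfl⟩ := Submodule.Quotient.mk_surjective U x
  refine ⟨v, ?_, ?_⟩
  · rw [mem_nxt]; intro g
    have h2 : (Submodule.Quotient.mk (ρ g v) : V ⧸ U) = Submodule.Quotient.mk v := hxfix g
    exact (Submodule.Quotient.eq U).mp h2
  · intro hv
    exact hx0 ((Submodule.Quotient.mk_eq_zero U).mpr hv)

theorem ch_top_or [Finite P] [FiniteDimensional K V] (p : ℕ) [Fact p.Prime]
    (hpK : (p : K) = 0) (hP : IsPGroup p P) (ρ : P →* Module.End K V) :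
    ∀ k, ch ρ k = ⊤ ∨ k ≤ Module.finrank K (ch ρ k) := by
  intro k
  induction k with
  | zero => right; exact Nat.zero_le _
  | succ k ih =>
    by_cases htop : ch ρ k = ⊤
    · left; exact top_le_iff.mp (htop ▸ ch_le_succ ρ k)
    · right
      obtain ⟨v, hv1, hv2⟩ := exists_nxt_not_mem p hpK hP ρ (ch ρ k) (ch_inv ρ k) htop
      have hlt : ch ρ k < ch ρ (k+1) :=
        lt_of_le_of_ne (ch_le_succ ρ k) (fun h => hv2 (by rw [h]; exact hv1))
      have := Submodule.finrank_lt_finrank_of_lt hlt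
      rcases ih with h | h
      · exact absurd h htop
      · omega

theorem ch_eq_top [Finite P] [FiniteDimensional K V] (p : ℕ) [Fact p.Prime]
    (hpK : (p : K) = 0) (hP : IsPGroup p P) (ρ : P →* Module.End K V) (j : ℕ)
    (hj : Module.finrank K V ≤ j) : ch ρ j = ⊤ := by
  rcases ch_top_or p hpK hP ρ j with h | h
  · exact h
  · have h2 := Submodule.finrank_le (ch ρ j)
    exact Submodule.eq_top_of_finrank_eq (by omega)

def Pj (ρ : P →* Module.End K V) (j : ℕ) : Subgroup P where
  carrier := {g | ∀ i, ∀ v ∈ ch ρ (i + j), ρ g v - v ∈ ch ρ i}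
  one_mem' := by
    intro i v _
    rw [app_one, sub_self]; exact Submodule.zero_mem _
  mul_mem' := by
    intro g h hg hh i v hv
    have : ρ (g * h) v - v = ρ g (ρ h v - v) + (ρ g v - v) := by
      rw [app_mul, map_sub]; abel
    rw [this]
    exact Submodule.add_mem _ (ch_inv ρ i g _ (hh i v hv)) (hg i v hv)
  inv_mem' := by
    intro g hg i v hv
    have : ρ g⁻¹ v - v = -(ρ g⁻¹ (ρ g v - v)) := by
      rw [map_sub, ← app_mul, inv_mul_cancel, app_one]; abel
    rw [this]
    exact Submodule.neg_mem _ (ch_inv ρ i g⁻¹ _ (hg i v hv))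

theorem mem_Pj (ρ : P →* Module.End K V) (j : ℕ) (g : P) :
    g ∈ Pj ρ j ↔ ∀ i, ∀ v ∈ ch ρ (i + j), ρ g v - v ∈ ch ρ i := Iff.rfl

theorem Pj_one (ρ : P →* Module.End K V) : Pj ρ 1 = ⊤ := by
  rw [eq_top_iff]
  intro g _
  rw [mem_Pj]
  intro i v hv
  rw [ch_succ, mem_nxt] at hv
  exact hv g

theorem Pj_comm (ρ : P →* Module.End K V) (j l : ℕ) : ⁅Pj ρ j, Pj ρ l⁆ ≤ Pj ρ (j + l) := by
  rw [Subgroup.commutator_le]
  intro g hg h hh
  rw [commutatorElement_def]
  rw [mem_Pj] at hg hh ⊢
  intro i v hv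
  obtain ⟨w, hw⟩ : ∃ w, w = ρ (g⁻¹ * h⁻¹) v := ⟨_, rfl⟩
  have hwmem : w ∈ ch ρ (i + (j + l)) := by rw [hw]; exact ch_inv ρ _ _ v hv
  have e1 : ρ (g * h * g⁻¹ * h⁻¹) v = ρ g (ρ h w) := by
    rw [hw, ← app_mul, ← app_mul]; congr 2; group
  have e2 : ρ h (ρ g w) = v := by
    rw [hw, ← app_mul, ← app_mul]
    have : h * g * (g⁻¹ * h⁻¹) = 1 := by group
    rw [this, app_one]
  have key : ρ (g * h * g⁻¹ * h⁻¹) v - v
      = (ρ g (ρ h w - w) - (ρ h w - w)) - (ρ h (ρ g w - w) - (ρ g w - w)) := by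
    rw [e1, ← e2]
    simp only [map_sub]; abel
  rw [key]
  have hi1 : i + j + l = i + (j + l) := by omega
  have hi2 : i + l + j = i + (j + l) := by omega
  exact Submodule.sub_mem _ (hg i _ (hh (i + j) w (by rw [hi1]; exact hwmem)))
    (hh i _ (hg (i + l) w (by rw [hi2]; exact hwmem)))

theorem derived_le_Pj (ρ : P →* Module.End K V) (m : ℕ) : derivedSeries P m ≤ Pj ρ (2 ^ m) := by
  induction m with
  | zero => rw [pow_zero, Pj_one]; exact le_top
  | succ m ih =>
    rw [derivedSeries_succ]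
    calc ⁅derivedSeries P m, derivedSeries P m⁆ ≤ ⁅Pj ρ (2 ^ m), Pj ρ (2 ^ m)⁆ :=
          Subgroup.commutator_mono ih ih
      _ ≤ Pj ρ (2 ^ m + 2 ^ m) := Pj_comm ρ _ _
      _ = Pj ρ (2 ^ (m + 1)) := by rw [pow_succ, mul_two]

theorem unipotent_case [Finite P] [FiniteDimensional K V] (p : ℕ) [Fact p.Prime]
    (hpK : (p : K) = 0) (hP : IsPGroup p P) (ρ : P →* Module.End K V)
    (hρ : Function.Injective ρ) (m : ℕ) (hm : Module.finrank K V ≤ 2 ^ m) :
    derivedSeries P m = ⊥ := by
  rw [eq_bot_iff]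
  intro g hg
  have h1 := derived_le_Pj ρ m hg
  rw [mem_Pj] at h1
  have htop : ch ρ (2 ^ m) = ⊤ := ch_eq_top p hpK hP ρ _ hm
  rw [Subgroup.mem_bot]
  apply hρ
  rw [map_one]
  apply LinearMap.ext; intro v
  have h3 := h1 0 v (by rw [zero_add, htop]; trivial)
  have h4 : ρ g v - v = 0 := (Submodule.mem_bot K).mp h3
  rw [sub_eq_zero] at h4; rw [h4]; rfl

end chain

end Cfsg.Agent.Lib.Helper22.DL
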