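import Mathlib
import Cfsg.Agent.Lib.Helper22.DL1

set_option autoImplicit false
set_option maxHeartbeats 1000000

namespace Cfsg.Agent.Lib.Helper22.DL

universe u v w

theorem diag {K : Type*} [Field K] [IsAlgClosed K] {V : Type*} [AddCommGroup V] [Module K V]
    [FiniteDimensional K V] (T : Module.End K V) (N : ℕ) (hN : (N : K) ≠ 0) (hT : T ^ N = 1) :
    ⨆ μ : K, Module.End.eigenspace T μ = ⊤ := by
  have hsep : (Polynomial.X ^ N - 1 : Polynomial K).Separable :=
    Polynomial.X_pow_sub_one_separable_iff.mpr hN
  have hss : T.IsSemisimple :=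
    Module.End.isSemisimple_of_squarefree_aeval_eq_zero hsep.squarefree (by simp [hT])
  exact hss.iSup_eigenspace_eq_top

theorem diag_rep {K : Type*} [Field K] [IsAlgClosed K] {P : Type*} [Group P] [Finite P]
    (p : ℕ) [Fact p.Prime] (hpK : (p : K) ≠ 0) (hP : IsPGroup p P)
    {V : Type*} [AddCommGroup V] [Module K V] [FiniteDimensional K V]
    (ρ : P →* Module.End K V) (g : P) : ⨆ μ : K, Module.End.eigenspace (ρ g) μ = ⊤ := by
  obtain ⟨k, hk⟩ := IsPGroup.iff_card.mp hP
  apply diag (ρ g) (Nat.card P)
  · rw [hk, Nat.cast_pow]; exact pow_ne_zero _ hpK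
  · rw [← map_pow, pow_card_eq_one', map_one]

theorem eq_one_of_fix {K : Type*} [Field K] {V : Type*} [AddCommGroup V] [Module K V]
    {ι : Type*} (E : ι → Submodule K V) (hE : ⨆ i, E i = ⊤) (T : Module.End K V)
    (h : ∀ i, ∀ v ∈ E i, T v = v) : T = 1 := by
  apply LinearMap.ext; intro v
  have hv : v ∈ ⨆ i, E i := by rw [hE]; trivial
  exact Submodule.iSup_induction E (motive := fun v => T v = (1 : Module.End K V) v) hv
    (fun i x hx => h i x hx) (by simp) (fun x y hx hy => by rw [map_add, map_add, hx, hy])

theorem res_fix {K : Type w} [Field K] (p : ℕ) [Fact p.Prime] {Q : Type u} [Group Q] [Finite Q]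
    (hQ : IsPGroup p Q) {V : Type v} [AddCommGroup V] [Module K V] [FiniteDimensional K V]
    (σ : Q →* Module.End K V) (E : Submodule K V) (hE : ∀ g : Q, ∀ v ∈ E, σ g v ∈ E) (t : ℕ)
    (IH : ∀ (Q' : Type u) [Group Q'] [Finite Q'] (_ : IsPGroup p Q') (W : Type v)
      [AddCommGroup W] [Module K W] [FiniteDimensional K W]
      (_ : Module.finrank K W = Module.finrank K E) (τ : Q' →* Module.End K W)
      (_ : Function.Injective τ), derivedSeries Q' t = ⊥) :
    ∀ d ∈ derivedSeries Q t, ∀ v ∈ E, σ d v = v := by
  obtain ⟨f, hf⟩ : ∃ f : Q →* (Module.End K E)ˣ, f = (resRep σ E hE).toHomUnits := ⟨_, rfl⟩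
  have hQ' : IsPGroup p (Q ⧸ f.ker) := hQ.to_quotient _
  have hinj : Function.Injective
      ((Units.coeHom (Module.End K E)).comp (QuotientGroup.kerLift f)) := by
    intro x y hxy
    exact QuotientGroup.kerLift_injective f (Units.ext hxy)
  have h1 : derivedSeries (Q ⧸ f.ker) t = ⊥ :=
    IH (Q ⧸ f.ker) hQ' E rfl _ hinj
  intro d hd v hv
  have h2 : (QuotientGroup.mk' f.ker) d ∈ derivedSeries (Q ⧸ f.ker) t :=
    map_derivedSeries_le_derivedSeries (QuotientGroup.mk' f.ker) t
      (Subgroup.mem_map_of_mem _ hd)
  rw [h1, Subgroup.mem_bot] at h2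
  have h3 : d ∈ f.ker := (QuotientGroup.eq_one_iff d).mp h2
  have h4 : f d = 1 := MonoidHom.mem_ker.mp h3
  have h4' : resRep σ E hE d = 1 := by
    have := congrArg Units.val h4
    rw [hf] at this
    exact this
  have h5 : ((resRep σ E hE d) ⟨v, hv⟩ : V) = v := by rw [h4']; rfl
  rw [resRep_apply] at h5
  exact h5

theorem fix_all {K : Type w} [Field K] (p : ℕ) [Fact p.Prime] {Q : Type u} [Group Q] [Finite Q]
    (hQ : IsPGroup p Q) {V : Type v} [AddCommGroup V] [Module K V] [FiniteDimensional K V]
    (σ : Q →* Module.End K V) (hσ : Function.Injective σ) {ι : Type*} (E : ι → Submodule K V)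
    (hEtop : ⨆ i, E i = ⊤) (hE : ∀ i, ∀ g : Q, ∀ v ∈ E i, σ g v ∈ E i) (t : ℕ)
    (IH : ∀ i, E i ≠ ⊥ → ∀ (Q' : Type u) [Group Q'] [Finite Q'] (_ : IsPGroup p Q') (W : Type v)
      [AddCommGroup W] [Module K W] [FiniteDimensional K W]
      (_ : Module.finrank K W = Module.finrank K (E i)) (τ : Q' →* Module.End K W)
      (_ : Function.Injective τ), derivedSeries Q' t = ⊥) :
    derivedSeries Q t = ⊥ := by
  rw [eq_bot_iff]
  intro d hd
  rw [Subgroup.mem_bot]
  apply hσ
  rw [map_one]
  apply eq_one_of_fix E hEtop
  intro i v hv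
  by_cases hbot : E i = ⊥
  · rw [hbot] at hv
    have : v = 0 := (Submodule.mem_bot K).mp hv
    rw [this, map_zero]
  · exact res_fix p hQ σ (E i) (hE i) t (IH i hbot) d hd v hv

theorem derived_le_map {G : Type*} [Group G] (H : Subgroup G) (hH : commutator G ≤ H) (k : ℕ) :
    derivedSeries G (k+1) ≤ (derivedSeries H k).map H.subtype := by
  induction k with
  | zero =>
    rw [derivedSeries_succ, derivedSeries_zero, derivedSeries_zero, ← MonoidHom.range_eq_map,
      Subgroup.range_subtype]
    exact hH
  | succ k ih =>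
    rw [derivedSeries_succ G (k+1), derivedSeries_succ H k, Subgroup.map_commutator]
    exact Subgroup.commutator_mono ih ih

theorem semisimple_case {K : Type w} [Field K] [IsAlgClosed K] (p : ℕ) [Fact p.Prime]
    (hpK : (p : K) ≠ 0) :
    ∀ (n : ℕ) (P : Type u) [Group P] [Finite P] (_ : IsPGroup p P) (V : Type v)
      [AddCommGroup V] [Module K V] [FiniteDimensional K V] (_ : Module.finrank K V = n)
      (ρ : P →* Module.End K V) (_ : Function.Injective ρ),
      derivedSeries P (Nat.log 2 n + 1) = ⊥ := by
  intro n
  induction n using Nat.strong_induction_on with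
  | _ n ih =>
  intro P _ _ hP V _ _ _ hV ρ hρ
  by_cases hab : ∀ a b : P, a * b = b * a
  · have h1 : derivedSeries P 1 = ⊥ := by
      rw [derivedSeries_succ, derivedSeries_zero, eq_bot_iff, Subgroup.commutator_le]
      intro g _ h _
      rw [Subgroup.mem_bot, commutatorElement_def, hab g h]; group
    have h2 : derivedSeries P (Nat.log 2 n + 1) ≤ derivedSeries P 1 :=
      derivedSeries_antitone P (Nat.le_add_left 1 _)
    rw [h1] at h2
    exact le_bot_iff.mp h2
  · haveI : Nontrivial V := by
      by_contra hns
      rw [not_nontrivial_iff_subsingleton] at hns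
      apply hab
      intro a b
      have : a = b := hρ (LinearMap.ext fun v => Subsingleton.elim _ _)
      rw [this]
    have hdiag := diag_rep p hpK hP ρ
    by_cases hc1 : ∃ z ∈ Subgroup.center P, ∃ μ : K,
        Module.End.eigenspace (ρ z) μ ≠ ⊥ ∧ Module.End.eigenspace (ρ z) μ ≠ ⊤
    · obtain ⟨z, hz, μ₀, hμ1, hμ2⟩ := hc1
      apply fix_all p hP ρ hρ (fun μ => Module.End.eigenspace (ρ z) μ) (hdiag z)
      · intro μ g v hv
        rw [Module.End.mem_eigenspace_iff] at hv ⊢
        have hcomm : z * g = g * z := (Subgroup.mem_center_iff.mp hz g).symm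
        rw [← app_mul, hcomm, app_mul, hv, map_smul]
      · intro μ hne Q' _ _ hQ' W _ _ _ hW τ hτ
        have hlt : Module.finrank K (Module.End.eigenspace (ρ z) μ) < n := by
          rw [← hV]
          apply Submodule.finrank_lt
          intro htop
          by_cases hμ : μ = μ₀
          · exact hμ2 (by rw [← hμ]; exact htop)
          · obtain ⟨v, hv, hv0⟩ := (Submodule.ne_bot_iff _).mp hμ1
            have hv' : v ∈ Module.End.eigenspace (ρ z) μ := by rw [htop]; trivial
            rw [Module.End.mem_eigenspace_iff] at hv hv'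
            have : (μ - μ₀) • v = 0 := by rw [sub_smul, ← hv, ← hv', sub_self]
            rcases smul_eq_zero.mp this with h | h
            · exact hμ (sub_eq_zero.mp h)
            · exact hv0 h
        have h1 := ih _ hlt Q' hQ' W hW τ hτ
        have hmono : Nat.log 2 (Module.finrank K (Module.End.eigenspace (ρ z) μ)) + 1
            ≤ Nat.log 2 n + 1 :=
          Nat.add_le_add_right (Nat.log_mono_right hlt.le) 1
        have h2 := derivedSeries_antitone Q' hmono
        rw [h1] at h2
        exact le_bot_iff.mp h2
    · have hsc : ∀ z ∈ Subgroup.center P, ∃ c : K, ∀ v, ρ z v = c • v := by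
        intro z hz
        have hex : ∃ μ : K, Module.End.eigenspace (ρ z) μ ≠ ⊥ := by
          by_contra hcon
          have hall : ∀ μ : K, Module.End.eigenspace (ρ z) μ = ⊥ := fun μ => by
            by_contra h; exact hcon ⟨μ, h⟩
          have hd := hdiag z
          rw [iSup_congr hall, iSup_bot] at hd
          obtain ⟨v, hv⟩ := exists_ne (0 : V)
          have hvm : v ∈ (⊥ : Submodule K V) := by rw [hd]; trivial
          exact hv ((Submodule.mem_bot K).mp hvm)
        obtain ⟨μ, hμ⟩ := hex
        have htop : Module.End.eigenspace (ρ z) μ = ⊤ := by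
          by_contra h2; exact hc1 ⟨z, hz, μ, hμ, h2⟩
        refine ⟨μ, fun v => ?_⟩
        have : v ∈ Module.End.eigenspace (ρ z) μ := by rw [htop]; trivial
        exact Module.End.mem_eigenspace_iff.mp this
      obtain ⟨a, hanc, hacomm⟩ : ∃ a : P, a ∉ Subgroup.center P ∧
          ∀ g : P, g * a * g⁻¹ * a⁻¹ ∈ Subgroup.center P := by
        haveI : Nontrivial (P ⧸ Subgroup.center P) := by
          by_contra hns
          rw [not_nontrivial_iff_subsingleton] at hns
          apply hab
          intro x y
          have hx : x ∈ Subgroup.center P := by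
            rw [← QuotientGroup.eq_one_iff]; exact Subsingleton.elim _ _
          exact (Subgroup.mem_center_iff.mp hx y).symm
        have hPQ : IsPGroup p (P ⧸ Subgroup.center P) := hP.to_quotient _
        haveI := hPQ.center_nontrivial
        obtain ⟨⟨abar, habar⟩, hne⟩ := exists_ne (1 : Subgroup.center (P ⧸ Subgroup.center P))
        obtain ⟨a, rfl⟩ := QuotientGroup.mk_surjective abar
        refine ⟨a, ?_, ?_⟩
        · intro ha
          apply hne
          apply Subtype.ext
          exact (QuotientGroup.eq_one_iff a).mpr ha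
        · intro g
          rw [← QuotientGroup.eq_one_iff]
          have hcm := Subgroup.mem_center_iff.mp habar (QuotientGroup.mk g)
          simp only [QuotientGroup.mk_mul, QuotientGroup.mk_inv]
          rw [hcm]; group
      let φ : P →* Subgroup.center P :=
        MonoidHom.mk' (fun g => ⟨g * a * g⁻¹ * a⁻¹, hacomm g⟩) (by
          intro g h
          apply Subtype.ext
          have hc := Subgroup.mem_center_iff.mp (hacomm h)
          show g * h * a * (g * h)⁻¹ * a⁻¹ = (g * a * g⁻¹ * a⁻¹) * (h * a * h⁻¹ * a⁻¹)
          calc g * h * a * (g * h)⁻¹ * a⁻¹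
              = g * (h * a * h⁻¹ * a⁻¹) * (a * g⁻¹ * a⁻¹) := by group
            _ = (h * a * h⁻¹ * a⁻¹) * g * (a * g⁻¹ * a⁻¹) := by rw [hc g]
            _ = (h * a * h⁻¹ * a⁻¹) * (g * a * g⁻¹ * a⁻¹) := by group
            _ = (g * a * g⁻¹ * a⁻¹) * (h * a * h⁻¹ * a⁻¹) := (hc _).symm)
      have hcomm_le : commutator P ≤ Subgroup.centralizer ({a} : Set P) := by
        letI : CommGroup (Subgroup.center P) :=
          { (inferInstance : Group (Subgroup.center P)) with
            mul_comm := fun x y => Subtype.ext (Subgroup.mem_center_iff.mp y.2 x.1) }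
        refine le_trans (Abelianization.commutator_subset_ker (A := ↥(Subgroup.center P)) φ) ?_
        intro g hg
        rw [MonoidHom.mem_ker] at hg
        have h1 : g * a * g⁻¹ * a⁻¹ = 1 := congrArg Subtype.val hg
        rw [Subgroup.mem_centralizer_iff]
        intro x hx
        rw [Set.mem_singleton_iff] at hx
        subst hx
        have h2 : g * x = x * g := by
          calc g * x = (g * x * g⁻¹ * x⁻¹) * (x * g) := by group
            _ = x * g := by rw [h1, one_mul]
        exact h2.symm
      obtain ⟨g₀, hg₀⟩ : ∃ g₀ : P, g₀ * a ≠ a * g₀ := by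
        by_contra hcon
        apply hanc
        rw [Subgroup.mem_center_iff]
        intro g
        by_contra h; exact hcon ⟨g, h⟩
      obtain ⟨c₀, hc₀⟩ := hsc _ (hacomm g₀)
      have hc₀1 : c₀ ≠ 1 := by
        intro h1
        apply hg₀
        have h2 : g₀ * a * g₀⁻¹ * a⁻¹ = 1 := by
          apply hρ
          rw [map_one]
          apply LinearMap.ext; intro v
          rw [hc₀ v, h1, one_smul]; rfl
        calc g₀ * a = (g₀ * a * g₀⁻¹ * a⁻¹) * (a * g₀) := by group
          _ = a * g₀ := by rw [h2, one_mul]
      have hdim : ∀ μ : K, Module.End.eigenspace (ρ a) μ ≠ ⊥ →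
          2 * Module.finrank K (Module.End.eigenspace (ρ a) μ) ≤ n := by
        intro μ hne
        obtain ⟨v₁, hv₁, hv₁0⟩ := (Submodule.ne_bot_iff _).mp hne
        have hμ0 : μ ≠ 0 := by
          intro h0
          rw [Module.End.mem_eigenspace_iff, h0, zero_smul] at hv₁
          apply hv₁0
          have h3 := congrArg (ρ a⁻¹) hv₁
          rw [← app_mul, inv_mul_cancel, app_one, map_zero] at h3
          exact h3
        have hinj : Function.Injective (ρ g₀) := by
          intro x y hxy
          have h3 := congrArg (ρ g₀⁻¹) hxy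
          rw [← app_mul, ← app_mul, inv_mul_cancel, app_one, app_one] at h3
          exact h3
        have hfr : Module.finrank K ((Module.End.eigenspace (ρ a) μ).map (ρ g₀))
            = Module.finrank K (Module.End.eigenspace (ρ a) μ) :=
          (LinearEquiv.finrank_eq (Submodule.equivMapOfInjective (ρ g₀) hinj
            (Module.End.eigenspace (ρ a) μ))).symm
        have hdisj : Module.End.eigenspace (ρ a) μ ⊓ (Module.End.eigenspace (ρ a) μ).map (ρ g₀)
            = ⊥ := by
          rw [eq_bot_iff]
          intro w hw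
          obtain ⟨hw1, hw2⟩ := Submodule.mem_inf.mp hw
          obtain ⟨v, hv, rfl⟩ := Submodule.mem_map.mp hw2
          rw [Module.End.mem_eigenspace_iff] at hw1 hv
          have hgrp : g₀ * a = (g₀ * a * g₀⁻¹ * a⁻¹) * (a * g₀) := by group
          have h1 : ρ g₀ (ρ a v) = c₀ • ρ a (ρ g₀ v) := by
            rw [← app_mul, hgrp, app_mul, hc₀, app_mul]
          rw [hv, map_smul, hw1] at h1
          have h2 : ((1 - c₀) * μ) • ρ g₀ v = 0 := by
            rw [mul_smul, sub_smul, one_smul, ← h1, sub_self]
          rcases smul_eq_zero.mp h2 with h | h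
          · rcases mul_eq_zero.mp h with h' | h'
            · exact absurd (sub_eq_zero.mp h').symm hc₀1
            · exact absurd h' hμ0
          · rw [Submodule.mem_bot]; exact h
        have hsum := Submodule.finrank_sup_add_finrank_inf_eq (Module.End.eigenspace (ρ a) μ)
          ((Module.End.eigenspace (ρ a) μ).map (ρ g₀))
        rw [hdisj, finrank_bot, add_zero, hfr] at hsum
        have hle := Submodule.finrank_le
          (Module.End.eigenspace (ρ a) μ ⊔ (Module.End.eigenspace (ρ a) μ).map (ρ g₀))
        rw [hV] at hle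
        omega
      have hP1 : derivedSeries (Subgroup.centralizer ({a} : Set P)) (Nat.log 2 n) = ⊥ := by
        apply fix_all p (hP.to_subgroup _)
          (ρ.comp (Subgroup.centralizer ({a} : Set P)).subtype)
          (by intro x y hxy; exact Subtype.ext (hρ hxy))
          (fun μ => Module.End.eigenspace (ρ a) μ) (hdiag a)
        · intro μ g v hv
          rw [Module.End.mem_eigenspace_iff] at hv ⊢
          have hcomm : a * (g : P) = g * a := Subgroup.mem_centralizer_iff.mp g.2 a rfl
          show ρ a (ρ (g : P) v) = μ • ρ (g : P) v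
          rw [← app_mul, hcomm, app_mul, hv, map_smul]
        · intro μ hne Q' _ _ hQ' W _ _ _ hW τ hτ
          have h2 := hdim μ hne
          have hpos : Module.finrank K (Module.End.eigenspace (ρ a) μ) ≠ 0 := by
            intro h0
            exact hne (Submodule.finrank_eq_zero.mp h0)
          have hlt : Module.finrank K (Module.End.eigenspace (ρ a) μ) < n := by omega
          have h1 := ih _ hlt Q' hQ' W hW τ hτ
          have hlog : Nat.log 2 (Module.finrank K (Module.End.eigenspace (ρ a) μ)) + 1
              ≤ Nat.log 2 n := by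
            rw [← Nat.log_mul_base (by norm_num) hpos]
            exact Nat.log_mono_right (by omega)
          have h3 := derivedSeries_antitone Q' hlog
          rw [h1] at h3
          exact le_bot_iff.mp h3
      have h3 := derived_le_map (Subgroup.centralizer ({a} : Set P)) hcomm_le (Nat.log 2 n)
      rw [hP1, Subgroup.map_bot] at h3
      exact le_bot_iff.mp h3

end Cfsg.Agent.Lib.Helper22.DL
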