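import Mathlib
import Cfsg.Agent.Lib.Helper22.DL2

set_option autoImplicit false

namespace Cfsg.Agent.Lib.Helper22.DL

/-- invertible matrices over `F` acting on column vectors over an extension `K` -/
noncomputable def glToEnd {F K : Type*} [Field F] [Field K] (φ : F →+* K) (n : ℕ) :
    Matrix.GeneralLinearGroup (Fin n) F →* Module.End K (Fin n → K) :=
  ((Matrix.toLinAlgEquiv' : Matrix (Fin n) (Fin n) K ≃ₐ[K]
      ((Fin n → K) →ₗ[K] (Fin n → K))).toAlgHom.toRingHom.toMonoidHom).comp
    ((φ.mapMatrix : Matrix (Fin n) (Fin n) F →+* Matrix (Fin n) (Fin n) K).toMonoidHom.comp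
      (Units.coeHom (Matrix (Fin n) (Fin n) F)))

theorem glToEnd_injective {F K : Type*} [Field F] [Field K] (φ : F →+* K) (n : ℕ) :
    Function.Injective (glToEnd φ n) := by
  intro A B h
  apply Units.ext
  have h1 : (A : Matrix (Fin n) (Fin n) F).map φ = (B : Matrix (Fin n) (Fin n) F).map φ :=
    (Matrix.toLinAlgEquiv' : Matrix (Fin n) (Fin n) K ≃ₐ[K]
      ((Fin n → K) →ₗ[K] (Fin n → K))).injective h
  exact Matrix.map_injective φ.injective h1

end Cfsg.Agent.Lib.Helper22.DL
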