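import Mathlib
import Cfsg.Agent.Lib.Helper22.DL3

set_option autoImplicit false
set_option maxHeartbeats 1000000

namespace Cfsg.Agent.Lib.Helper22.DL

universe u v w

theorem orderOf_zmod_pos (p q : ℕ) [Fact p.Prime] (hpq : ¬ p ∣ q) :
    0 < orderOf (q : ZMod p) := by
  have hq0 : (q : ZMod p) ≠ 0 := fun h => hpq ((ZMod.natCast_eq_zero_iff q p).mp h)
  have h1 : orderOf (Units.mk0 (q : ZMod p) hq0) = orderOf (q : ZMod p) :=
    (orderOf_units (y := Units.mk0 (q : ZMod p) hq0)).symm
  rw [← h1]; exact orderOf_pos _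

theorem frob_pow_ne {K : Type*} [Field K] (p : ℕ) [Fact p.Prime] (q : ℕ) (hpq : ¬ p ∣ q)
    (μ : K) (a : ℕ) (hμa : μ ^ (p ^ a) = 1) (hμ1 : μ ≠ 1) (i k : ℕ) (hik : i < k)
    (hk : k < orderOf (q : ZMod p)) : μ ^ (q ^ i) ≠ μ ^ (q ^ k) := by
  intro heq
  have hμ0 : μ ≠ 0 := by
    intro h0
    rw [h0, zero_pow (pow_ne_zero a (Fact.out : p.Prime).ne_zero)] at hμa
    exact zero_ne_one hμa
  obtain ⟨u, hu⟩ : ∃ u : Kˣ, (u : K) = μ := ⟨Units.mk0 μ hμ0, rfl⟩
  have hua : u ^ (p ^ a) = 1 := Units.ext (by rw [Units.val_pow_eq_pow_val, hu]; exact hμa)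
  have hu1 : u ≠ 1 := fun h => hμ1 (by rw [← hu, h]; rfl)
  have hueq : u ^ (q ^ i) = u ^ (q ^ k) :=
    Units.ext (by rw [Units.val_pow_eq_pow_val, Units.val_pow_eq_pow_val, hu]; exact heq)
  have hmod : q ^ i ≡ q ^ k [MOD orderOf u] := pow_eq_pow_iff_modEq.mp hueq
  have hpo : p ∣ orderOf u := by
    obtain ⟨b, hb, hb2⟩ :=
      (Nat.dvd_prime_pow (Fact.out : p.Prime)).mp (orderOf_dvd_of_pow_eq_one hua)
    rw [hb2]
    rcases b with _ | b
    · exfalso; rw [pow_zero] at hb2; exact hu1 (orderOf_eq_one_iff.mp hb2)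
    · exact dvd_pow_self p (Nat.succ_ne_zero b)
  have hmod2 : q ^ i ≡ q ^ k [MOD p] := hmod.of_dvd hpo
  have hz : ((q ^ i : ℕ) : ZMod p) = ((q ^ k : ℕ) : ZMod p) :=
    (ZMod.natCast_eq_natCast_iff _ _ _).mpr hmod2
  rw [Nat.cast_pow, Nat.cast_pow] at hz
  have hq0 : (q : ZMod p) ≠ 0 := fun h => hpq ((ZMod.natCast_eq_zero_iff q p).mp h)
  obtain ⟨w, hw⟩ : ∃ w : (ZMod p)ˣ, (w : ZMod p) = (q : ZMod p) := ⟨Units.mk0 _ hq0, rfl⟩
  have hweq : w ^ i = w ^ k :=
    Units.ext (by rw [Units.val_pow_eq_pow_val, Units.val_pow_eq_pow_val, hw]; exact hz)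
  have hord : orderOf w = orderOf (q : ZMod p) := by rw [← hw]; exact (orderOf_units (y := w)).symm
  have h5 : i = k := pow_injOn_Iio_orderOf (x := w) (by rw [Set.mem_Iio, hord]; exact hik.trans hk)
    (by rw [Set.mem_Iio, hord]; exact hk) hweq
  omega

theorem finrank_eig_le {K : Type*} [Field K] [IsAlgClosed K] {V : Type*} [AddCommGroup V]
    [Module K V] [FiniteDimensional K V] (q : ℕ) (hq : 0 < q) (σ : V →+ V)
    (hsemi : ∀ (c : K) (v : V), σ (c • v) = c ^ q • σ v) (hinj : Function.Injective σ)
    (T : Module.End K V) (hcomm : ∀ v, T (σ v) = σ (T v)) (ν : K) :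
    Module.finrank K (Module.End.eigenspace T ν)
      ≤ Module.finrank K (Module.End.eigenspace T (ν ^ q)) := by
  classical
  have hmap : ∀ v ∈ Module.End.eigenspace T ν, σ v ∈ Module.End.eigenspace T (ν ^ q) := by
    intro v hv
    rw [Module.End.mem_eigenspace_iff] at hv ⊢
    rw [hcomm, hv, hsemi]
  obtain ⟨b⟩ : Nonempty (Module.Basis (Fin (Module.finrank K (Module.End.eigenspace T ν))) K
      (Module.End.eigenspace T ν)) := ⟨Module.finBasis K _⟩
  have hli : LinearIndependent K (fun j => (⟨σ (b j : V), hmap _ (b j).2⟩ :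
      Module.End.eigenspace T (ν ^ q))) := by
    rw [Fintype.linearIndependent_iff]
    intro c hc j
    choose d hd using fun j => IsAlgClosed.exists_pow_nat_eq (c j) hq
    have h1 : ∑ j, c j • σ (b j : V) = 0 := by
      have h := congrArg Subtype.val hc
      rw [Submodule.coe_sum] at h
      exact h
    have h2 : σ (∑ j, d j • (b j : V)) = 0 := by
      rw [map_sum, ← h1]
      apply Finset.sum_congr rfl
      intro j _
      rw [hsemi, hd]
    have h3 : ∑ j, d j • (b j : V) = 0 := hinj (by rw [h2, map_zero])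
    have h4 : ∑ j, d j • b j = 0 := by
      apply Subtype.ext
      rw [Submodule.coe_sum]
      exact h3
    have h5 := Fintype.linearIndependent_iff.mp b.linearIndependent d h4 j
    rw [← hd j, h5, zero_pow hq.ne']
  have h6 := hli.fintype_card_le_finrank
  rw [Fintype.card_fin] at h6
  exact h6

theorem mul_finrank_le {K : Type*} [Field K] {V : Type*} [AddCommGroup V] [Module K V]
    [FiniteDimensional K V] (T : Module.End K V) (ν : ℕ → K) (m : ℕ) (e : ℕ)
    (hdist : ∀ i k, i < k → k < e → ν i ≠ ν k)
    (hdim : ∀ i, i < e → m ≤ Module.finrank K (Module.End.eigenspace T (ν i))) :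
    e * m ≤ Module.finrank K V := by
  have key : ∀ k, k ≤ e → k * m ≤ Module.finrank K
      (↥(⨆ i ∈ Finset.range k, Module.End.eigenspace T (ν i))) := by
    intro k
    induction k with
    | zero => intro _; simp
    | succ k ih =>
      intro hk
      have hS : (⨆ i ∈ Finset.range (k+1), Module.End.eigenspace T (ν i))
          = (⨆ i ∈ Finset.range k, Module.End.eigenspace T (ν i))
            ⊔ Module.End.eigenspace T (ν k) := by
        rw [Finset.range_add_one, Finset.iSup_insert, sup_comm]
      have hdisj : (⨆ i ∈ Finset.range k, Module.End.eigenspace T (ν i))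
          ⊓ Module.End.eigenspace T (ν k) = ⊥ := by
        have hind := (Module.End.eigenspaces_iSupIndep T) (ν k)
        have hle : (⨆ i ∈ Finset.range k, Module.End.eigenspace T (ν i))
            ≤ ⨆ (j : K) (_ : j ≠ ν k), Module.End.eigenspace T j := by
          apply iSup₂_le
          intro i hi
          exact le_iSup₂_of_le (ν i) (hdist i k (Finset.mem_range.mp hi) (by omega)) le_rfl
        exact (hind.symm.mono_left hle).eq_bot
      have hsum := Submodule.finrank_sup_add_finrank_inf_eq
        (⨆ i ∈ Finset.range k, Module.End.eigenspace T (ν i)) (Module.End.eigenspace T (ν k))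
      rw [hdisj, finrank_bot, add_zero] at hsum
      rw [hS, hsum]
      have h1 := ih (by omega)
      have h2 := hdim k (by omega)
      calc (k + 1) * m = k * m + m := by ring
        _ ≤ _ := Nat.add_le_add h1 h2
  exact le_trans (key e le_rfl) (Submodule.finrank_le _)

theorem frob_case {K : Type w} [Field K] [IsAlgClosed K] (p : ℕ) [Fact p.Prime]
    (hpK : (p : K) ≠ 0) (q : ℕ) (hq : 0 < q) (hpq : ¬ p ∣ q) {P : Type u} [Group P] [Finite P]
    (hP : IsPGroup p P) :
    ∀ (n : ℕ) (V : Type v) [AddCommGroup V] [Module K V] [FiniteDimensional K V]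
      (_ : Module.finrank K V = n) (ρ : P →* Module.End K V) (σ : V →+ V)
      (_ : ∀ (c : K) (v : V), σ (c • v) = c ^ q • σ v) (_ : Function.Injective σ)
      (_ : ∀ g v, ρ g (σ v) = σ (ρ g v)),
      ∀ d ∈ derivedSeries P (Nat.log 2 (n / orderOf (q : ZMod p)) + 1), ρ d = 1 := by
  intro n
  induction n using Nat.strong_induction_on with
  | _ n ih =>
  intro V _ _ _ hV ρ σ hsemi hinj hcomm d hd
  by_cases htriv : ∀ g, ρ g = 1
  · exact htriv d
  · obtain ⟨z, hz1, hzc⟩ : ∃ z : P, ρ z ≠ 1 ∧ ∀ g, ρ g * ρ z = ρ z * ρ g := by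
      obtain ⟨f, hf⟩ : ∃ f : P →* (Module.End K V)ˣ, f = ρ.toHomUnits := ⟨_, rfl⟩
      have hfker : ∀ g, g ∈ f.ker ↔ ρ g = 1 := by
        intro g
        rw [MonoidHom.mem_ker, hf]
        constructor
        · intro h; have h' := congrArg Units.val h; exact h'
        · intro h; exact Units.ext h
      haveI : Nontrivial (P ⧸ f.ker) := by
        by_contra hns
        rw [not_nontrivial_iff_subsingleton] at hns
        apply htriv
        intro g
        rw [← hfker, ← QuotientGroup.eq_one_iff]
        exact Subsingleton.elim _ _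
      have hPQ : IsPGroup p (P ⧸ f.ker) := hP.to_quotient _
      haveI := hPQ.center_nontrivial
      obtain ⟨⟨zbar, hzbar⟩, hne⟩ := exists_ne (1 : Subgroup.center (P ⧸ f.ker))
      obtain ⟨z, rfl⟩ := QuotientGroup.mk_surjective zbar
      refine ⟨z, ?_, ?_⟩
      · intro h
        apply hne
        apply Subtype.ext
        exact (QuotientGroup.eq_one_iff z).mpr ((hfker z).mpr h)
      · intro g
        have hcm := Subgroup.mem_center_iff.mp hzbar (QuotientGroup.mk g)
        have h1 : ((g * z : P) : P ⧸ f.ker) = ((z * g : P) : P ⧸ f.ker) := by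
          rw [QuotientGroup.mk_mul, QuotientGroup.mk_mul]; exact hcm
        have h2 := QuotientGroup.eq.mp h1
        rw [hfker] at h2
        have h3 : ρ (z * g) = ρ (g * z) := by
          have h4 : ρ (z * g) = ρ (g * z) * ρ ((g * z)⁻¹ * (z * g)) := by
            rw [← map_mul]; congr 1; group
          rw [h4, h2, mul_one]
        rw [← map_mul, ← map_mul]; exact h3.symm
    have hzcomm : ∀ g v, ρ g (ρ z v) = ρ z (ρ g v) :=
      fun g v => congrArg (fun f : Module.End K V => f v) (hzc g)
    have hdiag := diag_rep p hpK hP ρ z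
    obtain ⟨a, ha⟩ := IsPGroup.iff_card.mp hP
    have hTa : (ρ z) ^ (p ^ a) = 1 := by rw [← map_pow, ← ha, pow_card_eq_one', map_one]
    have hepos : 0 < orderOf (q : ZMod p) := orderOf_zmod_pos p q hpq
    apply eq_one_of_fix (fun μ => Module.End.eigenspace (ρ z) μ) hdiag
    intro μ v hv
    replace hv : v ∈ Module.End.eigenspace (ρ z) μ := hv
    have hEinv : ∀ g : P, ∀ v ∈ Module.End.eigenspace (ρ z) μ,
        ρ g v ∈ Module.End.eigenspace (ρ z) μ := by
      intro g v hv
      rw [Module.End.mem_eigenspace_iff] at hv ⊢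
      rw [← hzcomm, hv, map_smul]
    by_cases hμ1 : μ = 1
    · subst hμ1
      have hne : Module.End.eigenspace (ρ z) 1 ≠ ⊤ := by
        intro htop
        apply hz1
        apply LinearMap.ext; intro v
        have h : v ∈ Module.End.eigenspace (ρ z) 1 := by rw [htop]; trivial
        rw [Module.End.mem_eigenspace_iff, one_smul] at h
        exact h
      have hlt : Module.finrank K (Module.End.eigenspace (ρ z) 1) < n := by
        rw [← hV]; exact Submodule.finrank_lt hne
      have hσE : ∀ v ∈ Module.End.eigenspace (ρ z) 1, σ v ∈ Module.End.eigenspace (ρ z) 1 := by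
        intro v hv
        rw [Module.End.mem_eigenspace_iff, one_smul] at hv ⊢
        rw [hcomm, hv]
      have h1 := ih _ hlt (Module.End.eigenspace (ρ z) 1) rfl (resRep ρ _ hEinv)
        { toFun := fun y => ⟨σ y.1, hσE _ y.2⟩
          map_zero' := by apply Subtype.ext; simp
          map_add' := by intro x y; apply Subtype.ext; simp }
        (by intro c y; apply Subtype.ext; exact hsemi c y.1)
        (by intro x y hxy; apply Subtype.ext; exact hinj (congrArg Subtype.val hxy))
        (by intro g y; apply Subtype.ext; exact hcomm g y.1)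
        d (derivedSeries_antitone P (Nat.add_le_add_right
          (Nat.log_mono_right (Nat.div_le_div_right hlt.le)) 1) hd)
      have h2 : ((resRep ρ _ hEinv d) ⟨v, hv⟩ : V) = v := by rw [h1]; rfl
      rw [resRep_apply] at h2
      exact h2
    · by_cases hbot : Module.End.eigenspace (ρ z) μ = ⊥
      · rw [hbot] at hv
        have h0 : v = 0 := (Submodule.mem_bot K).mp hv
        rw [h0, map_zero]
      · have hμa : μ ^ (p ^ a) = 1 := by
          obtain ⟨x, hx, hx0⟩ := (Submodule.ne_bot_iff _).mp hbot
          rw [Module.End.mem_eigenspace_iff] at hx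
          have hpow : ∀ k : ℕ, ((ρ z) ^ k) x = μ ^ k • x := by
            intro k
            induction k with
            | zero => simp
            | succ k ihk =>
              rw [pow_succ', Module.End.mul_apply, ihk, map_smul, hx, smul_smul, pow_succ]
          have h1 := hpow (p ^ a)
          rw [hTa, Module.End.one_apply] at h1
          have h2 : (μ ^ (p ^ a) - 1) • x = 0 := by rw [sub_smul, one_smul, ← h1, sub_self]
          rcases smul_eq_zero.mp h2 with h | h
          · exact sub_eq_zero.mp h
          · exact absurd h hx0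
        have hdimall : ∀ i : ℕ, Module.finrank K (Module.End.eigenspace (ρ z) μ)
            ≤ Module.finrank K (Module.End.eigenspace (ρ z) (μ ^ (q ^ i))) := by
          intro i
          induction i with
          | zero => rw [pow_zero, pow_one]
          | succ i ihi =>
            refine le_trans ihi ?_
            have h := finrank_eig_le q hq σ hsemi hinj (ρ z) (fun v => hcomm z v) (μ ^ (q ^ i))
            rw [← pow_mul, ← pow_succ] at h
            exact h
        have hbound : orderOf (q : ZMod p) * Module.finrank K (Module.End.eigenspace (ρ z) μ)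
            ≤ n := by
          rw [← hV]
          exact mul_finrank_le (ρ z) (fun i => μ ^ (q ^ i)) _ _
            (fun i k hik hk => frob_pow_ne p q hpq μ a hμa hμ1 i k hik hk)
            (fun i _ => hdimall i)
        have hm : Module.finrank K (Module.End.eigenspace (ρ z) μ)
            ≤ n / orderOf (q : ZMod p) :=
          (Nat.le_div_iff_mul_le hepos).mpr (by rw [mul_comm]; exact hbound)
        refine res_fix p hP ρ (Module.End.eigenspace (ρ z) μ) hEinv
          (Nat.log 2 (n / orderOf (q : ZMod p)) + 1) ?_ d hd v hv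
        intro Q' _ _ hQ' W _ _ _ hW τ hτ
        have h1 := semisimple_case p hpK _ Q' hQ' W hW τ hτ
        have hmono : Nat.log 2 (Module.finrank K (Module.End.eigenspace (ρ z) μ)) + 1
            ≤ Nat.log 2 (n / orderOf (q : ZMod p)) + 1 :=
          Nat.add_le_add_right (Nat.log_mono_right hm) 1
        have h3 := derivedSeries_antitone Q' hmono
        rw [h1] at h3
        exact le_bot_iff.mp h3

end Cfsg.Agent.Lib.Helper22.DL
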