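import Mathlib

namespace Cfsg.Agent.Lib.Helper22.FR

/-- The subgroup generated by the squares. -/
def sqT (Q : Type*) [Group Q] : Subgroup Q :=
  Subgroup.closure (Set.range (fun g : Q => g ^ 2))

theorem sq_mem_sqT {Q : Type*} [Group Q] (g : Q) : g ^ 2 ∈ sqT Q :=
  Subgroup.subset_closure ⟨g, rfl⟩

instance sqT_normal (Q : Type*) [Group Q] : (sqT Q).Normal := by
  constructor
  intro n hn g
  induction hn using Subgroup.closure_induction with
  | mem x hx =>
    obtain ⟨y, rfl⟩ := hx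
    have : g * y ^ 2 * g⁻¹ = (g * y * g⁻¹) ^ 2 := by
      rw [conj_pow]
    show g * y ^ 2 * g⁻¹ ∈ sqT Q
    rw [this]; exact sq_mem_sqT _
  | one => simp
  | mul x y _ _ hx hy =>
    have : g * (x * y) * g⁻¹ = (g * x * g⁻¹) * (g * y * g⁻¹) := by group
    rw [this]; exact mul_mem hx hy
  | inv x _ hx =>
    have : g * x⁻¹ * g⁻¹ = (g * x * g⁻¹)⁻¹ := by group
    rw [this]; exact inv_mem hx

theorem phi_le_of_surj {Q H : Type*} [Group Q] [Group H] [Finite Q] (f : Q →* H)
    (hf : Function.Surjective f) :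
    (sqT Q).index ≤ (sqT ↥f.ker).index * (sqT H).index := by
  have h1 : (sqT Q).relIndex (sqT Q ⊔ f.ker) * (sqT Q ⊔ f.ker).index = (sqT Q).index :=
    Subgroup.relIndex_mul_index le_sup_left
  have hmap : (sqT Q).map f = sqT H := by
    show (Subgroup.closure _).map f = Subgroup.closure _
    rw [MonoidHom.map_closure]
    congr 1
    ext y
    constructor
    · rintro ⟨x, ⟨g, rfl⟩, rfl⟩
      exact ⟨f g, by simp⟩
    · rintro ⟨h, rfl⟩
      obtain ⟨g, rfl⟩ := hf h
      exact ⟨g ^ 2, ⟨g, rfl⟩, by simp⟩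
  have h2 : (sqT Q ⊔ f.ker).index = (sqT H).index := by
    rw [← Subgroup.comap_map_eq, hmap, Subgroup.index_comap_of_surjective _ hf]
  have h3 : (sqT Q).relIndex (sqT Q ⊔ f.ker) ≤ (sqT ↥f.ker).index := by
    rw [Subgroup.relIndex_sup_left]
    have hle : sqT ↥f.ker ≤ (sqT Q).subgroupOf f.ker := by
      show Subgroup.closure _ ≤ _
      rw [Subgroup.closure_le]
      rintro x ⟨g, rfl⟩
      rw [SetLike.mem_coe, Subgroup.mem_subgroupOf]
      simpa using sq_mem_sqT (g : Q)
    exact Subgroup.index_antitone hle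
  calc (sqT Q).index = (sqT Q).relIndex (sqT Q ⊔ f.ker) * (sqT Q ⊔ f.ker).index := h1.symm
    _ ≤ (sqT ↥f.ker).index * (sqT H).index := by rw [h2]; exact Nat.mul_le_mul_right _ h3

theorem phi_le_two_mul {Q : Type*} [Group Q] [Finite Q] (Q0 : Subgroup Q) (h2 : Q0.index = 2) :
    (sqT Q).index ≤ 2 * (sqT ↥Q0).index := by
  have hle : (sqT ↥Q0).map Q0.subtype ≤ sqT Q := by
    rw [Subgroup.map_le_iff_le_comap]
    show Subgroup.closure _ ≤ _
    rw [Subgroup.closure_le]
    rintro x ⟨g, rfl⟩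
    rw [SetLike.mem_coe, Subgroup.mem_comap]
    simpa using sq_mem_sqT (g : Q)
  have := Subgroup.index_antitone hle
  rw [Subgroup.index_map_subtype, h2] at this
  omega

theorem phi_cyclic {Q : Type*} [Group Q] [Finite Q] [IsCyclic Q] : (sqT Q).index ≤ 2 := by
  obtain ⟨g, hg⟩ := IsCyclic.exists_generator (α := Q)
  rw [Subgroup.index_eq_card]
  let f : Bool → Q ⧸ sqT Q := fun b => if b then (g : Q ⧸ sqT Q) else 1
  have hsq : ((g : Q ⧸ sqT Q)) ^ (2 : ℤ) = 1 := by
    rw [← QuotientGroup.mk_zpow, QuotientGroup.eq_one_iff]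
    have : (g : Q) ^ (2 : ℤ) = g ^ 2 := zpow_ofNat g 2
    rw [this]; exact sq_mem_sqT g
  have hf : Function.Surjective f := by
    intro y
    induction y using QuotientGroup.induction_on with
    | H x =>
      obtain ⟨k, rfl⟩ := Subgroup.mem_zpowers_iff.mp (hg x)
      have hk : ((g ^ k : Q) : Q ⧸ sqT Q) = (g : Q ⧸ sqT Q) ^ (k % 2) := by
        rw [QuotientGroup.mk_zpow]
        conv_lhs => rw [← Int.mul_ediv_add_emod k 2]
        rw [zpow_add, zpow_mul, hsq, one_zpow, one_mul]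
      rcases Int.emod_two_eq_zero_or_one k with h | h
      · exact ⟨false, by simp [f, hk, h]⟩
      · exact ⟨true, by simp [f, hk, h]⟩
  have := Nat.card_le_card_of_surjective f hf
  simpa using this

theorem phi_comm_le {B : Type*} [Group B] [Finite B] (hc : ∀ a b : B, a * b = b * a) :
    (sqT B).index ≤ Nat.card {b : B // b ^ 2 = 1} := by
  let f : B →* B := MonoidHom.mk' (fun b => b ^ 2) (fun a b => by
    show (a * b) ^ 2 = a ^ 2 * b ^ 2
    exact (show Commute a b from hc a b).mul_pow 2)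
  have hle : f.range ≤ sqT B := by
    rintro x ⟨b, rfl⟩
    exact sq_mem_sqT b
  have h1 := Subgroup.index_antitone hle
  have h2 : f.range.index = Nat.card f.ker := by
    have e1 := Subgroup.card_mul_index f.ker
    have e2 := Subgroup.card_mul_index f.range
    have e3 := Subgroup.index_ker f
    rw [e3] at e1
    have hpos : 0 < Nat.card f.range := Nat.card_pos
    have : Nat.card f.range * f.range.index = Nat.card f.range * Nat.card f.ker := by
      rw [e2, mul_comm, e1]
    exact Nat.eq_of_mul_eq_mul_left hpos this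
  have h3 : Nat.card f.ker = Nat.card {b : B // b ^ 2 = 1} := by
    apply Nat.card_congr
    exact Equiv.subtypeEquivRight (fun b => by simp [f, MonoidHom.mem_ker])
  omega

theorem phi_le_card {Q : Type*} [Group Q] [Finite Q] : (sqT Q).index ≤ Nat.card Q :=
  Nat.le_of_dvd Nat.card_pos (Subgroup.index_dvd_card _)

/-- The target bound. -/
def T (n : ℕ) : ℕ := if n < 5 then 2 else (n - 1) / 2

theorem T_ge_two (n : ℕ) : 2 ≤ T n := by
  unfold T; split_ifs <;> omega

theorem T_le (n : ℕ) (h : 3 ≤ n) : T n ≤ n - 1 := by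
  unfold T; split_ifs <;> omega

theorem T_ge_four (n : ℕ) (h : 9 ≤ n) : 4 ≤ T n := by
  unfold T; split_ifs <;> omega

theorem T_ge_eight (n : ℕ) (h : 17 ≤ n) : 8 ≤ T n := by
  unfold T; split_ifs <;> omega

theorem T_odd (x : ℕ) (hx : 2 ≤ x) : T (2 * x + 1) = x := by
  unfold T; rw [if_neg (by omega)]; omega

theorem T_three : T 3 = 2 := by decide

theorem T_mul {a b : ℕ} (ha : Odd a) (hb : Odd b) (ha3 : 3 ≤ a) (hb3 : 3 ≤ b) :
    T a * T b ≤ T (a * b) := by
  obtain ⟨x, rfl⟩ := ha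
  obtain ⟨y, rfl⟩ := hb
  have hab : (2 * x + 1) * (2 * y + 1) = 2 * (2 * (x * y) + x + y) + 1 := by ring
  have hxy : 1 ≤ x * y := Nat.mul_pos (by omega) (by omega)
  have hT : T ((2 * x + 1) * (2 * y + 1)) = 2 * (x * y) + x + y := by
    rw [hab]; exact T_odd _ (by omega)
  rw [hT]
  rcases (by omega : x = 1 ∨ 2 ≤ x) with rfl | hx
  · rcases (by omega : y = 1 ∨ 2 ≤ y) with rfl | hy
    · decide
    · rw [T_odd y hy]; show T 3 * y ≤ _; rw [T_three]; omega
  · rcases (by omega : y = 1 ∨ 2 ≤ y) with rfl | hy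
    · rw [T_odd x hx]; show x * T 3 ≤ _; rw [T_three]; omega
    · rw [T_odd x hx, T_odd y hy]
      generalize x * y = p
      omega

theorem T_sq {m : ℕ} (hm : Odd m) (h5 : 5 ≤ m) : 2 * (T m * T m) ≤ T (m * m) := by
  obtain ⟨x, rfl⟩ := hm
  have hab : (2 * x + 1) * (2 * x + 1) = 2 * (2 * (x * x) + 2 * x) + 1 := by ring
  have hT : T ((2 * x + 1) * (2 * x + 1)) = 2 * (x * x) + 2 * x := by
    rw [hab]; exact T_odd _ (by omega)
  rw [hT, T_odd x (by omega)]
  generalize x * x = p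
  omega

end Cfsg.Agent.Lib.Helper22.FR
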