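import Mathlib
import Cfsg.Agent.Lib.Helper22.FR1

namespace Cfsg.Agent.Lib.Helper22.FR

theorem nt_sq_one (m : ℕ) (k : ℤ) (h : (2 : ℤ) ^ (m + 1) ∣ k * k - 1) :
    (2 : ℤ) ^ m ∣ k - 1 ∨ (2 : ℤ) ^ m ∣ k + 1 := by
  have hodd : Odd k := by
    by_contra hne
    rw [Int.not_odd_iff_even] at hne
    obtain ⟨j, rfl⟩ := hne
    have h2 : (2 : ℤ) ∣ (j + j) * (j + j) - 1 := Dvd.dvd.trans (dvd_pow_self 2 (by omega)) h
    have e : (j + j) * (j + j) - 1 = 2 * (2 * (j * j)) - 1 := by ring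
    rw [e] at h2
    generalize j * j = p at h2
    omega
  obtain ⟨j, rfl⟩ := hodd
  have e1 : (2 * j + 1) * (2 * j + 1) - 1 = 4 * (j * (j + 1)) := by ring
  rw [e1] at h
  have e2 : (2 * j + 1) - 1 = 2 * j := by ring
  have e3 : (2 * j + 1) + 1 = 2 * (j + 1) := by ring
  rw [e2, e3]
  rcases m with _ | m
  · left; simp
  · have h' : (2 : ℤ) ^ m ∣ j * (j + 1) := by
      have : (2 : ℤ) ^ (m + 1 + 1) = 4 * 2 ^ m := by ring
      rw [this] at h
      exact Int.dvd_of_mul_dvd_mul_left (by norm_num) h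
    rcases Int.even_or_odd j with hj | hj
    · have hnd : ¬ (2 : ℤ) ∣ j + 1 := by
        obtain ⟨i, rfl⟩ := hj; omega
      have : (2 : ℤ) ^ m ∣ j := by
        rw [mul_comm] at h'
        exact Int.prime_two.pow_dvd_of_dvd_mul_left m hnd h'
      left
      rw [pow_succ, mul_comm]; exact mul_dvd_mul_left 2 this
    · have hnd : ¬ (2 : ℤ) ∣ j := by
        obtain ⟨i, rfl⟩ := hj; omega
      have : (2 : ℤ) ^ m ∣ j + 1 := Int.prime_two.pow_dvd_of_dvd_mul_left m hnd h'
      right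
      rw [pow_succ, mul_comm]; exact mul_dvd_mul_left 2 this

theorem zpow_of_sq_one {G : Type*} [Group G] (z : G) (hz : z ^ 2 = 1) (l : ℤ) :
    z ^ l = 1 ∨ z ^ l = z := by
  have hz' : z ^ (2 : ℤ) = 1 := by
    have : z ^ (2 : ℤ) = z ^ 2 := zpow_ofNat z 2
    rw [this, hz]
  have hk : z ^ l = z ^ (l % 2) := by
    conv_lhs => rw [← Int.mul_ediv_add_emod l 2]
    rw [zpow_add, zpow_mul, hz', one_zpow, one_mul]
  rcases Int.emod_two_eq_zero_or_one l with h | h
  · left; rw [hk, h, zpow_zero]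
  · right; rw [hk, h, zpow_one]

theorem card_invol_aut {A : Type*} [Group A] [Finite A] [IsCyclic A] (m : ℕ)
    (hcard : Nat.card A = 2 ^ m) : Nat.card {σ : MulAut A // σ ^ 2 = 1} ≤ 4 := by
  classical
  rcases m with _ | m
  · have h1 : Nat.card A = 1 := by simpa using hcard
    haveI : Subsingleton A := (Nat.card_eq_one_iff_unique.mp h1).1
    haveI : Subsingleton (MulAut A) := ⟨fun σ τ => MulEquiv.ext (fun x => Subsingleton.elim _ _)⟩
    have : Nat.card {σ : MulAut A // σ ^ 2 = 1} ≤ 1 := Finite.card_le_one_iff_subsingleton.mpr inferInstance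
    omega
  obtain ⟨a, ha⟩ := IsCyclic.exists_generator (α := A)
  have hord : orderOf a = 2 ^ (m + 1) := by
    rw [orderOf_eq_card_of_forall_mem_zpowers ha, hcard]
  set z : A := a ^ (2 ^ m) with hzdef
  have hz2 : z ^ 2 = 1 := by
    rw [hzdef, ← pow_mul, ← pow_succ, ← hord]; exact pow_orderOf_eq_one a
  have hzz : a ^ ((2 : ℤ) ^ m) = z := by
    have : ((2 : ℤ) ^ m) = ((2 ^ m : ℕ) : ℤ) := by push_cast; rfl
    rw [this, zpow_natCast]
  have key : ∀ σ : MulAut A, σ ^ 2 = 1 →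
      σ a ∈ ({a, a⁻¹, a * z, a⁻¹ * z} : Finset A) := by
    intro σ hσ
    obtain ⟨k, hk⟩ := Subgroup.mem_zpowers_iff.mp (ha (σ a))
    have hσσ : σ (σ a) = a := by
      have := congrArg (fun τ : MulAut A => τ a) hσ
      simpa [pow_two] using this
    have hkk : a ^ (k * k) = a := by
      rw [zpow_mul, hk, ← map_zpow, hk, hσσ]
    have h1 : a ^ (k * k - 1) = 1 := by
      rw [zpow_sub, zpow_one, hkk, mul_inv_cancel]
    have hd : ((orderOf a : ℕ) : ℤ) ∣ k * k - 1 := orderOf_dvd_iff_zpow_eq_one.mpr h1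
    rw [hord] at hd
    have hd' : (2 : ℤ) ^ (m + 1) ∣ k * k - 1 := by
      have : (((2 : ℕ) ^ (m + 1) : ℕ) : ℤ) = (2 : ℤ) ^ (m + 1) := by push_cast; rfl
      rwa [this] at hd
    simp only [Finset.mem_insert, Finset.mem_singleton]
    rcases nt_sq_one m k hd' with ⟨l, hl⟩ | ⟨l, hl⟩
    · have hkeq : k = 1 + 2 ^ m * l := by linarith
      have : σ a = a * z ^ l := by
        rw [← hk, hkeq, zpow_add, zpow_one, zpow_mul, hzz]
      rcases zpow_of_sq_one z hz2 l with h | h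
      · left; rw [this, h, mul_one]
      · right; right; left; rw [this, h]
    · have hkeq : k = -1 + 2 ^ m * l := by linarith
      have : σ a = a⁻¹ * z ^ l := by
        rw [← hk, hkeq, zpow_add, zpow_neg_one, zpow_mul, hzz]
      rcases zpow_of_sq_one z hz2 l with h | h
      · right; left; rw [this, h, mul_one]
      · right; right; right; rw [this, h]
  let S : Finset A := {a, a⁻¹, a * z, a⁻¹ * z}
  let F : {σ : MulAut A // σ ^ 2 = 1} → ↥S := fun σ => ⟨σ.1 a, key σ.1 σ.2⟩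
  have hF : Function.Injective F := by
    intro σ τ hst
    have h0 : σ.1 a = τ.1 a := congrArg Subtype.val hst
    apply Subtype.ext
    apply MulEquiv.ext
    intro x
    obtain ⟨j, rfl⟩ := Subgroup.mem_zpowers_iff.mp (ha x)
    rw [map_zpow, map_zpow, h0]
  have h1 := Nat.card_le_card_of_injective F hF
  have h2 : Nat.card ↥S = S.card := by
    rw [Nat.card_eq_fintype_card, Fintype.card_coe]
  have h3 : S.card ≤ 4 := Finset.card_le_four
  omega

theorem cyc_inv {Q : Type*} [Group Q] [Finite Q] (A : Subgroup Q) [IsCyclic ↥A] {z a : Q}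
    (hz : z ∈ A) (ha : a ∈ A) (hz1 : z ≠ 1) (hz2 : z ^ 2 = 1) (ha2 : a ^ 2 = 1) :
    a = 1 ∨ a = z := by
  classical
  by_contra hcon
  rw [not_or] at hcon
  haveI : Fintype ↥A := Fintype.ofFinite _
  have h := IsCyclic.card_pow_eq_one_le (α := ↥A) (n := 2) (by norm_num)
  have hc : ({(1 : ↥A), ⟨z, hz⟩, ⟨a, ha⟩} : Finset ↥A).card = 3 := by
    rw [Finset.card_eq_three]
    refine ⟨1, ⟨z, hz⟩, ⟨a, ha⟩, ?_, ?_, ?_, rfl⟩
    · intro h; exact hz1 (congrArg Subtype.val h).symm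
    · intro h; exact hcon.1 (congrArg Subtype.val h).symm
    · intro h; exact hcon.2 (congrArg Subtype.val h).symm
  have hsub : ({(1 : ↥A), ⟨z, hz⟩, ⟨a, ha⟩} : Finset ↥A) ⊆
      Finset.univ.filter (fun x : ↥A => x ^ 2 = 1) := by
    intro x hx
    simp only [Finset.mem_insert, Finset.mem_singleton] at hx
    rw [Finset.mem_filter]
    refine ⟨Finset.mem_univ _, ?_⟩
    rcases hx with rfl | rfl | rfl
    · simp
    · exact Subtype.ext (by simpa using hz2)
    · exact Subtype.ext (by simpa using ha2)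
  have := Finset.card_le_card hsub
  omega

theorem exists_central_invol {Q : Type*} [Group Q] [Finite Q] (hQ : IsPGroup 2 Q) [Nontrivial Q] :
    ∃ z : Q, z ^ 2 = 1 ∧ z ≠ 1 ∧ ∀ q : Q, q * z = z * q := by
  haveI : Fact (Nat.Prime 2) := ⟨Nat.prime_two⟩
  haveI := hQ.center_nontrivial
  have hZ : IsPGroup 2 (Subgroup.center Q) := hQ.to_subgroup _
  obtain ⟨k, hk⟩ := IsPGroup.iff_card.mp hZ
  have hk0 : k ≠ 0 := by
    rintro rfl
    have h1 : Nat.card (Subgroup.center Q) = 1 := by simpa using hk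
    have := (Nat.card_eq_one_iff_unique.mp h1).1
    exact not_subsingleton _ this
  have hdvd : 2 ∣ Nat.card (Subgroup.center Q) := by rw [hk]; exact dvd_pow_self 2 hk0
  obtain ⟨x, hx⟩ := exists_prime_orderOf_dvd_card' 2 hdvd
  refine ⟨x.1, ?_, ?_, ?_⟩
  · have := pow_orderOf_eq_one x
    rw [hx] at this
    exact_mod_cast congrArg Subtype.val this
  · intro h
    have : x = 1 := Subtype.ext h
    rw [this, orderOf_one] at hx; omega
  · intro q; exact (Subgroup.mem_center_iff.mp x.2 q)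

theorem exists_pow_invol {Q : Type*} [Group Q] [Finite Q] (hQ : IsPGroup 2 Q) {b : Q}
    (hb : b ≠ 1) : ∃ j : ℕ, (b ^ j) ^ 2 = 1 ∧ b ^ j ≠ 1 := by
  haveI : Fact (Nat.Prime 2) := ⟨Nat.prime_two⟩
  obtain ⟨k, hk⟩ := (IsPGroup.iff_orderOf.mp hQ) b
  have hk0 : k ≠ 0 := by
    rintro rfl
    rw [pow_zero, orderOf_eq_one_iff] at hk
    exact hb hk
  have h2 : 2 ∣ orderOf b := by rw [hk]; exact dvd_pow_self 2 hk0
  have ho := orderOf_pow_orderOf_div (x := b) (by rw [hk]; positivity) h2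
  refine ⟨orderOf b / 2, ?_, ?_⟩
  · have := pow_orderOf_eq_one (b ^ (orderOf b / 2))
    rwa [ho] at this
  · intro h; rw [h, orderOf_one] at ho; omega

end Cfsg.Agent.Lib.Helper22.FR
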