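import Mathlib
import Cfsg.Agent.Lib.Helper22.FR2

namespace Cfsg.Agent.Lib.Helper22.FR

/-- Fixed points of an automorphism. -/
def Wp {W : Type*} [CommGroup W] (σ : MulAut W) : Subgroup W where
  carrier := {w | σ w = w}
  mul_mem' := by
    intro a b ha hb
    simp only [Set.mem_setOf_eq] at *
    rw [map_mul, ha, hb]
  one_mem' := by simp
  inv_mem' := by
    intro a ha
    simp only [Set.mem_setOf_eq] at *
    rw [map_inv, ha]

/-- Inverted points of an automorphism. -/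
def Wm {W : Type*} [CommGroup W] (σ : MulAut W) : Subgroup W where
  carrier := {w | σ w = w⁻¹}
  mul_mem' := by
    intro a b ha hb
    simp only [Set.mem_setOf_eq] at *
    rw [map_mul, ha, hb, mul_inv]
  one_mem' := by simp
  inv_mem' := by
    intro a ha
    simp only [Set.mem_setOf_eq] at *
    rw [map_inv, ha]

theorem mem_Wp {W : Type*} [CommGroup W] (σ : MulAut W) (w : W) : w ∈ Wp σ ↔ σ w = w := Iff.rfl
theorem mem_Wm {W : Type*} [CommGroup W] (σ : MulAut W) (w : W) : w ∈ Wm σ ↔ σ w = w⁻¹ := Iff.rfl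

theorem sq_one_imp {W : Type*} [Group W] (r : ℕ) (hr : Odd r) (hW : ∀ w : W, w ^ r = 1)
    (w : W) (h2 : w ^ 2 = 1) : w = 1 := by
  obtain ⟨h, rfl⟩ := hr
  have := hW w
  rwa [pow_succ, pow_mul, h2, one_pow, one_mul] at this

theorem decomp {W : Type*} [CommGroup W] (r : ℕ) (hr : Odd r) (hW : ∀ w : W, w ^ r = 1)
    (σ : MulAut W) (hσ : ∀ w, σ (σ w) = w) (w : W) :
    ∃ u ∈ Wp σ, ∃ v ∈ Wm σ, w = u * v := by
  obtain ⟨h, rfl⟩ := hr
  refine ⟨(w * σ w) ^ (h + 1), ?_, (w * (σ w)⁻¹) ^ (h + 1), ?_, ?_⟩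
  · rw [mem_Wp, map_pow, map_mul, hσ, mul_comm]
  · rw [mem_Wm, map_pow, map_mul, map_inv, hσ, ← inv_pow, mul_inv, inv_inv, mul_comm]
  · rw [← mul_pow]
    have e : w * σ w * (w * (σ w)⁻¹) = w ^ 2 := by
      rw [pow_two, mul_mul_mul_comm, mul_inv_cancel, mul_one]
    rw [e, ← pow_mul]
    have : 2 * (h + 1) = (2 * h + 1) + 1 := by ring
    rw [this, pow_succ, hW, one_mul]

theorem card_decomp {W : Type*} [CommGroup W] [Finite W] (r : ℕ) (hr : Odd r)
    (hW : ∀ w : W, w ^ r = 1) (σ : MulAut W) (hσ : ∀ w, σ (σ w) = w) :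
    Nat.card (Wp σ) * Nat.card (Wm σ) = Nat.card W := by
  apply Subgroup.IsComplement'.card_mul_card
  apply Subgroup.isComplement'_of_disjoint_and_mul_eq_univ
  · rw [Subgroup.disjoint_def]
    intro x h1 h2
    rw [mem_Wp] at h1; rw [mem_Wm] at h2
    have hx : x = x⁻¹ := h1.symm.trans h2
    have hx2 : x ^ 2 = 1 := by
      rw [pow_two]; nth_rewrite 1 [hx]; exact inv_mul_cancel x
    exact sq_one_imp r hr hW x hx2
  · rw [Set.eq_univ_iff_forall]
    intro w
    obtain ⟨u, hu, v, hv, rfl⟩ := decomp r hr hW σ hσ w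
    exact Set.mul_mem_mul hu hv

/-- Restriction of an action by automorphisms to an invariant subgroup. -/
def resHom {Q W : Type*} [Group Q] [CommGroup W] (ρ : Q →* MulAut W) (V : Subgroup W)
    (h : ∀ q, ∀ w ∈ V, ρ q w ∈ V) : Q →* MulAut ↥V where
  toFun q :=
    { toFun := fun w => ⟨ρ q w, h q w w.2⟩
      invFun := fun w => ⟨ρ q⁻¹ w, h q⁻¹ w w.2⟩
      left_inv := by
        intro w; apply Subtype.ext
        show ρ q⁻¹ (ρ q w) = w
        rw [← MulAut.mul_apply, ← map_mul, inv_mul_cancel, map_one, MulAut.one_apply]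
      right_inv := by
        intro w; apply Subtype.ext
        show ρ q (ρ q⁻¹ w) = w
        rw [← MulAut.mul_apply, ← map_mul, mul_inv_cancel, map_one, MulAut.one_apply]
      map_mul' := by
        intro a b; apply Subtype.ext
        show ρ q ((a : W) * (b : W)) = ρ q a * ρ q b
        exact map_mul _ _ _ }
  map_one' := by
    apply MulEquiv.ext; intro w; apply Subtype.ext
    show ρ 1 w = w
    rw [map_one, MulAut.one_apply]
  map_mul' := by
    intro a b
    apply MulEquiv.ext; intro w; apply Subtype.ext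
    show ρ (a * b) w = ρ a (ρ b w)
    rw [map_mul, MulAut.mul_apply]

@[simp] theorem resHom_apply {Q W : Type*} [Group Q] [CommGroup W] (ρ : Q →* MulAut W)
    (V : Subgroup W) (h : ∀ q, ∀ w ∈ V, ρ q w ∈ V) (q : Q) (w : ↥V) :
    ((resHom ρ V h q w : ↥V) : W) = ρ q (w : W) := rfl

theorem prod_bound.{u} {W Q : Type u} [CommGroup W] [Finite W] [Group Q] [Finite Q]
    (hQ : IsPGroup 2 Q) (ρ : Q →* MulAut W) (hρ : Function.Injective ρ)
    (V1 V2 : Subgroup W) (h1 : ∀ q, ∀ w ∈ V1, ρ q w ∈ V1) (h2 : ∀ q, ∀ w ∈ V2, ρ q w ∈ V2)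
    (hdec : ∀ w : W, ∃ u ∈ V1, ∃ v ∈ V2, w = u * v) (t1 t2 : ℕ)
    (b1 : ∀ (Q' : Type u) [Group Q'] [Finite Q'], IsPGroup 2 Q' →
      ∀ ρ' : Q' →* MulAut ↥V1, Function.Injective ρ' → (sqT Q').index ≤ t1)
    (b2 : ∀ (Q' : Type u) [Group Q'] [Finite Q'], IsPGroup 2 Q' →
      ∀ ρ' : Q' →* MulAut ↥V2, Function.Injective ρ' → (sqT Q').index ≤ t2) :
    (sqT Q).index ≤ t2 * t1 := by
  set f := resHom ρ V1 h1 with hf
  have hsurj : Function.Surjective f.rangeRestrict := f.rangeRestrict_surjective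
  have hL := phi_le_of_surj f.rangeRestrict hsurj
  have hb1 : (sqT ↥f.range).index ≤ t1 :=
    b1 ↥f.range (IsPGroup.of_surjective hQ f.rangeRestrict hsurj) f.range.subtype
      (Subgroup.subtype_injective _)
  have hb2 : (sqT ↥f.rangeRestrict.ker).index ≤ t2 := by
    refine b2 ↥f.rangeRestrict.ker (hQ.to_subgroup _)
      ((resHom ρ V2 h2).comp f.rangeRestrict.ker.subtype) ?_
    rw [injective_iff_map_eq_one]
    intro k hk
    have hk1 : f (k : Q) = 1 := by
      have := k.2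
      rw [MonoidHom.mem_ker] at this
      have h' := congrArg Subtype.val this
      simpa using h'
    apply Subtype.ext
    apply hρ
    show ρ (k : Q) = ρ 1
    rw [map_one]
    apply MulEquiv.ext
    intro w
    obtain ⟨u, hu, v, hv, rfl⟩ := hdec w
    have e1 : ρ (k : Q) u = u := by
      have := congrArg (fun τ : MulAut ↥V1 => ((τ ⟨u, hu⟩ : ↥V1) : W)) hk1
      simpa [hf] using this
    have e2 : ρ (k : Q) v = v := by
      have := congrArg (fun τ : MulAut ↥V2 => ((τ ⟨v, hv⟩ : ↥V2) : W)) hk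
      simpa using this
    rw [map_mul, e1, e2, MulAut.one_apply]
  calc (sqT Q).index ≤ (sqT ↥f.rangeRestrict.ker).index * (sqT ↥f.range).index := hL
    _ ≤ t2 * t1 := Nat.mul_le_mul hb2 hb1

end Cfsg.Agent.Lib.Helper22.FR
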