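import Mathlib
import Cfsg.Agent.Lib.Helper22.FR3

namespace Cfsg.Agent.Lib.Helper22.FR

theorem normal_inf_center {G : Type*} [Group G] [Finite G] {p : ℕ} [Fact p.Prime]
    (hG : IsPGroup p G) (N : Subgroup G) [N.Normal] (hN : N ≠ ⊥) :
    ∃ x ∈ N, x ≠ 1 ∧ ∀ g : G, g * x = x * g := by
  have key := (hG.of_equiv ConjAct.toConjAct).exists_fixed_point_of_prime_dvd_card_of_fixed_point
    (α := ↥N) (p := p)
  have dvd : p ∣ Nat.card ↥N := by
    have hNp : IsPGroup p ↥N := hG.to_subgroup N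
    obtain ⟨k, hk⟩ := IsPGroup.iff_card.mp hNp
    have hk0 : k ≠ 0 := by
      rintro rfl
      have h1 : Nat.card ↥N = 1 := by simpa using hk
      exact hN (Subgroup.card_eq_one.mp h1)
    rw [hk]; exact dvd_pow_self p hk0
  obtain ⟨b, hb, hb1⟩ := key dvd (a := (1 : ↥N)) (by
    rw [MulAction.mem_fixedPoints]; intro g; apply Subtype.ext
    rw [ConjAct.Subgroup.val_conj_smul, ConjAct.smul_def]; simp)
  refine ⟨b.1, b.2, fun h => hb1 (Subtype.ext h.symm), fun g => ?_⟩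
  have := (MulAction.mem_fixedPoints.mp hb) (ConjAct.toConjAct g)
  have h2 := congrArg Subtype.val this
  rw [ConjAct.Subgroup.val_conj_smul, ConjAct.smul_def] at h2
  simp only [ConjAct.ofConjAct_toConjAct] at h2
  calc g * b.1 = (g * b.1 * g⁻¹) * g := by group
    _ = b.1 * g := by rw [h2]

theorem exists_central_mod {Q : Type*} [Group Q] [Finite Q] (hQ : IsPGroup 2 Q)
    (A C : Subgroup Q) [A.Normal] [C.Normal] (x0 : Q) (hx0 : x0 ∈ C) (hx0A : x0 ∉ A) :
    ∃ x ∈ C, x ∉ A ∧ x ^ 2 ∈ A ∧ ∀ q : Q, q * x * q⁻¹ * x⁻¹ ∈ A := by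
  haveI : Fact (Nat.Prime 2) := ⟨Nat.prime_two⟩
  have hG' : IsPGroup 2 (Q ⧸ A) := hQ.to_quotient A
  haveI : (C.map (QuotientGroup.mk' A)).Normal :=
    Subgroup.Normal.map inferInstance (QuotientGroup.mk' A) (QuotientGroup.mk'_surjective A)
  have hne : C.map (QuotientGroup.mk' A) ≠ ⊥ := by
    intro h
    have : (QuotientGroup.mk' A) x0 ∈ C.map (QuotientGroup.mk' A) := Subgroup.mem_map_of_mem _ hx0
    rw [h, Subgroup.mem_bot] at this
    exact hx0A ((QuotientGroup.eq_one_iff x0).mp this)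
  obtain ⟨y, hyC, hy1, hyc⟩ := normal_inf_center hG' (C.map (QuotientGroup.mk' A)) hne
  obtain ⟨j, hj2, hj1⟩ := exists_pow_invol hG' hy1
  obtain ⟨x, hxC, hx⟩ := Subgroup.mem_map.mp (pow_mem hyC j)
  refine ⟨x, hxC, ?_, ?_, ?_⟩
  · intro hxA
    have : (QuotientGroup.mk' A) x = 1 := (QuotientGroup.eq_one_iff x).mpr hxA
    rw [hx] at this; exact hj1 this
  · have : (QuotientGroup.mk' A) (x ^ 2) = 1 := by rw [map_pow, hx, hj2]
    exact (QuotientGroup.eq_one_iff _).mp this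
  · intro q
    have hc : (QuotientGroup.mk' A) q * y ^ j = y ^ j * (QuotientGroup.mk' A) q :=
      (Commute.pow_right (hyc ((QuotientGroup.mk' A) q)) j)
    have : (QuotientGroup.mk' A) (q * x * q⁻¹ * x⁻¹) = 1 := by
      rw [map_mul, map_mul, map_mul, map_inv, map_inv, hx, hc]; group
    exact (QuotientGroup.eq_one_iff _).mp this

theorem self_centralizing {Q : Type*} [Group Q] [Finite Q] (hQ : IsPGroup 2 Q) (z : Q)
    (hz2 : z ^ 2 = 1) (hz1 : z ≠ 1)
    (hE : ¬ ∃ e : Q, e ^ 2 = 1 ∧ e ≠ 1 ∧ e ≠ z ∧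
      ∀ q : Q, q * e * q⁻¹ = e ∨ q * e * q⁻¹ = e * z)
    (A : Subgroup Q) [hAn : A.Normal] [IsCyclic ↥A] (hzA : z ∈ A)
    (hmax : ∀ A' : Subgroup Q, A'.Normal → IsCyclic ↥A' → z ∈ A' → Nat.card ↥A' ≤ Nat.card ↥A)
    (x0 : Q) (hx0 : ∀ a ∈ A, x0 * a = a * x0) : x0 ∈ A := by
  by_contra hx0A
  let C : Subgroup Q := Subgroup.centralizer (A : Set Q)
  haveI : C.Normal := by
    constructor
    intro n hn g
    rw [Subgroup.mem_centralizer_iff] at hn ⊢
    intro a ha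
    have h1 := hn (g⁻¹ * a * g) (by
      have := hAn.conj_mem a ha g⁻¹
      simpa using this)
    calc a * (g * n * g⁻¹) = g * ((g⁻¹ * a * g) * n) * g⁻¹ := by group
      _ = g * (n * (g⁻¹ * a * g)) * g⁻¹ := by rw [h1]
      _ = g * n * g⁻¹ * a := by group
  have hx0C : x0 ∈ C := by
    rw [Subgroup.mem_centralizer_iff]; intro a ha; exact (hx0 a ha).symm
  obtain ⟨x, hxC, hxA, hx2, hxq⟩ := exists_central_mod hQ A C x0 hx0C hx0A
  have hxc : ∀ a ∈ A, a * x = x * a := fun a ha => Subgroup.mem_centralizer_iff.mp hxC a ha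
  obtain ⟨g, hg⟩ := IsCyclic.exists_generator (α := ↥A)
  set a0 : Q := g.1 with ha0
  have ha0A : a0 ∈ A := g.2
  have hgen : ∀ a ∈ A, ∃ k : ℤ, a0 ^ k = a := by
    intro a ha
    obtain ⟨k, hk⟩ := Subgroup.mem_zpowers_iff.mp (hg ⟨a, ha⟩)
    exact ⟨k, by have := congrArg Subtype.val hk; simpa using this⟩
  have hAcomm : ∀ a ∈ A, ∀ b ∈ A, a * b = b * a := by
    intro a ha b hb
    obtain ⟨i, rfl⟩ := hgen a ha
    obtain ⟨j, rfl⟩ := hgen b hb
    rw [← zpow_add, ← zpow_add, add_comm]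
  obtain ⟨k, hk⟩ := hgen (x ^ 2) hx2
  rcases Int.even_or_odd k with ⟨l, hl⟩ | ⟨l, hl⟩
  · apply hE
    have hcomm : a0 ^ (-l) * x = x * a0 ^ (-l) := hxc _ (A.zpow_mem ha0A _)
    have hxx : x * x = a0 ^ k := by rw [hk, pow_two]
    have he2 : (x * a0 ^ (-l)) ^ 2 = 1 := by
      rw [pow_two]
      nth_rewrite 1 [← hcomm]
      calc a0 ^ (-l) * x * (x * a0 ^ (-l)) = a0 ^ (-l) * (x * x) * a0 ^ (-l) := by
            simp only [mul_assoc]
        _ = a0 ^ (-l) * a0 ^ k * a0 ^ (-l) := by rw [hxx]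
        _ = 1 := by
            rw [hl, ← zpow_add, ← zpow_add]
            have : -l + (l + l) + -l = 0 := by ring
            rw [this, zpow_zero]
    set e : Q := x * a0 ^ (-l) with he
    have hxe : x = e * a0 ^ l := by rw [he]; group
    have heA : e ∉ A := by
      intro h; apply hxA; rw [hxe]; exact A.mul_mem h (A.zpow_mem ha0A _)
    have hec : ∀ a ∈ A, a * e = e * a := by
      intro a ha
      rw [he]
      calc a * (x * a0 ^ (-l)) = (a * x) * a0 ^ (-l) := by group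
        _ = (x * a) * a0 ^ (-l) := by rw [hxc a ha]
        _ = x * (a * a0 ^ (-l)) := by group
        _ = x * (a0 ^ (-l) * a) := by rw [hAcomm a ha _ (A.zpow_mem ha0A _)]
        _ = x * a0 ^ (-l) * a := by group
    refine ⟨e, he2, ?_, ?_, ?_⟩
    · intro h; exact heA (h ▸ A.one_mem)
    · intro h; exact heA (h ▸ hzA)
    · intro q
      have ha1 : q * x * q⁻¹ * x⁻¹ ∈ A := hxq q
      have ha2 : q * a0 ^ (-l) * q⁻¹ ∈ A := hAn.conj_mem _ (A.zpow_mem ha0A _) q
      have h1 : (q * x * q⁻¹ * x⁻¹) * x = x * (q * x * q⁻¹ * x⁻¹) := hxc _ ha1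
      have hqe : q * e * q⁻¹ =
          e * (a0 ^ l * (q * x * q⁻¹ * x⁻¹) * (q * a0 ^ (-l) * q⁻¹)) := by
        calc q * e * q⁻¹ = ((q * x * q⁻¹ * x⁻¹) * x) * (q * a0 ^ (-l) * q⁻¹) := by
              rw [he]; group
          _ = x * (q * x * q⁻¹ * x⁻¹) * (q * a0 ^ (-l) * q⁻¹) := by rw [h1]
          _ = e * (a0 ^ l * (q * x * q⁻¹ * x⁻¹) * (q * a0 ^ (-l) * q⁻¹)) := by
              rw [he]; group
      set a' : Q := a0 ^ l * (q * x * q⁻¹ * x⁻¹) * (q * a0 ^ (-l) * q⁻¹) with ha'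
      have ha'A : a' ∈ A := A.mul_mem (A.mul_mem (A.zpow_mem ha0A _) ha1) ha2
      have hsq : (q * e * q⁻¹) ^ 2 = 1 := by
        rw [conj_pow, he2]; group
      rw [hqe, pow_two] at hsq
      have ha'2 : a' ^ 2 = 1 := by
        have h3 : e * a' * (e * a') = e ^ 2 * a' ^ 2 := by
          calc e * a' * (e * a') = e * (a' * e) * a' := by simp only [mul_assoc]
            _ = e * (e * a') * a' := by rw [hec a' ha'A]
            _ = e ^ 2 * a' ^ 2 := by rw [pow_two, pow_two]; simp only [mul_assoc]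
        rw [h3, he2, one_mul] at hsq
        exact hsq
      rcases cyc_inv A hzA ha'A hz1 hz2 ha'2 with h | h
      · left; rw [hqe, h, mul_one]
      · right; rw [hqe, h]
  · obtain ⟨j, hj⟩ := hQ a0
    have h0 : IsCoprime (2 * l + 1 : ℤ) 2 := ⟨1, -l, by ring⟩
    obtain ⟨s, t, hst⟩ := h0.pow_right (n := j)
    have e1 : a0 ^ ((2 : ℤ) ^ j) = 1 := by
      have : ((2 : ℤ) ^ j) = ((2 ^ j : ℕ) : ℤ) := by push_cast; rfl
      rw [this, zpow_natCast, hj]
    have ha0x : a0 = (x ^ 2) ^ s := by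
      calc a0 = a0 ^ (1 : ℤ) := (zpow_one a0).symm
        _ = a0 ^ (s * (2 * l + 1) + t * 2 ^ j) := by rw [hst]
        _ = (a0 ^ (2 * l + 1)) ^ s * (a0 ^ ((2 : ℤ) ^ j)) ^ t := by
            rw [zpow_add, mul_comm s, zpow_mul, mul_comm t, zpow_mul]
        _ = (x ^ 2) ^ s := by rw [e1, one_zpow, mul_one, ← hl, hk]
    have ha0X : a0 ∈ Subgroup.zpowers x := by
      rw [ha0x]
      exact Subgroup.zpow_mem _ (Subgroup.pow_mem _ (Subgroup.mem_zpowers x) 2) s
    have hAX : A ≤ Subgroup.zpowers x := by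
      intro a ha
      obtain ⟨i, rfl⟩ := hgen a ha
      exact Subgroup.zpow_mem _ ha0X i
    have hXn : (Subgroup.zpowers x).Normal := by
      constructor
      intro n hn q
      obtain ⟨i, rfl⟩ := Subgroup.mem_zpowers_iff.mp hn
      rw [← conj_zpow]
      apply Subgroup.zpow_mem
      have : q * x * q⁻¹ = (q * x * q⁻¹ * x⁻¹) * x := by group
      rw [this]
      exact Subgroup.mul_mem _ (hAX (hxq q)) (Subgroup.mem_zpowers x)
    have hle := hmax (Subgroup.zpowers x) hXn inferInstance (hAX hzA)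
    have heq := Subgroup.eq_of_le_of_card_ge hAX hle
    apply hxA
    rw [heq]; exact Subgroup.mem_zpowers x

theorem card_ne_one (W : Type*) [Group W] [Finite W] :
    Nat.card {w : W // w ≠ 1} = Nat.card W - 1 := by
  classical
  haveI := Fintype.ofFinite W
  rw [Nat.card_eq_fintype_card, Nat.card_eq_fintype_card, Fintype.card_subtype_compl,
    Fintype.card_subtype_eq]

theorem fpf_inj {Q W : Type*} [Group Q] [Finite Q] [CommGroup W] (hQ : IsPGroup 2 Q)
    (r : ℕ) (hr : Odd r) (hW : ∀ w : W, w ^ r = 1) (ρ : Q →* MulAut W) (z : Q)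
    (hz2 : z ^ 2 = 1) (hz1 : z ≠ 1) (hzinv : ∀ w, ρ z w = w⁻¹) (A : Subgroup Q) [IsCyclic ↥A]
    (hzA : z ∈ A) (w0 : W) (hw0 : w0 ≠ 1) :
    Function.Injective (fun a : ↥A => (⟨ρ (a : Q) w0, by
      intro h
      exact hw0 ((map_eq_one_iff (ρ (a : Q)) (MulEquiv.injective _)).mp h)⟩ : {w : W // w ≠ 1})) := by
  intro a a' h
  have h := congrArg Subtype.val h
  simp only at h
  by_contra hne
  set b : Q := (a : Q)⁻¹ * a' with hb
  have hbA : b ∈ A := A.mul_mem (A.inv_mem a.2) a'.2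
  have hb1 : b ≠ 1 := by
    intro h1; apply hne; apply Subtype.ext
    rw [hb] at h1; exact (inv_mul_eq_one.mp h1)
  have hbw : ρ b w0 = w0 := by
    rw [hb, map_mul, MulAut.mul_apply, ← h, ← MulAut.mul_apply, ← map_mul, inv_mul_cancel,
      map_one, MulAut.one_apply]
  obtain ⟨j, hj2, hj1⟩ := exists_pow_invol hQ hb1
  have hbj : b ^ j = z := by
    rcases cyc_inv A hzA (A.pow_mem hbA j) hz1 hz2 hj2 with h | h
    · exact absurd h hj1
    · exact h
  have hpow : ∀ n : ℕ, (ρ b ^ n) w0 = w0 := by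
    intro n
    induction n with
    | zero => simp
    | succ n ih => rw [pow_succ, MulAut.mul_apply, hbw, ih]
  have hfix : ρ (b ^ j) w0 = w0 := by rw [map_pow]; exact hpow j
  rw [hbj, hzinv] at hfix
  have hw2 : w0 ^ 2 = 1 := by
    rw [pow_two]; nth_rewrite 1 [← hfix]; exact inv_mul_cancel w0
  exact hw0 (sq_one_imp r hr hW w0 hw2)

theorem no_big_stab {Q W : Type*} [Group Q] [Finite Q] [CommGroup W] [Finite W]
    (hQ : IsPGroup 2 Q) (hW : ∀ w : W, w ^ 3 = 1) (hcard : Nat.card W = 9)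
    (ρ : Q →* MulAut W) (hρ : Function.Injective ρ) (S : Subgroup Q) (w0 : W) (hw0 : w0 ≠ 1)
    (hS : ∀ s ∈ S, ρ s w0 = w0) : Nat.card ↥S ≤ 2 := by
  by_cases hS1 : Nat.card ↥S ≤ 1
  · omega
  haveI : Nontrivial ↥S := by
    rw [← Finite.one_lt_card_iff_nontrivial]; omega
  obtain ⟨t, ht2, ht1, htc⟩ := exists_central_invol (hQ.to_subgroup S)
  set σ := ρ (t : Q) with hσ
  have hσσ : ∀ w, σ (σ w) = w := by
    intro w
    rw [hσ, ← MulAut.mul_apply, ← map_mul, ← pow_two]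
    have : (t : Q) ^ 2 = 1 := by exact_mod_cast congrArg Subtype.val ht2
    rw [this, map_one, MulAut.one_apply]
  have hdec := decomp 3 (by decide) hW σ hσσ
  have hcd := card_decomp 3 (by decide) hW σ hσσ
  rw [hcard] at hcd
  have hw0p : w0 ∈ Wp σ := hS t t.2
  have hp1 : Nat.card (Wp σ) ≠ 1 := by
    intro h
    have hbot := Subgroup.card_eq_one.mp h
    have h' : w0 ∈ (⊥ : Subgroup W) := hbot ▸ hw0p
    exact hw0 (Subgroup.mem_bot.mp h')
  have hm1 : Nat.card (Wm σ) ≠ 1 := by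
    intro h
    have hbot := Subgroup.card_eq_one.mp h
    apply ht1
    apply Subtype.ext
    apply hρ
    show ρ (t : Q) = ρ 1
    rw [map_one]
    apply MulEquiv.ext
    intro w
    obtain ⟨u, hu, v, hv, rfl⟩ := hdec w
    rw [hbot, Subgroup.mem_bot] at hv
    subst hv
    rw [mul_one, MulAut.one_apply]; exact hu
  have hp3 : Nat.card (Wp σ) = 3 := by
    have ha : Nat.card (Wp σ) ∣ 9 := Dvd.intro _ hcd
    have hle : Nat.card (Wp σ) ≤ 9 := Nat.le_of_dvd (by norm_num) ha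
    generalize Nat.card (Wp σ) = a at *
    generalize Nat.card (Wm σ) = b at *
    interval_cases a <;> omega
  have hm3 : Nat.card (Wm σ) = 3 := by rw [hp3] at hcd; omega
  haveI : Fact (Nat.Prime 3) := ⟨by norm_num⟩
  have hzp : Subgroup.zpowers (⟨w0, hw0p⟩ : ↥(Wp σ)) = ⊤ :=
    zpowers_eq_top_of_prime_card hp3 (by intro h; exact hw0 (congrArg Subtype.val h))
  have hfixp : ∀ s ∈ S, ∀ u ∈ Wp σ, ρ s u = u := by
    intro s hs u hu
    have : (⟨u, hu⟩ : ↥(Wp σ)) ∈ Subgroup.zpowers (⟨w0, hw0p⟩ : ↥(Wp σ)) := by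
      rw [hzp]; trivial
    obtain ⟨i, hi⟩ := Subgroup.mem_zpowers_iff.mp this
    have hu' : w0 ^ i = u := by have := congrArg Subtype.val hi; simpa using this
    rw [← hu', map_zpow, hS s hs]
  have hinvm : ∀ s : ↥S, ∀ v ∈ Wm σ, ρ (s : Q) v ∈ Wm σ := by
    intro s v hv
    rw [mem_Wm] at hv ⊢
    have hc : (t : Q) * (s : Q) = (s : Q) * (t : Q) := by
      have := htc s
      exact (congrArg Subtype.val this).symm
    rw [hσ, ← MulAut.mul_apply, ← map_mul, hc, map_mul, MulAut.mul_apply, ← hσ, hv, map_inv]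
  let f : ↥S →* MulAut ↥(Wm σ) :=
    resHom (ρ.comp S.subtype) (Wm σ) (fun s v hv => hinvm s v hv)
  have hf : Function.Injective f := by
    rw [injective_iff_map_eq_one]
    intro s hs
    apply Subtype.ext
    apply hρ
    show ρ (s : Q) = ρ 1
    rw [map_one]
    apply MulEquiv.ext
    intro w
    obtain ⟨u, hu, v, hv, rfl⟩ := hdec w
    have e2 : ρ (s : Q) v = v :=
      congrArg (fun τ : MulAut ↥(Wm σ) => ((τ ⟨v, hv⟩ : ↥(Wm σ)) : W)) hs
    rw [map_mul, hfixp s s.2 u hu, e2, MulAut.one_apply]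
  haveI : Finite (MulAut ↥(Wm σ)) :=
    Finite.of_injective (fun τ : MulAut ↥(Wm σ) => (τ : ↥(Wm σ) → ↥(Wm σ)))
      (fun a b h => MulEquiv.ext (congrFun h))
  have hc1 := Nat.card_le_card_of_injective f hf
  haveI : IsCyclic ↥(Wm σ) := isCyclic_of_prime_card hm3
  have hc2 : Nat.card (MulAut ↥(Wm σ)) = 2 := by
    rw [IsCyclic.card_mulAut, hm3, Nat.totient_prime (by norm_num)]
  omega

end Cfsg.Agent.Lib.Helper22.FR
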