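import Mathlib
import Cfsg.Agent.Lib.Helper22.FR4

namespace Cfsg.Agent.Lib.Helper22.FR

universe u

theorem finite_mulAut (X : Type*) [Group X] [Finite X] : Finite (MulAut X) :=
  Finite.of_injective (fun τ : MulAut X => (τ : X → X)) (fun _ _ h => MulEquiv.ext (congrFun h))

/-- The stabiliser of a point. -/
def stabSub {Q W : Type*} [Group Q] [Group W] (ρ : Q →* MulAut W) (w0 : W) : Subgroup Q where
  carrier := {q | ρ q w0 = w0}
  mul_mem' := by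
    intro a b ha hb
    show ρ (a * b) w0 = w0
    rw [map_mul, MulAut.mul_apply, show ρ b w0 = w0 from hb, show ρ a w0 = w0 from ha]
  one_mem' := by
    show ρ 1 w0 = w0
    rw [map_one, MulAut.one_apply]
  inv_mem' := by
    intro a ha
    show ρ a⁻¹ w0 = w0
    have ha' : ρ a w0 = w0 := ha
    nth_rewrite 1 [← ha']
    rw [← MulAut.mul_apply, ← map_mul, inv_mul_cancel, map_one, MulAut.one_apply]

theorem num_fact {a b n : ℕ} (h : a * b = n) (ha : 1 < a) (hb : 1 < b) (hn : Odd n) :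
    a < n ∧ b < n ∧ Odd a ∧ Odd b ∧ 3 ≤ a ∧ 3 ≤ b := by
  subst h
  rw [Nat.odd_mul] at hn
  obtain ⟨⟨i, hi⟩, ⟨j, hj⟩⟩ := hn
  refine ⟨?_, ?_, ⟨i, hi⟩, ⟨j, hj⟩, by omega, by omega⟩
  · calc a < a * 2 := by omega
      _ ≤ a * b := Nat.mul_le_mul_left a hb
  · calc b < 2 * b := by omega
      _ ≤ a * b := Nat.mul_le_mul_right b ha

theorem imprim_num {a b n φ0 φ : ℕ} (h3 : a * b = n) (hab : a = b) (hoa : Odd a)
    (hPB : φ0 ≤ T b * T a) (hL2 : φ ≤ 2 * φ0) (h5 : 5 ≤ a) : φ ≤ T n := by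
  subst hab; subst h3
  calc φ ≤ 2 * φ0 := hL2
    _ ≤ 2 * (T a * T a) := Nat.mul_le_mul_left 2 hPB
    _ ≤ T (a * a) := T_sq hoa h5

theorem card_le_four {W Q : Type*} [CommGroup W] [Finite W] [Group Q] [Finite Q]
    (ρ : Q →* MulAut W) (hρ : Function.Injective ρ) (V1 V2 : Subgroup W)
    (h1 : ∀ q, ∀ w ∈ V1, ρ q w ∈ V1) (h2 : ∀ q, ∀ w ∈ V2, ρ q w ∈ V2)
    (hdec : ∀ w : W, ∃ u ∈ V1, ∃ v ∈ V2, w = u * v) (hc1 : Nat.card V1 = 3)
    (hc2 : Nat.card V2 = 3) : Nat.card Q ≤ 4 := by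
  haveI : Fact (Nat.Prime 3) := ⟨by norm_num⟩
  haveI : IsCyclic ↥V1 := isCyclic_of_prime_card hc1
  haveI : IsCyclic ↥V2 := isCyclic_of_prime_card hc2
  have hA1 : Nat.card (MulAut ↥V1) = 2 := by
    rw [IsCyclic.card_mulAut, hc1, Nat.totient_prime (by norm_num)]
  have hA2 : Nat.card (MulAut ↥V2) = 2 := by
    rw [IsCyclic.card_mulAut, hc2, Nat.totient_prime (by norm_num)]
  haveI : Finite (MulAut ↥V1) := finite_mulAut _
  haveI : Finite (MulAut ↥V2) := finite_mulAut _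
  let f : Q → MulAut ↥V1 × MulAut ↥V2 := fun q => (resHom ρ V1 h1 q, resHom ρ V2 h2 q)
  have hf : Function.Injective f := by
    intro a b hab
    apply hρ
    apply MulEquiv.ext
    intro w
    obtain ⟨u, hu, v, hv, rfl⟩ := hdec w
    have e1 : ρ a u = ρ b u :=
      congrArg (fun τ : MulAut ↥V1 × MulAut ↥V2 => ((τ.1 ⟨u, hu⟩ : ↥V1) : W)) hab
    have e2 : ρ a v = ρ b v :=
      congrArg (fun τ : MulAut ↥V1 × MulAut ↥V2 => ((τ.2 ⟨v, hv⟩ : ↥V2) : W)) hab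
    rw [map_mul, map_mul, e1, e2]
  have := Nat.card_le_card_of_injective f hf
  rw [Nat.card_prod, hA1, hA2] at this
  omega

end Cfsg.Agent.Lib.Helper22.FR
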