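import Mathlib
import Cfsg.Agent.Lib.Helper22.FR5

namespace Cfsg.Agent.Lib.Helper22.FR

universe u

set_option maxHeartbeats 1600000 in
theorem main_bound (r : ℕ) (hr : r.Prime) (hr2 : r ≠ 2) :
    ∀ n : ℕ, ∀ (W : Type u) [CommGroup W] [Finite W], (∀ w : W, w ^ r = 1) → Nat.card W = n →
      ∀ (Q : Type u) [Group Q] [Finite Q], IsPGroup 2 Q → ∀ ρ : Q →* MulAut W,
        Function.Injective ρ → (sqT Q).index ≤ T n := by
  have hrodd : Odd r := hr.odd_of_ne_two hr2
  haveI : Fact r.Prime := ⟨hr⟩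
  haveI : Fact (Nat.Prime 2) := ⟨Nat.prime_two⟩
  intro n
  induction n using Nat.strong_induction_on with
  | _ n ih =>
  intro W _ _ hW hn Q _ _ hQ ρ hρ
  by_cases hQ1 : Subsingleton Q
  · have : sqT Q = ⊤ := Subsingleton.elim _ _
    rw [this, Subgroup.index_top]
    have := T_ge_two n; omega
  rw [not_subsingleton_iff_nontrivial] at hQ1
  haveI := hQ1
  have hWp : IsPGroup r W := fun w => ⟨1, by rw [pow_one]; exact hW w⟩
  obtain ⟨k, hk⟩ := IsPGroup.iff_card.mp hWp
  rw [hn] at hk
  have hnodd : Odd n := by rw [hk]; exact hrodd.pow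
  have hk0 : k ≠ 0 := by
    rintro rfl
    have h1 : Nat.card W = 1 := by rw [hn, hk, pow_zero]
    haveI : Subsingleton W := (Nat.card_eq_one_iff_unique.mp h1).1
    haveI : Subsingleton (MulAut W) :=
      ⟨fun σ τ => MulEquiv.ext (fun x => Subsingleton.elim _ _)⟩
    haveI : Subsingleton Q := hρ.subsingleton
    exact not_subsingleton Q inferInstance
  by_cases hk1 : k = 1
  · have hcard : Nat.card W = r := by rw [hn, hk, hk1, pow_one]
    haveI : IsCyclic W := isCyclic_of_prime_card hcard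
    haveI : Fact (Nat.card W).Prime := ⟨by rw [hcard]; exact hr⟩
    haveI : IsCyclic Q :=
      isCyclic_of_injective ((IsCyclic.mulAutMulEquiv W).toMonoidHom.comp ρ)
        ((IsCyclic.mulAutMulEquiv W).injective.comp hρ)
    have h1 := phi_cyclic (Q := Q)
    have h2 := T_ge_two n
    omega
  have hk2 : 2 ≤ k := by omega
  have hr3 : 3 ≤ r := by
    have := hr.two_le; omega
  have hn9 : 9 ≤ n := by
    rw [hk]
    calc 9 = 3 ^ 2 := by norm_num
      _ ≤ r ^ 2 := Nat.pow_le_pow_left hr3 2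
      _ ≤ r ^ k := Nat.pow_le_pow_right (by omega) hk2
  have hn9' : n = 9 ∨ 17 ≤ n := by
    by_cases h3 : r = 3
    · by_cases hk2' : k = 2
      · left; rw [hk, h3, hk2']; norm_num
      · right; rw [hk, h3]
        calc 17 ≤ 3 ^ 3 := by norm_num
          _ ≤ 3 ^ k := Nat.pow_le_pow_right (by norm_num) (by omega)
    · right
      have hr5 : 5 ≤ r := by
        rcases hrodd with ⟨j, hj⟩; omega
      rw [hk]
      calc 17 ≤ 5 ^ 2 := by norm_num
        _ ≤ r ^ 2 := Nat.pow_le_pow_left hr5 2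
        _ ≤ r ^ k := Nat.pow_le_pow_right (by omega) hk2
  have hn9r : n = 9 → r = 3 := by
    intro h9
    have h' : r ∣ n := by rw [hk]; exact dvd_pow_self r hk0
    rw [h9] at h'
    have h'' : r ∣ 3 ^ 2 := by simpa using h'
    exact (Nat.prime_dvd_prime_iff_eq hr Nat.prime_three).mp (hr.dvd_of_dvd_pow h'')
  -- product bound with the induction hypothesis
  have PBih : ∀ (Q' : Type u) [Group Q'] [Finite Q'], IsPGroup 2 Q' → ∀ ρ' : Q' →* MulAut W,
      Function.Injective ρ' → ∀ V1 V2 : Subgroup W, (∀ q, ∀ w ∈ V1, ρ' q w ∈ V1) →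
      (∀ q, ∀ w ∈ V2, ρ' q w ∈ V2) → (∀ w : W, ∃ u ∈ V1, ∃ v ∈ V2, w = u * v) →
      Nat.card V1 < n → Nat.card V2 < n →
      (sqT Q').index ≤ T (Nat.card V2) * T (Nat.card V1) := by
    intro Q' _ _ hQ' ρ' hρ' V1 V2 h1 h2 hdec hc1 hc2
    exact prod_bound hQ' ρ' hρ' V1 V2 h1 h2 hdec _ _
      (fun Q'' _ _ hQ'' ρ'' hρ'' => ih _ hc1 ↥V1
        (fun w => Subtype.ext (by rw [Subgroup.coe_pow, Subgroup.coe_one]; exact hW w.1)) rfl
        Q'' hQ'' ρ'' hρ'')
      (fun Q'' _ _ hQ'' ρ'' hρ'' => ih _ hc2 ↥V2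
        (fun w => Subtype.ext (by rw [Subgroup.coe_pow, Subgroup.coe_one]; exact hW w.1)) rfl
        Q'' hQ'' ρ'' hρ'')
  have hinvol : ∀ e : Q, e ^ 2 = 1 → ∀ w, ρ e (ρ e w) = w := by
    intro e he w
    rw [← MulAut.mul_apply, ← map_mul, ← pow_two, he, map_one, MulAut.one_apply]
  have hcardfacts : ∀ e : Q, e ^ 2 = 1 → e ≠ 1 → Wp (ρ e) ≠ ⊥ →
      1 < Nat.card (Wp (ρ e)) ∧ 1 < Nat.card (Wm (ρ e)) ∧
        Nat.card (Wp (ρ e)) * Nat.card (Wm (ρ e)) = n := by
    intro e he he1 hp
    have hcd := card_decomp r hrodd hW (ρ e) (hinvol e he)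
    rw [hn] at hcd
    have hp1 : Nat.card (Wp (ρ e)) ≠ 1 := fun h => hp (Subgroup.card_eq_one.mp h)
    have hm1 : Nat.card (Wm (ρ e)) ≠ 1 := by
      intro h
      have hbot := Subgroup.card_eq_one.mp h
      apply he1
      apply hρ
      rw [map_one]
      apply MulEquiv.ext
      intro w
      obtain ⟨u, hu, v, hv, rfl⟩ := decomp r hrodd hW (ρ e) (hinvol e he) w
      rw [hbot, Subgroup.mem_bot] at hv
      subst hv
      rw [mul_one, MulAut.one_apply]; exact hu
    have hp0 : 0 < Nat.card (Wp (ρ e)) := Nat.card_pos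
    have hm0 : 0 < Nat.card (Wm (ρ e)) := Nat.card_pos
    exact ⟨by omega, by omega, hcd⟩
  -- reducible case
  have RED : ∀ e : Q, e ^ 2 = 1 → e ≠ 1 → (∀ q : Q, q * e = e * q) → Wp (ρ e) ≠ ⊥ →
      (sqT Q).index ≤ T n := by
    intro e he he1 hec hp
    obtain ⟨h1, h2, h3⟩ := hcardfacts e he he1 hp
    obtain ⟨ha, hb, hoa, hob, ha3, hb3⟩ := num_fact h3 h1 h2 hnodd
    have hinvp : ∀ q, ∀ w ∈ Wp (ρ e), ρ q w ∈ Wp (ρ e) := by
      intro q w hw
      rw [mem_Wp] at hw ⊢
      rw [← MulAut.mul_apply, ← map_mul, ← hec q, map_mul, MulAut.mul_apply, hw]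
    have hinvm : ∀ q, ∀ w ∈ Wm (ρ e), ρ q w ∈ Wm (ρ e) := by
      intro q w hw
      rw [mem_Wm] at hw ⊢
      rw [← MulAut.mul_apply, ← map_mul, ← hec q, map_mul, MulAut.mul_apply, hw, map_inv]
    have := PBih Q hQ ρ hρ (Wp (ρ e)) (Wm (ρ e)) hinvp hinvm
      (decomp r hrodd hW (ρ e) (hinvol e he)) ha hb
    calc (sqT Q).index ≤ T (Nat.card (Wm (ρ e))) * T (Nat.card (Wp (ρ e))) := this
      _ ≤ T (Nat.card (Wm (ρ e)) * Nat.card (Wp (ρ e))) := T_mul hob hoa hb3 ha3
      _ = T n := by rw [mul_comm, h3]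
  obtain ⟨z, hz2, hz1, hzc⟩ := exists_central_invol hQ
  by_cases hzp : Wp (ρ z) ≠ ⊥
  · exact RED z hz2 hz1 hzc hzp
  rw [not_not] at hzp
  have hzinv : ∀ w, ρ z w = w⁻¹ := by
    intro w
    obtain ⟨u, hu, v, hv, rfl⟩ := decomp r hrodd hW (ρ z) (hinvol z hz2) w
    rw [hzp, Subgroup.mem_bot] at hu
    subst hu
    rw [one_mul]; exact hv
  by_cases hE : ∃ e : Q, e ^ 2 = 1 ∧ e ≠ 1 ∧ e ≠ z ∧
      ∀ q : Q, q * e * q⁻¹ = e ∨ q * e * q⁻¹ = e * z
  · obtain ⟨e, he2, he1, hez, heq⟩ := hE
    have hep : Wp (ρ e) ≠ ⊥ := by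
      intro hbot
      apply hez
      apply hρ
      apply MulEquiv.ext
      intro w
      obtain ⟨u, hu, v, hv, rfl⟩ := decomp r hrodd hW (ρ e) (hinvol e he2) w
      rw [hbot, Subgroup.mem_bot] at hu
      subst hu
      rw [one_mul, hzinv]; exact hv
    by_cases hec : ∀ q : Q, q * e = e * q
    · exact RED e he2 he1 hec hep
    rw [not_forall] at hec
    obtain ⟨x, hx⟩ := hec
    have hxe : x * e * x⁻¹ = e * z := by
      rcases heq x with h | h
      · exfalso; apply hx
        calc x * e = (x * e * x⁻¹) * x := by group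
          _ = e * x := by rw [h]
      · exact h
    have hz' : z⁻¹ = z := by
      rw [inv_eq_iff_mul_eq_one, ← pow_two]; exact hz2
    have hxe' : x⁻¹ * e * x = e * z := by
      have h0 : e = x⁻¹ * (e * z) * x := by rw [← hxe]; group
      have h4 : x⁻¹ * (e * z) * x = (x⁻¹ * e * x) * z := by
        calc x⁻¹ * (e * z) * x = x⁻¹ * e * (z * x) := by group
          _ = x⁻¹ * e * (x * z) := by rw [← hzc x]
          _ = (x⁻¹ * e * x) * z := by group
      rw [h4] at h0
      calc x⁻¹ * e * x = (x⁻¹ * e * x * z) * z⁻¹ := by group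
        _ = e * z⁻¹ := by rw [← h0]
        _ = e * z := by rw [hz']
    obtain ⟨h1, h2, h3⟩ := hcardfacts e he2 he1 hep
    obtain ⟨ha, hb, hoa, hob, ha3, hb3⟩ := num_fact h3 h1 h2 hnodd
    let Q0 : Subgroup Q := Subgroup.centralizer {e}
    have hQ0mem : ∀ q : Q, q ∈ Q0 ↔ q * e = e * q := by
      intro q
      rw [Subgroup.mem_centralizer_iff]
      constructor
      · intro h; exact (h e rfl).symm
      · intro h y hy
        rw [Set.mem_singleton_iff] at hy
        subst hy; exact h.symm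
    have hout : ∀ q : Q, q ∉ Q0 → q * e * q⁻¹ = e * z := by
      intro q hq
      rcases heq q with h | h
      · exfalso; apply hq; rw [hQ0mem]
        calc q * e = (q * e * q⁻¹) * q := by group
          _ = e * q := by rw [h]
      · exact h
    have hx' : x ∉ Q0 := by rw [hQ0mem]; exact hx
    have hidx : Q0.index = 2 := by
      rw [Subgroup.index_eq_two_iff]
      refine ⟨x⁻¹, fun b => ?_⟩
      by_cases hb' : b ∈ Q0
      · right
        refine ⟨hb', fun h => hx' ?_⟩
        have : x = (b * x⁻¹)⁻¹ * b := by group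
        rw [this]; exact Q0.mul_mem (Q0.inv_mem h) hb'
      · left
        refine ⟨?_, hb'⟩
        rw [hQ0mem]
        have h2' := hout b hb'
        calc b * x⁻¹ * e = b * (x⁻¹ * e * x) * x⁻¹ := by group
          _ = b * (e * z) * x⁻¹ := by rw [hxe']
          _ = (b * e * b⁻¹) * (b * z) * x⁻¹ := by group
          _ = (e * z) * (z * b) * x⁻¹ := by rw [h2', hzc b]
          _ = e * (z * z) * (b * x⁻¹) := by group
          _ = e * (b * x⁻¹) := by rw [← pow_two, hz2, mul_one]
    have hL2 := phi_le_two_mul Q0 hidx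
    have hinvp : ∀ q : ↥Q0, ∀ w ∈ Wp (ρ e), ρ (q : Q) w ∈ Wp (ρ e) := by
      intro q w hw
      have hq := (hQ0mem q).mp q.2
      rw [mem_Wp] at hw ⊢
      rw [← MulAut.mul_apply, ← map_mul, ← hq, map_mul, MulAut.mul_apply, hw]
    have hinvm : ∀ q : ↥Q0, ∀ w ∈ Wm (ρ e), ρ (q : Q) w ∈ Wm (ρ e) := by
      intro q w hw
      have hq := (hQ0mem q).mp q.2
      rw [mem_Wm] at hw ⊢
      rw [← MulAut.mul_apply, ← map_mul, ← hq, map_mul, MulAut.mul_apply, hw, map_inv]
    have hPB := PBih ↥Q0 (hQ.to_subgroup Q0) (ρ.comp Q0.subtype)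
      (hρ.comp (Subgroup.subtype_injective Q0)) (Wp (ρ e)) (Wm (ρ e)) hinvp hinvm
      (decomp r hrodd hW (ρ e) (hinvol e he2)) ha hb
    have hex : e * x = x * (e * z) := by rw [← hxe']; group
    have hswap1 : ∀ w ∈ Wp (ρ e), ρ x w ∈ Wm (ρ e) := by
      intro w hw
      rw [mem_Wp] at hw; rw [mem_Wm]
      rw [← MulAut.mul_apply, ← map_mul, hex, map_mul, map_mul, MulAut.mul_apply,
        MulAut.mul_apply, hzinv, map_inv, hw, map_inv]
    have hswap2 : ∀ w ∈ Wm (ρ e), ρ x w ∈ Wp (ρ e) := by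
      intro w hw
      rw [mem_Wm] at hw; rw [mem_Wp]
      rw [← MulAut.mul_apply, ← map_mul, hex, map_mul, map_mul, MulAut.mul_apply,
        MulAut.mul_apply, hzinv, map_inv, hw, inv_inv]
    have hcardeq : Nat.card (Wp (ρ e)) = Nat.card (Wm (ρ e)) := by
      apply le_antisymm
      · exact Nat.card_le_card_of_injective
          (fun w : ↥(Wp (ρ e)) => (⟨ρ x w, hswap1 w w.2⟩ : ↥(Wm (ρ e))))
          (fun a b h => Subtype.ext ((ρ x).injective (congrArg Subtype.val h)))
      · exact Nat.card_le_card_of_injective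
          (fun w : ↥(Wm (ρ e)) => (⟨ρ x w, hswap2 w w.2⟩ : ↥(Wp (ρ e))))
          (fun a b h => Subtype.ext ((ρ x).injective (congrArg Subtype.val h)))
    by_cases h5 : 5 ≤ Nat.card (Wp (ρ e))
    · exact imprim_num h3 hcardeq hoa hPB hL2 h5
    · have ha3' : Nat.card (Wp (ρ e)) = 3 := by
        obtain ⟨j, hj⟩ := hoa; omega
      have hb3' : Nat.card (Wm (ρ e)) = 3 := by rw [← hcardeq]; exact ha3'
      have hn9'' : n = 9 := by rw [← h3, ha3', hb3']
      have hQ0card : Nat.card ↥Q0 ≤ 4 :=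
        card_le_four (ρ.comp Q0.subtype) (hρ.comp (Subgroup.subtype_injective Q0))
          (Wp (ρ e)) (Wm (ρ e)) hinvp hinvm (decomp r hrodd hW (ρ e) (hinvol e he2)) ha3' hb3'
      have hz_sq : z ∈ sqT Q := by
        have h' : z = (e * x) ^ 2 * (x⁻¹) ^ 2 := by
          have : (e * x) ^ 2 * (x⁻¹) ^ 2 = e * (x * e * x⁻¹) := by
            rw [pow_two, pow_two]; simp only [mul_assoc, mul_inv_cancel_left]
          rw [this, hxe, ← mul_assoc, ← pow_two, he2, one_mul]
        rw [h']; exact (sqT Q).mul_mem (sq_mem_sqT _) (sq_mem_sqT _)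
      have hS1 : 1 < Nat.card (sqT Q) := by
        rw [Subgroup.one_lt_card_iff_ne_bot]
        intro hbot
        rw [hbot, Subgroup.mem_bot] at hz_sq
        exact hz1 hz_sq
      have e1 := Subgroup.card_mul_index (sqT Q)
      have e2 := Subgroup.card_mul_index Q0
      rw [hidx] at e2
      have hT9 : T n = 4 := by rw [hn9'']; decide
      rw [hT9]
      by_contra hcon
      have h5' : 5 ≤ (sqT Q).index := by omega
      have h10 : 2 * 5 ≤ Nat.card (sqT Q) * (sqT Q).index := Nat.mul_le_mul hS1 h5'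
      omega
  · -- no normal four-group: a maximal cyclic normal subgroup is self-centralising
    have hP0n : (Subgroup.zpowers z).Normal := by
      constructor
      intro n hn g
      obtain ⟨i, rfl⟩ := Subgroup.mem_zpowers_iff.mp hn
      have h1 : g * z * g⁻¹ = z := by rw [hzc g]; group
      have h2 : g * z ^ i * g⁻¹ = z ^ i := by rw [← conj_zpow, h1]
      rw [h2]; exact Subgroup.zpow_mem _ (Subgroup.mem_zpowers z) i
    haveI : Nonempty {A : Subgroup Q // A.Normal ∧ IsCyclic ↥A ∧ z ∈ A} :=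
      ⟨⟨Subgroup.zpowers z, hP0n, inferInstance, Subgroup.mem_zpowers z⟩⟩
    obtain ⟨⟨A, hAn, hAc, hzA⟩, hAmax⟩ := Finite.exists_max
      (fun A : {A : Subgroup Q // A.Normal ∧ IsCyclic ↥A ∧ z ∈ A} => Nat.card ↥A.1)
    haveI := hAn
    haveI := hAc
    have hmax : ∀ A' : Subgroup Q, A'.Normal → IsCyclic ↥A' → z ∈ A' →
        Nat.card ↥A' ≤ Nat.card ↥A := fun A' h1 h2 h3 => hAmax ⟨A', h1, h2, h3⟩
    have hself := self_centralizing hQ z hz2 hz1 hE A hzA hmax
    let c : Q →* MulAut ↥A := MulAut.conjNormal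
    have hkerA' : c.ker = A := by
      ext q
      rw [MonoidHom.mem_ker]
      constructor
      · intro h
        apply hself
        intro a ha
        have h' : q * a * q⁻¹ = a :=
          congrArg (fun τ : MulAut ↥A => ((τ ⟨a, ha⟩ : ↥A) : Q)) h
        calc q * a = (q * a * q⁻¹) * q := by group
          _ = a * q := by rw [h']
      · intro hq
        apply MulEquiv.ext
        intro a
        apply Subtype.ext
        have hcomm : (⟨q, hq⟩ : ↥A) * a = a * ⟨q, hq⟩ := by
          letI := IsCyclic.commGroup (α := ↥A)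
          exact mul_comm _ _
        have h2 : q * (a : Q) = a * q := congrArg Subtype.val hcomm
        show q * (a : Q) * q⁻¹ = a
        rw [h2]; group
    have hkerA : c.rangeRestrict.ker = A := by
      rw [MonoidHom.ker_rangeRestrict]; exact hkerA'
    have hL := phi_le_of_surj c.rangeRestrict c.rangeRestrict_surjective
    have hkbound : (sqT ↥c.rangeRestrict.ker).index ≤ 2 := by
      have key : ∀ K : Subgroup Q, K = A → (sqT ↥K).index ≤ 2 := by
        rintro K rfl; exact phi_cyclic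
      exact key _ hkerA
    have hcomAut : ∀ σ τ : MulAut ↥A, σ * τ = τ * σ := by
      intro σ τ
      apply (IsCyclic.mulAutMulEquiv ↥A).injective
      rw [map_mul, map_mul, mul_comm]
    have hcomB : ∀ a b : ↥c.range, a * b = b * a := by
      intro a b
      exact Subtype.ext (hcomAut a.1 b.1)
    haveI : Finite (MulAut ↥A) := finite_mulAut _
    obtain ⟨m, hm⟩ := IsPGroup.iff_card.mp (hQ.to_subgroup A)
    have hB4 : (sqT ↥c.range).index ≤ 4 := by
      have h1 := phi_comm_le hcomB
      have h2 := card_invol_aut (A := ↥A) m hm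
      have h3 : Nat.card {b : ↥c.range // b ^ 2 = 1} ≤
          Nat.card {σ : MulAut ↥A // σ ^ 2 = 1} :=
        Nat.card_le_card_of_injective
          (fun b => (⟨b.1.1, by
            have := congrArg Subtype.val b.2
            simpa using this⟩ : {σ : MulAut ↥A // σ ^ 2 = 1}))
          (fun a b h => by
            have h' : (a.1.1 : MulAut ↥A) = b.1.1 :=
              congrArg (fun s : {σ : MulAut ↥A // σ ^ 2 = 1} => s.1) h
            exact Subtype.ext (Subtype.ext h'))
      omega
    have hphi : (sqT Q).index ≤ 2 * (sqT ↥c.range).index := by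
      calc (sqT Q).index ≤ (sqT ↥c.rangeRestrict.ker).index * (sqT ↥c.range).index := hL
        _ ≤ 2 * (sqT ↥c.range).index := Nat.mul_le_mul_right _ hkbound
    rcases hn9' with h9 | h17
    · subst h9
      have hr3' : r = 3 := hn9r rfl
      subst hr3'
      have hT9 : T 9 = 4 := by decide
      rw [hT9]
      have hB2 : (sqT ↥c.range).index ≤ 2 := by
        have hle := phi_le_card (Q := ↥c.range)
        have hBle : Nat.card ↥c.range ≤ 2 := by
          haveI : Nontrivial W := by
            rw [← Finite.one_lt_card_iff_nontrivial, hn]; norm_num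
          obtain ⟨w0, hw0⟩ := exists_ne (1 : W)
          have hinj := fpf_inj hQ 3 (by decide) hW ρ z hz2 hz1 hzinv A hzA w0 hw0
          have hA8 : Nat.card ↥A ≤ 8 := by
            have := Nat.card_le_card_of_injective _ hinj
            rw [card_ne_one, hn] at this
            exact this
          by_cases hA8' : Nat.card ↥A = 8
          · have hbij := hinj.bijective_of_nat_card_le (by rw [card_ne_one, hn, hA8'])
            have hS2 : Nat.card ↥(stabSub ρ w0) ≤ 2 :=
              no_big_stab hQ hW hn ρ hρ (stabSub ρ w0) w0 hw0 (fun s hs => hs)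
            have hsurj : Function.Surjective
                (fun p : ↥A × ↥(stabSub ρ w0) => (p.1 : Q) * (p.2 : Q)) := by
              intro q
              have hq1 : ρ q w0 ≠ 1 := fun h =>
                hw0 ((map_eq_one_iff (ρ q) (MulEquiv.injective _)).mp h)
              obtain ⟨a, ha⟩ := hbij.2 ⟨ρ q w0, hq1⟩
              have ha' : ρ (a : Q) w0 = ρ q w0 := congrArg Subtype.val ha
              have hmem : (a : Q)⁻¹ * q ∈ stabSub ρ w0 := by
                show ρ ((a : Q)⁻¹ * q) w0 = w0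
                rw [map_mul, MulAut.mul_apply, ← ha', ← MulAut.mul_apply, ← map_mul,
                  inv_mul_cancel, map_one, MulAut.one_apply]
              exact ⟨(a, ⟨(a : Q)⁻¹ * q, hmem⟩), by simp⟩
            have hQle := Nat.card_le_card_of_surjective _ hsurj
            rw [Nat.card_prod, hA8'] at hQle
            have e1 := Subgroup.card_mul_index c.ker
            rw [Subgroup.index_ker, hkerA', hA8'] at e1
            omega
          · have hm2 : m ≤ 2 := by
              by_contra hcon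
              have : 2 ^ 3 ≤ 2 ^ m := Nat.pow_le_pow_right (by norm_num) (by omega)
              omega
            have hAut : Nat.card (MulAut ↥A) ≤ 2 := by
              rw [IsCyclic.card_mulAut, hm]
              interval_cases m <;> decide
            have := Subgroup.card_le_card_group (H := c.range)
            omega
        omega
      omega
    · have := T_ge_eight n h17
      omega

end Cfsg.Agent.Lib.Helper22.FR
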