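import Mathlib
import Cfsg.Agent.Lib.Helper22.FR6

namespace Cfsg.Agent.Lib.Helper22.FR

/-- In a finite `p`-group, `p`-th powers lie in the Frattini subgroup. -/
theorem pow_mem_frat {W : Type*} [Group W] [Finite W] {p : ℕ} [hp : Fact p.Prime]
    (hW : IsPGroup p W) (x : W) : x ^ p ∈ frattini W := by
  have hnil := hW.isNilpotent
  have key : ∀ M : Subgroup W, IsCoatom M → x ^ p ∈ M := by
    intro M hM
    by_contra hx
    have hMn : M.Normal :=
      Subgroup.NormalizerCondition.normal_of_coatom M Group.normalizerCondition_of_isNilpotent hM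
    have htop : M ⊔ Subgroup.zpowers (x ^ p) = ⊤ := by
      apply hM.2
      refine lt_of_le_of_ne le_sup_left ?_
      intro h
      apply hx
      rw [h]
      exact le_sup_right (a := M) (Subgroup.mem_zpowers _)
    have hx' : x ∈ M ⊔ Subgroup.zpowers (x ^ p) := htop ▸ Subgroup.mem_top x
    obtain ⟨m, hm, y, hy, hmy⟩ := Subgroup.mem_sup_of_normal_left.mp hx'
    obtain ⟨k, hk⟩ := Subgroup.mem_zpowers_iff.mp hy
    have h1 : x ^ (1 - (p : ℤ) * k) ∈ M := by
      have e : x ^ (1 - (p : ℤ) * k) = m := by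
        rw [zpow_sub, zpow_one, zpow_mul, zpow_natCast, hk, ← hmy]
        group
      rw [e]; exact hm
    obtain ⟨n, hn⟩ := hW x
    have hcop : IsCoprime (1 - (p : ℤ) * k) ((p : ℤ) ^ n) := by
      apply IsCoprime.pow_right
      exact ⟨1, k, by ring⟩
    obtain ⟨u, v, huv⟩ := hcop
    have hxn : x ^ ((p : ℤ) ^ n) = 1 := by
      have e : ((p : ℤ) ^ n) = ((p ^ n : ℕ) : ℤ) := by push_cast; rfl
      rw [e, zpow_natCast, hn]
    have e2 : x = (x ^ (1 - (p : ℤ) * k)) ^ u * (x ^ ((p : ℤ) ^ n)) ^ v := by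
      rw [← zpow_mul, ← zpow_mul, ← zpow_add]
      have e3 : (1 - (p : ℤ) * k) * u + (p : ℤ) ^ n * v = 1 := by linarith
      rw [e3, zpow_one]
    have hxM : x ∈ M := by
      rw [e2, hxn, one_zpow, mul_one]
      exact M.zpow_mem h1 u
    exact hx (M.pow_mem hxM p)
  unfold frattini Order.radical
  simp only [Subgroup.mem_iInf]
  exact key

theorem frattini_index_bound {G : Type*} [Group G] [Finite G] (N P : Subgroup G) (hN : N.Normal)
    (hNab : IsMulCommutative ↥N) (hNodd : Odd (Nat.card ↥N)) (hP : IsPGroup 2 ↥P)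
    (hdisj : N ⊓ P = ⊥) (hprod : N ⊔ P = ⊤)
    (hmin : N ≠ ⊥ ∧ ∀ M : Subgroup G, M.Normal → M ≠ ⊥ → N ≤ M) :
    (frattini ↥P).index ≤ Nat.card ↥N - 1 := by
  classical
  obtain ⟨hNne, hminN⟩ := hmin
  haveI := hN
  haveI : Fact (Nat.Prime 2) := ⟨Nat.prime_two⟩
  letI : CommGroup ↥N :=
    { (inferInstance : Group ↥N) with mul_comm := fun a b => hNab.is_comm.comm a b }
  have hcard1 : Nat.card ↥N ≠ 1 := fun h => hNne (Subgroup.card_eq_one.mp h)
  have hcard3 : 3 ≤ Nat.card ↥N := by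
    obtain ⟨j, hj⟩ := hNodd
    have : 0 < Nat.card ↥N := Nat.card_pos
    omega
  obtain ⟨r, hr, hrdvd⟩ := Nat.exists_prime_and_dvd hcard1
  have hr2 : r ≠ 2 := by
    rintro rfl
    obtain ⟨j, hj⟩ := hNodd
    omega
  haveI : Fact r.Prime := ⟨hr⟩
  have hcommN : ∀ a ∈ N, ∀ b ∈ N, a * b = b * a := by
    intro a ha b hb
    exact congrArg Subtype.val (hNab.is_comm.comm (⟨a, ha⟩ : ↥N) ⟨b, hb⟩)
  let Nr : Subgroup G :=
    { carrier := {n | n ∈ N ∧ n ^ r = 1}
      mul_mem' := by
        rintro a b ⟨ha, ha'⟩ ⟨hb, hb'⟩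
        refine ⟨N.mul_mem ha hb, ?_⟩
        rw [(show Commute a b from hcommN a ha b hb).mul_pow, ha', hb', one_mul]
      one_mem' := ⟨N.one_mem, one_pow r⟩
      inv_mem' := by
        rintro a ⟨ha, ha'⟩
        exact ⟨N.inv_mem ha, by rw [inv_pow, ha', inv_one]⟩ }
  have hNrn : Nr.Normal := by
    constructor
    rintro n ⟨hn, hn'⟩ g
    exact ⟨hN.conj_mem n hn g, by rw [conj_pow, hn', mul_one, mul_inv_cancel]⟩
  have hNrne : Nr ≠ ⊥ := by
    obtain ⟨x, hx⟩ := exists_prime_orderOf_dvd_card' (G := ↥N) r hrdvd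
    intro hbot
    have hmem : (x : G) ∈ Nr := ⟨x.2, by
      have := pow_orderOf_eq_one x
      rw [hx] at this
      exact_mod_cast congrArg Subtype.val this⟩
    rw [hbot, Subgroup.mem_bot] at hmem
    have : x = 1 := Subtype.ext hmem
    rw [this, orderOf_one] at hx
    exact hr.one_lt.ne hx
  have hexp : ∀ w : ↥N, w ^ r = 1 := by
    intro w
    have := hminN Nr hNrn hNrne w.2
    exact Subtype.ext (by rw [Subgroup.coe_pow, Subgroup.coe_one]; exact this.2)
  let ρ : ↥P →* MulAut ↥N := (MulAut.conjNormal (H := N)).comp P.subtype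
  have hρ : Function.Injective ρ := by
    rw [injective_iff_map_eq_one]
    intro p hp1
    have hpc : ∀ n ∈ N, (p : G) * n * (p : G)⁻¹ = n := by
      intro n hn
      exact congrArg (fun τ : MulAut ↥N => ((τ ⟨n, hn⟩ : ↥N) : G)) hp1
    let K : Subgroup G := P ⊓ Subgroup.centralizer (N : Set G)
    have hKn : K.Normal := by
      constructor
      intro k hk g
      obtain ⟨hkP, hkC⟩ := Subgroup.mem_inf.mp hk
      rw [Subgroup.mem_centralizer_iff] at hkC
      have hg : g ∈ N ⊔ P := by rw [hprod]; trivial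
      rw [← SetLike.mem_coe, Subgroup.normal_mul] at hg
      obtain ⟨n, hn, q, hq, rfl⟩ := Set.mem_mul.mp hg
      have h1 : q * k * q⁻¹ ∈ P := P.mul_mem (P.mul_mem hq hkP) (P.inv_mem hq)
      have h2 : q * k * q⁻¹ ∈ Subgroup.centralizer (N : Set G) := by
        rw [Subgroup.mem_centralizer_iff]
        intro a ha
        have ha' : q⁻¹ * a * q ∈ N := by
          have := hN.conj_mem a ha q⁻¹
          simpa using this
        have h3 := hkC _ ha'
        calc a * (q * k * q⁻¹) = q * ((q⁻¹ * a * q) * k) * q⁻¹ := by group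
          _ = q * (k * (q⁻¹ * a * q)) * q⁻¹ := by rw [h3]
          _ = q * k * q⁻¹ * a := by group
      have h4 : n * (q * k * q⁻¹) = (q * k * q⁻¹) * n :=
        (Subgroup.mem_centralizer_iff.mp h2) n hn
      have h5 : n * q * k * (n * q)⁻¹ = q * k * q⁻¹ := by
        calc n * q * k * (n * q)⁻¹ = (n * (q * k * q⁻¹)) * n⁻¹ := by group
          _ = (q * k * q⁻¹) * n * n⁻¹ := by rw [h4]
          _ = q * k * q⁻¹ := by group
      rw [h5]
      exact Subgroup.mem_inf.mpr ⟨h1, h2⟩
    by_contra hp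
    have hKne : K ≠ ⊥ := by
      intro hbot
      have hmem : (p : G) ∈ K := by
        refine Subgroup.mem_inf.mpr ⟨p.2, ?_⟩
        rw [Subgroup.mem_centralizer_iff]
        intro n hn
        have := hpc n hn
        calc n * (p : G) = ((p : G) * n * (p : G)⁻¹) * p := by rw [this]
          _ = p * n := by group
      rw [hbot, Subgroup.mem_bot] at hmem
      exact hp (Subtype.ext hmem)
    have hNK := hminN K hKn hKne
    have hNP : N ≤ N ⊓ P := le_inf le_rfl (hNK.trans inf_le_left)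
    rw [hdisj] at hNP
    exact hNne (le_bot_iff.mp hNP)
  have hmain := main_bound r hr hr2 (Nat.card ↥N) ↥N hexp rfl ↥P hP ρ hρ
  have hfr : (frattini ↥P).index ≤ (sqT ↥P).index := by
    apply Subgroup.index_antitone
    show Subgroup.closure _ ≤ _
    rw [Subgroup.closure_le]
    rintro x ⟨g, rfl⟩
    exact pow_mem_frat hP g
  have hT := T_le (Nat.card ↥N) hcard3
  omega

end Cfsg.Agent.Lib.Helper22.FR
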