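import Mathlib

set_option autoImplicit false
set_option maxHeartbeats 1000000

namespace Cfsg.Agent.Lib.Helper22.GLTwoPart

/-- a geometric sum with an odd number of odd terms is odd -/
theorem odd_geom_sum (q : ℕ) (hq : Odd q) (m : ℕ) :
    Odd (∑ i ∈ Finset.range (2 * m + 1), q ^ i) := by
  induction m with
  | zero => simp
  | succ m ih =>
    rw [show 2 * (m + 1) + 1 = (2 * m + 1) + 1 + 1 by ring, Finset.sum_range_succ,
      Finset.sum_range_succ, add_assoc]
    exact ih.add_even ((hq.pow).add_odd (hq.pow))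

/-- `v₂(q^(2m+1) - 1) = v₂(q - 1)` for odd `q` -/
theorem val_odd (q : ℕ) (hq : Odd q) (hq1 : 1 < q) (m : ℕ) :
    padicValNat 2 (q ^ (2 * m + 1) - 1) = padicValNat 2 (q - 1) := by
  haveI : Fact (Nat.Prime 2) := ⟨Nat.prime_two⟩
  obtain ⟨x, rfl⟩ : ∃ x, q = x + 1 := ⟨q - 1, by omega⟩
  have h := geom_sum_mul_add x (2 * m + 1)
  have h' : (x + 1) ^ (2 * m + 1) - 1
      = (∑ i ∈ Finset.range (2 * m + 1), (x + 1) ^ i) * x := by
    rw [← h]; simp
  rw [h', Nat.add_sub_cancel]
  have hS := odd_geom_sum (x + 1) hq m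
  have hx0 : x ≠ 0 := by omega
  rw [padicValNat.mul hS.pos.ne' hx0, padicValNat.eq_zero_of_not_dvd hS.not_two_dvd_nat, zero_add]

/-- `v₂(q^(2j) - 1) = v₂(q^2 - 1) + v₂(j)` for odd `q`, `j ≥ 1` -/
theorem val_even (q : ℕ) (hq : Odd q) (hq1 : 1 < q) (j : ℕ) (hj : j ≠ 0) :
    padicValNat 2 (q ^ (2 * j) - 1) = padicValNat 2 (q ^ 2 - 1) + padicValNat 2 j := by
  haveI : Fact (Nat.Prime 2) := ⟨Nat.prime_two⟩
  have h1 := padicValNat.pow_two_sub_one hq1 hq.not_two_dvd_nat (n := 2 * j) (by omega)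
    (even_two_mul j)
  have h2 := padicValNat.pow_two_sub_one hq1 hq.not_two_dvd_nat (n := 2) (by norm_num) even_two
  have h3 : padicValNat 2 (2 * j) = 1 + padicValNat 2 j := by
    rw [padicValNat.mul (by norm_num) hj, padicValNat_self]
  have h4 : padicValNat 2 2 = 1 := padicValNat_self
  rw [h3] at h1
  rw [h4] at h2
  omega

/-- the `2`-part of `|GL_n(F)|` for `F` of odd order `q`: the sum of `v₂(q^k - 1)`, `1 ≤ k ≤ n` -/
theorem gl_two_part_sum {F : Type*} [Field F] [Fintype F] (hF : Odd (Fintype.card F)) (n : ℕ) :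
    (Nat.card (Matrix.GeneralLinearGroup (Fin n) F)).factorization 2
      = ∑ j ∈ Finset.range n, padicValNat 2 (Fintype.card F ^ (j + 1) - 1) := by
  haveI : Fact (Nat.Prime 2) := ⟨Nat.prime_two⟩
  obtain ⟨q, hq⟩ : ∃ q, q = Fintype.card F := ⟨_, rfl⟩
  have hq1 : 1 < q := by rw [hq]; exact Fintype.one_lt_card
  have hqo : Odd q := by rw [hq]; exact hF
  rw [Matrix.card_GL_field, ← hq]
  have hne : ∀ i ∈ (Finset.univ : Finset (Fin n)), q ^ n - q ^ (i : ℕ) ≠ 0 := by
    intro i _
    have : q ^ (i : ℕ) < q ^ n := Nat.pow_lt_pow_right hq1 i.2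
    omega
  calc (∏ i : Fin n, (q ^ n - q ^ (i : ℕ))).factorization 2
      = ∑ i : Fin n, (q ^ n - q ^ (i : ℕ)).factorization 2 := by
        rw [Nat.factorization_prod hne, Finsupp.finset_sum_apply]
    _ = ∑ i ∈ Finset.range n, (q ^ n - q ^ i).factorization 2 :=
        Fin.sum_univ_eq_sum_range (fun i => (q ^ n - q ^ i).factorization 2) n
    _ = ∑ j ∈ Finset.range n, (q ^ n - q ^ (n - 1 - j)).factorization 2 :=
        (Finset.sum_range_reflect (fun i => (q ^ n - q ^ i).factorization 2) n).symm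
    _ = ∑ j ∈ Finset.range n, padicValNat 2 (q ^ (j + 1) - 1) := by
        apply Finset.sum_congr rfl
        intro j hj
        rw [Finset.mem_range] at hj
        have e : q ^ n - q ^ (n - 1 - j) = q ^ (n - 1 - j) * (q ^ (j + 1) - 1) := by
          rw [Nat.mul_sub, mul_one, ← pow_add]
          congr 2
          omega
        have h1 : 1 < q ^ (j + 1) := Nat.one_lt_pow (by omega) hq1
        rw [e, Nat.factorization_def _ Nat.prime_two,
          padicValNat.mul (pow_pos (by omega) _).ne' (by omega),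
          padicValNat.eq_zero_of_not_dvd ((hqo.pow).not_two_dvd_nat), zero_add]

theorem gl_even_two_part {F : Type*} [Field F] [Fintype F] (hF : Odd (Fintype.card F)) (m : ℕ) :
    (Nat.card (Matrix.GeneralLinearGroup (Fin (2 * m)) F)).factorization 2
      = m * (Nat.card (Matrix.GeneralLinearGroup (Fin 2) F)).factorization 2
        + (m.factorial).factorization 2 := by
  haveI : Fact (Nat.Prime 2) := ⟨Nat.prime_two⟩
  obtain ⟨q, hq⟩ : ∃ q, q = Fintype.card F := ⟨_, rfl⟩
  have hq1 : 1 < q := by rw [hq]; exact Fintype.one_lt_card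
  have hqo : Odd q := by rw [hq]; exact hF
  have h2 : (Nat.card (Matrix.GeneralLinearGroup (Fin 2) F)).factorization 2
      = padicValNat 2 (q - 1) + padicValNat 2 (q ^ 2 - 1) := by
    rw [gl_two_part_sum hF 2, ← hq]
    simp [Finset.sum_range_succ]
  rw [gl_two_part_sum hF (2 * m), h2, ← hq]
  induction m with
  | zero => simp
  | succ m ih =>
    have e5 : (m + 1).factorization 2 = padicValNat 2 (m + 1) :=
      Nat.factorization_def _ Nat.prime_two
    rw [show 2 * (m + 1) = 2 * m + 1 + 1 by ring, Finset.sum_range_succ, Finset.sum_range_succ, ih,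
      val_odd q hqo hq1 m, show 2 * m + 1 + 1 = 2 * (m + 1) by ring,
      val_even q hqo hq1 (m + 1) (by omega), Nat.factorial_succ,
      Nat.factorization_mul (by omega) (Nat.factorial_pos m).ne', Finsupp.add_apply, e5]
    ring

end Cfsg.Agent.Lib.Helper22.GLTwoPart
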