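import Mathlib
import Cfsg.Prelude.Def_KGroupFacts

set_option autoImplicit false

namespace Cfsg.Agent.Lib.Helper22

open scoped commutatorElement

/-- A Heisenberg-type group: triples `(a, b, c)` with `a` modulo `m` and `b`, `c` modulo `n`, where `n ∣ m`. -/
@[ext]
structure Heis (m n : ℕ) (h : n ∣ m) : Type where
  a : ZMod m
  b : ZMod n
  c : ZMod n

namespace Heis

variable {m n : ℕ} {h : n ∣ m}

/-- reduction modulo `n` -/
noncomputable def red (h : n ∣ m) : ZMod m →+* ZMod n := ZMod.castHom h (ZMod n)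

noncomputable instance : Mul (Heis m n h) :=
  ⟨fun x y => ⟨x.a + y.a, x.b + y.b, x.c + y.c + red h x.a * y.b⟩⟩

noncomputable instance : One (Heis m n h) := ⟨⟨0, 0, 0⟩⟩

noncomputable instance : Inv (Heis m n h) :=
  ⟨fun x => ⟨-x.a, -x.b, -x.c + red h x.a * x.b⟩⟩

theorem mul_a (x y : Heis m n h) : (x * y).a = x.a + y.a := rfl
theorem mul_b (x y : Heis m n h) : (x * y).b = x.b + y.b := rfl
theorem mul_c (x y : Heis m n h) : (x * y).c = x.c + y.c + red h x.a * y.b := rfl
theorem one_a : (1 : Heis m n h).a = 0 := rfl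
theorem one_b : (1 : Heis m n h).b = 0 := rfl
theorem one_c : (1 : Heis m n h).c = 0 := rfl
theorem inv_a (x : Heis m n h) : (x⁻¹).a = -x.a := rfl
theorem inv_b (x : Heis m n h) : (x⁻¹).b = -x.b := rfl
theorem inv_c (x : Heis m n h) : (x⁻¹).c = -x.c + red h x.a * x.b := rfl

noncomputable instance : Group (Heis m n h) where
  mul_assoc x y z := by
    ext
    · simp only [mul_a]; ring
    · simp only [mul_b]; ring
    · simp only [mul_c, mul_a, mul_b, map_add]; ring
  one_mul x := by
    ext
    · simp only [mul_a, one_a]; ring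
    · simp only [mul_b, one_b]; ring
    · simp only [mul_c, one_a, one_c, map_zero]; ring
  mul_one x := by
    ext
    · simp only [mul_a, one_a]; ring
    · simp only [mul_b, one_b]; ring
    · simp only [mul_c, one_b, one_c]; ring
  inv_mul_cancel x := by
    ext
    · simp only [mul_a, inv_a, one_a]; ring
    · simp only [mul_b, inv_b, one_b]; ring
    · simp only [mul_c, inv_a, inv_c, one_c, map_neg]; ring

instance [NeZero m] [NeZero n] : Finite (Heis m n h) :=
  Finite.of_injective (fun x : Heis m n h => (x.a, x.b, x.c)) (by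
    intro x y hxy
    simp only [Prod.mk.injEq] at hxy
    exact Heis.ext hxy.1 hxy.2.1 hxy.2.2)

/-- The projection to `ZMod m × ZMod n`. -/
noncomputable def proj (h : n ∣ m) : Heis m n h →* Multiplicative (ZMod m × ZMod n) where
  toFun x := Multiplicative.ofAdd (x.a, x.b)
  map_one' := rfl
  map_mul' _ _ := rfl

theorem proj_apply (x : Heis m n h) : proj h x = Multiplicative.ofAdd (x.a, x.b) := rfl

theorem proj_surjective : Function.Surjective (proj h) := by
  intro q
  exact ⟨⟨(Multiplicative.toAdd q).1, (Multiplicative.toAdd q).2, 0⟩, rfl⟩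

theorem mem_ker_proj (x : Heis m n h) : x ∈ (proj h).ker ↔ x.a = 0 ∧ x.b = 0 := by
  rw [MonoidHom.mem_ker, proj_apply]
  constructor
  · intro hx
    have : (x.a, x.b) = (0, 0) := Multiplicative.ofAdd.injective hx
    simpa using this
  · rintro ⟨h1, h2⟩
    rw [h1, h2]; rfl

theorem ker_le_center : (proj h).ker ≤ Subgroup.center (Heis m n h) := by
  intro x hx
  rw [mem_ker_proj] at hx
  rw [Subgroup.mem_center_iff]
  intro y
  ext
  · simp only [mul_a, hx.1]; ring
  · simp only [mul_b, hx.2]; ring
  · simp only [mul_c, hx.1, hx.2, map_zero]; ring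

/-- the central generator -/
noncomputable def zc (h : n ∣ m) : Heis m n h := ⟨0, 0, 1⟩

theorem zc_pow (k : ℕ) : (zc h) ^ k = ⟨0, 0, (k : ZMod n)⟩ := by
  induction k with
  | zero => rw [pow_zero]; ext <;> simp [one_a, one_b, one_c]
  | succ k ih =>
    rw [pow_succ, ih]
    ext
    · simp [mul_a, zc]
    · simp [mul_b, zc]
    · simp [mul_c, zc]

theorem zc_eq_commutator : zc h = ⁅(⟨1, 0, 0⟩ : Heis m n h), ⟨0, 1, 0⟩⁆ := by
  rw [commutatorElement_def]
  ext
  · simp [mul_a, inv_a, zc]
  · simp [mul_b, inv_b, zc]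
  · simp [mul_c, mul_a, mul_b, inv_a, inv_b, inv_c, zc]

theorem zc_mem_commutator : zc h ∈ commutator (Heis m n h) := by
  rw [zc_eq_commutator, commutator_def]
  exact Subgroup.commutator_mem_commutator (Subgroup.mem_top _) (Subgroup.mem_top _)

theorem ker_le_commutator [NeZero n] : (proj h).ker ≤ commutator (Heis m n h) := by
  intro x hx
  rw [mem_ker_proj] at hx
  have : x = (zc h) ^ x.c.val := by
    rw [zc_pow]
    ext
    · exact hx.1
    · exact hx.2
    · simp
  rw [this]
  exact Subgroup.pow_mem _ zc_mem_commutator _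

theorem proj_isStem [NeZero n] : Cfsg.IsStemExtension (proj h) :=
  ⟨proj_surjective, ker_le_center, ker_le_commutator⟩

/-- The kernel of the projection is `ZMod n`. -/
noncomputable def kerEquiv (h : n ∣ m) : (proj h).ker ≃* Multiplicative (ZMod n) where
  toFun x := Multiplicative.ofAdd x.1.c
  invFun q := ⟨⟨0, 0, Multiplicative.toAdd q⟩, (mem_ker_proj _).mpr ⟨rfl, rfl⟩⟩
  left_inv := by
    rintro ⟨x, hx⟩
    rw [mem_ker_proj] at hx
    apply Subtype.ext
    ext
    · exact hx.1.symm
    · exact hx.2.symm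
    · rfl
  right_inv q := rfl
  map_mul' := by
    rintro ⟨x, hx⟩ ⟨y, hy⟩
    rw [mem_ker_proj] at hx
    show Multiplicative.ofAdd (x * y).c = Multiplicative.ofAdd x.c * Multiplicative.ofAdd y.c
    rw [mul_c, hx.1, map_zero, zero_mul, add_zero]
    rfl

end Heis

end Cfsg.Agent.Lib.Helper22
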