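import Mathlib
import Cfsg.Prelude.Def_OddOrderLocal
import Cfsg.Agent.Lib.Helper21.Basic

/-!
Helper lemmas (helper22): metacyclic `p`-groups for odd `p`, in terms of generators
`a` (of a cyclic normal subgroup) and `b` (generating the quotient), with `b a b⁻¹ = a ^ r`.
-/

namespace Cfsg.Agent.Lib.Helper22

open scoped commutatorElement

/-- Metacyclic data: `⟨a⟩` normal, `b a b⁻¹ = a ^ r`, and `G = ⟨a⟩⟨b⟩`. -/
structure MCData {G : Type*} [Group G] (a b : G) (r : ℕ) : Prop where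
  hr : b * a * b⁻¹ = a ^ r
  hN : (Subgroup.zpowers a).Normal
  hdec : ∀ g : G, ∃ i j : ℤ, g = a ^ i * b ^ j

theorem exists_mcdata {G : Type*} [Group G] [Finite G] (hmc : Cfsg.IsMetacyclic G) :
    ∃ (a b : G) (r : ℕ), MCData a b r := by
  obtain ⟨N, hN, hcyc, hq⟩ := hmc
  obtain ⟨a', ha'⟩ := IsCyclic.exists_generator (α := N)
  have hNa : N = Subgroup.zpowers (a' : G) := by
    apply le_antisymm
    · intro x hx
      obtain ⟨i, hi⟩ := Subgroup.mem_zpowers_iff.mp (ha' ⟨x, hx⟩)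
      refine Subgroup.mem_zpowers_iff.mpr ⟨i, ?_⟩
      have := congrArg Subtype.val hi
      simpa using this
    · rw [Subgroup.zpowers_le]; exact a'.2
  obtain ⟨q, hq'⟩ := IsCyclic.exists_generator (α := G ⧸ N)
  obtain ⟨b, rfl⟩ := QuotientGroup.mk_surjective q
  have h1 : b * (a' : G) * b⁻¹ ∈ Subgroup.zpowers (a' : G) := by
    rw [← hNa]; exact hN.conj_mem _ a'.2 b
  obtain ⟨r, hr⟩ := (Submonoid.mem_powers_iff _ _).mp (mem_powers_iff_mem_zpowers.mpr h1)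
  have hdec : ∀ g : G, ∃ i j : ℤ, g = (a' : G) ^ i * b ^ j := by
    intro g
    obtain ⟨j, hj⟩ := Subgroup.mem_zpowers_iff.mp (hq' (QuotientGroup.mk g))
    rw [← QuotientGroup.mk_zpow] at hj
    have h2 : (b ^ j)⁻¹ * g ∈ N := QuotientGroup.eq.mp hj
    have h3 : b ^ j * ((b ^ j)⁻¹ * g) * (b ^ j)⁻¹ ∈ N := hN.conj_mem _ h2 _
    rw [hNa] at h3
    obtain ⟨i, hi⟩ := Subgroup.mem_zpowers_iff.mp h3
    refine ⟨i, j, ?_⟩
    rw [hi]; group
  exact ⟨(a' : G), b, r, hr.symm, hNa ▸ hN, hdec⟩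

/-- Lifting the exponent, with an extra factor. -/
theorem mc_nt {p : ℕ} [Fact p.Prime] (hp : p ≠ 2) (n : ℕ) (r : ℤ) (hr : (p:ℤ) ∣ r - 1)
    (m : ℤ) (k : ℕ) :
    ((p:ℤ)^n ∣ m * (r^k - 1)) ↔ ((p:ℤ)^n ∣ m * ((r - 1) * k)) := by
  have hp' : Nat.Prime p := Fact.out
  have hodd : Odd p := hp'.odd_of_ne_two hp
  have hx : ¬ (p:ℤ) ∣ r := by
    intro h
    have h1 : (p:ℤ) ∣ 1 := by simpa using dvd_sub h hr
    have h2 : p ∣ 1 := by exact_mod_cast h1
    exact hp'.one_lt.ne' (Nat.dvd_one.mp h2)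
  have h1 := Int.emultiplicity_pow_sub_pow hp' hodd (x := r) (y := 1) hr hx k
  rw [one_pow] at h1
  have hpi := Nat.prime_iff_prime_int.mp hp'
  rw [pow_dvd_iff_le_emultiplicity, pow_dvd_iff_le_emultiplicity, emultiplicity_mul hpi,
    emultiplicity_mul hpi, h1, emultiplicity_mul hpi, Int.natCast_emultiplicity]

namespace MCData

variable {G : Type*} [Group G] {a b : G} {r : ℕ}

theorem conj_pow_b (h : MCData a b r) (k : ℕ) :
    b ^ k * a * (b ^ k)⁻¹ = a ^ (r ^ k) := by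
  induction k with
  | zero => simp
  | succ k ih =>
    have : b ^ (k+1) * a * (b ^ (k+1))⁻¹ = b * (b ^ k * a * (b ^ k)⁻¹) * b⁻¹ := by
      rw [pow_succ']; group
    rw [this, ih, ← conj_pow, h.hr, ← pow_mul, pow_succ, mul_comm]

theorem conj_zpow_b (h : MCData a b r) (k : ℕ) (i : ℤ) :
    b ^ k * a ^ i * (b ^ k)⁻¹ = a ^ (i * (r : ℤ) ^ k) := by
  rw [← conj_zpow, h.conj_pow_b k, ← zpow_natCast, ← zpow_mul]
  congr 1; push_cast; ring

/-- `p ∣ r - 1` as soon as `a ≠ 1`. -/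
theorem p_dvd [Finite G] {p : ℕ} [Fact p.Prime] (h : MCData a b r) (hG : IsPGroup p G)
    {n : ℕ} (hn : orderOf a = p ^ n) (h0 : 0 < n) : (p:ℤ) ∣ (r:ℤ) - 1 := by
  obtain ⟨t, ht⟩ := hG b
  have h1 := h.conj_pow_b (p ^ t)
  rw [ht] at h1
  simp only [one_mul, inv_one, mul_one] at h1
  have h2 : ((p:ℤ)^n ∣ (r:ℤ)^(p^t) - 1) := by
    have : a ^ (((r:ℤ)^(p^t) - 1 : ℤ)) = 1 := by
      rw [zpow_sub_one, mul_inv_eq_one]
      have : a ^ ((r:ℤ)^(p^t)) = a ^ (r ^ (p^t)) := by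
        rw [← zpow_natCast]; push_cast; rfl
      rw [this, ← h1]
    rw [← orderOf_dvd_iff_zpow_eq_one, hn] at this
    exact_mod_cast this
  have h3 : (p:ℤ) ∣ (r:ℤ)^(p^t) - 1 := dvd_trans (dvd_pow_self _ h0.ne') h2
  have h4 : (((r:ℤ)^(p^t) - 1 : ℤ) : ZMod p) = 0 := by
    rw [ZMod.intCast_zmod_eq_zero_iff_dvd]; exact h3
  rw [← ZMod.intCast_zmod_eq_zero_iff_dvd]
  push_cast at h4 ⊢
  rwa [ZMod.pow_card_pow] at h4

/-- The basic commutator as a power of `a`. -/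
theorem c_eq (h : MCData a b r) : b * a * b⁻¹ * a⁻¹ = a ^ ((r : ℤ) - 1) := by
  rw [h.hr, zpow_sub_one, zpow_natCast]

/-- `a ^ m` commutes with `a ^ t * b ^ k` iff `c ^ (m * k) = 1`. -/
theorem comm_iff [Finite G] {p : ℕ} [Fact p.Prime] (h : MCData a b r) (hp : p ≠ 2)
    (hG : IsPGroup p G) (m : ℤ) (k : ℕ) (t : ℤ) :
    Commute (a ^ m) (a ^ t * b ^ k) ↔ (b * a * b⁻¹ * a⁻¹) ^ (m * k) = 1 := by
  obtain ⟨n, hn⟩ := (IsPGroup.iff_orderOf.mp hG) a
  have e0 : Commute (a ^ m) (a ^ t * b ^ k) ↔ a ^ (m * (r:ℤ)^k) = a ^ m := by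
    have h1 : (a ^ t * b ^ k) * a ^ m * (a ^ t * b ^ k)⁻¹ = a ^ (m * (r:ℤ)^k) := by
      have : (a ^ t * b ^ k) * a ^ m * (a ^ t * b ^ k)⁻¹
          = a ^ t * (b ^ k * a ^ m * (b ^ k)⁻¹) * (a ^ t)⁻¹ := by group
      rw [this, h.conj_zpow_b, ← zpow_neg, ← zpow_add, ← zpow_add]
      congr 1; ring
    rw [← h1]
    constructor
    · intro hc
      rw [mul_inv_eq_iff_eq_mul]; exact hc.eq.symm
    · intro hc
      rw [mul_inv_eq_iff_eq_mul] at hc; exact hc.symm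
  have e1 : a ^ (m * (r:ℤ)^k) = a ^ m ↔ ((p:ℤ)^n ∣ m * ((r:ℤ)^k - 1)) := by
    have : a ^ (m * (r:ℤ)^k) = a ^ m ↔ a ^ (m * ((r:ℤ)^k - 1)) = 1 := by
      rw [mul_sub, mul_one, zpow_sub, mul_inv_eq_one]
    rw [this, ← orderOf_dvd_iff_zpow_eq_one, hn]; push_cast; rfl
  have e2 : (b * a * b⁻¹ * a⁻¹) ^ (m * k) = 1 ↔ ((p:ℤ)^n ∣ m * (((r:ℤ) - 1) * k)) := by
    rw [h.c_eq, ← zpow_mul, ← orderOf_dvd_iff_zpow_eq_one, hn]
    have : ((r:ℤ) - 1) * (m * k) = m * (((r:ℤ) - 1) * k) := by ring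
    rw [this]; push_cast; rfl
  rw [e0, e1, e2]
  rcases Nat.eq_zero_or_pos n with h0 | h0
  · subst h0; simp
  · exact mc_nt hp n r (h.p_dvd hG hn h0) m k

/-- Commutators lie in `⟨a⟩`. -/
theorem comm_mem (h : MCData a b r) (x y : G) : x * y * x⁻¹ * y⁻¹ ∈ Subgroup.zpowers a := by
  haveI := h.hN
  rw [← QuotientGroup.eq_one_iff]
  have key : ∀ g : G, ∃ j : ℤ, (QuotientGroup.mk g : G ⧸ Subgroup.zpowers a)
      = (QuotientGroup.mk b) ^ j := by
    intro g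
    obtain ⟨i, j, rfl⟩ := h.hdec g
    refine ⟨j, ?_⟩
    have h1 : ((a ^ i : G) : G ⧸ Subgroup.zpowers a) = 1 :=
      (QuotientGroup.eq_one_iff _).mpr (Subgroup.zpow_mem _ (Subgroup.mem_zpowers a) i)
    rw [QuotientGroup.mk_mul, h1, one_mul, QuotientGroup.mk_zpow]
  obtain ⟨j, hj⟩ := key x
  obtain ⟨l, hl⟩ := key y
  simp only [QuotientGroup.mk_mul, QuotientGroup.mk_inv, hj, hl]
  rw [((Commute.refl (QuotientGroup.mk b : G ⧸ Subgroup.zpowers a)).zpow_zpow j l).eq]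
  group

/-- Subgroups of `⟨a⟩` are normal. -/
theorem zpowers_zpow_normal (h : MCData a b r) (m : ℤ) : (Subgroup.zpowers (a ^ m)).Normal := by
  refine ⟨fun x hx g => ?_⟩
  obtain ⟨u, rfl⟩ := Subgroup.mem_zpowers_iff.mp hx
  have h1 : g * a * g⁻¹ ∈ Subgroup.zpowers a := h.hN.conj_mem a (Subgroup.mem_zpowers a) g
  obtain ⟨t, ht⟩ := Subgroup.mem_zpowers_iff.mp h1
  rw [← conj_zpow, ← conj_zpow, ← ht, ← zpow_mul, ← zpow_mul]
  refine Subgroup.mem_zpowers_iff.mpr ⟨t * u, ?_⟩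
  rw [← zpow_mul]; congr 1; ring

/-- The derived subgroup is generated by the basic commutator. -/
theorem commutator_eq (h : MCData a b r) :
    commutator G = Subgroup.zpowers (b * a * b⁻¹ * a⁻¹) := by
  set c : G := b * a * b⁻¹ * a⁻¹ with hc
  have hca : c = a ^ ((r : ℤ) - 1) := h.c_eq
  apply le_antisymm
  · have hcn : (Subgroup.zpowers c).Normal := by
      rw [hca]; exact h.zpowers_zpow_normal _
    rw [commutator_def, Subgroup.commutator_le]
    intro g₁ _ g₂ _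
    rw [← QuotientGroup.eq_one_iff]
    have hab : Commute (QuotientGroup.mk a : G ⧸ Subgroup.zpowers c) (QuotientGroup.mk b) := by
      have h1 : ((b * a * b⁻¹ * a⁻¹ : G) : G ⧸ Subgroup.zpowers c) = 1 :=
        (QuotientGroup.eq_one_iff _).mpr (Subgroup.mem_zpowers c)
      simp only [QuotientGroup.mk_mul, QuotientGroup.mk_inv] at h1
      rw [mul_inv_eq_one, mul_inv_eq_iff_eq_mul] at h1
      exact h1.symm
    have hcomm : ∀ x y : G, Commute (QuotientGroup.mk x : G ⧸ Subgroup.zpowers c)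
        (QuotientGroup.mk y) := by
      intro x y
      obtain ⟨i, j, rfl⟩ := h.hdec x
      obtain ⟨k, l, rfl⟩ := h.hdec y
      simp only [QuotientGroup.mk_mul, QuotientGroup.mk_zpow]
      exact Commute.mul_right
        (Commute.mul_left ((Commute.refl _).zpow_zpow i k) ((hab.symm).zpow_zpow j k))
        (Commute.mul_left (hab.zpow_zpow i l) ((Commute.refl _).zpow_zpow j l))
    rw [commutatorElement_def]
    simp only [QuotientGroup.mk_mul, QuotientGroup.mk_inv]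
    rw [(hcomm g₁ g₂).eq]; group
  · rw [Subgroup.zpowers_le, commutator_def]
    have : c = ⁅b, a⁆ := by rw [commutatorElement_def]
    rw [this]
    exact Subgroup.commutator_mem_commutator (Subgroup.mem_top b) (Subgroup.mem_top a)

theorem card_commutator (h : MCData a b r) :
    Nat.card ↥(commutator G) = orderOf (b * a * b⁻¹ * a⁻¹) := by
  rw [h.commutator_eq, Nat.card_zpowers]

/-- Structure of an arbitrary subgroup. -/
theorem sub [Finite G] (h : MCData a b r) (L : Subgroup G) :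
    ∃ (m k : ℕ) (t : ℤ), 0 < m ∧ 0 < k ∧ m * k = L.index ∧ a ^ m ∈ L ∧ a ^ t * b ^ k ∈ L ∧
      (∀ i : ℤ, a ^ i ∈ L → (m : ℤ) ∣ i) ∧ (∀ i j : ℤ, a ^ i * b ^ j ∈ L → (k : ℤ) ∣ j) ∧
      ∀ l ∈ L, ∃ u w : ℤ, l = (a ^ m) ^ u * (a ^ t * b ^ k) ^ w := by
  classical
  haveI := h.hN
  set N : Subgroup G := Subgroup.zpowers a with hNdef
  -- the part inside `N`
  set P' : Subgroup N := L.subgroupOf N with hP'
  set a' : N := ⟨a, Subgroup.mem_zpowers a⟩ with ha'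
  set m : ℕ := orderOf (QuotientGroup.mk a' : N ⧸ P') with hm
  have genN : ∀ x : N ⧸ P', x ∈ Subgroup.zpowers (QuotientGroup.mk a' : N ⧸ P') := by
    intro x
    obtain ⟨y, rfl⟩ := QuotientGroup.mk_surjective x
    obtain ⟨i, hi⟩ := Subgroup.mem_zpowers_iff.mp y.2
    refine Subgroup.mem_zpowers_iff.mpr ⟨i, ?_⟩
    rw [← QuotientGroup.mk_zpow]
    congr 1
    exact Subtype.ext (by simpa using hi)
  have hmidx : L.relIndex N = m := by
    rw [Subgroup.relIndex, Subgroup.index_eq_card, hm, orderOf_eq_card_of_forall_mem_zpowers genN]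
  have hA1 : a ^ m ∈ L := by
    have h1 : (QuotientGroup.mk a' : N ⧸ P') ^ m = 1 := pow_orderOf_eq_one _
    rw [← QuotientGroup.mk_pow, QuotientGroup.eq_one_iff, hP', Subgroup.mem_subgroupOf] at h1
    simpa using h1
  have hA2 : ∀ i : ℤ, a ^ i ∈ L → (m : ℤ) ∣ i := by
    intro i hi
    rw [hm, orderOf_dvd_iff_zpow_eq_one, ← QuotientGroup.mk_zpow, QuotientGroup.eq_one_iff, hP',
      Subgroup.mem_subgroupOf]
    simpa using hi
  -- the part modulo `N`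
  set M : Subgroup G := N ⊔ L with hM
  have hNM : N ≤ M := le_sup_left
  have hMn : M.Normal := by
    refine ⟨fun g hg x => ?_⟩
    have h1 : x * g * x⁻¹ = (x * g * x⁻¹ * g⁻¹) * g := by group
    rw [h1]
    exact M.mul_mem (hNM (h.comm_mem x g)) hg
  set k : ℕ := orderOf (QuotientGroup.mk b : G ⧸ M) with hk
  have genM : ∀ x : G ⧸ M, x ∈ Subgroup.zpowers (QuotientGroup.mk b : G ⧸ M) := by
    intro x
    obtain ⟨g, rfl⟩ := QuotientGroup.mk_surjective x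
    obtain ⟨i, j, rfl⟩ := h.hdec g
    refine Subgroup.mem_zpowers_iff.mpr ⟨j, ?_⟩
    have h1 : ((a ^ i : G) : G ⧸ M) = 1 :=
      (QuotientGroup.eq_one_iff _).mpr (hNM (Subgroup.zpow_mem _ (Subgroup.mem_zpowers a) i))
    rw [QuotientGroup.mk_mul, h1, one_mul, QuotientGroup.mk_zpow]
  have hkidx : M.index = k := by
    rw [Subgroup.index_eq_card, hk, orderOf_eq_card_of_forall_mem_zpowers genM]
  have hB1 : b ^ k ∈ M := by
    have h1 : (QuotientGroup.mk b : G ⧸ M) ^ k = 1 := pow_orderOf_eq_one _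
    rwa [← QuotientGroup.mk_pow, QuotientGroup.eq_one_iff] at h1
  have hB2' : ∀ j : ℤ, b ^ j ∈ M → (k : ℤ) ∣ j := by
    intro j hj
    rw [hk, orderOf_dvd_iff_zpow_eq_one, ← QuotientGroup.mk_zpow, QuotientGroup.eq_one_iff]
    exact hj
  have hB2 : ∀ i j : ℤ, a ^ i * b ^ j ∈ L → (k : ℤ) ∣ j := by
    intro i j hij
    apply hB2'
    have h1 : b ^ j = (a ^ i)⁻¹ * (a ^ i * b ^ j) := by group
    rw [h1]
    exact M.mul_mem (hNM (Subgroup.inv_mem _ (Subgroup.zpow_mem _ (Subgroup.mem_zpowers a) i)))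
      (le_sup_right (a := N) hij)
  -- the element `b₁`
  have hB1' : b ^ k ∈ ((N ⊔ L : Subgroup G) : Set G) := hB1
  rw [Subgroup.normal_mul] at hB1'
  obtain ⟨x, hx, l, hl, hxl⟩ := Set.mem_mul.mp hB1'
  obtain ⟨t', ht'⟩ := Subgroup.mem_zpowers_iff.mp hx
  have hb1 : a ^ (-t') * b ^ k ∈ L := by
    have : a ^ (-t') * b ^ k = l := by
      rw [← hxl, ← ht']; group
    rw [this]; exact hl
  have hmpos : 0 < m := orderOf_pos _
  have hkpos : 0 < k := orderOf_pos _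
  refine ⟨m, k, -t', hmpos, hkpos, ?_, hA1, hb1, hA2, hB2, ?_⟩
  · have h1 := Subgroup.relIndex_mul_index (le_sup_right : L ≤ N ⊔ L)
    have h2 := Cfsg.Agent.Lib.Helper21.relIndex_inf_eq_relIndex_sup L N
    rw [Subgroup.inf_relIndex_right, sup_comm] at h2
    rw [← h1, ← h2, hmidx, ← hM, hkidx]
  · intro l hl
    obtain ⟨i, j, rfl⟩ := h.hdec l
    obtain ⟨w, rfl⟩ := hB2 i j hl
    set b₁ : G := a ^ (-t') * b ^ k with hb₁
    -- `l * (b₁ ^ w)⁻¹ ∈ N`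
    have h1 : a ^ i * b ^ ((k : ℤ) * w) * (b₁ ^ w)⁻¹ ∈ N := by
      rw [← QuotientGroup.eq_one_iff]
      have e1 : ((a ^ i : G) : G ⧸ N) = 1 :=
        (QuotientGroup.eq_one_iff _).mpr (Subgroup.zpow_mem _ (Subgroup.mem_zpowers a) i)
      have e2 : ((a ^ (-t') : G) : G ⧸ N) = 1 :=
        (QuotientGroup.eq_one_iff _).mpr (Subgroup.zpow_mem _ (Subgroup.mem_zpowers a) _)
      rw [QuotientGroup.mk_mul, QuotientGroup.mk_mul, e1, one_mul, QuotientGroup.mk_inv,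
        QuotientGroup.mk_zpow, QuotientGroup.mk_zpow, hb₁, QuotientGroup.mk_mul, e2, one_mul,
        QuotientGroup.mk_pow, zpow_mul, zpow_natCast, mul_inv_cancel]
    obtain ⟨i', hi'⟩ := Subgroup.mem_zpowers_iff.mp h1
    have h2 : a ^ i' ∈ L := by
      rw [hi']
      exact L.mul_mem hl (L.inv_mem (L.zpow_mem hb1 w))
    obtain ⟨u, rfl⟩ := hA2 i' h2
    refine ⟨u, w, ?_⟩
    rw [← zpow_natCast, ← zpow_mul, hi']; group

end MCData

end Cfsg.Agent.Lib.Helper22
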