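import Mathlib
import Cfsg.Agent.Lib.Helper22.Metacyclic

/-!
Helper lemmas (helper22): subgroups of metacyclic `p`-groups (odd `p`) carry metacyclic data;
the order of their derived subgroups.
-/

namespace Cfsg.Agent.Lib.Helper22

namespace MCData

variable {G : Type*} [Group G] {a b : G} {r : ℕ}

theorem conj_gen (h : MCData a b r) (t : ℤ) (k : ℕ) (m : ℤ) :
    (a ^ t * b ^ k) * a ^ m * (a ^ t * b ^ k)⁻¹ = a ^ (m * (r:ℤ)^k) := by
  have : (a ^ t * b ^ k) * a ^ m * (a ^ t * b ^ k)⁻¹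
      = a ^ t * (b ^ k * a ^ m * (b ^ k)⁻¹) * (a ^ t)⁻¹ := by group
  rw [this, h.conj_zpow_b, ← zpow_neg, ← zpow_add, ← zpow_add]
  congr 1; ring

/-- Metacyclic data for a subgroup generated by `a ^ m` and `a ^ t * b ^ k`. -/
theorem sub_mcdata (h : MCData a b r) (L : Subgroup G) (m k : ℕ) (t : ℤ)
    (hA1 : a ^ m ∈ L) (hb1 : a ^ t * b ^ k ∈ L)
    (hgen : ∀ l ∈ L, ∃ u w : ℤ, l = (a ^ m) ^ u * (a ^ t * b ^ k) ^ w) :
    MCData (G := ↥L) ⟨a ^ m, hA1⟩ ⟨a ^ t * b ^ k, hb1⟩ (r ^ k) := by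
  refine ⟨?_, ?_, ?_⟩
  · apply Subtype.ext
    have h1 := h.conj_gen t k (m : ℤ)
    rw [zpow_natCast] at h1
    simp only [Subgroup.coe_mul, Subgroup.coe_inv, Subgroup.coe_pow]
    rw [h1, ← pow_mul, ← zpow_natCast]
    congr 1
  · refine ⟨fun x hx g => ?_⟩
    obtain ⟨u, rfl⟩ := Subgroup.mem_zpowers_iff.mp hx
    have hn := h.zpowers_zpow_normal (m : ℤ)
    rw [zpow_natCast] at hn
    have h1 : (g : G) * (a ^ m) ^ u * (g : G)⁻¹ ∈ Subgroup.zpowers (a ^ m) :=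
      hn.conj_mem _ (Subgroup.zpow_mem _ (Subgroup.mem_zpowers _) u) _
    obtain ⟨v, hv⟩ := Subgroup.mem_zpowers_iff.mp h1
    refine Subgroup.mem_zpowers_iff.mpr ⟨v, ?_⟩
    apply Subtype.ext
    simp only [Subgroup.coe_mul, Subgroup.coe_inv, Subgroup.coe_zpow]
    exact hv
  · intro l
    obtain ⟨u, w, hl⟩ := hgen l l.2
    refine ⟨u, w, ?_⟩
    apply Subtype.ext
    simp only [Subgroup.coe_mul, Subgroup.coe_zpow]
    exact hl

/-- Orders of the basic commutators of subgroups. -/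
theorem order_c1 [Finite G] {p : ℕ} [Fact p.Prime] (h : MCData a b r) (hp : p ≠ 2)
    (hG : IsPGroup p G) (m k : ℕ) :
    orderOf (a ^ ((m:ℤ) * ((r:ℤ)^k - 1))) = orderOf ((b * a * b⁻¹ * a⁻¹) ^ (m * k)) := by
  obtain ⟨n, hn⟩ := (IsPGroup.iff_orderOf.mp hG) a
  refine orderOf_eq_orderOf_iff.mpr fun j => ?_
  have e1 : (a ^ ((m:ℤ) * ((r:ℤ)^k - 1))) ^ j = 1 ↔
      ((p:ℤ)^n ∣ ((m:ℤ) * j) * ((r:ℤ)^k - 1)) := by
    rw [← zpow_natCast, ← zpow_mul, ← orderOf_dvd_iff_zpow_eq_one, hn]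
    have : (m:ℤ) * ((r:ℤ)^k - 1) * (j:ℤ) = ((m:ℤ) * j) * ((r:ℤ)^k - 1) := by ring
    rw [this]; push_cast; rfl
  have e2 : ((b * a * b⁻¹ * a⁻¹) ^ (m * k)) ^ j = 1 ↔
      ((p:ℤ)^n ∣ ((m:ℤ) * j) * (((r:ℤ) - 1) * k)) := by
    have e : ((b * a * b⁻¹ * a⁻¹) ^ (m * k)) ^ j = a ^ (((m:ℤ) * j) * (((r:ℤ) - 1) * k)) := by
      rw [h.c_eq, ← pow_mul, ← zpow_natCast, ← zpow_mul]
      congr 1; push_cast; ring
    rw [e, ← orderOf_dvd_iff_zpow_eq_one, hn]; push_cast; rfl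
  rw [e1, e2]
  rcases Nat.eq_zero_or_pos n with h0 | h0
  · subst h0; simp
  · exact mc_nt hp n r (h.p_dvd hG hn h0) _ k

/-- The order of the derived subgroup of a subgroup. -/
theorem card_commutator_sub [Finite G] {p : ℕ} [Fact p.Prime] (h : MCData a b r) (hp : p ≠ 2)
    (hG : IsPGroup p G) (L : Subgroup G) :
    Nat.card ↥(commutator ↥L) =
      Nat.card ↥(commutator G) / Nat.gcd (Nat.card ↥(commutator G)) L.index := by
  obtain ⟨m, k, t, hm, hk, hidx, hA1, hb1, hA2, hB2, hgen⟩ := h.sub L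
  have hL := h.sub_mcdata L m k t hA1 hb1 hgen
  rw [hL.card_commutator, h.card_commutator, ← hidx,
    ← orderOf_pow' _ (Nat.mul_ne_zero hm.ne' hk.ne'), ← h.order_c1 hp hG m k,
    ← Subgroup.orderOf_coe]
  congr 1
  simp only [Subgroup.coe_mul, Subgroup.coe_inv]
  have h1 := h.conj_gen t k (m : ℤ)
  rw [zpow_natCast] at h1
  rw [h1, mul_sub, mul_one, zpow_sub, zpow_natCast]

/-- For a non-abelian subgroup `L`: `|L'| · |G : L| = |G'|`. -/
theorem card_commutator_sub_mul [Finite G] {p : ℕ} [Fact p.Prime] (h : MCData a b r)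
    (hp : p ≠ 2) (hG : IsPGroup p G) (L : Subgroup G) (hna : ¬ IsMulCommutative ↥L) :
    Nat.card ↥(commutator ↥L) * L.index = Nat.card ↥(commutator G) := by
  have hp' : Nat.Prime p := Fact.out
  have h1 := h.card_commutator_sub hp hG L
  obtain ⟨x, hx⟩ := (hG.to_subgroup (commutator G)).exists_card_eq
  obtain ⟨y, hy⟩ := hG.index L
  have hnd : ¬ Nat.card ↥(commutator G) ∣ L.index := by
    intro hd
    apply hna
    have h2 : Nat.card ↥(commutator ↥L) = 1 := by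
      rw [h1, Nat.gcd_eq_left hd]
      exact Nat.div_self Nat.card_pos
    have h3 : commutator ↥L = ⊥ := (Subgroup.card_eq_one).mp h2
    rw [isMulCommutative_iff]
    intro u v
    have h4 : u * v * u⁻¹ * v⁻¹ ∈ commutator ↥L := by
      rw [commutator_def]
      exact Subgroup.commutator_mem_commutator (Subgroup.mem_top u) (Subgroup.mem_top v)
    rw [h3, Subgroup.mem_bot] at h4
    rw [mul_inv_eq_one, mul_inv_eq_iff_eq_mul] at h4
    exact h4
  have hyx : y ≤ x := by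
    by_contra hcon
    apply hnd
    rw [hx, hy]
    exact pow_dvd_pow p (not_le.mp hcon).le
  have hd : L.index ∣ Nat.card ↥(commutator G) := by
    rw [hx, hy]; exact pow_dvd_pow p hyx
  rw [h1, Nat.gcd_eq_right hd]
  exact Nat.div_mul_cancel hd

end MCData

end Cfsg.Agent.Lib.Helper22
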