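import Mathlib
import Cfsg.Agent.Lib.Helper22.Metacyclic2
import Cfsg.Agent.Lib.Helper23.Basic

/-!
Helper lemmas (helper22): power structure and class sizes in metacyclic `p`-groups (odd `p`).
-/

namespace Cfsg.Agent.Lib.Helper22

open scoped commutatorElement

/-- The relative index of a subgroup in a cyclic subgroup, as an order. -/
theorem relIndex_zpowers_eq_orderOf {G M : Type*} [Group G] [Finite G] [Monoid M]
    (C : Subgroup G) (h0 : G) (d : M) (hd : ∀ v : ℕ, h0 ^ v ∈ C ↔ d ^ v = 1) :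
    C.relIndex (Subgroup.zpowers h0) = orderOf d := by
  set H : Subgroup G := Subgroup.zpowers h0 with hH
  set P' : Subgroup H := C.subgroupOf H with hP'
  set h0' : H := ⟨h0, Subgroup.mem_zpowers h0⟩ with hh0'
  have gen : ∀ x : H ⧸ P', x ∈ Subgroup.zpowers (QuotientGroup.mk h0' : H ⧸ P') := by
    intro x
    obtain ⟨y, rfl⟩ := QuotientGroup.mk_surjective x
    obtain ⟨i, hi⟩ := Subgroup.mem_zpowers_iff.mp y.2
    refine Subgroup.mem_zpowers_iff.mpr ⟨i, ?_⟩
    rw [← QuotientGroup.mk_zpow]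
    congr 1
    exact Subtype.ext (by simpa using hi)
  rw [Subgroup.relIndex, Subgroup.index_eq_card, ← orderOf_eq_card_of_forall_mem_zpowers gen]
  refine orderOf_eq_orderOf_iff.mpr fun v => ?_
  rw [← QuotientGroup.mk_pow, QuotientGroup.eq_one_iff, hP', Subgroup.mem_subgroupOf, ← hd v]
  simp [hh0']

theorem conj_pow_of_power_action {G : Type*} [Group G] (N : Subgroup G) (z : G) (ρ : ℕ)
    (hz : ∀ x ∈ N, z * x * z⁻¹ = x ^ ρ) (x : G) (hx : x ∈ N) (n : ℕ) :
    z ^ n * x * (z ^ n)⁻¹ = x ^ (ρ ^ n) := by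
  induction n generalizing x with
  | zero => simp
  | succ n ih =>
    have : z ^ (n+1) * x * (z ^ (n+1))⁻¹ = z ^ n * (z * x * z⁻¹) * (z ^ n)⁻¹ := by
      rw [pow_succ]; group
    rw [this, hz x hx, ih (x ^ ρ) (N.pow_mem hx ρ), ← pow_mul, pow_succ, mul_comm]

theorem mul_pow_of_power_action {G : Type*} [Group G] (N : Subgroup G) (z : G) (ρ : ℕ)
    (hz : ∀ x ∈ N, z * x * z⁻¹ = x ^ ρ) (w : G) (hw : w ∈ N) (n : ℕ) :
    (w * z) ^ n = w ^ (∑ l ∈ Finset.range n, ρ ^ l) * z ^ n := by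
  induction n with
  | zero => simp
  | succ n ih =>
    have h1 := conj_pow_of_power_action N z ρ hz w hw n
    rw [pow_succ, ih, Finset.sum_range_succ, pow_add, ← h1, pow_succ]
    group

theorem geom_sum_dvd {p : ℕ} [Fact p.Prime] (ρ : ℕ) (hρ : (ρ : ZMod p) = 1) :
    p ∣ ∑ l ∈ Finset.range p, ρ ^ l := by
  rw [← ZMod.natCast_eq_zero_iff]
  push_cast
  rw [hρ]; simp

namespace MCData

variable {G : Type*} [Group G] {a b : G} {r : ℕ}

theorem hdecN [Finite G] (h : MCData a b r) (g : G) :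
    ∃ (i : ℤ) (j : ℕ), g = a ^ i * b ^ j := by
  obtain ⟨i, j, rfl⟩ := h.hdec g
  refine ⟨i, (j % (orderOf b : ℤ)).toNat, ?_⟩
  have hpos : (0:ℤ) < orderOf b := by exact_mod_cast orderOf_pos b
  rw [← zpow_natCast b, Int.toNat_of_nonneg (Int.emod_nonneg _ hpos.ne'), zpow_mod_orderOf]

theorem conj_mem_zpowers (h : MCData a b r) (i : ℤ) (j : ℕ) {x : G}
    (hx : x ∈ Subgroup.zpowers a) :
    (a ^ i * b ^ j) * x * (a ^ i * b ^ j)⁻¹ = x ^ (r ^ j) := by
  obtain ⟨u, rfl⟩ := Subgroup.mem_zpowers_iff.mp hx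
  rw [h.conj_gen i j u, ← zpow_natCast (a ^ u), ← zpow_mul]
  congr 1

theorem r_zmod [Finite G] {p : ℕ} [Fact p.Prime] (h : MCData a b r) (hG : IsPGroup p G)
    {n : ℕ} (hn : orderOf a = p ^ n) (h0 : 0 < n) : (r : ZMod p) = 1 := by
  have h1 := (ZMod.intCast_zmod_eq_zero_iff_dvd _ _).mpr (h.p_dvd hG hn h0)
  push_cast at h1
  exact sub_eq_zero.mp h1

theorem c_mem (h : MCData a b r) : b * a * b⁻¹ * a⁻¹ ∈ Subgroup.zpowers a := by
  rw [h.c_eq]; exact Subgroup.zpow_mem _ (Subgroup.mem_zpowers a) _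

/-- Commutators with `p ^ s`-th powers lie in `⟨c ^ (p ^ s)⟩`. -/
theorem pow_comm_mem [Finite G] {p : ℕ} [Fact p.Prime] (h : MCData a b r) (hG : IsPGroup p G)
    (s : ℕ) : ∀ y g : G, g * y ^ (p ^ s) * g⁻¹ * (y ^ (p ^ s))⁻¹ ∈
      Subgroup.zpowers ((b * a * b⁻¹ * a⁻¹) ^ (p ^ s)) := by
  induction s with
  | zero =>
    intro y g
    rw [pow_zero, pow_one, pow_one, ← h.commutator_eq, commutator_def, ← commutatorElement_def]
    exact Subgroup.commutator_mem_commutator (Subgroup.mem_top g) (Subgroup.mem_top y)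
  | succ s ih =>
    intro y g
    set c : G := b * a * b⁻¹ * a⁻¹ with hc
    set z : G := y ^ (p ^ s) with hzdef
    have hw := ih y g
    set w : G := g * z * g⁻¹ * z⁻¹ with hwdef
    have hwN : w ∈ Subgroup.zpowers a :=
      (Subgroup.zpowers_le.mpr (Subgroup.pow_mem _ h.c_mem _)) hw
    obtain ⟨i, j, hz⟩ := h.hdecN z
    have hconj : ∀ x ∈ Subgroup.zpowers a, z * x * z⁻¹ = x ^ (r ^ j) := fun x hx => by
      rw [hz]; exact h.conj_mem_zpowers i j hx
    have h1 := mul_pow_of_power_action (Subgroup.zpowers a) z (r ^ j) hconj w hwN p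
    have h2 : w * z = g * z * g⁻¹ := by rw [hwdef]; group
    have h3 : y ^ (p ^ (s+1)) = z ^ p := by rw [hzdef, pow_succ, pow_mul]
    have h4 : g * z ^ p * g⁻¹ * (z ^ p)⁻¹ = w ^ (∑ l ∈ Finset.range p, (r ^ j) ^ l) := by
      rw [← conj_pow, ← h2, h1]; group
    rw [h3, h4]
    obtain ⟨n, hn⟩ := (IsPGroup.iff_orderOf.mp hG) a
    rcases Nat.eq_zero_or_pos n with h0 | h0
    · have ha1 : a = 1 := by rw [← orderOf_eq_one_iff, hn, h0, pow_zero]
      have hw1 : w = 1 := by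
        have := hwN
        rw [ha1, Subgroup.zpowers_one_eq_bot, Subgroup.mem_bot] at this
        exact this
      rw [hw1, one_pow]; exact one_mem _
    · have hr1 : (r : ZMod p) = 1 := h.r_zmod hG hn h0
      have hρ : ((r ^ j : ℕ) : ZMod p) = 1 := by push_cast; rw [hr1, one_pow]
      obtain ⟨T, hT⟩ := geom_sum_dvd (r ^ j) hρ
      obtain ⟨u, hu⟩ := Subgroup.mem_zpowers_iff.mp hw
      rw [hT, ← hu]
      refine Subgroup.mem_zpowers_iff.mpr ⟨u * T, ?_⟩
      have key : ∀ X : G, (X ^ p) ^ (u * (T : ℤ)) = (X ^ u) ^ (p * T) := by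
        intro X
        rw [← zpow_natCast X p, ← zpow_mul, ← zpow_natCast (X ^ u) (p * T), ← zpow_mul]
        congr 1; push_cast; ring
      rw [pow_succ, pow_mul, key]

/-- Elements of `℧_s(G)` have all commutators in `⟨c ^ (p ^ s)⟩`. -/
theorem agemo_comm_mem [Finite G] {p : ℕ} [Fact p.Prime] (h : MCData a b r)
    (hG : IsPGroup p G) (s : ℕ) (g : G)
    (hg : g ∈ Subgroup.closure {x : G | ∃ y : G, y ^ p ^ s = x}) (x : G) :
    x * g * x⁻¹ * g⁻¹ ∈ Subgroup.zpowers ((b * a * b⁻¹ * a⁻¹) ^ (p ^ s)) := by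
  set W : Subgroup G := Subgroup.zpowers ((b * a * b⁻¹ * a⁻¹) ^ (p ^ s)) with hW
  have hWn : W.Normal := by
    have : (b * a * b⁻¹ * a⁻¹) ^ (p ^ s) = a ^ (((r:ℤ) - 1) * ((p ^ s : ℕ) : ℤ)) := by
      rw [h.c_eq, ← zpow_natCast, ← zpow_mul]
    rw [hW, this]; exact h.zpowers_zpow_normal _
  have hle : Subgroup.closure {x : G | ∃ y : G, y ^ p ^ s = x} ≤
      (Subgroup.center (G ⧸ W)).comap (QuotientGroup.mk' W) := by
    rw [Subgroup.closure_le]
    rintro _ ⟨y, rfl⟩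
    rw [SetLike.mem_coe, Subgroup.mem_comap, Subgroup.mem_center_iff]
    intro q
    obtain ⟨g, rfl⟩ := QuotientGroup.mk_surjective q
    have h1 := h.pow_comm_mem hG s y g
    rw [← hW, ← QuotientGroup.eq_one_iff] at h1
    simp only [QuotientGroup.mk_mul, QuotientGroup.mk_inv] at h1
    rw [mul_inv_eq_one, mul_inv_eq_iff_eq_mul] at h1
    exact h1
  have h2 := hle hg
  rw [Subgroup.mem_comap, Subgroup.mem_center_iff] at h2
  have h3 := h2 (QuotientGroup.mk x)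
  rw [← QuotientGroup.eq_one_iff]
  simp only [QuotientGroup.mk_mul, QuotientGroup.mk_inv]
  rw [mul_inv_eq_one, mul_inv_eq_iff_eq_mul]
  exact h3

/-- Elements of `℧_s(G)` have small classes. -/
theorem class_le [Finite G] {p : ℕ} [Fact p.Prime] (h : MCData a b r)
    (hG : IsPGroup p G) (n : ℕ) (hGn : Nat.card ↥(commutator G) = p ^ n) (s : ℕ) (hs : s ≤ n)
    (g : G) (hg : g ∈ Subgroup.closure {x : G | ∃ y : G, y ^ p ^ s = x}) :
    (Subgroup.centralizer ({g} : Set G)).index ≤ p ^ (n - s) := by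
  have hp' : Nat.Prime p := Fact.out
  set W : Subgroup G := Subgroup.zpowers ((b * a * b⁻¹ * a⁻¹) ^ (p ^ s)) with hW
  have hc : orderOf (b * a * b⁻¹ * a⁻¹) = p ^ n := by rw [← h.card_commutator, hGn]
  have hcard : Nat.card W = p ^ (n - s) := by
    rw [hW, Nat.card_zpowers, orderOf_pow_of_dvd (pow_ne_zero _ hp'.ne_zero)
      (by rw [hc]; exact pow_dvd_pow p hs), hc, Nat.pow_div hs hp'.pos]
  rw [Cfsg.Agent.Lib.Helper23.index_centralizer_eq_card_conj, ← hcard]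
  let f : {y : G // IsConj g y} → W := fun y => ⟨y.1 * g⁻¹, by
    obtain ⟨x, hx⟩ := isConj_iff.mp y.2
    rw [← hx]; exact h.agemo_comm_mem hG s g hg x⟩
  apply Nat.card_le_card_of_injective f
  intro y1 y2 h12
  have := congrArg Subtype.val h12
  exact Subtype.ext (mul_right_cancel this)

/-- Elements with small classes are products of two `p ^ s`-th powers. -/
theorem agemo_of_class [Finite G] {p : ℕ} [Fact p.Prime] (h : MCData a b r) (hp : p ≠ 2)
    (hG : IsPGroup p G) (n : ℕ) (hGn : Nat.card ↥(commutator G) = p ^ n) (s : ℕ) (hs : s ≤ n)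
    (g : G) (hidx : (Subgroup.centralizer ({g} : Set G)).index ≤ p ^ (n - s)) :
    ∃ (x' : ℤ) (y' : ℕ), g = (a ^ x') ^ (p ^ s) * (b ^ y') ^ (p ^ s) := by
  have hp' : Nat.Prime p := Fact.out
  obtain ⟨x, y, rfl⟩ := h.hdecN g
  set c : G := b * a * b⁻¹ * a⁻¹ with hcdef
  have hc : orderOf c = p ^ n := by rw [← h.card_commutator, hGn]
  set C : Subgroup G := Subgroup.centralizer ({a ^ x * b ^ y} : Set G) with hC
  have memC : ∀ u, u ∈ C ↔ (a ^ x * b ^ y) * u = u * (a ^ x * b ^ y) := fun u =>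
    Cfsg.Agent.Lib.Helper21.mem_centralizer_singleton
  have hC0 : C.relIndex ⊤ ≠ 0 := by
    rw [Subgroup.relIndex_top_right]; exact Subgroup.index_ne_zero_of_finite
  have step : ∀ d : G, (∃ h0 : G, ∀ v : ℕ, h0 ^ v ∈ C ↔ d ^ v = 1) → d ^ (p ^ (n - s)) = 1 := by
    rintro d ⟨h0, hd⟩
    have h1 := relIndex_zpowers_eq_orderOf C h0 d hd
    have h2 : C.relIndex (Subgroup.zpowers h0) ≤ C.index := by
      have := Subgroup.relIndex_le_of_le_right (H := C)
        (le_top : Subgroup.zpowers h0 ≤ ⊤) hC0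
      rwa [Subgroup.relIndex_top_right] at this
    obtain ⟨β, hβ⟩ := (IsPGroup.iff_orderOf.mp hG) d
    have h3 : p ^ β ≤ p ^ (n - s) := by rw [← hβ, ← h1]; exact h2.trans hidx
    have h4 : β ≤ n - s := (Nat.pow_le_pow_iff_right hp'.one_lt).mp h3
    rw [← orderOf_dvd_iff_pow_eq_one, hβ]; exact pow_dvd_pow p h4
  have hpn : p ^ n = p ^ s * p ^ (n - s) := by rw [← pow_add, Nat.add_sub_cancel' hs]
  -- Step 1
  have s1 : (c ^ y) ^ (p ^ (n - s)) = 1 := by
    apply step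
    refine ⟨a, fun v => ?_⟩
    rw [memC]
    have e := h.comm_iff hp hG (v : ℤ) y x
    rw [zpow_natCast] at e
    have conv : c ^ ((v:ℤ) * (y:ℤ)) = (c ^ y) ^ v := by
      rw [← pow_mul, ← zpow_natCast]; congr 1; push_cast; ring
    rw [conv] at e
    rw [← e]
    exact ⟨fun hh => hh.symm, fun hh => hh.symm⟩
  have hy : p ^ s ∣ y := by
    rw [← pow_mul, ← orderOf_dvd_iff_pow_eq_one, hc, hpn] at s1
    exact Nat.dvd_of_mul_dvd_mul_right (pow_pos hp'.pos _) s1
  -- Step 2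
  have s2 : (c ^ x) ^ (p ^ (n - s)) = 1 := by
    apply step
    refine ⟨b, fun v => ?_⟩
    rw [memC]
    have e := h.comm_iff hp hG x v 0
    rw [zpow_zero, one_mul] at e
    have conv : c ^ (x * (v:ℤ)) = (c ^ x) ^ v := by
      rw [← zpow_natCast, ← zpow_mul]
    rw [conv] at e
    rw [← e]
    have hbb : b ^ y * b ^ v = b ^ v * b ^ y := by rw [← pow_add, ← pow_add, add_comm]
    constructor
    · intro hh
      have h1 : a ^ x * b ^ v * b ^ y = b ^ v * a ^ x * b ^ y := by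
        rw [mul_assoc, ← hbb, ← mul_assoc, hh, mul_assoc]
      exact mul_right_cancel h1
    · intro hh
      rw [mul_assoc, hbb, ← mul_assoc, hh.eq, mul_assoc]
  have hx : ((p ^ s : ℕ) : ℤ) ∣ x := by
    rw [← zpow_natCast, ← zpow_mul, ← orderOf_dvd_iff_zpow_eq_one, hc, hpn] at s2
    have h1 : ((p ^ s : ℕ) : ℤ) * ((p ^ (n - s) : ℕ) : ℤ) ∣ x * ((p ^ (n - s) : ℕ) : ℤ) := by
      exact_mod_cast s2
    exact Int.dvd_of_mul_dvd_mul_right (by exact_mod_cast (pow_pos hp'.pos (n - s)).ne') h1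
  obtain ⟨y', rfl⟩ := hy
  obtain ⟨x', rfl⟩ := hx
  refine ⟨x', y', ?_⟩
  rw [← zpow_natCast (a ^ x'), ← zpow_mul, ← pow_mul, mul_comm x', mul_comm y']

/-- Characterisation of `℧_s(G)` by class sizes. -/
theorem agemo_iff [Finite G] {p : ℕ} [Fact p.Prime] (h : MCData a b r) (hp : p ≠ 2)
    (hG : IsPGroup p G) (n : ℕ) (hGn : Nat.card ↥(commutator G) = p ^ n) (s : ℕ) (hs : s ≤ n)
    (g : G) :
    g ∈ Subgroup.closure {x : G | ∃ y : G, y ^ p ^ s = x} ↔
      (Subgroup.centralizer ({g} : Set G)).index ≤ p ^ (n - s) := by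
  constructor
  · exact h.class_le hG n hGn s hs g
  · intro hidx
    obtain ⟨x', y', rfl⟩ := h.agemo_of_class hp hG n hGn s hs g hidx
    exact Subgroup.mul_mem _ (Subgroup.subset_closure ⟨a ^ x', rfl⟩)
      (Subgroup.subset_closure ⟨b ^ y', rfl⟩)

end MCData

end Cfsg.Agent.Lib.Helper22
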