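import Mathlib
import Cfsg.Agent.Lib.Helper22.Metacyclic3

/-!
Helper lemmas (helper22): the index of `℧_s(G)` in a metacyclic `p`-group (odd `p`).
-/

namespace Cfsg.Agent.Lib.Helper22

namespace MCData

variable {G : Type*} [Group G] {a b : G} {r : ℕ}

/-- If `a ^ x * b ^ y` has a small class then `p ^ s` divides both exponents. -/
theorem agemo_dvd [Finite G] {p : ℕ} [Fact p.Prime] (h : MCData a b r) (hp : p ≠ 2)
    (hG : IsPGroup p G) (n : ℕ) (hGn : Nat.card ↥(commutator G) = p ^ n) (s : ℕ) (hs : s ≤ n)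
    (x : ℤ) (y : ℕ)
    (hidx : (Subgroup.centralizer ({a ^ x * b ^ y} : Set G)).index ≤ p ^ (n - s)) :
    p ^ s ∣ y ∧ ((p ^ s : ℕ) : ℤ) ∣ x := by
  have hp' : Nat.Prime p := Fact.out
  set c : G := b * a * b⁻¹ * a⁻¹ with hcdef
  have hc : orderOf c = p ^ n := by rw [← h.card_commutator, hGn]
  set C : Subgroup G := Subgroup.centralizer ({a ^ x * b ^ y} : Set G) with hC
  have memC : ∀ u, u ∈ C ↔ (a ^ x * b ^ y) * u = u * (a ^ x * b ^ y) := fun u =>
    Cfsg.Agent.Lib.Helper21.mem_centralizer_singleton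
  have hC0 : C.relIndex ⊤ ≠ 0 := by
    rw [Subgroup.relIndex_top_right]; exact Subgroup.index_ne_zero_of_finite
  have step : ∀ d : G, (∃ h0 : G, ∀ v : ℕ, h0 ^ v ∈ C ↔ d ^ v = 1) → d ^ (p ^ (n - s)) = 1 := by
    rintro d ⟨h0, hd⟩
    have h1 := relIndex_zpowers_eq_orderOf C h0 d hd
    have h2 : C.relIndex (Subgroup.zpowers h0) ≤ C.index := by
      have := Subgroup.relIndex_le_of_le_right (H := C)
        (le_top : Subgroup.zpowers h0 ≤ ⊤) hC0
      rwa [Subgroup.relIndex_top_right] at this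
    obtain ⟨β, hβ⟩ := (IsPGroup.iff_orderOf.mp hG) d
    have h3 : p ^ β ≤ p ^ (n - s) := by rw [← hβ, ← h1]; exact h2.trans hidx
    have h4 : β ≤ n - s := (Nat.pow_le_pow_iff_right hp'.one_lt).mp h3
    rw [← orderOf_dvd_iff_pow_eq_one, hβ]; exact pow_dvd_pow p h4
  have hpn : p ^ n = p ^ s * p ^ (n - s) := by rw [← pow_add, Nat.add_sub_cancel' hs]
  -- Step 1
  have s1 : (c ^ y) ^ (p ^ (n - s)) = 1 := by
    apply step
    refine ⟨a, fun v => ?_⟩
    rw [memC]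
    have e := h.comm_iff hp hG (v : ℤ) y x
    rw [zpow_natCast] at e
    have conv : c ^ ((v:ℤ) * (y:ℤ)) = (c ^ y) ^ v := by
      rw [← pow_mul, ← zpow_natCast]; congr 1; push_cast; ring
    rw [conv] at e
    rw [← e]
    exact ⟨fun hh => hh.symm, fun hh => hh.symm⟩
  have hy : p ^ s ∣ y := by
    rw [← pow_mul, ← orderOf_dvd_iff_pow_eq_one, hc, hpn] at s1
    exact Nat.dvd_of_mul_dvd_mul_right (pow_pos hp'.pos _) s1
  -- Step 2
  have s2 : (c ^ x) ^ (p ^ (n - s)) = 1 := by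
    apply step
    refine ⟨b, fun v => ?_⟩
    rw [memC]
    have e := h.comm_iff hp hG x v 0
    rw [zpow_zero, one_mul] at e
    have conv : c ^ (x * (v:ℤ)) = (c ^ x) ^ v := by
      rw [← zpow_natCast, ← zpow_mul]
    rw [conv] at e
    rw [← e]
    have hbb : b ^ y * b ^ v = b ^ v * b ^ y := by rw [← pow_add, ← pow_add, add_comm]
    constructor
    · intro hh
      have h1 : a ^ x * b ^ v * b ^ y = b ^ v * a ^ x * b ^ y := by
        rw [mul_assoc, ← hbb, ← mul_assoc, hh, mul_assoc]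
      exact mul_right_cancel h1
    · intro hh
      rw [mul_assoc, hbb, ← mul_assoc, hh.eq, mul_assoc]
  have hx : ((p ^ s : ℕ) : ℤ) ∣ x := by
    rw [← zpow_natCast, ← zpow_mul, ← orderOf_dvd_iff_zpow_eq_one, hc, hpn] at s2
    have h1 : ((p ^ s : ℕ) : ℤ) * ((p ^ (n - s) : ℕ) : ℤ) ∣ x * ((p ^ (n - s) : ℕ) : ℤ) := by
      exact_mod_cast s2
    exact Int.dvd_of_mul_dvd_mul_right (by exact_mod_cast (pow_pos hp'.pos (n - s)).ne') h1
  exact ⟨hy, hx⟩

/-- The index of `℧_s(G)`. -/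
theorem agemo_index [Finite G] {p : ℕ} [Fact p.Prime] (h : MCData a b r) (hp : p ≠ 2)
    (hG : IsPGroup p G) (n : ℕ) (hGn : Nat.card ↥(commutator G) = p ^ n) (s : ℕ) (hs : s ≤ n) :
    (Subgroup.closure {x : G | ∃ y : G, y ^ p ^ s = x}).index = p ^ (2 * s) := by
  set U : Subgroup G := Subgroup.closure {x : G | ∃ y : G, y ^ p ^ s = x} with hU
  obtain ⟨m, k, t, hm, hk, hidx, hA1, hb1, hA2, hB2, hgen⟩ := h.sub U
  have hm' : m = p ^ s := by
    have h1 : (m : ℤ) ∣ ((p ^ s : ℕ) : ℤ) := by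
      apply hA2
      rw [zpow_natCast]
      exact Subgroup.subset_closure ⟨a, rfl⟩
    have h2 := h.class_le hG n hGn s hs (a ^ m) hA1
    have h3 : a ^ m = a ^ (m : ℤ) * b ^ 0 := by rw [pow_zero, mul_one, zpow_natCast]
    rw [h3] at h2
    have h4 := (h.agemo_dvd hp hG n hGn s hs (m : ℤ) 0 h2).2
    exact Nat.dvd_antisymm (Int.natCast_dvd_natCast.mp h1) (Int.natCast_dvd_natCast.mp h4)
  have hk' : k = p ^ s := by
    have h1 : (k : ℤ) ∣ ((p ^ s : ℕ) : ℤ) := by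
      apply hB2 0
      rw [zpow_zero, one_mul, zpow_natCast]
      exact Subgroup.subset_closure ⟨b, rfl⟩
    have h2 := h.class_le hG n hGn s hs (a ^ t * b ^ k) hb1
    have h4 := (h.agemo_dvd hp hG n hGn s hs t k h2).1
    exact Nat.dvd_antisymm (Int.natCast_dvd_natCast.mp h1) h4
  rw [← hidx, hm', hk', ← pow_add, two_mul]

end MCData

end Cfsg.Agent.Lib.Helper22
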