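import Mathlib
import Cfsg.Agent.Lib.Helper22.Metacyclic4
import Cfsg.Agent.S3879

/-!
Helper lemmas (helper22): centralizers of subgroups containing the centre in metacyclic
`p`-groups (odd `p`).
-/

namespace Cfsg.Agent.Lib.Helper22

/-- The `p`-adic valuation of a geometric sum with ratio `≡ 1 (mod p)`, `p` odd. -/
theorem geom_mult {p : ℕ} [Fact p.Prime] (hp : p ≠ 2) (ρ : ℤ) (hρ : (p:ℤ) ∣ ρ - 1) (q : ℕ) :
    emultiplicity (p:ℤ) (∑ l ∈ Finset.range q, ρ ^ l) = emultiplicity p q := by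
  have hp' : Nat.Prime p := Fact.out
  have hodd : Odd p := hp'.odd_of_ne_two hp
  by_cases h1 : ρ = 1
  · subst h1
    simp [Int.natCast_emultiplicity]
  · have hx : ¬ (p:ℤ) ∣ ρ := by
      intro h
      have h1 : (p:ℤ) ∣ 1 := by simpa using dvd_sub h hρ
      have h2 : p ∣ 1 := by exact_mod_cast h1
      exact hp'.one_lt.ne' (Nat.dvd_one.mp h2)
    have hl := Int.emultiplicity_pow_sub_pow hp' hodd (x := ρ) (y := 1) hρ hx q
    rw [one_pow, ← geom_sum_mul, emultiplicity_mul (Nat.prime_iff_prime_int.mp hp')] at hl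
    have hfin : FiniteMultiplicity (p:ℤ) (ρ - 1) := by
      rw [Int.finiteMultiplicity_iff]
      refine ⟨?_, sub_ne_zero.mpr h1⟩
      rw [Int.natAbs_natCast]; exact hp'.one_lt.ne'
    have hne : emultiplicity (p:ℤ) (ρ - 1) ≠ ⊤ :=
      finiteMultiplicity_iff_emultiplicity_ne_top.mp hfin
    rw [add_comm (emultiplicity (p:ℤ) (ρ - 1))] at hl
    exact ENat.add_left_injective_of_ne_top hne hl

/-- In a finite cyclic group, membership in cyclic subgroups is decided by orders. -/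
theorem mem_zpowers_of_orderOf_dvd {H : Type*} [Group H] [Finite H] [IsCyclic H] {x y : H}
    (hxy : orderOf x ∣ orderOf y) : x ∈ Subgroup.zpowers y := by
  classical
  haveI := Fintype.ofFinite H
  set d := orderOf y with hd
  have hdpos : 0 < d := orderOf_pos y
  set S : Finset H := Finset.univ.filter (fun h : H => h ^ d = 1) with hS
  have hScard : S.card ≤ d := IsCyclic.card_pow_eq_one_le hdpos
  set T : Finset H := (Subgroup.zpowers y : Set H).toFinset with hT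
  have hTS : T ⊆ S := by
    intro h hh
    rw [hT, Set.mem_toFinset, SetLike.mem_coe] at hh
    obtain ⟨i, rfl⟩ := Subgroup.mem_zpowers_iff.mp hh
    rw [hS, Finset.mem_filter]
    refine ⟨Finset.mem_univ _, ?_⟩
    rw [← zpow_natCast, ← zpow_mul, mul_comm, zpow_mul, zpow_natCast, hd, pow_orderOf_eq_one,
      one_zpow]
  have hTcard : T.card = d := by
    rw [hT, Set.toFinset_card, ← Nat.card_eq_fintype_card]
    exact Nat.card_zpowers y
  have hST : T = S := Finset.eq_of_subset_of_card_le hTS (by rw [hTcard]; exact hScard)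
  have hx : x ∈ S := by
    rw [hS, Finset.mem_filter]
    exact ⟨Finset.mem_univ _, orderOf_dvd_iff_pow_eq_one.mp hxy⟩
  rw [← hST, hT, Set.mem_toFinset] at hx
  exact hx

namespace MCData

variable {G : Type*} [Group G] {a b : G} {r : ℕ}

theorem zpow_mem_zpowers_of_orderOf_dvd [Finite G] (a : G) (i j : ℤ)
    (hij : orderOf (a ^ i) ∣ orderOf (a ^ j)) : ∃ u : ℤ, (a ^ j) ^ u = a ^ i := by
  set H : Subgroup G := Subgroup.zpowers a
  have hi : a ^ i ∈ H := Subgroup.zpow_mem _ (Subgroup.mem_zpowers a) i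
  have hj : a ^ j ∈ H := Subgroup.zpow_mem _ (Subgroup.mem_zpowers a) j
  have h1 : orderOf (⟨a ^ i, hi⟩ : H) ∣ orderOf (⟨a ^ j, hj⟩ : H) := by
    rw [← Subgroup.orderOf_coe, ← Subgroup.orderOf_coe]; exact hij
  obtain ⟨u, hu⟩ := Subgroup.mem_zpowers_iff.mp (mem_zpowers_of_orderOf_dvd h1)
  refine ⟨u, ?_⟩
  have := congrArg Subtype.val hu
  simpa using this

/-- Orders of the basic commutators, integer version. -/
theorem order_c1' [Finite G] {p : ℕ} [Fact p.Prime] (h : MCData a b r) (hp : p ≠ 2)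
    (hG : IsPGroup p G) (m : ℤ) (k : ℕ) :
    orderOf (a ^ (m * ((r:ℤ)^k - 1))) = orderOf ((b * a * b⁻¹ * a⁻¹) ^ (m * k)) := by
  obtain ⟨n, hn⟩ := (IsPGroup.iff_orderOf.mp hG) a
  refine orderOf_eq_orderOf_iff.mpr fun j => ?_
  have e1 : (a ^ (m * ((r:ℤ)^k - 1))) ^ j = 1 ↔
      ((p:ℤ)^n ∣ (m * j) * ((r:ℤ)^k - 1)) := by
    rw [← zpow_natCast, ← zpow_mul, ← orderOf_dvd_iff_zpow_eq_one, hn]
    have : m * ((r:ℤ)^k - 1) * (j:ℤ) = (m * j) * ((r:ℤ)^k - 1) := by ring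
    rw [this]; push_cast; rfl
  have e2 : ((b * a * b⁻¹ * a⁻¹) ^ (m * k)) ^ j = 1 ↔
      ((p:ℤ)^n ∣ (m * j) * (((r:ℤ) - 1) * k)) := by
    have e : ((b * a * b⁻¹ * a⁻¹) ^ (m * k)) ^ j = a ^ ((m * j) * (((r:ℤ) - 1) * k)) := by
      rw [h.c_eq, ← zpow_natCast, ← zpow_mul, ← zpow_mul]
      congr 1; ring
    rw [e, ← orderOf_dvd_iff_zpow_eq_one, hn]; push_cast; rfl
  rw [e1, e2]
  rcases Nat.eq_zero_or_pos n with h0 | h0
  · subst h0; simp
  · exact mc_nt hp n r (h.p_dvd hG hn h0) _ k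

theorem mul_formula (h : MCData a b r) (u t : ℤ) (v k : ℕ) :
    (a ^ u * b ^ v) * (a ^ t * b ^ k) = a ^ (u + t * (r:ℤ) ^ v) * b ^ (v + k) := by
  have h1 := h.conj_zpow_b v t
  have h2 : (a ^ u * b ^ v) * (a ^ t * b ^ k) = a ^ u * (b ^ v * a ^ t * (b ^ v)⁻¹) * (b ^ v * b ^ k) := by
    group
  rw [h2, h1, ← zpow_add, ← pow_add]

theorem comm_gen_iff (h : MCData a b r) (u t : ℤ) (v k : ℕ) :
    (a ^ u * b ^ v) * (a ^ t * b ^ k) = (a ^ t * b ^ k) * (a ^ u * b ^ v) ↔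
      a ^ (t * ((r:ℤ) ^ v - 1)) = a ^ (u * ((r:ℤ) ^ k - 1)) := by
  rw [h.mul_formula u t v k, h.mul_formula t u k v, add_comm k v, mul_left_inj]
  have e1 : a ^ (u + t * (r:ℤ) ^ v) = a ^ (t * ((r:ℤ) ^ v - 1)) * a ^ (u + t) := by
    rw [← zpow_add]; congr 1; ring
  have e2 : a ^ (t + u * (r:ℤ) ^ k) = a ^ (u * ((r:ℤ) ^ k - 1)) * a ^ (u + t) := by
    rw [← zpow_add]; congr 1; ring
  rw [e1, e2, mul_left_inj]

/-- `p ^ n`-th powers of the generators are central. -/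
theorem pow_mem_center [Finite G] {p : ℕ} [Fact p.Prime] (h : MCData a b r) (hp : p ≠ 2)
    (hG : IsPGroup p G) (n : ℕ) (hc : orderOf (b * a * b⁻¹ * a⁻¹) = p ^ n) :
    a ^ (p ^ n) ∈ Subgroup.center G ∧ b ^ (p ^ n) ∈ Subgroup.center G := by
  constructor
  · rw [Subgroup.mem_center_iff]
    intro g
    obtain ⟨t, k, rfl⟩ := h.hdecN g
    have e := (h.comm_iff hp hG ((p ^ n : ℕ) : ℤ) k t).mpr (by
      rw [zpow_mul, zpow_natCast, zpow_natCast, ← hc, pow_orderOf_eq_one, one_pow])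
    rw [zpow_natCast] at e
    exact e.eq.symm
  · rw [Subgroup.mem_center_iff]
    intro g
    obtain ⟨t, k, rfl⟩ := h.hdecN g
    have e := (h.comm_iff hp hG t (p ^ n) 0).mpr (by
      rw [mul_comm t, zpow_mul, zpow_natCast, ← hc, pow_orderOf_eq_one, one_zpow])
    rw [zpow_zero, one_mul] at e
    have hbb : b ^ k * b ^ (p ^ n) = b ^ (p ^ n) * b ^ k := by
      rw [← pow_add, ← pow_add, add_comm]
    rw [mul_assoc, hbb, ← mul_assoc, e.eq, mul_assoc]

end MCData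

end Cfsg.Agent.Lib.Helper22
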