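import Mathlib
import Cfsg.Agent.Lib.Helper22.Metacyclic5

/-!
Helper lemmas (helper22): `|R| |C_G(R)| = |G| |Z(G)|` for subgroups `R ≥ Z(G)` of a metacyclic
`p`-group (odd `p`).
-/

namespace Cfsg.Agent.Lib.Helper22

namespace MCData

variable {G : Type*} [Group G] {a b : G} {r : ℕ}

theorem centralizer_card [Finite G] {p : ℕ} [Fact p.Prime] (h : MCData a b r) (hp : p ≠ 2)
    (hG : IsPGroup p G) (R : Subgroup G) (hZ : Subgroup.center G ≤ R) :
    Nat.card ↥R * Nat.card ↥(Subgroup.centralizer (R : Set G)) =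
      Nat.card G * Nat.card ↥(Subgroup.center G) := by
  classical
  have hp' : Nat.Prime p := Fact.out
  have hpi := Nat.prime_iff_prime_int.mp hp'
  obtain ⟨N, hN⟩ := (IsPGroup.iff_orderOf.mp hG) a
  rcases Nat.eq_zero_or_pos N with hN0 | hN0
  · have ha1 : a = 1 := by rw [← orderOf_eq_one_iff, hN, hN0, pow_zero]
    have hcomm : ∀ x y : G, x * y = y * x := by
      intro x y
      obtain ⟨i, j, rfl⟩ := h.hdec x
      obtain ⟨i', j', rfl⟩ := h.hdec y
      rw [ha1]; simp only [one_zpow, one_mul]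
      exact ((Commute.refl b).zpow_zpow j j').eq
    have hcen : Subgroup.center G = ⊤ := by
      rw [eq_top_iff]; intro x _; rw [Subgroup.mem_center_iff]; intro g; exact hcomm g x
    have hR : R = ⊤ := top_le_iff.mp (hcen ▸ hZ)
    rw [hR, Subgroup.coe_top, Subgroup.centralizer_univ, Subgroup.card_top]
  · obtain ⟨n, hGn⟩ := (hG.to_subgroup (commutator G)).exists_card_eq
    have hc : orderOf (b * a * b⁻¹ * a⁻¹) = p ^ n := by rw [← h.card_commutator, hGn]
    obtain ⟨haZ, hbZ⟩ := h.pow_mem_center hp hG n hc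
    obtain ⟨m, k, t, hm, hk, hidx, hA1, hb1, hA2, hB2, hgen⟩ := h.sub R
    have hmdvd : m ∣ p ^ n := by
      have := hA2 ((p ^ n : ℕ) : ℤ) (by rw [zpow_natCast]; exact hZ haZ)
      exact Int.natCast_dvd_natCast.mp this
    have hkdvd : k ∣ p ^ n := by
      have := hB2 0 ((p ^ n : ℕ) : ℤ) (by rw [zpow_zero, one_mul, zpow_natCast]; exact hZ hbZ)
      exact Int.natCast_dvd_natCast.mp this
    obtain ⟨j, hj, hmj⟩ := (Nat.dvd_prime_pow hp').mp hmdvd
    obtain ⟨m', hm'⟩ := hmdvd
    obtain ⟨q, hq⟩ := hkdvd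
    have hm'pos : 0 < m' := Nat.pos_of_ne_zero (fun h0 => by
      rw [h0, mul_zero] at hm'; exact (pow_pos hp'.pos n).ne' hm')
    have hqpos : 0 < q := Nat.pos_of_ne_zero (fun h0 => by
      rw [h0, mul_zero] at hq; exact (pow_pos hp'.pos n).ne' hq)
    have hr1 : (p:ℤ) ∣ (r:ℤ) - 1 := h.p_dvd hG hN hN0
    -- `m ∣ t * q`
    have hmtq : (m : ℤ) ∣ t * q := by
      have hconj : ∀ x ∈ Subgroup.zpowers a, b ^ k * x * (b ^ k)⁻¹ = x ^ (r ^ k) := by
        intro x hx
        have := h.conj_mem_zpowers 0 k hx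
        rwa [zpow_zero, one_mul] at this
      have h1 := mul_pow_of_power_action (Subgroup.zpowers a) (b ^ k) (r ^ k) hconj (a ^ t)
        (Subgroup.zpow_mem _ (Subgroup.mem_zpowers a) t) q
      set S : ℕ := ∑ l ∈ Finset.range q, (r ^ k) ^ l with hS
      have h2 : (a ^ t) ^ S ∈ R := by
        have h3 : (a ^ t) ^ S = (a ^ t * b ^ k) ^ q * ((b ^ k) ^ q)⁻¹ := by rw [h1]; group
        rw [h3]
        refine R.mul_mem (R.pow_mem hb1 q) (R.inv_mem ?_)
        rw [← pow_mul, ← hq]; exact hZ hbZ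
      have h4 : (m : ℤ) ∣ t * (S : ℤ) := by
        apply hA2
        rw [zpow_mul, zpow_natCast]; exact h2
      have hS' : (S : ℤ) = ∑ l ∈ Finset.range q, ((r:ℤ) ^ k) ^ l := by rw [hS]; push_cast; rfl
      have hρ : (p:ℤ) ∣ (r:ℤ)^k - 1 := by
        have h5 := sub_dvd_pow_sub_pow (r:ℤ) 1 k
        rw [one_pow] at h5
        exact dvd_trans hr1 h5
      have hgm := geom_mult hp ((r:ℤ)^k) hρ q
      rw [hmj] at h4 ⊢
      push_cast at h4 ⊢
      rw [pow_dvd_iff_le_emultiplicity, emultiplicity_mul hpi] at h4 ⊢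
      rw [hS', hgm] at h4
      rwa [Int.natCast_emultiplicity]
    -- the centralizer
    set X : Subgroup G := Subgroup.centralizer (R : Set G) with hX
    have memX : ∀ g, g ∈ X ↔ ∀ x ∈ R, x * g = g * x := fun g => by
      rw [hX, Subgroup.mem_centralizer_iff]; rfl
    have genX : ∀ g, Commute (a ^ m) g → Commute (a ^ t * b ^ k) g → g ∈ X := by
      intro g h1 h2
      rw [memX]
      intro x hx
      obtain ⟨u, w, rfl⟩ := hgen x hx
      exact (Commute.mul_left (h1.zpow_left u) (h2.zpow_left w)).eq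
    obtain ⟨mX, kX, tX, hmX, hkX, hidxX, hA1X, hb1X, hA2X, hB2X, hgenX⟩ := h.sub X
    have hmXq : mX = q := by
      apply Nat.dvd_antisymm
      · have h1 : a ^ q ∈ X := by
          apply genX
          · exact (Commute.refl a).pow_pow m q
          · have e := (h.comm_iff hp hG (q : ℤ) k t).mpr (by
              rw [← Nat.cast_mul, zpow_natCast, mul_comm q k, ← hq, ← hc, pow_orderOf_eq_one])
            rw [zpow_natCast] at e
            exact e.symm
        have := hA2X (q : ℤ) (by rw [zpow_natCast]; exact h1)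
        exact Int.natCast_dvd_natCast.mp this
      · have h1 : Commute (a ^ mX) (a ^ t * b ^ k) := ((memX _).mp hA1X _ hb1).symm
        have e := (h.comm_iff hp hG (mX : ℤ) k t).mp (by rw [zpow_natCast]; exact h1)
        rw [← Nat.cast_mul, zpow_natCast, ← orderOf_dvd_iff_pow_eq_one, hc, hq, mul_comm mX k] at e
        exact Nat.dvd_of_mul_dvd_mul_left hk e
    have hkXm : kX = m' := by
      apply Nat.dvd_antisymm
      · have ho1 : orderOf (a ^ (t * ((r:ℤ)^m' - 1))) =
            orderOf ((b * a * b⁻¹ * a⁻¹) ^ (t * (m' : ℤ))) := h.order_c1' hp hG t m'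
        have ho2 : orderOf (a ^ ((1:ℤ) * ((r:ℤ)^k - 1))) =
            orderOf ((b * a * b⁻¹ * a⁻¹) ^ ((1:ℤ) * (k:ℤ))) := h.order_c1' hp hG 1 k
        have ho3 : orderOf ((b * a * b⁻¹ * a⁻¹) ^ ((1:ℤ) * (k:ℤ))) = q := by
          rw [one_mul, zpow_natCast, orderOf_pow_of_dvd hk.ne'
            (by rw [hc, hq]; exact dvd_mul_right k q), hc, hq]
          exact Nat.mul_div_cancel_left q hk
        have ho4 : orderOf ((b * a * b⁻¹ * a⁻¹) ^ (t * (m' : ℤ))) ∣ q := by
          rw [orderOf_dvd_iff_pow_eq_one, ← zpow_natCast, ← zpow_mul]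
          obtain ⟨z, hz⟩ := hmtq
          have : t * (m' : ℤ) * (q : ℤ) = ((p ^ n : ℕ) : ℤ) * z := by
            rw [hm']; push_cast; linear_combination (m' : ℤ) * hz
          rw [this, zpow_mul, zpow_natCast, ← hc, pow_orderOf_eq_one, one_zpow]
        obtain ⟨u, hu⟩ := zpow_mem_zpowers_of_orderOf_dvd a (t * ((r:ℤ)^m' - 1))
          ((1:ℤ) * ((r:ℤ)^k - 1)) (by rw [ho1, ho2, ho3]; exact ho4)
        have h1 : a ^ u * b ^ m' ∈ X := by
          apply genX
          · have e := (h.comm_iff hp hG (m : ℤ) m' u).mpr (by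
              rw [← Nat.cast_mul, zpow_natCast, ← hm', ← hc, pow_orderOf_eq_one])
            rw [zpow_natCast] at e; exact e
          · have := (h.comm_gen_iff u t m' k).mpr (by
              rw [← hu, ← zpow_mul]; congr 1; ring)
            exact this.symm
        have := hB2X u (m' : ℤ) (by rw [zpow_natCast]; exact h1)
        exact Int.natCast_dvd_natCast.mp this
      · have h1 : Commute (a ^ m) (a ^ tX * b ^ kX) := (memX _).mp hb1X (a ^ m) hA1
        have e := (h.comm_iff hp hG (m : ℤ) kX tX).mp (by rw [zpow_natCast]; exact h1)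
        rw [← Nat.cast_mul, zpow_natCast, ← orderOf_dvd_iff_pow_eq_one, hc, hm'] at e
        exact Nat.dvd_of_mul_dvd_mul_left hm e
    have hZidx : (Subgroup.center G).index = p ^ n * p ^ n := by
      rw [Cfsg.Agent.S3879.main hp hG a b r h.hr h.hN h.hdec, hGn, sq]
    have e1 := Subgroup.card_mul_index R
    have e2 := Subgroup.card_mul_index X
    have e3 := Subgroup.card_mul_index (Subgroup.center G)
    rw [← hidx] at e1
    rw [← hidxX, hmXq, hkXm] at e2
    rw [hZidx] at e3
    have hpos : 0 < (m * k) * (q * m') := by positivity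
    apply Nat.eq_of_mul_eq_mul_right hpos
    calc Nat.card ↥R * Nat.card ↥X * ((m * k) * (q * m'))
        = (Nat.card ↥R * (m * k)) * (Nat.card ↥X * (q * m')) := by ring
      _ = Nat.card G * Nat.card G := by rw [e1, e2]
      _ = Nat.card G * (Nat.card ↥(Subgroup.center G) * (p ^ n * p ^ n)) := by rw [e3]
      _ = Nat.card G * Nat.card ↥(Subgroup.center G) * ((m * k) * (q * m')) := by
          have : p ^ n * p ^ n = (m * k) * (q * m') := by
            nth_rewrite 1 [hm']; rw [hq]; ring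
          rw [this]; ring

end MCData

end Cfsg.Agent.Lib.Helper22
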