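import Mathlib
import Cfsg.Agent.Lib.Helper22.Metacyclic5

/-!
Helper lemmas (helper22): geometric sums modulo prime powers, and the factorisation of a
metacyclic `p`-group (odd `p`) in the non-split case.
-/

namespace Cfsg.Agent.Lib.Helper22

/-- Product formula for geometric sums. -/
theorem geom_sum_mul_formula (ρ : ℤ) (m n : ℕ) :
    ∑ l ∈ Finset.range (m * n), ρ ^ l =
      (∑ l ∈ Finset.range m, ρ ^ l) * (∑ i ∈ Finset.range n, (ρ ^ m) ^ i) := by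
  by_cases h1 : ρ = 1
  · subst h1; simp
  · have hne : ρ - 1 ≠ 0 := sub_ne_zero.mpr h1
    apply mul_right_cancel₀ hne
    calc (∑ l ∈ Finset.range (m * n), ρ ^ l) * (ρ - 1) = ρ ^ (m * n) - 1 := geom_sum_mul _ _
      _ = (ρ ^ m) ^ n - 1 := by rw [pow_mul]
      _ = (∑ i ∈ Finset.range n, (ρ ^ m) ^ i) * (ρ ^ m - 1) := (geom_sum_mul _ _).symm
      _ = (∑ i ∈ Finset.range n, (ρ ^ m) ^ i) * ((∑ l ∈ Finset.range m, ρ ^ l) * (ρ - 1)) := by
          rw [geom_sum_mul ρ m]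
      _ = _ := by ring

theorem geom_sum_prime_sub {p : ℕ} [Fact p.Prime] (hp : p ≠ 2) (y : ℤ) (hy : (p:ℤ) ∣ y) :
    (p:ℤ) * y ∣ (∑ i ∈ Finset.range p, (1 + y) ^ i) - p := by
  have hp' : Nat.Prime p := Fact.out
  have h1 : ∀ i : ℕ, (p:ℤ) * y ∣ (1 + y) ^ i - 1 - i * y := by
    intro i
    have h2 := sq_dvd_add_pow_sub_sub y (1:ℤ) i
    have h3 : (p:ℤ) * y ∣ y ^ 2 := by rw [sq]; exact mul_dvd_mul_right hy y
    have h4 : (1 + y) ^ i - 1 - i * y = (1 + y) ^ i - 1 ^ (i - 1) * y * i - 1 ^ i := by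
      rw [one_pow, one_pow]; ring
    rw [h4]
    exact dvd_trans h3 h2
  have h5 : (∑ i ∈ Finset.range p, (1 + y) ^ i) - p =
      ∑ i ∈ Finset.range p, ((1 + y) ^ i - 1 - i * y) + y * ∑ i ∈ Finset.range p, (i:ℤ) := by
    rw [Finset.sum_sub_distrib, Finset.sum_sub_distrib, ← Finset.sum_mul]
    simp
    ring
  rw [h5]
  apply dvd_add (Finset.dvd_sum (fun i _ => h1 i))
  have h6 : (p:ℤ) ∣ ∑ i ∈ Finset.range p, (i:ℤ) := by
    have h7 := Finset.sum_range_id_mul_two p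
    have h8 : p ∣ (∑ i ∈ Finset.range p, i) * 2 := by rw [h7]; exact dvd_mul_right p (p - 1)
    have hcop : Nat.Coprime p 2 := (Nat.coprime_primes hp' Nat.prime_two).mpr hp
    have h9 : p ∣ ∑ i ∈ Finset.range p, i := hcop.dvd_of_dvd_mul_right h8
    have h10 : ((∑ i ∈ Finset.range p, i : ℕ) : ℤ) = ∑ i ∈ Finset.range p, (i:ℤ) := by push_cast; rfl
    rw [← h10]
    exact Int.natCast_dvd_natCast.mpr h9
  rw [mul_comm]
  exact mul_dvd_mul_left y h6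

/-- Geometric sums of `p ^ ζ` terms with ratio `1 + x`, `p ∣ x`, `p` odd. -/
theorem geom_sum_pow_sub {p : ℕ} [Fact p.Prime] (hp : p ≠ 2) (ζ : ℕ) :
    ∀ x : ℤ, (p:ℤ) ∣ x →
      x * (p:ℤ) ^ ζ ∣ (∑ l ∈ Finset.range (p ^ ζ), (1 + x) ^ l) - (p:ℤ) ^ ζ := by
  induction ζ with
  | zero => intro x _; simp
  | succ ζ ih =>
    intro x hx
    obtain ⟨A, hA⟩ := ih x hx
    have hS' : (∑ l ∈ Finset.range (p ^ ζ), (1 + x) ^ l) = (p:ℤ)^ζ + x * (p:ℤ)^ζ * A := by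
      linarith
    have hx' : (1 + x) ^ (p ^ ζ) - 1 = (∑ l ∈ Finset.range (p ^ ζ), (1 + x) ^ l) * x := by
      have := geom_sum_mul (1 + x) (p ^ ζ)
      rw [← this]; ring
    have hpy : (p:ℤ) ∣ (1 + x) ^ (p ^ ζ) - 1 := by rw [hx']; exact Dvd.dvd.mul_left hx _
    obtain ⟨B, hB⟩ := geom_sum_prime_sub hp ((1 + x) ^ (p ^ ζ) - 1) hpy
    have h1 : (1 + x) ^ (p ^ ζ) = 1 + ((1 + x) ^ (p ^ ζ) - 1) := by ring
    have h2 : (∑ i ∈ Finset.range p, ((1 + x) ^ (p ^ ζ)) ^ i) =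
        p + p * ((1 + x) ^ (p ^ ζ) - 1) * B := by
      have h3 : (∑ i ∈ Finset.range p, ((1 + x) ^ (p ^ ζ)) ^ i) =
          ∑ i ∈ Finset.range p, (1 + ((1 + x) ^ (p ^ ζ) - 1)) ^ i := by
        rw [← h1]
      rw [h3]; linarith
    have e : p ^ (ζ + 1) = p ^ ζ * p := pow_succ p ζ
    rw [e, pow_succ, geom_sum_mul_formula, h2, hx', hS']
    exact ⟨A + (p:ℤ) ^ ζ * (1 + x * A) ^ 2 * B, by ring⟩

/-- Orders of powers of an element of `p`-power order are determined by valuations. -/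
theorem orderOf_zpow_eq_of_emultiplicity {G : Type*} [Group G] {p : ℕ} [Fact p.Prime] (a : G)
    (N : ℕ) (ha : orderOf a = p ^ N) (i j : ℤ)
    (hij : emultiplicity (p:ℤ) i = emultiplicity (p:ℤ) j) : orderOf (a ^ i) = orderOf (a ^ j) := by
  have hp' : Nat.Prime p := Fact.out
  refine orderOf_eq_orderOf_iff.mpr fun v => ?_
  have e : ∀ i : ℤ, (a ^ i) ^ v = 1 ↔
      (N : ℕ∞) ≤ emultiplicity (p:ℤ) i + emultiplicity (p:ℤ) (v:ℤ) := by
    intro i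
    rw [← zpow_natCast, ← zpow_mul, ← orderOf_dvd_iff_zpow_eq_one, ha]
    push_cast
    rw [pow_dvd_iff_le_emultiplicity, emultiplicity_mul (Nat.prime_iff_prime_int.mp hp')]
  rw [e i, e j, hij]

/-- Two cyclic subgroups with trivial intersection and the right orders. -/
theorem fact_of {G : Type*} [Group G] [Finite G] (x y : G)
    (hcard : Nat.card G = orderOf x * orderOf y)
    (hint : ∀ j : ℕ, y ^ j ∈ Subgroup.zpowers x → y ^ j = 1) :
    ∃ A B : Subgroup G, IsCyclic ↥A ∧ IsCyclic ↥B ∧ A ⊓ B = ⊥ ∧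
      Nat.card ↥A * Nat.card ↥B = Nat.card G := by
  refine ⟨Subgroup.zpowers x, Subgroup.zpowers y, inferInstance, inferInstance, ?_, ?_⟩
  · rw [eq_bot_iff]
    rintro g ⟨hgA, hgB⟩
    obtain ⟨j, rfl⟩ := (Submonoid.mem_powers_iff _ _).mp (mem_powers_iff_mem_zpowers.mpr hgB)
    rw [Subgroup.mem_bot]
    exact hint j hgA
  · rw [Nat.card_zpowers, Nat.card_zpowers, hcard]

end Cfsg.Agent.Lib.Helper22
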