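import Mathlib
import Cfsg.Prelude.Def_KGroupFacts
import Cfsg.Agent.Lib.Helper22.Heis

set_option autoImplicit false

namespace Cfsg.Agent.Lib.Helper22

open scoped commutatorElement

/-- A product of cyclic groups of pairwise coprime orders is cyclic. -/
theorem isCyclic_pi_zmod {ι : Type} [Fintype ι] (n : ι → ℕ) (hn : ∀ i, 1 < n i)
    (hco : ∀ i j, i ≠ j → Nat.Coprime (n i) (n j)) :
    IsCyclic ((i : ι) → Multiplicative (ZMod (n i))) := by
  have : ∀ i, NeZero (n i) := fun i => ⟨by have := hn i; omega⟩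
  apply IsCyclic.of_exponent_eq_card
  rw [Monoid.exponent_pi, Nat.card_pi]
  have h1 : ∀ i, Monoid.exponent (Multiplicative (ZMod (n i))) = n i := by
    intro i
    rw [Monoid.exponent_multiplicative, ZMod.exponent]
  have h2 : ∀ i, Nat.card (Multiplicative (ZMod (n i))) = n i := by
    intro i
    rw [Nat.card_congr Multiplicative.toAdd, Nat.card_zmod]
  simp only [h1, h2]
  apply Finset.lcm_eq_prod
  intro i _ j _ hij
  exact hco i j hij

/-- A finite abelian group that is not cyclic maps onto `ZMod p × ZMod p` for some prime `p`. -/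
theorem exists_surjective_of_not_isCyclic (G : Type*) [CommGroup G] [Finite G] (h : ¬ IsCyclic G) :
    ∃ (p : ℕ) (_ : p.Prime) (f : G →* Multiplicative (ZMod p × ZMod p)), Function.Surjective f := by
  classical
  obtain ⟨ι, _, n, hn, ⟨e⟩⟩ := CommGroup.equiv_prod_multiplicative_zmod_of_finite G
  by_cases hco : ∀ i j, i ≠ j → Nat.Coprime (n i) (n j)
  · exfalso
    apply h
    have := isCyclic_pi_zmod n hn hco
    exact isCyclic_of_surjective e.symm.toMonoidHom e.symm.surjective
  · push Not at hco
    obtain ⟨i, j, hij, hnc⟩ := hco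
    obtain ⟨p, hp, hpi, hpj⟩ := Nat.Prime.not_coprime_iff_dvd.mp hnc
    refine ⟨p, hp, ?_⟩
    let ci : ZMod (n i) →+* ZMod p := ZMod.castHom hpi (ZMod p)
    let cj : ZMod (n j) →+* ZMod p := ZMod.castHom hpj (ZMod p)
    let f : G →* Multiplicative (ZMod p × ZMod p) :=
      { toFun := fun g => Multiplicative.ofAdd
          (ci (Multiplicative.toAdd (e g i)), cj (Multiplicative.toAdd (e g j)))
        map_one' := by
          simp
        map_mul' := by
          intro x y
          simp only [map_mul, Pi.mul_apply, toAdd_mul, map_add]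
          rfl }
    refine ⟨f, ?_⟩
    intro q
    obtain ⟨x, hx⟩ := ZMod.castHom_surjective hpi (Multiplicative.toAdd q).1
    obtain ⟨y, hy⟩ := ZMod.castHom_surjective hpj (Multiplicative.toAdd q).2
    refine ⟨e.symm (Pi.mulSingle i (Multiplicative.ofAdd x) * Pi.mulSingle j (Multiplicative.ofAdd y)), ?_⟩
    show Multiplicative.ofAdd (ci (Multiplicative.toAdd (e (e.symm _) i)),
      cj (Multiplicative.toAdd (e (e.symm _) j))) = q
    rw [MulEquiv.apply_symm_apply]
    simp only [Pi.mul_apply, Pi.mulSingle_eq_same, Pi.mulSingle_eq_of_ne hij,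
      Pi.mulSingle_eq_of_ne (Ne.symm hij), mul_one, one_mul, toAdd_ofAdd]
    show Multiplicative.ofAdd (ZMod.castHom hpi (ZMod p) x, ZMod.castHom hpj (ZMod p) y) = q
    rw [hx, hy]
    rfl

end Cfsg.Agent.Lib.Helper22
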