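import Mathlib
import Cfsg.Agent.Lib.Helper22.PRegular

/-!
Helper lemmas (helper22): if all centralizers of `p`-regular elements have `p`-power index, then
commutators of `p`-regular elements lie in a normal `p`-subgroup, and the group has an abelian
`p`-complement.  The input on simple groups (Burnside's lemma on classes of prime power size) is
a hypothesis.
-/

namespace Cfsg.Agent.Lib.Helper22

/-- Commutators of `p`-regular elements lie in a normal `p`-subgroup, provided all centralizers of
`p`-regular elements have `p`-power index. -/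
theorem exists_normal_pgroup_commutators.{u} (p : ℕ) (hp : p.Prime)
    (hS : ∀ (Q : Type u) [Group Q] [Finite Q] [IsSimpleGroup Q] (k : ℕ) (g : Q), g ≠ 1 →
      (Subgroup.centralizer ({g} : Set Q)).index = p ^ k → (Nat.card Q).Prime) :
    ∀ (n : ℕ) (G : Type u) [Group G] [Finite G], Nat.card G = n →
      (∀ x : G, (orderOf x).Coprime p →
        ∃ k : ℕ, (Subgroup.centralizer ({x} : Set G)).index = p ^ k) →
      ∃ U : Subgroup G, U.Normal ∧ IsPGroup p U ∧
        ∀ x y : G, (orderOf x).Coprime p → (orderOf y).Coprime p → x * y * x⁻¹ * y⁻¹ ∈ U := by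
  intro n
  induction n using Nat.strong_induction_on with
  | _ n ih =>
    intro G _ _ hn hyp
    haveI : Fact p.Prime := ⟨hp⟩
    by_cases hA : ∃ V : Subgroup G, V.Normal ∧ IsPGroup p V ∧ V ≠ ⊥
    · -- Case A: a non-trivial normal `p`-subgroup
      obtain ⟨V, hVn, hVp, hVne⟩ := hA
      haveI := hVn
      have hVcard : 1 < Nat.card V := by
        rcases Nat.lt_or_ge 1 (Nat.card V) with h | h
        · exact h
        · exfalso
          apply hVne
          apply Subgroup.eq_bot_of_card_eq
          have : 0 < Nat.card V := Nat.card_pos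
          omega
      have hlt : Nat.card (G ⧸ V) < n := by
        have h1 := Subgroup.card_eq_card_quotient_mul_card_subgroup V
        rw [hn] at h1
        have h3 : 0 < Nat.card (G ⧸ V) := Nat.card_pos
        nlinarith
      obtain ⟨Ub, hUbn, hUbp, hUb⟩ := ih _ hlt (G ⧸ V) rfl
        (pow_index_centralizer_quotient hp hyp V)
      haveI := hUbn
      refine ⟨Ub.comap (QuotientGroup.mk' V), inferInstance, ?_, ?_⟩
      · apply hUbp.comap_of_ker_isPGroup
        rw [QuotientGroup.ker_mk']
        exact hVp
      · intro x y hx hy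
        rw [Subgroup.mem_comap]
        have hx' : (orderOf ((QuotientGroup.mk' V) x)).Coprime p :=
          Nat.Coprime.coprime_dvd_left (orderOf_map_dvd _ x) hx
        have hy' : (orderOf ((QuotientGroup.mk' V) y)).Coprime p :=
          Nat.Coprime.coprime_dvd_left (orderOf_map_dvd _ y) hy
        have h1 := hUb _ _ hx' hy'
        rw [map_mul, map_mul, map_mul, map_inv, map_inv]
        exact h1
    · -- Case B: no non-trivial normal `p`-subgroup; all `p`-regular elements commute
      push Not at hA
      refine ⟨⊥, inferInstance, IsPGroup.of_bot, ?_⟩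
      suffices hcomm : ∀ x y : G, (orderOf x).Coprime p → (orderOf y).Coprime p →
          x * y = y * x by
        intro x y hx hy
        rw [Subgroup.mem_bot, hcomm x y hx hy]
        group
      by_cases hG : Nontrivial G
      swap
      · intro x y _ _
        haveI : Subsingleton G := not_nontrivial_iff_subsingleton.mp hG
        exact Subsingleton.elim _ _
      obtain ⟨M, hMn, hMtop, hMsimple⟩ := exists_normal_simple_quotient (G := G)
      haveI := hMn
      haveI := hMsimple
      have hMlt : Nat.card M < n := by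
        have h1 := Subgroup.card_le_card_group M
        have h2 : Nat.card M ≠ Nat.card G := fun h => hMtop ((Subgroup.card_eq_iff_eq_top _).mp h)
        omega
      obtain ⟨UM, hUMn, hUMp, hUM⟩ := ih _ hMlt ↥M rfl (pow_index_centralizer_normal hp hyp M)
      have hconjord : ∀ (g x : G), (orderOf x).Coprime p → (orderOf (g * x * g⁻¹)).Coprime p := by
        intro g x hx
        have h1 : orderOf (g * x * g⁻¹) = orderOf x := (MulAut.conj g).orderOf_eq x
        rw [h1]
        exact hx
      -- B1: the `p`-regular elements of `M` commute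
      have hSconj : ∀ g : G, ∀ s ∈ {c : G | ∃ x y : G, x ∈ M ∧ y ∈ M ∧ (orderOf x).Coprime p ∧
          (orderOf y).Coprime p ∧ c = x * y * x⁻¹ * y⁻¹},
          g * s * g⁻¹ ∈ {c : G | ∃ x y : G, x ∈ M ∧ y ∈ M ∧ (orderOf x).Coprime p ∧
          (orderOf y).Coprime p ∧ c = x * y * x⁻¹ * y⁻¹} := by
        rintro g _ ⟨x, y, hxM, hyM, hx, hy, rfl⟩
        refine ⟨g * x * g⁻¹, g * y * g⁻¹, hMn.conj_mem x hxM g, hMn.conj_mem y hyM g,
          hconjord g x hx, hconjord g y hy, ?_⟩
        group
      have hDn := closure_normal_of_conj_mem _ hSconj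
      have hDle : Subgroup.closure {c : G | ∃ x y : G, x ∈ M ∧ y ∈ M ∧ (orderOf x).Coprime p ∧
          (orderOf y).Coprime p ∧ c = x * y * x⁻¹ * y⁻¹} ≤ UM.map M.subtype := by
        rw [Subgroup.closure_le]
        rintro _ ⟨x, y, hxM, hyM, hx, hy, rfl⟩
        have h1 := hUM ⟨x, hxM⟩ ⟨y, hyM⟩ (by rw [Subgroup.orderOf_mk]; exact hx)
          (by rw [Subgroup.orderOf_mk]; exact hy)
        exact ⟨_, h1, rfl⟩
      have hDp : IsPGroup p (Subgroup.closure {c : G | ∃ x y : G, x ∈ M ∧ y ∈ M ∧
          (orderOf x).Coprime p ∧ (orderOf y).Coprime p ∧ c = x * y * x⁻¹ * y⁻¹}) :=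
        (hUMp.map M.subtype).to_le hDle
      have hD := hA _ hDn hDp
      have hMcomm : ∀ x ∈ M, ∀ y ∈ M, (orderOf x).Coprime p → (orderOf y).Coprime p →
          x * y = y * x := by
        intro x hxM y hyM hx hy
        have h1 : x * y * x⁻¹ * y⁻¹ ∈ Subgroup.closure {c : G | ∃ x y : G, x ∈ M ∧ y ∈ M ∧
            (orderOf x).Coprime p ∧ (orderOf y).Coprime p ∧ c = x * y * x⁻¹ * y⁻¹} :=
          Subgroup.subset_closure ⟨x, y, hxM, hyM, hx, hy, rfl⟩
        rw [hD, Subgroup.mem_bot] at h1
        calc x * y = (x * y * x⁻¹ * y⁻¹) * (y * x) := by group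
          _ = y * x := by rw [h1, one_mul]
      -- B2: the subgroup `K` generated by the `p`-regular elements of `M`
      have hSKconj : ∀ g : G, ∀ s ∈ {x : G | x ∈ M ∧ (orderOf x).Coprime p},
          g * s * g⁻¹ ∈ {x : G | x ∈ M ∧ (orderOf x).Coprime p} := by
        rintro g s ⟨hsM, hs⟩
        exact ⟨hMn.conj_mem s hsM g, hconjord g s hs⟩
      have hSKcomm : ∀ a ∈ {x : G | x ∈ M ∧ (orderOf x).Coprime p},
          ∀ b ∈ {x : G | x ∈ M ∧ (orderOf x).Coprime p}, a * b = b * a :=
        fun a ha b hb => hMcomm a ha.1 b hb.1 ha.2 hb.2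
      obtain ⟨K, hKdef⟩ : ∃ K : Subgroup G,
          K = Subgroup.closure {x : G | x ∈ M ∧ (orderOf x).Coprime p} := ⟨_, rfl⟩
      haveI hKn : K.Normal := by
        rw [hKdef]
        exact closure_normal_of_conj_mem _ hSKconj
      have hKp : ¬ p ∣ Nat.card K := by
        rw [hKdef]
        exact not_dvd_card_closure hp _ hSKcomm (fun a ha => ha.2)
      have hKM : K ≤ M := by
        rw [hKdef]
        exact (Subgroup.closure_le _).mpr (fun a ha => ha.1)
      have hKcomm : ∀ a ∈ K, ∀ b ∈ K, a * b = b * a := by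
        rw [hKdef]
        exact commute_of_mem_closure _ hSKcomm
      have hKmem : ∀ x ∈ M, (orderOf x).Coprime p → x ∈ K := by
        intro x hxM hx
        rw [hKdef]
        exact Subgroup.subset_closure ⟨hxM, hx⟩
      -- B3: `p`-regular elements centralize `K`
      have hcentK : ∀ x : G, (orderOf x).Coprime p →
          x ∈ Subgroup.centralizer (K : Set G) := by
        intro x hx
        obtain ⟨k, hk⟩ := hyp x hx
        rw [Subgroup.mem_centralizer_iff]
        intro t ht
        have h1 := le_of_index_pow_of_not_dvd hp K (Subgroup.centralizer {x}) hKp k hk ht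
        rw [Subgroup.mem_centralizer_iff] at h1
        exact (h1 x rfl).symm
      -- the centralizer of `K` in `M` is `K`
      obtain ⟨X, hXdef⟩ : ∃ X : Subgroup G, X = Subgroup.centralizer (K : Set G) ⊓ M := ⟨_, rfl⟩
      haveI hXn : X.Normal := by
        rw [hXdef]
        infer_instance
      have hXM : X ≤ M := by
        rw [hXdef]
        exact inf_le_right
      have hXcent : ∀ g ∈ X, ∀ t ∈ K, t * g = g * t := by
        intro g hg t ht
        rw [hXdef] at hg
        exact (Subgroup.mem_centralizer_iff.mp hg.1) t ht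
      have hXK : X ≤ K := by
        -- the quotient of `X` by `K` is a `p`-group
        have hcenter : K.subgroupOf X ≤ Subgroup.center ↥X := by
          intro t ht
          rw [Subgroup.mem_center_iff]
          intro g
          apply Subtype.ext
          exact (hXcent g g.2 t (Subgroup.mem_subgroupOf.mp ht)).symm
        have hquot : IsPGroup p (↥X ⧸ K.subgroupOf X) := by
          have h1 : ∀ {r : ℕ}, r.Prime → r ∣ Nat.card (↥X ⧸ K.subgroupOf X) → r = p := by
            intro r hr hrd
            by_contra hrp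
            haveI : Fact r.Prime := ⟨hr⟩
            obtain ⟨z, hz⟩ := exists_prime_orderOf_dvd_card' r hrd
            obtain ⟨g, rfl⟩ := QuotientGroup.mk_surjective z
            have hgr : g ^ r ∈ K.subgroupOf X := by
              rw [← QuotientGroup.eq_one_iff, QuotientGroup.mk_pow, ← hz]
              exact pow_orderOf_eq_one _
            have hgr' : (g : G) ^ r ∈ K := by
              have := Subgroup.mem_subgroupOf.mp hgr
              exact this
            have h2 : ((g : G) ^ r) ^ Nat.card K = 1 := by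
              have h3 : (⟨(g : G) ^ r, hgr'⟩ : K) ^ Nat.card K = 1 := pow_card_eq_one'
              have h4 := congrArg Subtype.val h3
              exact h4
            have h5 : orderOf (g : G) ∣ r * Nat.card K := by
              apply orderOf_dvd_of_pow_eq_one
              rw [pow_mul]
              exact h2
            have h6 : (r * Nat.card K).Coprime p :=
              Nat.Coprime.mul_left ((Nat.coprime_primes hr hp).mpr hrp)
                ((Nat.Prime.coprime_iff_not_dvd hp).mpr hKp).symm
            have h7 : (g : G) ∈ K :=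
              hKmem _ (hXM g.2) (Nat.Coprime.coprime_dvd_left h5 h6)
            have h8 : ((g : ↥X) : ↥X ⧸ K.subgroupOf X) = 1 :=
              (QuotientGroup.eq_one_iff g).mpr (Subgroup.mem_subgroupOf.mpr h7)
            rw [h8, orderOf_one] at hz
            exact hr.one_lt.ne hz
          exact IsPGroup.of_card (n := (Nat.card (↥X ⧸ K.subgroupOf X)).primeFactorsList.length)
            (Nat.eq_prime_pow_of_unique_prime_dvd Nat.card_pos.ne' h1)
        haveI hnilq : Group.IsNilpotent (↥X ⧸ K.subgroupOf X) := hquot.isNilpotent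
        haveI hnil : Group.IsNilpotent ↥X :=
          Subgroup.isNilpotent_of_ker_le_center (QuotientGroup.mk' (K.subgroupOf X))
            (by rw [QuotientGroup.ker_mk']; exact hcenter)
        -- the Sylow `p`-subgroup of `X` is normal in `G`, hence trivial
        have hSyl : ∀ P : Sylow p ↥X, (P : Subgroup ↥X) = ⊥ := by
          intro P
          haveI : (P : Subgroup ↥X).Normal := inferInstance
          haveI : (P : Subgroup ↥X).Characteristic := P.characteristic_of_normal inferInstance
          have h1 : ((P : Subgroup ↥X).map X.subtype).Normal := inferInstance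
          have h2 : IsPGroup p ((P : Subgroup ↥X).map X.subtype) := P.isPGroup'.map _
          have h3 := hA _ h1 h2
          exact (Subgroup.map_eq_bot_iff_of_injective _ X.subtype_injective).mp h3
        have hpX : ¬ p ∣ Nat.card X := by
          intro hdvd
          exact (Classical.arbitrary (Sylow p ↥X)).ne_bot_of_dvd_card hdvd (hSyl _)
        intro g hg
        apply hKmem g (hXM hg)
        have h1 : orderOf g ∣ Nat.card X := by
          have h2 : orderOf (⟨g, hg⟩ : ↥X) ∣ Nat.card X := orderOf_dvd_natCard _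
          rw [Subgroup.orderOf_mk] at h2
          exact h2
        exact Nat.Coprime.coprime_dvd_left h1 ((Nat.Prime.coprime_iff_not_dvd hp).mpr hpX).symm
      -- commutators of `p`-regular elements lie in `K`
      have hcK : ∀ x y : G, (orderOf x).Coprime p → (orderOf y).Coprime p →
          x * y * x⁻¹ * y⁻¹ ∈ K := by
        intro x y hx hy
        apply hXK
        rw [hXdef]
        refine ⟨?_, ?_⟩
        · have hxc := hcentK x hx
          have hyc := hcentK y hy
          exact Subgroup.mul_mem _ (Subgroup.mul_mem _ (Subgroup.mul_mem _ hxc hyc)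
            (Subgroup.inv_mem _ hxc)) (Subgroup.inv_mem _ hyc)
        · show x * y * x⁻¹ * y⁻¹ ∈ M
          by_cases hxM : x ∈ M
          · have h1 : y * x⁻¹ * y⁻¹ ∈ M := hMn.conj_mem _ (M.inv_mem hxM) y
            have e : x * y * x⁻¹ * y⁻¹ = x * (y * x⁻¹ * y⁻¹) := by group
            rw [e]
            exact M.mul_mem hxM h1
          · have hx' : (orderOf ((x : G) : G ⧸ M)).Coprime p :=
              Nat.Coprime.coprime_dvd_left (orderOf_map_dvd (QuotientGroup.mk' M) x) hx
            obtain ⟨k, hk⟩ := pow_index_centralizer_quotient hp hyp M _ hx'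
            have hx1 : ((x : G) : G ⧸ M) ≠ 1 := by
              rw [Ne, QuotientGroup.eq_one_iff]
              exact hxM
            have hprime := hS (G ⧸ M) k _ hx1 hk
            haveI : Fact (Nat.card (G ⧸ M)).Prime := ⟨hprime⟩
            have hcyc : IsCyclic (G ⧸ M) := isCyclic_of_prime_card rfl
            haveI := hcyc.isMulCommutative
            have hcm : ((x : G) : G ⧸ M) * ((y : G) : G ⧸ M)
                = ((y : G) : G ⧸ M) * ((x : G) : G ⧸ M) := mul_comm' _ _
            rw [← QuotientGroup.eq_one_iff, QuotientGroup.mk_mul, QuotientGroup.mk_mul,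
              QuotientGroup.mk_mul, QuotientGroup.mk_inv, QuotientGroup.mk_inv, hcm]
            group
      -- the subgroup generated by all `p`-regular elements has order prime to `p`
      have hTconj : ∀ g : G, ∀ s ∈ {x : G | (orderOf x).Coprime p},
          g * s * g⁻¹ ∈ {x : G | (orderOf x).Coprime p} := fun g s hs => hconjord g s hs
      haveI hTn := closure_normal_of_conj_mem _ hTconj
      have hTp : ¬ p ∣ Nat.card (Subgroup.closure {x : G | (orderOf x).Coprime p}) := by
        intro hdvd
        obtain ⟨t, ht⟩ := exists_prime_orderOf_dvd_card' p hdvd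
        -- the image of `T` in `G ⧸ K`
        have himg : ∀ a ∈ (QuotientGroup.mk' K) '' {x : G | (orderOf x).Coprime p},
            ∀ b ∈ (QuotientGroup.mk' K) '' {x : G | (orderOf x).Coprime p}, a * b = b * a := by
          rintro _ ⟨x, hx, rfl⟩ _ ⟨y, hy, rfl⟩
          have h1 := hcK x y hx hy
          have h2 : (QuotientGroup.mk' K) (x * y * x⁻¹ * y⁻¹) = 1 :=
            (QuotientGroup.eq_one_iff _).mpr h1
          rw [map_mul, map_mul, map_mul, map_inv, map_inv] at h2
          calc (QuotientGroup.mk' K) x * (QuotientGroup.mk' K) y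
              = ((QuotientGroup.mk' K) x * (QuotientGroup.mk' K) y * ((QuotientGroup.mk' K) x)⁻¹
                  * ((QuotientGroup.mk' K) y)⁻¹)
                * ((QuotientGroup.mk' K) y * (QuotientGroup.mk' K) x) := by group
            _ = _ := by rw [h2, one_mul]
        have himgord : ∀ a ∈ (QuotientGroup.mk' K) '' {x : G | (orderOf x).Coprime p},
            (orderOf a).Coprime p := by
          rintro _ ⟨x, hx, rfl⟩
          exact Nat.Coprime.coprime_dvd_left (orderOf_map_dvd _ x) hx
        have h1 : (QuotientGroup.mk' K) (t : G)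
            ∈ Subgroup.closure ((QuotientGroup.mk' K) '' {x : G | (orderOf x).Coprime p}) := by
          rw [← MonoidHom.map_closure]
          exact ⟨_, t.2, rfl⟩
        have h2 := coprime_orderOf_of_mem_closure p _ himg himgord _ h1
        have h3 : orderOf ((QuotientGroup.mk' K) (t : G)) ∣ p := by
          have h4 := orderOf_map_dvd (QuotientGroup.mk' K) (t : G)
          rw [Subgroup.orderOf_coe, ht] at h4
          exact h4
        have h5 : orderOf ((QuotientGroup.mk' K) (t : G)) = 1 :=
          Nat.Coprime.eq_one_of_dvd h2 h3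
        have h6 : (t : G) ∈ K := by
          rw [orderOf_eq_one_iff] at h5
          exact (QuotientGroup.eq_one_iff _).mp h5
        have h7 : orderOf (⟨(t : G), h6⟩ : K) ∣ Nat.card K := orderOf_dvd_natCard _
        rw [Subgroup.orderOf_mk, Subgroup.orderOf_coe, ht] at h7
        exact hKp h7
      intro x y hx hy
      obtain ⟨k, hk⟩ := hyp x hx
      have h1 := le_of_index_pow_of_not_dvd hp _ (Subgroup.centralizer {x}) hTp k hk
        (Subgroup.subset_closure (show y ∈ {x : G | (orderOf x).Coprime p} from hy))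
      rw [Subgroup.mem_centralizer_iff] at h1
      exact h1 x rfl

/-- From commutators of `p`-regular elements in a normal `p`-subgroup to an abelian
`p`-complement. -/
theorem exists_abelian_complement_of_commutators {G : Type*} [Group G] [Finite G] {p : ℕ}
    (hp : p.Prime) (U : Subgroup G) [U.Normal] (hU : IsPGroup p U)
    (hc : ∀ x y : G, (orderOf x).Coprime p → (orderOf y).Coprime p → x * y * x⁻¹ * y⁻¹ ∈ U) :
    ∃ H : Subgroup G, (∀ a ∈ H, ∀ b ∈ H, a * b = b * a) ∧ ¬ p ∣ Nat.card H ∧
      ∃ k : ℕ, H.index = p ^ k := by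
  haveI : Fact p.Prime := ⟨hp⟩
  -- the subgroup of `G ⧸ U` generated by the `p`-regular elements
  have hSconj : ∀ g : G ⧸ U, ∀ s ∈ {z : G ⧸ U | (orderOf z).Coprime p},
      g * s * g⁻¹ ∈ {z : G ⧸ U | (orderOf z).Coprime p} := by
    intro g s hs
    show (orderOf (g * s * g⁻¹)).Coprime p
    have h1 : orderOf (g * s * g⁻¹) = orderOf s := (MulAut.conj g).orderOf_eq s
    rw [h1]
    exact hs
  have hScomm : ∀ a ∈ {z : G ⧸ U | (orderOf z).Coprime p},
      ∀ b ∈ {z : G ⧸ U | (orderOf z).Coprime p}, a * b = b * a := by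
    intro a ha b hb
    obtain ⟨x, rfl, hx⟩ := exists_lift_coprime hp U a ha
    obtain ⟨y, rfl, hy⟩ := exists_lift_coprime hp U b hb
    have h1 := hc x y hx hy
    have h2 : ((x * y * x⁻¹ * y⁻¹ : G) : G ⧸ U) = 1 := (QuotientGroup.eq_one_iff _).mpr h1
    rw [QuotientGroup.mk_mul, QuotientGroup.mk_mul, QuotientGroup.mk_mul, QuotientGroup.mk_inv,
      QuotientGroup.mk_inv] at h2
    calc (x : G ⧸ U) * (y : G ⧸ U)
        = ((x : G ⧸ U) * (y : G ⧸ U) * (x : G ⧸ U)⁻¹ * (y : G ⧸ U)⁻¹)
          * ((y : G ⧸ U) * (x : G ⧸ U)) := by group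
      _ = _ := by rw [h2, one_mul]
  obtain ⟨A, hAdef⟩ : ∃ A : Subgroup (G ⧸ U),
      A = Subgroup.closure {z : G ⧸ U | (orderOf z).Coprime p} := ⟨_, rfl⟩
  haveI hAn : A.Normal := by
    rw [hAdef]
    exact closure_normal_of_conj_mem _ hSconj
  have hAcomm : ∀ a ∈ A, ∀ b ∈ A, a * b = b * a := by
    rw [hAdef]
    exact commute_of_mem_closure _ hScomm
  have hAord : ∀ a ∈ A, (orderOf a).Coprime p := by
    rw [hAdef]
    exact coprime_orderOf_of_mem_closure p _ hScomm (fun a ha => ha)
  have hAmem : ∀ z : G ⧸ U, (orderOf z).Coprime p → z ∈ A := by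
    intro z hz
    rw [hAdef]
    exact Subgroup.subset_closure hz
  -- the index of `A` is a power of `p`
  have hAidx : ∃ b : ℕ, A.index = p ^ b := by
    have h1 : ∀ {r : ℕ}, r.Prime → r ∣ A.index → r = p := by
      intro r hr hrd
      by_contra hrp
      haveI : Fact r.Prime := ⟨hr⟩
      have hrd' : r ∣ Nat.card ((G ⧸ U) ⧸ A) := hrd
      obtain ⟨z, hz⟩ := exists_prime_orderOf_dvd_card' r hrd'
      have hzc : (orderOf z).Coprime p := by
        rw [hz]
        exact (Nat.coprime_primes hr hp).mpr hrp
      obtain ⟨w, rfl, hw⟩ := exists_lift_coprime hp A z hzc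
      have h2 : ((w : G ⧸ U) : (G ⧸ U) ⧸ A) = 1 := (QuotientGroup.eq_one_iff w).mpr (hAmem w hw)
      rw [h2, orderOf_one] at hz
      exact hr.one_lt.ne hz
    exact ⟨_, Nat.eq_prime_pow_of_unique_prime_dvd Subgroup.index_ne_zero_of_finite h1⟩
  obtain ⟨b, hb⟩ := hAidx
  -- the preimage `L` of `A`
  obtain ⟨L, hLdef⟩ : ∃ L : Subgroup G, L = A.comap (QuotientGroup.mk' U) := ⟨_, rfl⟩
  have hUL : U ≤ L := by
    rw [hLdef]
    intro u hu
    rw [Subgroup.mem_comap]
    have h1 : (QuotientGroup.mk' U) u = 1 := (QuotientGroup.eq_one_iff u).mpr hu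
    rw [h1]
    exact A.one_mem
  have hLidx : L.index = p ^ b := by
    rw [hLdef, Subgroup.index_comap_of_surjective _ (QuotientGroup.mk'_surjective U), hb]
  have hLmem : ∀ l : ↥L, ((l : G) : G ⧸ U) ∈ A := by
    intro l
    have h1 : (l : G) ∈ A.comap (QuotientGroup.mk' U) := by
      rw [← hLdef]
      exact l.2
    exact h1
  obtain ⟨a, ha⟩ := IsPGroup.iff_card.mp hU
  have hNcard : Nat.card (U.subgroupOf L) = p ^ a := by
    rw [Nat.card_congr (Subgroup.subgroupOfEquivOfLe hUL).toEquiv, ha]
  have hNidx : ¬ p ∣ (U.subgroupOf L).index := by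
    intro hdvd
    have hdvd' : p ∣ Nat.card (↥L ⧸ U.subgroupOf L) := hdvd
    obtain ⟨z, hz⟩ := exists_prime_orderOf_dvd_card' p hdvd'
    obtain ⟨l, rfl⟩ := QuotientGroup.mk_surjective z
    have hlp : l ^ p ∈ U.subgroupOf L := by
      rw [← QuotientGroup.eq_one_iff, QuotientGroup.mk_pow, ← hz]
      exact pow_orderOf_eq_one _
    have hlU : (l : G) ∉ U := by
      intro h
      have h1 : ((l : ↥L) : ↥L ⧸ U.subgroupOf L) = 1 :=
        (QuotientGroup.eq_one_iff l).mpr (Subgroup.mem_subgroupOf.mpr h)
      rw [h1, orderOf_one] at hz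
      exact hp.one_lt.ne hz
    have h1 : (((l : G) : G ⧸ U)) ^ p = 1 := by
      rw [← QuotientGroup.mk_pow, QuotientGroup.eq_one_iff]
      exact Subgroup.mem_subgroupOf.mp hlp
    have h2 : ((l : G) : G ⧸ U) ≠ 1 := by
      rw [Ne, QuotientGroup.eq_one_iff]
      exact hlU
    have h3 : orderOf ((l : G) : G ⧸ U) = p := orderOf_eq_prime h1 h2
    have h4 := hAord _ (hLmem l)
    rw [h3, Nat.coprime_self] at h4
    exact hp.one_lt.ne' h4
  have hcop : (Nat.card (U.subgroupOf L)).Coprime (U.subgroupOf L).index := by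
    rw [hNcard]
    exact Nat.Coprime.pow_left a ((Nat.Prime.coprime_iff_not_dvd hp).mpr hNidx)
  obtain ⟨H', hH'⟩ := Subgroup.exists_right_complement'_of_coprime hcop
  have hcard := hH'.card_mul_card
  have hH'card : Nat.card H' = (U.subgroupOf L).index := by
    have h1 := Subgroup.card_mul_index (U.subgroupOf L)
    exact Nat.eq_of_mul_eq_mul_left Nat.card_pos (hcard.trans h1.symm)
  have hH'idx : H'.index = p ^ a := by
    have h1 := Subgroup.card_mul_index H'
    have h2 : Nat.card H' * H'.index = Nat.card H' * Nat.card (U.subgroupOf L) := by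
      rw [h1, ← hcard, mul_comm]
    rw [← hNcard]
    exact Nat.eq_of_mul_eq_mul_left Nat.card_pos h2
  refine ⟨H'.map L.subtype, ?_, ?_, ⟨a + b, ?_⟩⟩
  · rintro _ ⟨a', ha', rfl⟩ _ ⟨b', hb', rfl⟩
    have h1 : a' * b' * a'⁻¹ * b'⁻¹ ∈ H' :=
      H'.mul_mem (H'.mul_mem (H'.mul_mem ha' hb') (H'.inv_mem ha')) (H'.inv_mem hb')
    have h2 : a' * b' * a'⁻¹ * b'⁻¹ ∈ U.subgroupOf L := by
      rw [Subgroup.mem_subgroupOf, ← QuotientGroup.eq_one_iff]
      have e : (((a' * b' * a'⁻¹ * b'⁻¹ : ↥L) : G) : G ⧸ U)
          = ((a' : G) : G ⧸ U) * ((b' : G) : G ⧸ U) * ((a' : G) : G ⧸ U)⁻¹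
            * ((b' : G) : G ⧸ U)⁻¹ := rfl
      rw [e, hAcomm _ (hLmem a') _ (hLmem b')]
      group
    have h3 := (Subgroup.disjoint_def.mp hH'.disjoint) h2 h1
    show L.subtype a' * L.subtype b' = L.subtype b' * L.subtype a'
    rw [← map_mul, ← map_mul]
    congr 1
    calc a' * b' = (a' * b' * a'⁻¹ * b'⁻¹) * (b' * a') := by group
      _ = b' * a' := by rw [h3, one_mul]
  · rw [Subgroup.card_subtype, hH'card]
    exact hNidx
  · rw [Subgroup.index_map_subtype, hH'idx, hLidx, pow_add]

end Cfsg.Agent.Lib.Helper22
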