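import Mathlib
import Cfsg.Agent.Lib.Helper1.SZ
import Cfsg.Agent.Lib.Helper22.SameOrder1

set_option autoImplicit false

open Pointwise

namespace Cfsg.Agent.Lib.Helper22.SO

open Cfsg.Agent.Lib.Helper1

universe u

/-- Conjugacy of equal-order `q`-subgroups passes to the quotient by a normal `p`-subgroup. -/
theorem pconj_quotient {G : Type*} [Group G] [Finite G] (N : Subgroup G) [N.Normal] (p : ℕ)
    (hp : p.Prime) (hN : IsPGroup p N)
    (hD : ∀ q : ℕ, q.Prime → ∀ H K : Subgroup G, IsPGroup q H → IsPGroup q K →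
      Nat.card H = Nat.card K → ∃ g : G, K = H.map (MulAut.conj g).toMonoidHom) :
    ∀ q : ℕ, q.Prime → ∀ H K : Subgroup (G ⧸ N), IsPGroup q H → IsPGroup q K →
      Nat.card H = Nat.card K → ∃ g : G ⧸ N, K = H.map (MulAut.conj g).toMonoidHom := by
  intro q hq U V hU hV hcard
  haveI := Fact.mk hq
  haveI := Fact.mk hp
  have hπ : Function.Surjective (QuotientGroup.mk' N) := QuotientGroup.mk'_surjective N
  by_cases hqp : q = p
  · subst hqp
    have hker : IsPGroup q (QuotientGroup.mk' N).ker := by
      rw [QuotientGroup.ker_mk']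
      exact hN
    have hU' : IsPGroup q (U.comap (QuotientGroup.mk' N)) := hU.comap_of_ker_isPGroup _ hker
    have hV' : IsPGroup q (V.comap (QuotientGroup.mk' N)) := hV.comap_of_ker_isPGroup _ hker
    have hidx : U.index = V.index := by
      have a1 := Subgroup.card_mul_index U
      have a2 := Subgroup.card_mul_index V
      rw [hcard, ← a2] at a1
      exact Nat.eq_of_mul_eq_mul_left Nat.card_pos a1
    have hidx' : (U.comap (QuotientGroup.mk' N)).index = (V.comap (QuotientGroup.mk' N)).index := by
      rw [Subgroup.index_comap_of_surjective _ hπ, Subgroup.index_comap_of_surjective _ hπ, hidx]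
    have hcard' : Nat.card (U.comap (QuotientGroup.mk' N)) =
        Nat.card (V.comap (QuotientGroup.mk' N)) := by
      have b1 := Subgroup.card_mul_index (U.comap (QuotientGroup.mk' N))
      have b2 := Subgroup.card_mul_index (V.comap (QuotientGroup.mk' N))
      rw [hidx', ← b2] at b1
      exact Nat.eq_of_mul_eq_mul_right (Nat.pos_of_ne_zero Subgroup.index_ne_zero_of_finite) b1
    obtain ⟨g, hg⟩ := hD q hq _ _ hU' hV' hcard'
    refine ⟨QuotientGroup.mk' N g, ?_⟩
    have h1 := congrArg (Subgroup.map (QuotientGroup.mk' N)) hg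
    rw [Subgroup.map_comap_eq_self_of_surjective hπ, map_conjMap,
      Subgroup.map_comap_eq_self_of_surjective hπ] at h1
    exact h1
  · -- lift to `q`-subgroups of `G`
    have hlift : ∀ W : Subgroup (G ⧸ N), IsPGroup q W →
        ∃ W₀ : Subgroup G, IsPGroup q W₀ ∧ W₀.map (QuotientGroup.mk' N) = W ∧
          Nat.card W₀ = Nat.card W := by
      intro W hW
      obtain ⟨P, hWP⟩ := hW.exists_le_sylow
      obtain ⟨Q, rfl⟩ := Sylow.mapSurjective_surjective hπ q P
      have hWQ : W ≤ (Q : Subgroup G).map (QuotientGroup.mk' N) := hWP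
      have hW₀q : IsPGroup q ↥((Q : Subgroup G) ⊓ W.comap (QuotientGroup.mk' N)) :=
        Q.isPGroup'.to_le inf_le_left
      have hmap : ((Q : Subgroup G) ⊓ W.comap (QuotientGroup.mk' N)).map (QuotientGroup.mk' N) = W := by
        apply le_antisymm
        · rintro _ ⟨x, hx, rfl⟩
          exact hx.2
        · intro w hw
          obtain ⟨s, hs, rfl⟩ := hWQ hw
          exact ⟨s, ⟨hs, hw⟩, rfl⟩
      refine ⟨(Q : Subgroup G) ⊓ W.comap (QuotientGroup.mk' N), hW₀q, hmap, ?_⟩
      have hdisj : ((Q : Subgroup G) ⊓ W.comap (QuotientGroup.mk' N)) ⊓ N = ⊥ :=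
        disjoint_iff.mp (IsPGroup.disjoint_of_ne q p hqp _ _ hW₀q hN)
      have hbij : Function.Bijective ((QuotientGroup.mk' N).subgroupMap
          ((Q : Subgroup G) ⊓ W.comap (QuotientGroup.mk' N))) := by
        refine ⟨?_, MonoidHom.subgroupMap_surjective _ _⟩
        intro a b hab
        have h1 : QuotientGroup.mk' N (a : G) = QuotientGroup.mk' N (b : G) :=
          congrArg Subtype.val hab
        have h2 : (a : G)⁻¹ * (b : G) ∈ N := QuotientGroup.eq.mp h1
        have h3 : (a : G)⁻¹ * (b : G) ∈
            ((Q : Subgroup G) ⊓ W.comap (QuotientGroup.mk' N)) ⊓ N :=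
          ⟨Subgroup.mul_mem _ (Subgroup.inv_mem _ a.2) b.2, h2⟩
        rw [hdisj, Subgroup.mem_bot, inv_mul_eq_one] at h3
        exact Subtype.ext h3
      have h4 := Nat.card_congr (Equiv.ofBijective _ hbij)
      rw [h4, hmap]
    obtain ⟨U₀, hU₀q, hU₀map, hU₀card⟩ := hlift U hU
    obtain ⟨V₀, hV₀q, hV₀map, hV₀card⟩ := hlift V hV
    obtain ⟨g, hg⟩ := hD q hq U₀ V₀ hU₀q hV₀q (by rw [hU₀card, hV₀card, hcard])
    refine ⟨QuotientGroup.mk' N g, ?_⟩
    rw [← hV₀map, hg, map_conjMap, hU₀map]

/-- Main induction: in a finite solvable group in which equal-order `p`-subgroups are conjugate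
for every prime `p` and the Sylow subgroups are cyclic with at most one exception, any two
subgroups of the same order are conjugate. -/
theorem same_order_conj : ∀ (n : ℕ) (G : Type u) [Group G] [Finite G] [Group.IsSolvable G],
    Nat.card G ≤ n →
    (∀ p : ℕ, p.Prime → ∀ H K : Subgroup G, IsPGroup p H → IsPGroup p K →
      Nat.card H = Nat.card K → ∃ g : G, K = H.map (MulAut.conj g).toMonoidHom) →
    ∀ r : ℕ, (∀ p : ℕ, p.Prime → p ≠ r → ∀ P : Sylow p G, IsCyclic P) →
    ∀ H K : Subgroup G, Nat.card H = Nat.card K →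
      ∃ g : G, K = H.map (MulAut.conj g).toMonoidHom := by
  intro n
  induction n with
  | zero =>
    intro G _ _ _ hn
    have := Nat.card_pos (α := G)
    omega
  | succ n ih =>
    intro G _ _ _ hn hD r hcyc H K hHK
    classical
    by_cases htriv : Subsingleton G
    · refine ⟨1, ?_⟩
      rw [conjMap_one]
      ext x
      rw [Subsingleton.elim x 1]
      exact ⟨fun _ => H.one_mem, fun _ => K.one_mem⟩
    haveI : Nontrivial G := not_subsingleton_iff_nontrivial.mp htriv
    obtain ⟨p, hp, N, hNn, hNne, hNexp, hNcomm⟩ := exists_normal_elemAb G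
    haveI := hNn
    haveI := Fact.mk hp
    have hNp : IsPGroup p N := by
      intro x
      refine ⟨1, ?_⟩
      rw [pow_one]
      exact Subtype.ext (by rw [Subgroup.coe_pow]; exact hNexp x x.2)
    have hnormtop : ∀ L : Subgroup G, L ≤ Subgroup.normalizer (N : Set G) := by
      intro L x _
      rw [Subgroup.normalizer_eq_top_iff.mpr hNn]
      exact Subgroup.mem_top x
    -- every element of order dividing `p` lies in `N`
    have hF1 : ∀ x : G, x ^ p = 1 → x ∈ N := by
      intro x hx
      by_cases hx1 : x = 1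
      · rw [hx1]
        exact N.one_mem
      obtain ⟨y, hyN, hy1⟩ : ∃ y ∈ N, y ≠ 1 := by
        by_contra hcon
        apply hNne
        rw [eq_bot_iff]
        intro y hy
        rw [Subgroup.mem_bot]
        by_contra h
        exact hcon ⟨y, hy, h⟩
      have hox : orderOf x = p := orderOf_eq_prime hx hx1
      have hoy : orderOf y = p := orderOf_eq_prime (hNexp y hyN) hy1
      have h1 : IsPGroup p (Subgroup.zpowers x) :=
        IsPGroup.of_card (n := 1) (by rw [Nat.card_zpowers, hox, pow_one])
      have h2 : IsPGroup p (Subgroup.zpowers y) :=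
        IsPGroup.of_card (n := 1) (by rw [Nat.card_zpowers, hoy, pow_one])
      obtain ⟨g, hg⟩ := hD p hp (Subgroup.zpowers y) (Subgroup.zpowers x) h2 h1
        (by rw [Nat.card_zpowers, Nat.card_zpowers, hox, hoy])
      have h3 : x ∈ (Subgroup.zpowers y).map (MulAut.conj g).toMonoidHom :=
        hg ▸ Subgroup.mem_zpowers x
      rw [mem_conjMap] at h3
      have h4 : g⁻¹ * x * g ∈ N := (Subgroup.zpowers_le.mpr hyN) h3
      have h5 := hNn.conj_mem _ h4 g
      have h6 : g * (g⁻¹ * x * g) * g⁻¹ = x := by group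
      rwa [h6] at h5
    by_cases hcard : Nat.card N = p
    · -- Case A: `N` is the unique subgroup of order `p`
      have hNle : ∀ L : Subgroup G, p ∣ Nat.card L → N ≤ L := by
        intro L hL
        obtain ⟨x, hx⟩ := exists_prime_orderOf_dvd_card' (G := L) p hL
        have hxp : (x : G) ^ p = 1 := by
          rw [← Subgroup.coe_pow, ← hx, pow_orderOf_eq_one]
          rfl
        have hxN : (x : G) ∈ N := hF1 x hxp
        have hox : orderOf (x : G) = p := by
          rw [Subgroup.orderOf_coe]
          exact hx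
        have h1 : Subgroup.zpowers (x : G) = N := by
          apply Subgroup.eq_of_le_of_card_ge (Subgroup.zpowers_le.mpr hxN)
          rw [Nat.card_zpowers, hox, hcard]
        rw [← h1]
        exact Subgroup.zpowers_le.mpr x.2
      have hinf : ∀ L : Subgroup G, ¬ p ∣ Nat.card L → L ⊓ N = ⊥ := by
        intro L hL
        have h1 : Nat.card ↥(L ⊓ N) ∣ Nat.card L := Subgroup.card_dvd_of_le inf_le_left
        have h2 : Nat.card ↥(L ⊓ N) ∣ p := hcard ▸ Subgroup.card_dvd_of_le inf_le_right
        have h3 : Nat.card ↥(L ⊓ N) = 1 := by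
          rcases (Nat.dvd_prime hp).mp h2 with h | h
          · exact h
          · exact absurd (h ▸ h1) hL
        exact Subgroup.card_eq_one.mp h3
      have hπ : Function.Surjective (QuotientGroup.mk' N) := QuotientGroup.mk'_surjective N
      have hlt : Nat.card (G ⧸ N) ≤ n := by
        have h1 : Nat.card (G ⧸ N) * Nat.card N = Nat.card G := by
          rw [← Subgroup.index_eq_card N]
          exact Subgroup.index_mul_card N
        rw [hcard] at h1
        have h2 : 2 ≤ p := hp.two_le
        have h3 : 0 < Nat.card (G ⧸ N) := Nat.card_pos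
        nlinarith
      have hDq := pconj_quotient N p hp hNp hD
      have hcq : ∀ q : ℕ, q.Prime → q ≠ r → ∀ P : Sylow q (G ⧸ N), IsCyclic P :=
        fun q hq hqr => sylow_cyclic_quotient N q hq (hcyc q hq hqr)
      have hIH := ih (G ⧸ N) hlt hDq r hcq
      have hinfcard : Nat.card ↥(H ⊓ N) = Nat.card ↥(K ⊓ N) := by
        by_cases hpH : p ∣ Nat.card H
        · have h1 := hNle H hpH
          have h2 := hNle K (hHK ▸ hpH)
          rw [inf_eq_right.mpr h1, inf_eq_right.mpr h2]
        · rw [hinf H hpH, hinf K (hHK ▸ hpH)]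
      have hsupcard : Nat.card ↥(H ⊔ N) = Nat.card ↥(K ⊔ N) := by
        have h1 := card_sup_mul_card_inf H N
        have h2 := card_sup_mul_card_inf K N
        rw [hinfcard, hHK, ← h2] at h1
        exact Nat.eq_of_mul_eq_mul_right Nat.card_pos h1
      have hmapcard : Nat.card (H.map (QuotientGroup.mk' N)) =
          Nat.card (K.map (QuotientGroup.mk' N)) := by
        have e1 : ∀ L : Subgroup G, (L.map (QuotientGroup.mk' N)).index = (L ⊔ N).index := by
          intro L
          rw [Subgroup.index_map, MonoidHom.range_eq_top.mpr hπ, Subgroup.index_top, mul_one,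
            QuotientGroup.ker_mk']
        have e2 : (H ⊔ N).index = (K ⊔ N).index := by
          have a1 := Subgroup.card_mul_index (H ⊔ N)
          have a2 := Subgroup.card_mul_index (K ⊔ N)
          rw [hsupcard, ← a2] at a1
          exact Nat.eq_of_mul_eq_mul_left Nat.card_pos a1
        have e3 : (H.map (QuotientGroup.mk' N)).index = (K.map (QuotientGroup.mk' N)).index := by
          rw [e1, e1, e2]
        have b1 := Subgroup.card_mul_index (H.map (QuotientGroup.mk' N))
        have b2 := Subgroup.card_mul_index (K.map (QuotientGroup.mk' N))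
        rw [e3, ← b2] at b1
        exact Nat.eq_of_mul_eq_mul_right (Nat.pos_of_ne_zero Subgroup.index_ne_zero_of_finite) b1
      obtain ⟨gbar, hgbar⟩ := hIH (H.map (QuotientGroup.mk' N)) (K.map (QuotientGroup.mk' N)) hmapcard
      obtain ⟨g, rfl⟩ := hπ gbar
      obtain ⟨H', hH'⟩ : ∃ H' : Subgroup G, H' = H.map (MulAut.conj g).toMonoidHom := ⟨_, rfl⟩
      have hH'map : K.map (QuotientGroup.mk' N) = H'.map (QuotientGroup.mk' N) := by
        rw [hgbar, hH', map_conjMap]
      have hsup : K ⊔ N = H' ⊔ N := by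
        have h1 := congrArg (Subgroup.comap (QuotientGroup.mk' N)) hH'map
        rwa [Subgroup.comap_map_eq, Subgroup.comap_map_eq, QuotientGroup.ker_mk'] at h1
      have hH'card : Nat.card H' = Nat.card K := by
        rw [hH', card_conjMap, hHK]
      by_cases hpH : p ∣ Nat.card H
      · have h1 : N ≤ H' := hNle H' (by rw [hH'card, ← hHK]; exact hpH)
        have h2 : N ≤ K := hNle K (hHK ▸ hpH)
        refine ⟨g, ?_⟩
        rw [← hH', ← sup_eq_left.mpr h2, hsup, sup_eq_left.mpr h1]
      · have hcop : (Nat.card H').Coprime (Nat.card N) := by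
          rw [hH'card, ← hHK, hcard]
          exact ((Nat.Prime.coprime_iff_not_dvd hp).mpr hpH).symm
        have hKle : K ≤ N ⊔ H' := by
          rw [sup_comm, ← hsup]
          exact le_sup_left
        obtain ⟨k, -, hk⟩ := sz_conj_rel H' N (hnormtop H') hcop (Or.inl inferInstance) K hKle
          hH'card.symm
        refine ⟨k * g, ?_⟩
        rw [← hk, smul_eq_conjMap, hH', conjMap_conjMap]
    · -- Case B: `N` is the normal Sylow `p`-subgroup
      obtain ⟨k, hk⟩ := (IsPGroup.iff_card).mp hNp
      have hk2 : 2 ≤ k := by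
        rcases k with _ | _ | k
        · exfalso
          apply hNne
          exact Subgroup.card_eq_one.mp (by rw [hk, pow_zero])
        · exfalso
          exact hcard (by rw [hk, pow_one])
        · omega
      obtain ⟨V', hV'⟩ := Sylow.exists_subgroup_card_pow_prime p (G := N) (n := 2)
        (by rw [hk]; exact pow_dvd_pow p hk2)
      obtain ⟨V, hVdef⟩ : ∃ V : Subgroup G, V = V'.map N.subtype := ⟨_, rfl⟩
      have hVcard : Nat.card V = p ^ 2 := by
        rw [hVdef, Subgroup.card_map_of_injective N.subtype_injective, hV']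
      have hVN : V ≤ N := by
        rw [hVdef]
        rintro _ ⟨v, -, rfl⟩
        exact v.2
      have hno : ∀ y : G, orderOf y ≠ p ^ 2 := by
        intro y hy
        have h1 : IsPGroup p (Subgroup.zpowers y) :=
          IsPGroup.of_card (n := 2) (by rw [Nat.card_zpowers, hy])
        have h2 : IsPGroup p V := IsPGroup.of_card hVcard
        obtain ⟨g, hg⟩ := hD p hp V (Subgroup.zpowers y) h2 h1
          (by rw [Nat.card_zpowers, hy, hVcard])
        have h3 : y ∈ V.map (MulAut.conj g).toMonoidHom := hg ▸ Subgroup.mem_zpowers y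
        rw [mem_conjMap] at h3
        have h4 : (g⁻¹ * y * g) ^ p = 1 := hNexp _ (hVN h3)
        have h5 : y ^ p = 1 := by
          have h6 : (g⁻¹ * y * g) ^ p = g⁻¹ * y ^ p * g := by
            have h7 := conj_pow (a := g⁻¹) (b := y) (i := p)
            rw [inv_inv] at h7
            exact h7
          rw [h6] at h4
          have h8 : y ^ p = g * (g⁻¹ * y ^ p * g) * g⁻¹ := by group
          rw [h8, h4]
          group
        have h6 : orderOf y ∣ p := orderOf_dvd_of_pow_eq_one h5
        rw [hy] at h6
        have h7 := Nat.le_of_dvd hp.pos h6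
        nlinarith [hp.two_le]
      have hpel : ∀ x : G, (∃ j : ℕ, x ^ p ^ j = 1) → x ∈ N := by
        rintro x ⟨j, hj⟩
        obtain ⟨i, -, hox⟩ := (Nat.dvd_prime_pow hp).mp (orderOf_dvd_of_pow_eq_one hj)
        apply hF1
        rcases i with _ | _ | i
        · rw [pow_zero] at hox
          rw [orderOf_eq_one_iff.mp hox, one_pow]
        · rw [pow_one] at hox
          rw [← hox, pow_orderOf_eq_one]
        · exfalso
          apply hno (x ^ p ^ i)
          have hexp : p ^ (i + 1 + 1) = p ^ i * p ^ 2 := by ring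
          rw [orderOf_pow_of_dvd (pow_pos hp.pos i).ne' (by rw [hox]; exact pow_dvd_pow p (by omega)),
            hox, hexp, Nat.mul_div_cancel_left _ (pow_pos hp.pos i)]
      have hpsub : ∀ U : Subgroup G, IsPGroup p U → U ≤ N := by
        intro U hU x hx
        obtain ⟨j, hj⟩ := hU ⟨x, hx⟩
        exact hpel x ⟨j, congrArg Subtype.val hj⟩
      have hidx : (N.index).Coprime p := by
        obtain ⟨P⟩ := (inferInstance : Nonempty (Sylow p G))
        have h1 : (P : Subgroup G) ≤ N := hpsub P P.isPGroup'
        have h2 : N.index ∣ (P : Subgroup G).index := Subgroup.index_dvd_of_le h1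
        have h3 : ¬ p ∣ (P : Subgroup G).index := P.not_dvd_index
        exact ((Nat.Prime.coprime_iff_not_dvd hp).mpr (fun h => h3 (h.trans h2))).symm
      have hcycq : ∀ q : ℕ, q.Prime → q ≠ p → ∀ Q : Sylow q G, IsCyclic Q := by
        intro q hq hqp Q
        by_cases hqr : q = r
        · exfalso
          have hpr : p ≠ r := fun h => hqp (hqr.trans h.symm)
          obtain ⟨P, hNP⟩ := hNp.exists_le_sylow
          haveI := hcyc p hp hpr P
          haveI : IsCyclic N := Subgroup.isCyclic_of_le hNP
          obtain ⟨c, hc⟩ := IsCyclic.exists_generator (α := N)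
          have h1 : orderOf c = Nat.card N := orderOf_eq_card_of_forall_mem_zpowers hc
          have h2 : c ^ p = 1 := Subtype.ext (by rw [Subgroup.coe_pow]; exact hNexp c c.2)
          have h3 : Nat.card N ∣ p := h1 ▸ orderOf_dvd_of_pow_eq_one h2
          rcases (Nat.dvd_prime hp).mp h3 with h | h
          · exact hNne (Subgroup.card_eq_one.mp h)
          · exact hcard h
        · exact hcyc q hq hqr Q
      have hpG : p ∣ Nat.card G :=
        (hk ▸ dvd_pow_self p (by omega : k ≠ 0) : p ∣ Nat.card N).trans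
          (Subgroup.card_subgroup_dvd_card N)
      -- subgroups of order prime to `p`
      have hCT : ∀ T : Subgroup G, (Nat.card T).Coprime p → ∀ A B : Subgroup G, A ≤ T → B ≤ T →
          Nat.card A = Nat.card B → ∃ t ∈ T, B = A.map (MulAut.conj t).toMonoidHom := by
        intro T hT A B hA hB hAB
        have hTlt : Nat.card T ≤ n := by
          have h1 : Nat.card T ∣ Nat.card G := Subgroup.card_subgroup_dvd_card T
          have h3 : Nat.card T ≠ Nat.card G := by
            intro h
            rw [h] at hT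
            exact (Nat.Prime.coprime_iff_not_dvd hp).mp hT.symm hpG
          have h4 := Nat.le_of_dvd Nat.card_pos h1
          omega
        have hTcyc : ∀ q : ℕ, q.Prime → ∀ Q : Sylow q T, IsCyclic Q := by
          intro q hq Q
          haveI := Fact.mk hq
          by_cases hqp : q = p
          · have h1 : Nat.card Q ∣ Nat.card T := Subgroup.card_subgroup_dvd_card _
            obtain ⟨j, hj⟩ := (IsPGroup.iff_card).mp Q.isPGroup'
            have h2 : Nat.card Q = 1 := by
              rcases j with _ | j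
              · rw [hj, pow_zero]
              · exfalso
                have h5 : q ∣ Nat.card T :=
                  (hj ▸ dvd_pow_self q (Nat.succ_ne_zero j) : q ∣ Nat.card Q).trans h1
                rw [hqp] at h5
                exact (Nat.Prime.coprime_iff_not_dvd hp).mp hT.symm h5
            haveI : Subsingleton Q := (Nat.card_eq_one_iff_unique.mp h2).1
            exact isCyclic_of_subsingleton
          · have h1 : IsPGroup q ((Q : Subgroup T).map T.subtype) := Q.isPGroup'.map T.subtype
            obtain ⟨P, hP⟩ := h1.exists_le_sylow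
            haveI := hcycq q hq hqp P
            haveI : IsCyclic ((Q : Subgroup T).map T.subtype) := Subgroup.isCyclic_of_le hP
            exact isCyclic_of_injective (T.subtype.subgroupMap (Q : Subgroup T)) (by
              intro a b hab
              have h6 := congrArg Subtype.val hab
              exact Subtype.ext (T.subtype_injective h6))
        have hDT := pconj_of_sylow_cyclic hTcyc
        have hres := ih T hTlt hDT 0 (fun q hq _ Q => hTcyc q hq Q)
        exact conj_of_subtype hres A B hA hB hAB
      have hcopN : (Nat.card N).Coprime N.index := by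
        rw [hk]
        exact Nat.Coprime.pow_left k hidx.symm
      obtain ⟨T₀, hT₀⟩ := Subgroup.exists_left_complement'_of_coprime hcopN
      have hT₀N : T₀ ⊓ N = ⊥ := IsComplement'.inf_eq_bot hT₀
      have hT₀card : (Nat.card T₀).Coprime p := by
        rw [← hT₀.index_eq_card]
        exact hidx
      have hdecomp : ∀ g : G, ∃ t ∈ T₀, ∃ m ∈ N, g = t * m := IsComplement'.exists_mul hT₀
      have hNnorm : ∀ D : Subgroup G, D ≤ N → N ≤ Subgroup.normalizer (D : Set G) := by
        intro D hD g hg
        rw [Subgroup.mem_normalizer_iff]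
        intro h
        constructor
        · intro hh
          have h1 : g * h * g⁻¹ = h := by rw [hNcomm g hg h (hD hh), mul_inv_cancel_right]
          rw [h1]
          exact hh
        · intro hh
          have h1 : h ∈ N := by
            have h2 := N.mul_mem (N.mul_mem (N.inv_mem hg) (hD hh)) hg
            have h3 : g⁻¹ * (g * h * g⁻¹) * g = h := by group
            rwa [h3] at h2
          have h4 : g * h * g⁻¹ = h := by rw [hNcomm g hg h h1, mul_inv_cancel_right]
          rw [h4] at hh
          exact hh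
      -- normal form of a subgroup up to conjugacy
      have hform : ∀ L : Subgroup G, ∃ g : G, ∃ D T : Subgroup G, D ≤ N ∧ T ≤ T₀ ∧
          T ≤ Subgroup.normalizer (D : Set G) ∧ L.map (MulAut.conj g).toMonoidHom = D ⊔ T ∧
          Nat.card D * Nat.card T = Nat.card L := by
        intro L
        obtain ⟨L₁, hL₁L, hL₁N, hL₁sup, hL₁cop, hL₁card⟩ := exists_compl_inf N p hNp hidx L
        obtain ⟨A, hAdef⟩ : ∃ A : Subgroup G, A = (N ⊔ L₁) ⊓ T₀ := ⟨_, rfl⟩
        have hAT : A ≤ T₀ := hAdef ▸ inf_le_right
        have hsupeq : N ⊔ L₁ ≤ N ⊔ A := by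
          intro x hx
          obtain ⟨t, ht, m, hm, rfl⟩ := hdecomp x
          have htA : t ∈ A := by
            rw [hAdef]
            refine ⟨?_, ht⟩
            have h1 := (N ⊔ L₁).mul_mem hx ((N ⊔ L₁).inv_mem (Subgroup.mem_sup_left hm))
            rwa [mul_inv_cancel_right] at h1
          exact (N ⊔ A).mul_mem (Subgroup.mem_sup_right htA) (Subgroup.mem_sup_left hm)
        have hAN : A ⊓ N = ⊥ := by
          rw [eq_bot_iff, ← hT₀N]
          exact inf_le_inf_right N hAT
        have hcardA : Nat.card A = Nat.card L₁ := by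
          have h1 := card_sup_mul_card_inf A N
          have h2 := card_sup_mul_card_inf L₁ N
          rw [hAN, Subgroup.card_bot, mul_one] at h1
          rw [hL₁N, Subgroup.card_bot, mul_one] at h2
          have h3 : A ⊔ N = L₁ ⊔ N := by
            apply le_antisymm
            · refine sup_le ?_ le_sup_right
              rw [hAdef, sup_comm L₁ N]
              exact inf_le_left
            · rw [sup_comm L₁ N, sup_comm A N]
              exact hsupeq
          rw [h3, h2] at h1
          exact (Nat.eq_of_mul_eq_mul_left Nat.card_pos h1).symm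
        have hcopA : (Nat.card A).Coprime (Nat.card N) := by
          rw [hcardA, hk]
          exact Nat.Coprime.pow_right k hL₁cop
        have hL₁le : L₁ ≤ N ⊔ A := le_sup_right.trans hsupeq
        obtain ⟨m, hm, hmA⟩ := sz_conj_rel A N (hnormtop A) hcopA (Or.inl inferInstance) L₁ hL₁le
          hcardA.symm
        rw [smul_eq_conjMap] at hmA
        have hLnorm : L ≤ Subgroup.normalizer ((L ⊓ N : Subgroup G) : Set G) := by
          intro g hg
          rw [Subgroup.mem_normalizer_iff]
          intro h
          constructor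
          · rintro ⟨h1, h2⟩
            exact ⟨L.mul_mem (L.mul_mem hg h1) (L.inv_mem hg), hNn.conj_mem h h2 g⟩
          · rintro ⟨h1, h2⟩
            have h3 : h = g⁻¹ * (g * h * g⁻¹) * g := by group
            rw [h3]
            refine ⟨L.mul_mem (L.mul_mem (L.inv_mem hg) h1) hg, ?_⟩
            have h4 := hNn.conj_mem _ h2 g⁻¹
            rwa [inv_inv] at h4
        have hmn : m ∈ Subgroup.normalizer ((L ⊓ N : Subgroup G) : Set G) :=
          hNnorm (L ⊓ N) inf_le_right hm
        have hAeq : L₁.map (MulAut.conj m⁻¹).toMonoidHom = A := by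
          rw [← hmA, conjMap_conjMap, inv_mul_cancel, conjMap_one]
        refine ⟨m⁻¹, L ⊓ N, A, inf_le_right, hAT, ?_, ?_, ?_⟩
        · intro a ha
          have h1 : m * a * m⁻¹ ∈ L₁ := by
            rw [← hmA]
            exact Subgroup.mem_map_of_mem _ ha
          have h2 : a = m⁻¹ * (m * a * m⁻¹) * m := by group
          rw [h2]
          exact Subgroup.mul_mem _ (Subgroup.mul_mem _ (Subgroup.inv_mem _ hmn) (hLnorm (hL₁L h1))) hmn
        · have h1 : L.map (MulAut.conj m⁻¹).toMonoidHom =
              ((L ⊓ N) ⊔ L₁).map (MulAut.conj m⁻¹).toMonoidHom := by rw [hL₁sup]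
          rw [h1, Subgroup.map_sup, hAeq, conjMap_of_mem_normalizer (Subgroup.inv_mem _ hmn)]
        · rw [hcardA]
          exact hL₁card
      obtain ⟨g₁, D₁, T₁, hD₁N, hT₁T₀, hT₁D₁, hH₁, hc₁⟩ := hform H
      obtain ⟨g₂, D₂, T₂, hD₂N, hT₂T₀, hT₂D₂, hK₂, hc₂⟩ := hform K
      have hD₁p : IsPGroup p D₁ := hNp.to_le hD₁N
      have hD₂p : IsPGroup p D₂ := hNp.to_le hD₂N
      have hT₁c : (Nat.card T₁).Coprime p :=
        Nat.Coprime.coprime_dvd_left (Subgroup.card_dvd_of_le hT₁T₀) hT₀card
      have hT₂c : (Nat.card T₂).Coprime p :=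
        Nat.Coprime.coprime_dvd_left (Subgroup.card_dvd_of_le hT₂T₀) hT₀card
      obtain ⟨a, ha⟩ := (IsPGroup.iff_card).mp hD₁p
      obtain ⟨b, hb⟩ := (IsPGroup.iff_card).mp hD₂p
      have hprod : p ^ a * Nat.card T₁ = p ^ b * Nat.card T₂ := by
        rw [← ha, ← hb, hc₁, hc₂, hHK]
      have hab : a = b := by
        have h1 : p ^ a ∣ p ^ b :=
          Nat.Coprime.dvd_of_dvd_mul_right (Nat.Coprime.pow_left a hT₂c.symm)
            (hprod ▸ dvd_mul_right _ _)
        have h2 : p ^ b ∣ p ^ a :=
          Nat.Coprime.dvd_of_dvd_mul_right (Nat.Coprime.pow_left b hT₁c.symm)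
            (hprod.symm ▸ dvd_mul_right _ _)
        have h3 := (Nat.pow_dvd_pow_iff_le_right hp.one_lt).mp h1
        have h4 := (Nat.pow_dvd_pow_iff_le_right hp.one_lt).mp h2
        omega
      have hDcard : Nat.card D₁ = Nat.card D₂ := by rw [ha, hb, hab]
      have hTcard : Nat.card T₁ = Nat.card T₂ := by
        rw [hab] at hprod
        exact Nat.eq_of_mul_eq_mul_left (pow_pos hp.pos b) hprod
      obtain ⟨t, htT₀, ht⟩ := hCT T₀ hT₀card T₁ T₂ hT₁T₀ hT₂T₀ hTcard
      obtain ⟨D₁', hD₁'def⟩ : ∃ D₁' : Subgroup G, D₁' = D₁.map (MulAut.conj t).toMonoidHom :=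
        ⟨_, rfl⟩
      have hD₁'N : D₁' ≤ N := by
        rw [hD₁'def]
        intro x hx
        rw [mem_conjMap] at hx
        have h1 := hNn.conj_mem _ (hD₁N hx) t
        have h2 : t * (t⁻¹ * x * t) * t⁻¹ = x := by group
        rwa [h2] at h1
      have hD₁'card : Nat.card D₁' = Nat.card D₂ := by rw [hD₁'def, card_conjMap, hDcard]
      have hT₂D₁' : T₂ ≤ Subgroup.normalizer (D₁' : Set G) := by
        rw [ht, hD₁'def]
        exact conjMap_le_normalizer_conjMap hT₁D₁ t
      obtain ⟨g, hg⟩ := hD p hp D₁' D₂ (hNp.to_le hD₁'N) hD₂p hD₁'card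
      obtain ⟨t', ht'T₀, m, hmN, rfl⟩ := hdecomp g
      have hg' : D₂ = D₁'.map (MulAut.conj t').toMonoidHom := by
        rw [hg, ← conjMap_conjMap D₁' m t', conjMap_of_mem_normalizer (hNnorm D₁' hD₁'N hmN)]
      obtain ⟨T₃, hT₃def⟩ : ∃ T₃ : Subgroup G, T₃ = T₀ ⊓ Subgroup.normalizer (D₂ : Set G) :=
        ⟨_, rfl⟩
      have hT₃c : (Nat.card T₃).Coprime p := by
        rw [hT₃def]
        exact Nat.Coprime.coprime_dvd_left (Subgroup.card_dvd_of_le inf_le_left) hT₀card
      have h1 : T₂ ≤ T₃ := by
        rw [hT₃def]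
        exact le_inf hT₂T₀ hT₂D₂
      obtain ⟨T₂', hT₂'def⟩ : ∃ T₂' : Subgroup G, T₂' = T₂.map (MulAut.conj t').toMonoidHom :=
        ⟨_, rfl⟩
      have h2 : T₂' ≤ T₃ := by
        rw [hT₃def]
        refine le_inf ?_ ?_
        · rw [hT₂'def]
          intro x hx
          rw [mem_conjMap] at hx
          have h3 := T₀.mul_mem (T₀.mul_mem ht'T₀ (hT₂T₀ hx)) (T₀.inv_mem ht'T₀)
          have h4 : t' * (t'⁻¹ * x * t') * t'⁻¹ = x := by group
          rwa [h4] at h3
        · rw [hT₂'def, hg']
          exact conjMap_le_normalizer_conjMap hT₂D₁' t'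
      obtain ⟨s, hsT₃, hs⟩ := hCT T₃ hT₃c T₂' T₂ h2 h1 (by rw [hT₂'def, card_conjMap])
      have hsn : s ∈ Subgroup.normalizer (D₂ : Set G) := by
        rw [hT₃def] at hsT₃
        exact hsT₃.2
      have hfinal : (D₁ ⊔ T₁).map (MulAut.conj (s * (t' * t))).toMonoidHom = D₂ ⊔ T₂ := by
        rw [← conjMap_conjMap (D₁ ⊔ T₁) (t' * t) s, ← conjMap_conjMap (D₁ ⊔ T₁) t t',
          Subgroup.map_sup, Subgroup.map_sup, Subgroup.map_sup, ← ht, ← hD₁'def, ← hg', ← hT₂'def,
          ← hs, conjMap_of_mem_normalizer hsn]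
      refine ⟨g₂⁻¹ * (s * (t' * t)) * g₁, ?_⟩
      rw [← conjMap_conjMap H g₁ (g₂⁻¹ * (s * (t' * t))),
        ← conjMap_conjMap (H.map (MulAut.conj g₁).toMonoidHom) (s * (t' * t)) g₂⁻¹, hH₁, hfinal,
        ← hK₂, conjMap_conjMap, inv_mul_cancel, conjMap_one]

end Cfsg.Agent.Lib.Helper22.SO
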