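import Mathlib

/-!
Helper lemmas (helper22): small general facts used for groups with few element orders.
-/

namespace Cfsg.Agent.Lib.Helper22

/-- If only the primes `p`, `q` divide `|G|`, a Sylow `q`-subgroup has order `q`, and `H` is a
proper subgroup of index prime to `p`, then `H` has index `q`. -/
theorem index_eq_prime_of_sylow_card {G : Type*} [Group G] [Finite G] (H : Subgroup G)
    (p q : ℕ) [Fact q.Prime]
    (hprimes : ∀ r : ℕ, r.Prime → r ∣ Nat.card G → r = p ∨ r = q) (hp : ¬ p ∣ H.index)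
    (hH : H ≠ ⊤) (Q : Sylow q G) (hQ : Nat.card Q = q) : H.index = q := by
  have hq : q.Prime := Fact.out
  have hidx : H.index ≠ 0 := Subgroup.index_ne_zero_of_finite
  obtain ⟨c, hc⟩ : ∃ c, H.index = q ^ c :=
    ⟨_, Nat.eq_prime_pow_of_unique_prime_dvd hidx (fun {r} hr hrd => by
      rcases hprimes r hr (hrd.trans H.index_dvd_card) with h | h
      · exact absurd (h ▸ hrd) hp
      · exact h)⟩
  have h1 : q ^ c ∣ Nat.card G := hc ▸ H.index_dvd_card
  have h2 : Nat.card Q = q ^ (Nat.card G).factorization q := Sylow.card_eq_multiplicity Q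
  have h3 : (Nat.card G).factorization q = 1 := by
    rw [hQ] at h2
    have h4 : q ^ 1 = q ^ (Nat.card G).factorization q := by rw [pow_one]; exact h2
    exact (Nat.pow_right_injective hq.two_le h4).symm
  have h4 : c ≤ 1 := by
    rw [← h3]
    exact (hq.pow_dvd_iff_le_factorization Nat.card_pos.ne').mp h1
  have h5 : c ≠ 0 := by
    rintro rfl
    rw [pow_zero] at hc
    exact hH (Subgroup.index_eq_one.mp hc)
  have h6 : c = 1 := by omega
  rw [hc, h6, pow_one]

/-- A non-trivial solvable group has a non-trivial normal abelian subgroup. -/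
theorem exists_normal_abelian_of_solvable (G : Type*) [Group G] [Nontrivial G]
    [hs : Group.IsSolvable G] :
    ∃ A : Subgroup G, A.Normal ∧ A ≠ ⊥ ∧ ∀ a ∈ A, ∀ b ∈ A, a * b = b * a := by
  classical
  have hex : ∃ n, derivedSeries G n = ⊥ := hs.solvable
  have hm0 : Nat.find hex ≠ 0 := by
    intro h0
    have h1 := Nat.find_spec hex
    rw [h0, derivedSeries_zero] at h1
    exact top_ne_bot h1
  obtain ⟨k, hk⟩ := Nat.exists_eq_succ_of_ne_zero hm0
  refine ⟨derivedSeries G k, inferInstance, ?_, ?_⟩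
  · intro h1
    have h2 := Nat.find_min' hex h1
    omega
  · have h1 := Nat.find_spec hex
    rw [hk, derivedSeries_succ, Subgroup.commutator_eq_bot_iff_le_centralizer] at h1
    intro a ha b hb
    exact h1 hb a ha

/-- A subgroup of exponent two is commutative. -/
theorem comm_of_sq_eq_one {G : Type*} [Group G] (H : Subgroup G) (h : ∀ g ∈ H, g ^ 2 = 1) :
    ∀ a ∈ H, ∀ b ∈ H, a * b = b * a := by
  intro a ha b hb
  have h1 := h a ha
  have h2 := h b hb
  have h3 := h (a * b) (H.mul_mem ha hb)
  rw [pow_two] at h1 h2 h3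
  have h4 : a⁻¹ = a := inv_eq_of_mul_eq_one_left h1
  have h5 : b⁻¹ = b := inv_eq_of_mul_eq_one_left h2
  have h6 : (a * b)⁻¹ = a * b := inv_eq_of_mul_eq_one_left h3
  rw [mul_inv_rev, h4, h5] at h6
  exact h6.symm

end Cfsg.Agent.Lib.Helper22
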