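import Mathlib
import Cfsg.Agent.Lib.Lead.UniqueSubgroup
import Cfsg.Agent.Lib.Helper21.Basic
import Cfsg.Agent.Lib.Helper22.SmallOrders

/-!
Helper lemmas (helper22): finite `p`-groups in which any two subgroups of the same order are
isomorphic.
-/

namespace Cfsg.Agent.Lib.Helper22

universe u

/-- A generalized quaternion group of order at least `16` has two non-isomorphic subgroups of
the same order. -/
theorem false_of_quaternion_iso {P : Type*} [Group P] [Finite P] (m : ℕ) (hm : 2 ≤ m)
    (e : P ≃* QuaternionGroup (2 ^ m))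
    (hiso : ∀ H K : Subgroup P, Nat.card H = Nat.card K → Nonempty (H ≃* K)) : False := by
  classical
  haveI : NeZero (2 ^ m) := ⟨by positivity⟩
  haveI : Fact (Nat.Prime 2) := ⟨Nat.prime_two⟩
  have hcardP : Nat.card P = 2 ^ (m + 2) := by
    rw [Nat.card_congr e.toEquiv, Nat.card_eq_fintype_card, QuaternionGroup.card]
    ring
  have hc : orderOf (e.symm (QuaternionGroup.a 1)) = 2 ^ (m + 1) := by
    rw [MulEquiv.orderOf_eq, QuaternionGroup.orderOf_a_one]
    ring
  have hx : orderOf (e.symm (QuaternionGroup.xa 0)) = 2 ^ 2 := by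
    rw [MulEquiv.orderOf_eq, QuaternionGroup.orderOf_xa]
    norm_num
  obtain ⟨K, hKcard, hXK⟩ := Sylow.exists_subgroup_card_pow_prime_le 2 (n := 2) (m := m + 1)
    (by rw [hcardP]; exact pow_dvd_pow 2 (by omega))
    (Subgroup.zpowers (e.symm (QuaternionGroup.xa 0)))
    (by rw [Nat.card_zpowers, hx]) (by omega)
  obtain ⟨e'⟩ := hiso (Subgroup.zpowers (e.symm (QuaternionGroup.a 1))) K
    (by rw [Nat.card_zpowers, hc, hKcard])
  have hxK : e.symm (QuaternionGroup.xa 0) ∈ K := hXK (Subgroup.mem_zpowers _)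
  obtain ⟨k, hkK, hko, j, hj⟩ : ∃ k : P, k ∈ K ∧ orderOf k = 2 ^ (m + 1) ∧
      ∃ j : ℤ, k ^ j = e.symm (QuaternionGroup.xa 0) := by
    refine ⟨(e' ⟨_, Subgroup.mem_zpowers _⟩ : K), (e' _).2, ?_, ?_⟩
    · rw [Subgroup.orderOf_coe, MulEquiv.orderOf_eq, ← Subgroup.orderOf_coe]
      exact hc
    · obtain ⟨j, hj⟩ := Subgroup.mem_zpowers_iff.mp (e'.symm ⟨_, hxK⟩).2
      refine ⟨j, ?_⟩
      have h1 : (⟨_, Subgroup.mem_zpowers _⟩ :
          Subgroup.zpowers (e.symm (QuaternionGroup.a 1))) ^ j = e'.symm ⟨_, hxK⟩ :=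
        Subtype.ext (by rw [Subgroup.coe_zpow]; exact hj)
      have h2 : (e' ⟨_, Subgroup.mem_zpowers _⟩) ^ j = ⟨_, hxK⟩ := by
        rw [← map_zpow, h1, MulEquiv.apply_symm_apply]
      have h3 := congrArg Subtype.val h2
      rwa [Subgroup.coe_zpow] at h3
  have hek : orderOf (e k) = 2 ^ (m + 1) := by
    rw [MulEquiv.orderOf_eq]
    exact hko
  have hj' : (e k) ^ j = QuaternionGroup.xa 0 := by
    rw [← map_zpow, hj, MulEquiv.apply_symm_apply]
  let A : Subgroup (QuaternionGroup (2 ^ m)) :=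
    { carrier := Set.range QuaternionGroup.a
      mul_mem' := by
        rintro _ _ ⟨i, rfl⟩ ⟨j, rfl⟩
        exact ⟨i + j, (QuaternionGroup.a_mul_a i j).symm⟩
      one_mem' := ⟨0, QuaternionGroup.a_zero⟩
      inv_mem' := by
        rintro _ ⟨i, rfl⟩
        refine ⟨-i, eq_inv_of_mul_eq_one_left ?_⟩
        rw [QuaternionGroup.a_mul_a, neg_add_cancel, QuaternionGroup.a_zero] }
  cases hcase : e k with
  | a i =>
    have h1 : (QuaternionGroup.a i : QuaternionGroup (2 ^ m)) ∈ A := ⟨i, rfl⟩
    have h2 : (QuaternionGroup.a i : QuaternionGroup (2 ^ m)) ^ j ∈ A := A.zpow_mem h1 j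
    rw [← hcase, hj'] at h2
    obtain ⟨i', hi'⟩ := h2
    cases hi'
  | xa i =>
    rw [hcase, QuaternionGroup.orderOf_xa] at hek
    have h8 : 2 ^ 3 ≤ 2 ^ (m + 1) := Nat.pow_le_pow_right (by norm_num) (by omega)
    omega

/-- A non-trivial finite `p`-group has a central element of order `p`. -/
theorem exists_central_orderOf_eq {P : Type*} [Group P] [Finite P] [Nontrivial P] (p : ℕ)
    [hp : Fact p.Prime] (hP : IsPGroup p P) :
    ∃ z : P, z ∈ Subgroup.center P ∧ orderOf z = p := by
  have hZ : p ∣ Nat.card (Subgroup.center P) := by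
    have h1 := hP.center_nontrivial
    rcases (hP.to_subgroup (Subgroup.center P)).card_eq_or_dvd with h | h
    · exact absurd (Nat.card_eq_one_iff_unique.mp h).1 (not_subsingleton _)
    · exact h
  obtain ⟨z', hz'⟩ := exists_prime_orderOf_dvd_card' p hZ
  exact ⟨z', z'.2, by rw [Subgroup.orderOf_coe]; exact hz'⟩

/-- The cyclic subgroup generated by a central element is normal. -/
theorem soi_zpowers_normal_of_mem_center {P : Type*} [Group P] {z : P}
    (hz : z ∈ Subgroup.center P) : (Subgroup.zpowers z).Normal := by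
  refine ⟨fun n hn g => ?_⟩
  obtain ⟨k, rfl⟩ := Subgroup.mem_zpowers_iff.mp hn
  have h1 : z ^ k ∈ Subgroup.center P := Subgroup.zpow_mem _ hz k
  rw [Subgroup.mem_center_iff] at h1
  rw [h1 g, mul_inv_cancel_right]
  exact Subgroup.mem_zpowers_iff.mpr ⟨k, rfl⟩

/-- If any two subgroups of the same order of a finite `p`-group are isomorphic and the group
has more than one subgroup of order `p`, then it has exponent `p`. -/
theorem exponent_of_not_uniqP {P : Type*} [Group P] [Finite P] (p : ℕ) [hp : Fact p.Prime]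
    (hP : IsPGroup p P)
    (hiso : ∀ H K : Subgroup P, Nat.card H = Nat.card K → Nonempty (H ≃* K))
    (hU : ¬ Lib.Lead.UniqP p P) : ∀ g : P, g ^ p = 1 := by
  classical
  have hp' := hp.out
  unfold Lib.Lead.UniqP at hU
  push Not at hU
  obtain ⟨x, y, hx, hy, hx1, hyx⟩ := hU
  haveI : Nontrivial P := ⟨⟨x, 1, hx1⟩⟩
  obtain ⟨z, hzc, hzo⟩ := exists_central_orderOf_eq p hP
  haveI hKn : (Subgroup.zpowers z).Normal := soi_zpowers_normal_of_mem_center hzc
  obtain ⟨y', hy'p, hy'z⟩ : ∃ y' : P, y' ^ p = 1 ∧ y' ∉ Subgroup.zpowers z := by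
    by_cases hxz : x ∈ Subgroup.zpowers z
    · refine ⟨y, hy, fun hyz => hyx ?_⟩
      have h1 : Subgroup.zpowers x ≤ Subgroup.zpowers z := (Subgroup.zpowers_le).mpr hxz
      have h2 : Subgroup.zpowers x = Subgroup.zpowers z := Subgroup.eq_of_le_of_card_ge h1 (by
        rw [Nat.card_zpowers, Nat.card_zpowers, hzo, orderOf_eq_prime hx hx1])
      rw [h2]
      exact hyz
    · exact ⟨x, hx, hxz⟩
  have hy'1 : y' ≠ 1 := by
    rintro rfl
    exact hy'z (Subgroup.one_mem _)
  have hy'o : orderOf y' = p := orderOf_eq_prime hy'p hy'1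
  have hinf : Subgroup.zpowers y' ⊓ Subgroup.zpowers z = ⊥ := by
    by_contra hne
    have h1 : Nat.card ↥(Subgroup.zpowers y' ⊓ Subgroup.zpowers z) ∣ p := by
      have h0 := Subgroup.card_dvd_of_le
        (inf_le_left : Subgroup.zpowers y' ⊓ Subgroup.zpowers z ≤ Subgroup.zpowers y')
      rwa [Nat.card_zpowers, hy'o] at h0
    rcases (Nat.dvd_prime hp').mp h1 with h2 | h2
    · exact hne (Subgroup.card_eq_one.mp h2)
    · have h3 : Subgroup.zpowers y' ⊓ Subgroup.zpowers z = Subgroup.zpowers y' :=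
        Subgroup.eq_of_le_of_card_ge inf_le_left (by rw [h2, Nat.card_zpowers, hy'o])
      have h4 : Subgroup.zpowers y' ≤ Subgroup.zpowers z := by
        rw [← h3]
        exact inf_le_right
      exact hy'z (h4 (Subgroup.mem_zpowers y'))
  have hEcard : Nat.card ↥(Subgroup.zpowers y' ⊔ Subgroup.zpowers z) = p ^ 2 := by
    have h1 := Lib.Helper21.card_sup_mul_card_inf (Subgroup.zpowers y') (Subgroup.zpowers z)
    rw [hinf, Subgroup.card_bot, mul_one, Nat.card_zpowers, Nat.card_zpowers, hy'o, hzo] at h1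
    rw [h1, pow_two]
  have hEexp : ∀ u ∈ Subgroup.zpowers y' ⊔ Subgroup.zpowers z, u ^ p = 1 := by
    intro u hu
    obtain ⟨a, ha, b, hb, rfl⟩ := Subgroup.mem_sup_of_normal_right.mp hu
    obtain ⟨i, rfl⟩ := Subgroup.mem_zpowers_iff.mp ha
    obtain ⟨j, rfl⟩ := Subgroup.mem_zpowers_iff.mp hb
    have hcomm : Commute (y' ^ i) (z ^ j) := by
      have h1 : z ^ j ∈ Subgroup.center P := Subgroup.zpow_mem _ hzc j
      exact Subgroup.mem_center_iff.mp h1 (y' ^ i)
    have e1 : (y' ^ i) ^ p = 1 := by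
      rw [← zpow_natCast, ← zpow_mul, mul_comm, zpow_mul, zpow_natCast, hy'p, one_zpow]
    have e2 : (z ^ j) ^ p = 1 := by
      rw [← zpow_natCast, ← zpow_mul, mul_comm, zpow_mul, zpow_natCast, ← hzo,
        pow_orderOf_eq_one, one_zpow]
    rw [hcomm.mul_pow, e1, e2, one_mul]
  intro g
  by_contra hg
  obtain ⟨k, hk⟩ := hP g
  have h1 : orderOf g ∣ p ^ k := orderOf_dvd_of_pow_eq_one hk
  obtain ⟨j, hjk, hj⟩ := (Nat.dvd_prime_pow hp').mp h1
  have hj2 : 2 ≤ j := by
    by_contra hlt
    have hj1 : j ≤ 1 := by omega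
    apply hg
    have h2 : orderOf g ∣ p := by
      rw [hj]
      exact (pow_dvd_pow p hj1).trans (by rw [pow_one])
    exact orderOf_dvd_iff_pow_eq_one.mp h2
  have hc : orderOf (g ^ p ^ (j - 2)) = p ^ 2 := by
    rw [orderOf_pow_of_dvd (pow_ne_zero _ hp'.ne_zero)
      (by rw [hj]; exact pow_dvd_pow p (by omega)), hj, Nat.pow_div (by omega) hp'.pos]
    congr 1
    omega
  obtain ⟨e'⟩ := hiso (Subgroup.zpowers y' ⊔ Subgroup.zpowers z)
    (Subgroup.zpowers (g ^ p ^ (j - 2))) (by rw [hEcard, Nat.card_zpowers, hc])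
  have h2 : (e'.symm ⟨_, Subgroup.mem_zpowers _⟩) ^ p = 1 :=
    Subtype.ext (by rw [Subgroup.coe_pow]; exact hEexp _ (e'.symm _).2)
  have h3 : (⟨_, Subgroup.mem_zpowers _⟩ : Subgroup.zpowers (g ^ p ^ (j - 2))) ^ p = 1 := by
    have h0 := congrArg e' h2
    rwa [map_pow, MulEquiv.apply_symm_apply, map_one] at h0
  have h4 : (g ^ p ^ (j - 2)) ^ p = 1 := by
    have h0 := congrArg Subtype.val h3
    rwa [Subgroup.coe_pow] at h0
  have h5 := orderOf_dvd_of_pow_eq_one h4
  rw [hc] at h5
  have h6 := Nat.le_of_dvd hp'.pos h5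
  nlinarith [hp'.two_le]

/-- A non-abelian finite `p`-group of exponent `p` has a non-abelian subgroup of order at
most `p ^ 3`. -/
theorem exists_nonabelian_small {P : Type*} [Group P] [Finite P] (p : ℕ) [hp : Fact p.Prime]
    (hP : IsPGroup p P) (hexp : ∀ g : P, g ^ p = 1) (hna : ¬ ∀ a b : P, a * b = b * a) :
    ∃ N : Subgroup P, (∃ a ∈ N, ∃ b ∈ N, a * b ≠ b * a) ∧ Nat.card N ≤ p ^ 3 := by
  classical
  have hp' := hp.out
  obtain ⟨w, hwc, h, hwh⟩ : ∃ w : P, (∀ g : P, w * g * w⁻¹ * g⁻¹ ∈ Subgroup.center P) ∧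
      ∃ h : P, w * h ≠ h * w := by
    haveI : Nontrivial (P ⧸ Subgroup.center P) := by
      rw [QuotientGroup.nontrivial_iff]
      intro htop
      apply hna
      intro a b
      have h1 : b ∈ Subgroup.center P := htop ▸ Subgroup.mem_top b
      exact Subgroup.mem_center_iff.mp h1 a
    have hPq : IsPGroup p (P ⧸ Subgroup.center P) := hP.to_quotient _
    haveI := hPq.center_nontrivial
    obtain ⟨wbar, hwbar⟩ := exists_ne (1 : Subgroup.center (P ⧸ Subgroup.center P))
    obtain ⟨w, hw⟩ := QuotientGroup.mk'_surjective (Subgroup.center P)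
      (wbar : P ⧸ Subgroup.center P)
    refine ⟨w, ?_, ?_⟩
    · intro g
      rw [← QuotientGroup.eq_one_iff]
      have h1 := Subgroup.mem_center_iff.mp wbar.2 (QuotientGroup.mk' _ g)
      rw [← hw] at h1
      show (QuotientGroup.mk' (Subgroup.center P)) (w * g * w⁻¹ * g⁻¹) = 1
      rw [map_mul, map_mul, map_mul, map_inv, map_inv, ← h1]
      group
    · by_contra hcon
      push Not at hcon
      apply hwbar
      apply Subtype.ext
      rw [← hw]
      show QuotientGroup.mk' _ w = 1
      rw [QuotientGroup.mk'_apply, QuotientGroup.eq_one_iff, Subgroup.mem_center_iff]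
      intro g
      exact (hcon g).symm
  have hzc : w * h * w⁻¹ * h⁻¹ ∈ Subgroup.center P := hwc h
  obtain ⟨z, hzdef, hzc'⟩ : ∃ z : P, z = w * h * w⁻¹ * h⁻¹ ∧ z ∈ Subgroup.center P :=
    ⟨_, rfl, hzc⟩
  have hzcomm : ∀ (n : ℕ) (g : P), Commute g (z ^ n) := by
    intro n g
    have h1 : z ^ n ∈ Subgroup.center P := Subgroup.pow_mem _ hzc' n
    exact Subgroup.mem_center_iff.mp h1 g
  have hzinv : z⁻¹ = z ^ (p - 1) := by
    apply inv_eq_of_mul_eq_one_left
    rw [← pow_succ, Nat.sub_add_cancel hp'.pos, hexp]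
  have hrel : h * w = w * h * z ^ (p - 1) := by
    have h1 : h * w = z⁻¹ * (w * h) := by
      rw [hzdef]
      group
    rw [h1, hzinv]
    exact ((hzcomm (p - 1) (w * h)).eq).symm
  have hj : ∀ j : ℕ, h ^ j * w = w * h ^ j * z ^ ((p - 1) * j) := by
    intro j
    induction j with
    | zero => simp
    | succ j ih =>
      calc h ^ (j + 1) * w = h ^ j * (h * w) := by rw [pow_succ, mul_assoc]
        _ = h ^ j * (w * h * z ^ (p - 1)) := by rw [hrel]
        _ = (h ^ j * w) * h * z ^ (p - 1) := by simp only [mul_assoc]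
        _ = w * h ^ j * z ^ ((p - 1) * j) * h * z ^ (p - 1) := by rw [ih]
        _ = w * h ^ j * (z ^ ((p - 1) * j) * h) * z ^ (p - 1) := by simp only [mul_assoc]
        _ = w * h ^ j * (h * z ^ ((p - 1) * j)) * z ^ (p - 1) := by
          rw [(hzcomm ((p - 1) * j) h).eq]
        _ = w * (h ^ j * h) * (z ^ ((p - 1) * j) * z ^ (p - 1)) := by simp only [mul_assoc]
        _ = w * h ^ (j + 1) * z ^ ((p - 1) * (j + 1)) := by
          rw [← pow_succ, ← pow_add, Nat.mul_succ]
  have hij : ∀ i j : ℕ, h ^ j * w ^ i = w ^ i * h ^ j * z ^ ((p - 1) * j * i) := by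
    intro i j
    induction i with
    | zero => simp
    | succ i ih =>
      calc h ^ j * w ^ (i + 1) = (h ^ j * w ^ i) * w := by rw [pow_succ, mul_assoc]
        _ = w ^ i * h ^ j * z ^ ((p - 1) * j * i) * w := by rw [ih]
        _ = w ^ i * h ^ j * (z ^ ((p - 1) * j * i) * w) := by simp only [mul_assoc]
        _ = w ^ i * h ^ j * (w * z ^ ((p - 1) * j * i)) := by
          rw [(hzcomm ((p - 1) * j * i) w).eq]
        _ = w ^ i * (h ^ j * w) * z ^ ((p - 1) * j * i) := by simp only [mul_assoc]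
        _ = w ^ i * (w * h ^ j * z ^ ((p - 1) * j)) * z ^ ((p - 1) * j * i) := by rw [hj]
        _ = (w ^ i * w) * h ^ j * (z ^ ((p - 1) * j) * z ^ ((p - 1) * j * i)) := by
          simp only [mul_assoc]
        _ = w ^ (i + 1) * h ^ j * z ^ ((p - 1) * j * (i + 1)) := by
          rw [← pow_succ, ← pow_add]
          congr 2
          ring
  let M : Submonoid P :=
    { carrier := {g | ∃ i j k : ℕ, g = w ^ i * h ^ j * z ^ k}
      mul_mem' := by
        rintro _ _ ⟨i, j, k, rfl⟩ ⟨i', j', k', rfl⟩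
        refine ⟨i + i', j + j', (p - 1) * j * i' + k + k', ?_⟩
        calc w ^ i * h ^ j * z ^ k * (w ^ i' * h ^ j' * z ^ k')
            = w ^ i * h ^ j * (z ^ k * (w ^ i' * h ^ j')) * z ^ k' := by simp only [mul_assoc]
          _ = w ^ i * h ^ j * ((w ^ i' * h ^ j') * z ^ k) * z ^ k' := by
            rw [(hzcomm k (w ^ i' * h ^ j')).eq]
          _ = w ^ i * (h ^ j * w ^ i') * h ^ j' * (z ^ k * z ^ k') := by simp only [mul_assoc]
          _ = w ^ i * (w ^ i' * h ^ j * z ^ ((p - 1) * j * i')) * h ^ j' * (z ^ k * z ^ k') := by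
            rw [hij]
          _ = w ^ i * w ^ i' * h ^ j * (z ^ ((p - 1) * j * i') * h ^ j') * (z ^ k * z ^ k') := by
            simp only [mul_assoc]
          _ = w ^ i * w ^ i' * h ^ j * (h ^ j' * z ^ ((p - 1) * j * i')) * (z ^ k * z ^ k') := by
            rw [(hzcomm ((p - 1) * j * i') (h ^ j')).eq]
          _ = (w ^ i * w ^ i') * (h ^ j * h ^ j') * (z ^ ((p - 1) * j * i') * (z ^ k * z ^ k')) := by
            simp only [mul_assoc]
          _ = w ^ (i + i') * h ^ (j + j') * z ^ ((p - 1) * j * i' + k + k') := by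
            rw [← pow_add, ← pow_add, ← pow_add, ← pow_add, add_assoc]
      one_mem' := ⟨0, 0, 0, by simp⟩ }
  let N : Subgroup P :=
    { M with
      inv_mem' := by
        intro g hg
        have h1 : g⁻¹ = g ^ (p - 1) := by
          apply inv_eq_of_mul_eq_one_left
          rw [← pow_succ, Nat.sub_add_cancel hp'.pos, hexp]
        rw [h1]
        exact M.pow_mem hg _ }
  have hwN : w ∈ N := ⟨1, 0, 0, by simp⟩
  have hhN : h ∈ N := ⟨0, 1, 0, by simp⟩
  refine ⟨N, ⟨w, hwN, h, hhN, hwh⟩, ?_⟩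
  have hsurj : Function.Surjective
      (fun t : Fin p × Fin p × Fin p =>
        (⟨w ^ (t.1 : ℕ) * h ^ (t.2.1 : ℕ) * z ^ (t.2.2 : ℕ), ⟨_, _, _, rfl⟩⟩ : N)) := by
    rintro ⟨g, i, j, k, rfl⟩
    refine ⟨(⟨i % p, Nat.mod_lt _ hp'.pos⟩, ⟨j % p, Nat.mod_lt _ hp'.pos⟩,
      ⟨k % p, Nat.mod_lt _ hp'.pos⟩), ?_⟩
    apply Subtype.ext
    show w ^ (i % p) * h ^ (j % p) * z ^ (k % p) = w ^ i * h ^ j * z ^ k
    rw [← pow_eq_pow_mod i (hexp w), ← pow_eq_pow_mod j (hexp h), ← pow_eq_pow_mod k (hexp z)]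
  have h1 := Nat.card_le_card_of_surjective _ hsurj
  rw [Nat.card_prod, Nat.card_prod, Nat.card_fin] at h1
  calc Nat.card N ≤ p * (p * p) := h1
    _ = p ^ 3 := by ring

/-- Strict inclusions of subgroups of a finite `p`-group raise the order by a factor `p`. -/
theorem pow_succ_le_card_of_lt {P : Type*} [Group P] [Finite P] (p : ℕ) [hp : Fact p.Prime]
    (hP : IsPGroup p P) (H K : Subgroup P) (hHK : H ≤ K) (hne : H ≠ K) (i : ℕ)
    (hi : p ^ i ≤ Nat.card H) : p ^ (i + 1) ≤ Nat.card K := by
  have hp' := hp.out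
  obtain ⟨a, ha⟩ := IsPGroup.iff_card.mp (hP.to_subgroup H)
  obtain ⟨b, hb⟩ := IsPGroup.iff_card.mp (hP.to_subgroup K)
  have h1 : Nat.card H ∣ Nat.card K := Subgroup.card_dvd_of_le hHK
  rw [ha, hb] at h1
  have hab : a ≤ b := (Nat.pow_dvd_pow_iff_le_right hp'.one_lt).mp h1
  have hab' : a ≠ b := by
    intro h
    apply hne
    exact Subgroup.eq_of_le_of_card_ge hHK (by rw [ha, hb, h])
  have hia : i ≤ a := by
    rw [ha] at hi
    exact (Nat.pow_le_pow_iff_right hp'.one_lt).mp hi
  rw [hb]
  exact Nat.pow_le_pow_right hp'.pos (by omega)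

/-- A finite `p`-group of order at least `p ^ 4` has an abelian subgroup of order at least
`p ^ 3`. -/
theorem exists_abelian_large {P : Type*} [Group P] [Finite P] (p : ℕ) [hp : Fact p.Prime]
    (hP : IsPGroup p P) (hcard : p ^ 4 ≤ Nat.card P) :
    ∃ A : Subgroup P, (∀ a ∈ A, ∀ b ∈ A, a * b = b * a) ∧ p ^ 3 ≤ Nat.card A := by
  classical
  have hp' := hp.out
  haveI : Nontrivial P := by
    rw [← Finite.one_lt_card_iff_nontrivial]
    calc 1 < p ^ 4 := Nat.one_lt_pow (by norm_num) hp'.one_lt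
      _ ≤ Nat.card P := hcard
  obtain ⟨z, hzc, hzo⟩ := exists_central_orderOf_eq p hP
  haveI hKn : (Subgroup.zpowers z).Normal := soi_zpowers_normal_of_mem_center hzc
  have hKtop : Subgroup.zpowers z ≠ ⊤ := by
    intro h
    have h1 : Nat.card (Subgroup.zpowers z) = Nat.card P := by
      rw [h]
      exact Subgroup.card_top
    rw [Nat.card_zpowers, hzo] at h1
    rw [← h1] at hcard
    have h2 : p ^ 4 = p * p ^ 3 := by ring
    have h3 : 1 < p ^ 3 := Nat.one_lt_pow (by norm_num) hp'.one_lt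
    nlinarith [hp'.pos]
  haveI : Nontrivial (P ⧸ Subgroup.zpowers z) := QuotientGroup.nontrivial_iff.mpr hKtop
  have hPq : IsPGroup p (P ⧸ Subgroup.zpowers z) := hP.to_quotient _
  haveI := hPq.center_nontrivial
  obtain ⟨wbar, hwbar⟩ := exists_ne (1 : Subgroup.center (P ⧸ Subgroup.zpowers z))
  obtain ⟨w, hw⟩ := QuotientGroup.mk'_surjective (Subgroup.zpowers z)
    (wbar : P ⧸ Subgroup.zpowers z)
  have hwK : w ∉ Subgroup.zpowers z := by
    intro h
    apply hwbar
    apply Subtype.ext
    rw [← hw]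
    show QuotientGroup.mk' _ w = 1
    rw [QuotientGroup.mk'_apply, QuotientGroup.eq_one_iff]
    exact h
  have hcomm : ∀ g : P, g * w * g⁻¹ * w⁻¹ ∈ Subgroup.zpowers z := by
    intro g
    rw [← QuotientGroup.eq_one_iff]
    have h1 := Subgroup.mem_center_iff.mp wbar.2 (QuotientGroup.mk' _ g)
    rw [← hw] at h1
    show (QuotientGroup.mk' (Subgroup.zpowers z)) (g * w * g⁻¹ * w⁻¹) = 1
    rw [map_mul, map_mul, map_mul, map_inv, map_inv, h1]
    group
  -- the centralizer of `w` has index at most `p`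
  have hinj : Function.Injective (fun q : P ⧸ Subgroup.centralizer ({w} : Set P) =>
      Quotient.liftOn' q
        (fun g => (⟨g * w * g⁻¹ * w⁻¹, hcomm g⟩ : Subgroup.zpowers z))
        (by
          intro a b hab
          have hab' : a⁻¹ * b ∈ Subgroup.centralizer ({w} : Set P) :=
            QuotientGroup.leftRel_apply.mp hab
          have h1 : w * (a⁻¹ * b) = a⁻¹ * b * w := Subgroup.mem_centralizer_iff.mp hab' w rfl
          apply Subtype.ext
          show a * w * a⁻¹ * w⁻¹ = b * w * b⁻¹ * w⁻¹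
          have h2 : b * w * b⁻¹ = a * (a⁻¹ * b * w) * (a⁻¹ * b)⁻¹ * a⁻¹ := by group
          rw [h2, ← h1]
          group)) := by
    intro q q'
    refine Quotient.inductionOn₂' q q' (fun a b hab => ?_)
    have h1 : a * w * a⁻¹ * w⁻¹ = b * w * b⁻¹ * w⁻¹ := congrArg Subtype.val hab
    apply Quotient.sound'
    rw [QuotientGroup.leftRel_apply, Subgroup.mem_centralizer_iff]
    intro y hy
    rw [Set.mem_singleton_iff] at hy
    rw [hy]
    have h2 : a * w * a⁻¹ = b * w * b⁻¹ := mul_right_cancel h1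
    calc w * (a⁻¹ * b) = a⁻¹ * (a * w * a⁻¹) * b := by group
      _ = a⁻¹ * (b * w * b⁻¹) * b := by rw [h2]
      _ = a⁻¹ * b * w := by group
  have hidx : (Subgroup.centralizer ({w} : Set P)).index ≤ p := by
    have h1 := Nat.card_le_card_of_injective _ hinj
    rw [Nat.card_zpowers, hzo] at h1
    rw [Subgroup.index_eq_card]
    exact h1
  have hB3 : p ^ 3 ≤ Nat.card (Subgroup.centralizer ({w} : Set P)) := by
    have h1 := (Subgroup.centralizer ({w} : Set P)).card_mul_index
    have h2 : p ^ 4 ≤ Nat.card (Subgroup.centralizer ({w} : Set P)) * p := by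
      calc p ^ 4 ≤ Nat.card P := hcard
        _ = Nat.card (Subgroup.centralizer ({w} : Set P)) *
            (Subgroup.centralizer ({w} : Set P)).index := h1.symm
        _ ≤ Nat.card (Subgroup.centralizer ({w} : Set P)) * p := Nat.mul_le_mul_left _ hidx
    have h3 : p ^ 4 = p ^ 3 * p := by ring
    rw [h3] at h2
    exact Nat.le_of_mul_le_mul_right h2 hp'.pos
  by_cases hBab : ∀ a ∈ Subgroup.centralizer ({w} : Set P),
      ∀ b ∈ Subgroup.centralizer ({w} : Set P), a * b = b * a
  · exact ⟨_, hBab, hB3⟩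
  · push Not at hBab
    obtain ⟨g, hg, g', hg', hgg'⟩ := hBab
    have hzall : ∀ y : P, y * z = z * y := fun y => Subgroup.mem_center_iff.mp hzc y
    have hwg : w * g = g * w := Subgroup.mem_centralizer_iff.mp hg w rfl
    haveI hA3c : IsMulCommutative (Subgroup.closure ({z, w, g} : Set P)) := by
      apply Subgroup.isMulCommutative_closure
      intro a ha b hb
      simp only [Set.mem_insert_iff, Set.mem_singleton_iff] at ha hb
      rcases ha with rfl | rfl | rfl <;> rcases hb with rfl | rfl | rfl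
      · rfl
      · exact (hzall _).symm
      · exact (hzall _).symm
      · exact hzall _
      · rfl
      · exact hwg
      · exact hzall _
      · exact hwg.symm
      · rfl
    refine ⟨Subgroup.closure ({z, w, g} : Set P), ?_, ?_⟩
    · intro a ha b hb
      have h1 := mul_comm' (⟨a, ha⟩ : Subgroup.closure ({z, w, g} : Set P)) ⟨b, hb⟩
      exact congrArg Subtype.val h1
    · have hA2 : p ^ 2 ≤ Nat.card (Subgroup.closure ({z, w} : Set P)) := by
        apply pow_succ_le_card_of_lt p hP (Subgroup.zpowers z) _ ?_ ?_ 1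
          (by rw [Nat.card_zpowers, hzo, pow_one])
        · rw [Subgroup.zpowers_le]
          exact Subgroup.subset_closure (by simp)
        · intro h
          apply hwK
          rw [h]
          exact Subgroup.subset_closure (by simp)
      apply pow_succ_le_card_of_lt p hP (Subgroup.closure ({z, w} : Set P)) _ ?_ ?_ 2 hA2
      · apply Subgroup.closure_mono
        intro y hy
        simp only [Set.mem_insert_iff, Set.mem_singleton_iff] at hy ⊢
        rcases hy with rfl | rfl
        · exact Or.inl rfl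
        · exact Or.inr (Or.inl rfl)
      · intro h
        have hgA : g ∈ Subgroup.closure ({z, w} : Set P) := by
          rw [h]
          exact Subgroup.subset_closure (by simp)
        have hle : Subgroup.closure ({z, w} : Set P) ≤
            Subgroup.centralizer ((Subgroup.centralizer ({w} : Set P) : Subgroup P) : Set P) := by
          rw [Subgroup.closure_le]
          intro y hy
          simp only [Set.mem_insert_iff, Set.mem_singleton_iff] at hy
          rcases hy with rfl | rfl
          · intro b _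
            exact hzall b
          · intro b hb
            exact (Subgroup.mem_centralizer_iff.mp hb _ rfl).symm
        exact hgg' ((hle hgA) g' hg').symm

/-- Finite `p`-groups in which any two subgroups of the same order are isomorphic. -/
theorem pgroup_same_order_iso {P : Type u} [Group P] [Finite P] (p : ℕ) [hp : Fact p.Prime]
    (hP : IsPGroup p P)
    (hiso : ∀ H K : Subgroup P, Nat.card H = Nat.card K → Nonempty (H ≃* K)) :
    IsCyclic P ∨ ((∀ a b : P, a * b = b * a) ∧ ∀ a : P, a ^ p = 1) ∨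
      (p = 2 ∧ Nonempty (P ≃* QuaternionGroup 2)) ∨
      (p ≠ 2 ∧ (¬ ∀ a b : P, a * b = b * a) ∧ Nat.card P = p ^ 3 ∧ Monoid.exponent P = p) := by
  classical
  by_cases hU : Lib.Lead.UniqP p P
  · rcases Lib.Lead.uniqP_cyclic_or_quaternion p hP hU with hc | ⟨h2, n, ⟨e⟩⟩
    · exact Or.inl hc
    · match n, e with
      | 0, e =>
        left
        haveI := QuaternionGroup.quaternionGroup_one_isCyclic
        exact isCyclic_of_surjective e.symm e.symm.surjective
      | 1, e =>
        right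
        right
        left
        exact ⟨h2, ⟨e⟩⟩
      | (m + 2), e => exact (false_of_quaternion_iso (m + 2) (by omega) e hiso).elim
  · have hexp := exponent_of_not_uniqP p hP hiso hU
    by_cases hab : ∀ a b : P, a * b = b * a
    · exact Or.inr (Or.inl ⟨hab, hexp⟩)
    · right
      right
      right
      have hp2 : p ≠ 2 := by
        rintro rfl
        apply hab
        intro a b
        exact comm_of_sq_eq_one ⊤ (fun g _ => hexp g) a (Subgroup.mem_top a) b
          (Subgroup.mem_top b)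
      obtain ⟨N, ⟨a, ha, b, hb, hab'⟩, hNcard⟩ := exists_nonabelian_small p hP hexp hab
      have hcard3 : Nat.card P = p ^ 3 := by
        obtain ⟨n, hn⟩ := IsPGroup.iff_card.mp hP
        have hn3 : 3 ≤ n := by
          by_contra hlt
          apply hab
          have hn2 : n = 0 ∨ n = 1 ∨ n = 2 := by omega
          rcases hn2 with rfl | rfl | rfl
          · intro a b
            haveI : Subsingleton P :=
              (Nat.card_eq_one_iff_unique.mp (by rw [hn, pow_zero])).1
            exact Subsingleton.elim _ _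
          · haveI : IsCyclic P := isCyclic_of_prime_card (p := p) (by rw [hn, pow_one])
            intro a b
            exact mul_comm' a b
          · haveI : IsMulCommutative P := IsPGroup.isMulCommutative_of_card_eq_prime_sq hn
            intro a b
            exact mul_comm' a b
        have hn4 : n < 4 := by
          by_contra hge
          have h4 : p ^ 4 ≤ Nat.card P := by
            rw [hn]
            exact Nat.pow_le_pow_right hp.out.pos (by omega)
          obtain ⟨A, hAc, hA3⟩ := exists_abelian_large p hP h4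
          obtain ⟨i, hi⟩ := IsPGroup.iff_card.mp (hP.to_subgroup N)
          have hi3 : p ^ i ≤ Nat.card A := by
            rw [← hi]
            exact hNcard.trans hA3
          obtain ⟨A', hA'A, hA'card⟩ :=
            Sylow.exists_subgroup_le_card_pow_prime_of_le_card hp.out hP hi3
          obtain ⟨e'⟩ := hiso N A' (by rw [hi, hA'card])
          apply hab'
          have h1 : e' ⟨a, ha⟩ * e' ⟨b, hb⟩ = e' ⟨b, hb⟩ * e' ⟨a, ha⟩ :=
            Subtype.ext (hAc _ (hA'A (e' _).2) _ (hA'A (e' _).2))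
          rw [← map_mul, ← map_mul] at h1
          exact congrArg Subtype.val (e'.injective h1)
        have hn' : n = 3 := by omega
        rw [hn, hn']
      refine ⟨hp2, hab, hcard3, ?_⟩
      have h1 : Monoid.exponent P ∣ p := Monoid.exponent_dvd_of_forall_pow_eq_one hexp
      rcases (Nat.dvd_prime hp.out).mp h1 with h2 | h2
      · exfalso
        rw [Monoid.exp_eq_one_iff] at h2
        apply hab
        intro a b
        exact Subsingleton.elim _ _
      · exact h2

end Cfsg.Agent.Lib.Helper22
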